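import Cfsg.Agent.H14.BbD

/-!
Exceptional Baumann blocks: the centralizer of `W_E` normalizes the block.
-/

set_option autoImplicit false
set_option linter.unusedSectionVars false
set_option linter.unusedVariables false

namespace H14.Bb
open Cfsg Subgroup H10 H12 Matrix Module
open scoped commutatorElement MatrixGroups

universe u
variable {G : Type u} [Group G] {F : Type} [Field F]

/-- normal closure of `O₃(E)` -/
abbrev UU (E : Subgroup G) : Subgroup G := ncl (QQ E) ⊤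

theorem nU (E L : Subgroup G) : L ≤ NN(UU E) := le_top.trans (le_NN_ncl _ _)
theorem nU2 (E : Subgroup G) (g : G) : g ∈ NN(UU E) ⊓ NN(ZP G) := ⟨nU E ⊤ (mem_top g), nZP ⊤ (mem_top g)⟩

theorem conj_stab {x t : G} {V N : Subgroup G} (h1 : x ∈ NN(V)) (h2 : x ∈ NN(N)) (h : t ∈ stabMod V N) :
    x * t * x⁻¹ ∈ stabMod V N := ⟨mul_mem (mul_mem h2 h.1) (inv_mem h2), fun v hv => by
  have := conj_mem_of_mem_NN h2 (h.2 _ (conj_mem_of_mem_NN' h1 hv))
  rw [conjugate_commutatorElement] at this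
  convert this using 2; group⟩

theorem odd_ord [Finite G] {X : Subgroup G} (h : Odd (Nat.card X)) {x : G} (hx : x ∈ X) : (orderOf x).Coprime 2 :=
  (h.of_dvd_nat (X.orderOf_dvd_natCard hx)).coprime_two_right

theorem cop12 {n : ℕ} (h2 : n.Coprime 2) (h3 : n.Coprime 3) : n.Coprime 12 := (h2.pow_right 2).mul_right h3

variable [Finite G]

namespace Exc
variable [Fintype F] {T : Sylow 3 G} {E : Subgroup G} {ψ₁ ψ₂ : G → Fin 2 → F} {ρ₁ ρ₂ : E →* SL(2, F)} {t : E}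
  (h : Exc (T : Subgroup G) E ψ₁ ψ₂ ρ₁ ρ₂ t) (hG : centralizer (pCore 3 G : Set G) ≤ pCore 3 G) (hQ : QQ E ≤ pCore 3 G)
include h hG hQ

theorem UP : UU E ≤ pCore 3 G := ncl_le hQ (nP _)
theorem UZ : ⁅UU E, pCore 3 G⁆ ≤ ZP G := comm_ncl_le ((h.QPW hG hQ).trans (h.WfZP hG hQ)) (nZP _) (nP _) (nZP _)
theorem PC : pCore 3 G ≤ CC(WW E) := le_CC_comm.1 ((h.WZP hG).trans inf_le_right)
theorem EU {e u : G} (he : e ∈ E) (hu : u ∈ UU E) : ⁅e, u⁆ ∈ QQ E :=
  PEQ h.blk (commutator_comm E _ ▸ commutator_mem_commutator he (h.UP hG hQ hu))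

theorem triv' {x : G} (hx : x ∈ ⁅CC(WW E), E⁆ ⊔ pCore 3 G) (ho : (orderOf x).Coprime 3)
    (h2 : x ∈ stabMod (UU E) (ZP G)) : x = 1 := by
  obtain ⟨k, hk⟩ := pow_mem_of_sup isPGroup_pCore' ((h.PC hG hQ).trans (left_le_NN_comm _ _)) hx
  have := mem_of_pow_mem (ho.pow_right k) hk
  exact h.triv hG hQ this ho (h.UP hG hQ) (comm_CE ((PEQ h.blk).trans (le_ncl _ _)) (nU _ _) (nP _) (nU _ _) this) h2

section
variable {V : Type u} [AddCommGroup V] {χ : G → V} (m : Md (UU E) (ZP G) χ)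
include m

theorem three (v : V) : 3 • v = 0 := by
  obtain ⟨x, hx, rfl⟩ := m.surj v
  let I : Subgroup G :=
    { carrier := {x | x ∈ UU E ∧ 3 • χ x = 0}
      one_mem' := ⟨one_mem _, by rw [m.one, smul_zero]⟩
      mul_mem' := fun {a b} ha hb => ⟨mul_mem ha.1 hb.1, by rw [m.add _ ha.1 _ hb.1, smul_add, ha.2, hb.2, add_zero]⟩
      inv_mem' := fun {a} ha => ⟨inv_mem ha.1, by rw [m.inv ha.1, smul_neg, ha.2, neg_zero]⟩ }
  refine ((ncl_le_iff (X := I)).2 (fun g _ y hy' => ?_) hx).2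
  have hU := cj_le_ncl _ (mem_top g) hy'
  obtain ⟨y, hy, rfl⟩ := mem_cj'.1 hy'
  refine ⟨hU, ?_⟩
  rw [← m.pow hU, m.ker _ (pow_mem hU 3), conj_pow]
  refine conj_mem_of_mem_NN (nU2 E g).2 (h.WfZP hG hQ ?_)
  rw [← h.s2.ker _ (pow_mem hy 3), h.s2.pow hy, ← Nat.cast_smul_eq_nsmul F, Nat.cast_ofNat, h.h3, zero_smul]

theorem tQ {q : G} (hq : q ∈ QQ E) : act (UU E) χ t (χ q) = -χ q := by
  have := le_ncl _ ⊤ hq
  have c := conj_mem_of_mem_NN (nU2 E t).1 this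
  rw [m.act_apply (nU2 E t) this, eq_neg_iff_add_eq_zero, ← m.add _ c _ this, m.ker _ (mul_mem c this)]
  exact h.WfZP hG hQ (h.tW hq)

theorem quadU {e : G} (he : e ∈ E) (hq : (act (QQ E) ψ₂ e - 1) * (act (QQ E) ψ₂ e - 1) = 0) :
    (act (UU E) χ e - 1) * (act (UU E) χ e - 1) = 0 := by
  have c : act (UU E) χ t * act (UU E) χ e = act (UU E) χ e * act (UU E) χ t := by
    rw [← m.act_mul (nU2 E _) (nU2 E _), ← m.act_mul (nU2 E _) (nU2 E _),
      show t * e = ⁅(t : G), e⁆ * (e * t) by simp [commutatorElement_def], m.act_mul (nU2 E _) (nU2 E _),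
      (m.act_eq_one (nU2 E _)).2 fun x hx => h.UZ hG hQ (commutator_comm _ (UU E) ▸
        commutator_mem_commutator (hQ (h.tcomm ⟨e, he⟩)) hx), one_mul]
  have tt : act (UU E) χ t * act (UU E) χ t = 1 := by rw [← m.act_mul (nU2 E _) (nU2 E _), h.tt', m.act_one]
  have k1 : ∀ v, (act (UU E) χ e - 1) ((act (UU E) χ t + 1) v) = 0 := fun v => by
    obtain ⟨u, hu, e1⟩ := m.surj ((act (UU E) χ t + 1) v)
    have e2 := h.tQ hG hQ m (h.EU hG hQ he hu)
    rw [m.comm (nU2 E e) hu, e1] at e2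
    have e3 : act (UU E) χ t * ((act (UU E) χ e - 1) * (act (UU E) χ t + 1)) =
        (act (UU E) χ e - 1) * (act (UU E) χ t + 1) := by
      rw [← mul_assoc, mul_sub, c, mul_one, sub_mul, mul_assoc, mul_add _ _ 1, tt, mul_one, add_comm, sub_mul, one_mul]
    have e4 := (LinearMap.congr_fun e3 v).symm.trans e2
    have e5 := h.three hG hQ m ((act (UU E) χ e - 1) ((act (UU E) χ t + 1) v))
    simp only [End.mul_apply] at e4
    generalize (act (UU E) χ e - 1) ((act (UU E) χ t + 1) v) = w at e4 e5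
    linear_combination (norm := module) e5 - e4
  refine m.ext fun u hu => ?_
  have hq1 := h.EU hG hQ t.2 hu
  have n := h.N2 (h.EQ he)
  have hq2 := cm n.1 hq1
  have k2 : (act (UU E) χ e - 1) ((act (UU E) χ e - 1) ((act (UU E) χ t - 1) (χ u))) = 0 := by
    rw [← m.comm (nU2 E _) hu, ← m.comm (nU2 E _) (le_ncl _ ⊤ hq1), ← m.comm (nU2 E _) (le_ncl _ ⊤ hq2),
      m.ker _ (le_ncl _ ⊤ (cm n.1 hq2))]
    refine h.WfZP hG hQ ?_
    rw [← h.s2.ker _ (cm n.1 hq2), h.s2.comm n hq2, h.s2.comm n hq1, ← End.mul_apply, hq]; rfl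
  have k3 : χ u = (act (UU E) χ t - 1) (χ u) - (act (UU E) χ t + 1) (χ u) := by
    have := h.three hG hQ m (χ u)
    simp only [LinearMap.sub_apply, LinearMap.add_apply, End.one_apply]
    linear_combination (norm := module) this
  rw [End.mul_apply, k3, map_sub (act (UU E) χ e - 1) _ ((act (UU E) χ t + 1) (χ u)), k1, sub_zero, k2]; rfl

end

theorem odd_lemma (top : commutator SL(2, F) = ⊤) {X : Subgroup G} (h1 : X ≤ ⁅CC(WW E), E⁆ ⊔ pCore 3 G)
    (h2 : E ≤ NN(X)) (ho : ∀ x ∈ X, ∃ n, Odd n ∧ x ^ n = 1) : ⁅E, X⁆ ≤ pCoreOf 3 X := by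
  obtain ⟨V, _, χ, m⟩ := exists_md (nZP (UU E)) ((commutator_mono le_rfl (h.UP hG hQ)).trans (h.UZ hG hQ))
  haveI : Finite V := Finite.of_surjective χ fun v => (m.surj v).imp fun _ k => k.2
  let φ : G →* End ℤ V := ⟨⟨act (UU E) χ, m.act_one⟩, fun a b => m.act_mul (nU2 E a) (nU2 E b)⟩
  have key : ∀ e ∈ E, e ^ 3 ∈ QQ E → (φ e - 1) * (φ e - 1) = 0 → e ∈ stabMod X (pCoreOf 3 X) := fun e he h3 hq => by
    obtain ⟨k, hk⟩ := h.pQ h3
    have pe : IsPGroup 3 (zpowers e) := isPGroup_zpowers (k := k + 1) (by rw [pow_succ', pow_mul, hk])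
    have hp := fun {x} (hx : x ∈ X ⊔ zpowers e) => pow_mem_of_sup pe (zpowers_le.2 (h2 he)) hx
    have eH : e ∈ X ⊔ zpowers e := mem_sup_right (mem_zpowers e)
    have q : ∀ a, (φ a - 1) * (φ a - 1) = 0 → ∀ v, toAut φ a (toAut φ a v * v⁻¹) = toAut φ a v * v⁻¹ := fun a ha v => by
      have := LinearMap.congr_fun ha v.toAdd
      rw [End.mul_apply, LinearMap.sub_apply, LinearMap.zero_apply, sub_eq_zero, LinearMap.sub_apply,
        sub_eq_add_neg] at this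
      exact congrArg Multiplicative.ofAdd this
    have hm : e ∈ pCoreOf 3 (X ⊔ zpowers e) := H4.mem_pCoreOf_of_forall_conj eH fun g hg => by
      have hH : closure ({e, g * e * g⁻¹} : Set G) ≤ X ⊔ zpowers e := by
        rw [closure_le]; rintro _ (rfl | rfl)
        exacts [eH, mul_mem (mul_mem hg eH) (inv_mem hg)]
      have hq' : (φ (g * e * g⁻¹) - 1) * (φ (g * e * g⁻¹) - 1) = 0 := by
        have : φ (g * e * g⁻¹) - 1 = φ g * (φ e - 1) * φ g⁻¹ := by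
          rw [mul_sub, sub_mul, mul_one, ← map_mul, ← map_mul, ← map_mul, mul_inv_cancel, map_one]
        rw [this, mul_assoc, ← mul_assoc (φ g⁻¹), ← mul_assoc (φ g⁻¹), ← map_mul, inv_mul_cancel, map_one, one_mul,
          mul_assoc, ← mul_assoc (φ e - 1), hq]; simp
      rcases H4.quadPair_aut (p := 3) (by decide) (fun v => congrArg Multiplicative.ofAdd (h.three hG hQ m v.toAdd))
        (toAut φ) (q _ hq) (q _ hq') with k | ⟨L, π, -, hL, hs, -⟩
      · refine isPGroup_of_forall_coprime fun x hx hc => ?_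
        obtain ⟨j, hj⟩ := hp (hH hx)
        obtain ⟨i, hi⟩ := k x hx
        refine h.triv' hG hQ (h1 (mem_of_pow_mem (hc.pow_right j) hj)) hc (mem_of_pow_mem (hc.pow_right i)
          ⟨(nU2 E _).2, (m.act_eq_one (nU2 E _)).1 (LinearMap.ext fun v => ?_)⟩)
        exact congrArg Multiplicative.toAdd (DFunLike.congr_fun hi (Multiplicative.ofAdd v))
      · obtain ⟨x, hx⟩ := hs (-1)
        obtain ⟨j, hj⟩ := hp (hH (hL x.2))
        obtain ⟨n, hn, e1⟩ := ho _ hj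
        refine absurd ?_ (neg_ne (F := ZMod 3) rfl)
        rw [← ((Odd.pow (n := j) (by decide : Odd 3)).mul hn).neg_one_pow, ← hx, ← map_pow, ← π.map_one]
        congr 1
        exact Subtype.ext (by rw [SubmonoidClass.coe_pow, pow_mul, e1]; rfl)
    refine ⟨le_NN_pCoreOf' h2 he, fun x hx => pCoreOf_inf_le (L := X ⊔ zpowers e) le_sup_left ⟨?_, cm (h2 he) hx⟩⟩
    have := inv_mem (cm (le_NN_pCoreOf _ (mem_sup_left hx)) hm)
    rwa [commutatorElement_inv] at this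
  refine (le_stabMod.1 fun e he => ?_).2
  refine SL2.transvection_induction (fun g => ∀ e : E, ρ₂ e = g → e.1 ∈ stabMod X (pCoreOf 3 X)) (fun i j hij c e he => ?_)
    (fun A B hA hB e he => ?_) _ ⟨e, he⟩ rfl
  · refine key e e.2 ((h.k2 (e ^ 3)).1 ?_) (h.quadU hG hQ m e.2 (LinearMap.ext fun v => ?_))
    · rw [map_pow, he, pow_three, ← SpecialLinearGroup.transvection_add,
        ← SpecialLinearGroup.transvection_add, show c + (c + c) = 0 by linear_combination c * h.h3,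
        SpecialLinearGroup.transvection_coeff_zero]
    · have : ∀ v, (act (QQ E) ψ₂ e - 1) v = single i j c *ᵥ v := fun v => by
        rw [LinearMap.sub_apply, h.s2.act_eq, he, SpecialLinearGroup.transvection_coe, add_mulVec]; simp
      rw [End.mul_apply, this, this, mulVec_mulVec, single_mul_single_of_ne _ _ _ _ hij.symm]; simp
  · obtain ⟨a, ha⟩ := h.s2.exists_e (top ▸ mem_top A)
    rw [← mul_inv_cancel_left a e]
    exact mul_mem (hA a ha) (hB (a⁻¹ * e) (by rw [map_mul, map_inv, ha, he, inv_mul_cancel_left]))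

theorem inverted (f3 : ∀ c : F, c = 0 ∨ c = 1 ∨ c = -1) {x : G} (hx : x ∈ ⁅CC(WW E), E⁆)
    (hi : t * x * (t : G)⁻¹ = x⁻¹) (h2 : (orderOf x).Coprime 2) (ho : (orderOf x).Coprime 3) : x = 1 := by
  obtain ⟨V, _, χ, m⟩ := exists_md (nZP (UU E)) ((commutator_mono le_rfl (h.UP hG hQ)).trans (h.UZ hG hQ))
  have s1 : x ∈ stabMod (QQ E) (ZP G) := by
    refine mem_of_pow_mem (cop12 h2 ho) ⟨(nU2 E _).2, fun u hu => ?_⟩
    have hU := le_ncl _ ⊤ hu
    rw [← m.fix_iff (nU2 E _) hU, m.act_pow (nU2 E _)]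
    refine twelve (m.act_mul_inv (nU2 E x)) ?_
    have ha := conj_mem_of_mem_NN (nU2 E x).1 hU
    have hb := conj_mem_of_mem_NN (nU2 E x⁻¹).1 hU
    have hm := mul_mem ha hb
    have hq := h.EU hG hQ t.2 hm
    have e1 : act (UU E) χ t (χ (x * u * x⁻¹ * (x⁻¹ * u * x⁻¹⁻¹))) = -χ (x * u * x⁻¹ * (x⁻¹ * u * x⁻¹⁻¹)) := by
      have a1 : act (UU E) χ t * act (UU E) χ x = act (UU E) χ x⁻¹ * act (UU E) χ t := by
        rw [← m.act_mul (nU2 E _) (nU2 E _), ← m.act_mul (nU2 E _) (nU2 E _), ← hi]; simp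
      have a2 : act (UU E) χ t * act (UU E) χ x⁻¹ = act (UU E) χ x * act (UU E) χ t := by
        rw [← m.act_mul (nU2 E _) (nU2 E _), ← m.act_mul (nU2 E _) (nU2 E _), ← hi, h.tinv, ← mul_assoc, ← mul_assoc,
          h.tt', one_mul]
      rw [m.add _ ha _ hb, ← m.act_apply (nU2 E _) hU, ← m.act_apply (nU2 E _) hU, map_add, ← End.mul_apply, a1,
        ← End.mul_apply, a2, End.mul_apply, End.mul_apply, h.tQ hG hQ m hu, map_neg, map_neg]; abel
    have e2 : χ ⁅(t : G), x * u * x⁻¹ * (x⁻¹ * u * x⁻¹⁻¹)⁆ = χ (x * u * x⁻¹ * (x⁻¹ * u * x⁻¹⁻¹)) := by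
      have := h.three hG hQ m (χ (x * u * x⁻¹ * (x⁻¹ * u * x⁻¹⁻¹)))
      rw [m.comm (nU2 E _) hm, LinearMap.sub_apply, e1, End.one_apply]
      linear_combination (norm := module) -this
    have e3 : Commute u (x * u * x⁻¹ * (x⁻¹ * u * x⁻¹⁻¹)) := by
      have hz := h.UZ hG hQ (commutator_mem_commutator ha (hQ hu))
      have c1 := mem_CC.1 (h.cenZP hG hQ hx ho) _ hz
      have c2 := mem_CC.1 hz.2 _ (h.UP hG hQ ha)
      rw [← commutatorElement_eq_one_iff_commute, commutatorElement_mul_right_eq_mul_conj,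
        show ⁅u, x⁻¹ * u * x⁻¹⁻¹⁆ = x⁻¹ * ⁅x * u * x⁻¹, u⁆ * x by simp only [commutatorElement_def]; group,
        mul_assoc x⁻¹, c1, inv_mul_cancel_left, mul_assoc _ (x * u * x⁻¹), c2, ← commutatorElement_inv (x * u * x⁻¹) u, inv_mul_cancel_left,
        mul_inv_cancel]
    rw [m.act_apply (nU2 E _) hU, m.act_apply (nU2 E _) hU, ← m.add _ ha _ hb, ← e2]
    have hqU := le_ncl _ ⊤ hq
    have e4 := (m.eq_iff hqU hm).1 e2
    generalize ⁅(t : G), x * u * x⁻¹ * (x⁻¹ * u * x⁻¹⁻¹)⁆ = q at *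
    have e5 : Commute u q := by
      rw [← inv_mul_cancel_right q (x * u * x⁻¹ * (x⁻¹ * u * x⁻¹⁻¹))]
      exact Commute.mul_right (mem_CC.1 e4.2 _ (hQ hu)) e3
    obtain ⟨f, f1, f0, f2⟩ := h.det
    have W := fun {y} (hy : y ∈ Wf E) => h.WfZP hG hQ hy
    by_cases u0 : ψ₂ u = 0
    · have : χ u = 0 := (m.ker _ hU).2 (W ((h.s2.ker _ hu).1 u0))
      rw [e2, m.add _ ha _ hb, ← m.act_apply (nU2 E _) hU, ← m.act_apply (nU2 E _) hU, this]; simp
    obtain ⟨c, hc⟩ := par u0 (f1 (by rw [← f2 _ hu _ hq, f0, e5.commutator_eq]))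
    refine (f3 c).imp (fun k => ?_) (Or.imp (fun k => ?_) fun k => ?_)
    · exact (m.ker _ hqU).2 (W ((h.s2.ker _ hq).1 (by rw [hc, k, zero_smul])))
    · exact (m.eq_iff hqU hU).2 (W ((h.s2.eq_iff hq hu).1 (by rw [hc, k, one_smul])))
    · rw [← m.inv hU]
      exact (m.eq_iff hqU (inv_mem hU)).2 (W ((h.s2.eq_iff hq (inv_mem hu)).1 (by rw [hc, k, h.s2.inv hu, neg_one_smul])))
  have s2 := stab_sup s1
  have n : x ∈ NN(QQ E ⊔ ZP G) := mem_NN_of_conj_mem fun y hy => by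
    rw [← inv_mul_cancel_right (x * y * x⁻¹) y]
    exact mul_mem (mem_sup_right (s2.2 y hy)) hy
  have ts := h.t_stab hG hQ le_sup_left (mem_NN_sup (h.EQ t.2) (nZP ⊤ (mem_top _)))
  refine h.triv hG hQ hx ho (sup_le hQ inf_le_left) (mem_of_pow_mem h2 ?_) s2
  convert mul_mem (conj_stab (nP ⊤ (mem_top x)) n ts) (inv_mem ts) using 1
  rw [show x * t * x⁻¹ * (t : G)⁻¹ = x * (t * x * (t : G)⁻¹)⁻¹ by group, hi, inv_inv, pow_two]

theorem CQ : CC(WW E) ≤ NN(QQ E) := by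
  have nC : NN(E) ≤ NN(CC(WW E)) := le_NN_CC (le_NN_commutator (le_NN_ZO (le_NN_pCoreOf' le_rfl)) le_rfl)
  obtain ⟨o, e2, dec⟩ := H2.ZS3.zs h.ord_t (nC (le_NN_self _ t.2)) fun c => h.stepA hG hQ
  have RR : ⁅CC(WW E), zpowers (t : G)⁆ ≤ ⁅CC(WW E), E⁆ := commutator_mono le_rfl (zpowers_le.2 t.2)
  have nX : NN(E) ≤ NN(⁅CC(WW E), zpowers (t : G)⁆ ⊔ pCore 3 G) := le_NN_of_cj_le fun g hg => by
    rw [cj_sup, cj_commutator, cj_eq_of_mem_NN (nC hg), cj_eq_of_mem_NN (nP ⊤ (mem_top g)), cj_zpowers]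
    have ss : g * t * g⁻¹ * (g * t * g⁻¹) = 1 := by rw [conj_mul, h.tt']; simp
    have hs := conj_mem_of_mem_NN hg t.2
    have s1 : ρ₁ ⟨_, hs⟩ = -1 := (sl_inv (two_ne h.h3) (by
      rw [← map_mul, ← map_one ρ₁]; exact congrArg _ (Subtype.ext ss))).resolve_left fun k => by
        obtain ⟨j, hj⟩ := h.pQ ((h.k1 _).1 k)
        have := mem_bot.1 (mem_of_sq hj (mem_bot.2 ss))
        have k := h.ord_t
        rw [conj_eq_one_iff.1 this] at k; simp at k
    have hy := hQ ((h.k1 (t⁻¹ * ⟨_, hs⟩)).1 (by rw [map_mul, map_inv, s1, h.t1, inv_mul_cancel]))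
    refine sup_le (H2.ZS3.comm_le ss fun c hc => ?_) le_sup_right
    change (t : G)⁻¹ * (g * t * g⁻¹) ∈ _ at hy
    rw [show c * (g * t * g⁻¹) * c⁻¹ * (g * t * g⁻¹)⁻¹ = ⁅c, (t : G)⁆ * (t * ⁅c, (t : G)⁻¹ * (g * t * g⁻¹)⁆ * (t : G)⁻¹) by
      simp only [commutatorElement_def]; group]
    exact mul_mem (mem_sup_left (commutator_mem_commutator hc (mem_zpowers _)))
      (mem_sup_right (conj_mem_of_mem_NN (nP ⊤ (mem_top _)) (cm (nP ⊤ (mem_top _)) hy)))
  have p0 : IsPGroup 3 (⁅CC(WW E), zpowers (t : G)⁆ : Subgroup G) := by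
    rcases two_cases (F := F) with k | k
    · exact e2 ▸ H2.ZS3.oi h.tt' o (right_le_NN_comm _ _ (mem_zpowers _)) fun x hx hi ho =>
        h.inverted hG hQ k (RR hx) hi (odd_ord o hx) ho
    · refine (isPGroup_pCoreOf _).to_le (e2.ge.trans ((commutator_comm _ _).le.trans ((commutator_mono
        (zpowers_le.2 t.2) le_sup_left).trans (h.odd_lemma hG hQ k (sup_le_sup_right RR _)
          ((le_NN_self E).trans nX) fun x hx => ?_))))
      obtain ⟨j, hj⟩ := pow_mem_of_sup isPGroup_pCore' ((h.PC hG hQ).trans (left_le_NN_comm _ _)) hx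
      exact ⟨_, (Odd.pow (n := j) (by decide : Odd 3)).mul o, by
        rw [pow_mul]; exact congrArg Subtype.val (pow_card_eq_one' (x := (⟨_, hj⟩ : ↥⁅CC(WW E), zpowers (t : G)⁆)))⟩
  have k := block_le_NN (isSylowIn_top T) h.blk (isPGroup_sup_of_NN p0 isPGroup_pCore' (nP _)) (h.BE.trans nX)
    ((le_NN_self E).trans nX)
  intro c hc
  obtain ⟨r, hr, e⟩ := dec c hc
  exact (mul_mem_cancel_left (NN_le_NN_pCoreOf _ (k (mem_sup_left hr)))).1 (h.NQ_of hG hQ e)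

theorem main : CC(WW E) ≤ NN(E) := by
  have RC := h.RC hG hQ
  have RQ := RC.trans (h.CQ hG hQ)
  have RS := comm_CE (PEQ h.blk) h.EQ (nP _) (h.CQ hG hQ)
  have o := H2.ZS3.ev h.tt' (right_le_NN_comm _ _ t.2) fun r hr rr _ =>
    h.triv hG hQ hr (cop2 rr) hQ (RS hr) (h.stab2 hG hQ (RQ hr) (h.invol hG hQ hr rr (RQ hr)))
  refine fin_step h.blk (isPGroup_of_forall_coprime fun x hx ho => h.triv hG hQ hx ho hQ (RS hx)
    (mem_of_pow_mem (cop12 (odd_ord o hx) ho) (h.stab2 hG hQ (pow_mem (RQ hx) _) ?_)))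
  have n := h.N2 (RQ hx)
  have d := h.dt_R hG hQ hx ho (RQ hx)
  rw [h.s2.act_pow n]
  rcases two_cases (F := F) with k | k
  · refine LinearMap.ext fun v => ?_
    by_cases v0 : v = 0
    · simp [v0]
    have := d v (act (QQ E) ψ₂ x⁻¹ v)
    rw [← End.mul_apply _ _ v, h.s2.act_mul_inv n, End.one_apply] at this
    obtain ⟨c, hc⟩ := par v0 (w := act (QQ E) ψ₂ x v + act (QQ E) ψ₂ x⁻¹ v) (by
      simp only [dt, Pi.add_apply] at this ⊢; linear_combination -this)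
    refine twelve (h.s2.act_mul_inv n) ?_
    rcases k c with rfl | rfl | rfl <;> simp [hc]
  · have l := h.odd_lemma hG hQ k le_sup_left (right_le_NN_comm _ _) fun y hy =>
      ⟨_, o, congrArg Subtype.val (pow_card_eq_one' (x := (⟨_, hy⟩ : ↥⁅CC(WW E), E⁆)))⟩
    have l2 := h.pW (isPGroup_pCoreOf _) ((pCoreOf_le _).trans RQ) (le_NN_pCoreOf' (right_le_NN_comm _ _))
    obtain ⟨μ, hμ⟩ := h.scal (RQ hx) (fun e he => by
      have := l (commutator_comm _ E ▸ commutator_mem_commutator hx he)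
      exact (h.s2.act_eq_one (h.N2 (RQ (pCoreOf_le _ this)))).2 fun y hy =>
        l2 (commutator_comm _ (QQ E) ▸ commutator_mem_commutator this hy)) k
    have := d ![1, 0] ![0, 1]
    simp [hμ, dt] at this
    have e : act (QQ E) ψ₂ x ^ 2 = 1 := LinearMap.ext fun v => by
      rw [pow_two, End.mul_apply, hμ, hμ, smul_smul, this, one_smul]; rfl
    rw [show 12 = 2 * 6 from rfl, pow_mul, e, one_pow]

end Exc

theorem s2985 {p : ℕ} [Fact p.Prime] (hG : centralizer (pCore p G : Set G) ≤ pCore p G) (T : Sylow p G) {E : Subgroup G}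
    (hE : IsBaumannBlock p (T : Subgroup G) E) : CC(⁅ZO p (pCoreOf p E), E⁆) ≤ NN(E) := by
  by_cases k : ⁅pCore p G, E⁆ ≤ ZO p (pCoreOf p E)
  · exact easy hG hE k
  obtain ⟨rfl, F, _, _, ψ₁, ψ₂, ρ₁, ρ₂, t, h⟩ := exc_of hE fun e => k (e ▸ PEQ hE)
  exact h.main hG (h.QP_of hG k)

end H14.Bb
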