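/-
Averaging of cocycles; uniqueness and rigidity of models.
-/
import Cfsg.Agent.H14.Grp
import Cfsg.Agent.H14.Wreath

set_option autoImplicit false
set_option linter.unusedVariables false
set_option linter.unusedSectionVars false
set_option linter.style.haveILetI false
open Cfsg Cfsg.FusionSystem Equiv H13

namespace H14.Fus

theorem prod_shift {G Z : Type*} [Group G] [CommGroup Z] (U : Subgroup G) [Fintype (G ⧸ U)] (f : G → Z)
    (hU : ∀ g, ∀ u ∈ U, f (g * u) = f g) (h : G) : ∏ q : G ⧸ U, f (h * q.out) = ∏ q : G ⧸ U, f q.out := by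
  rw [← Equiv.prod_comp (MulAction.toPerm h) fun q : G ⧸ U => f q.out]
  refine Finset.prod_congr rfl fun q _ => ?_
  obtain ⟨u, hu⟩ := QuotientGroup.mk_out_eq_mul U (h * q.out)
  rw [show MulAction.toPerm h q = ((h * q.out : G) : G ⧸ U) by
    conv_lhs => rw [← q.out_eq']
    rfl, hu, hU _ u u.2]

/-- a `1`-cocycle vanishing on a subgroup of invertible index is a coboundary -/
theorem avg_one {G Z : Type*} [Group G] [Finite G] [CommGroup Z] (U : Subgroup G) (act : G → Z →* Z)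
    (hpow : Function.Bijective fun z : Z => z ^ U.index) (f : G → Z) (hf : ∀ g h, f (g * h) = f g * act g (f h))
    (hU : ∀ g, ∀ u ∈ U, f (g * u) = f g) : ∃ b, ∀ g, f g * act g b = b := by
  letI := Fintype.ofFinite (G ⧸ U)
  obtain ⟨b, hb⟩ := hpow.2 (∏ q : G ⧸ U, f q.out)
  refine ⟨b, fun g => hpow.1 ?_⟩
  simp only [] at hb ⊢
  have := prod_shift U f hU g
  simp only [hf, Finset.prod_mul_distrib, Finset.prod_const, Finset.card_univ] at this
  rw [mul_pow, ← map_pow, hb, map_prod, Subgroup.index, Nat.card_eq_fintype_card, this]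

/-- a `2`-cocycle constant on cosets of a subgroup of invertible index is a coboundary -/
theorem avg_two {G Z : Type*} [Group G] [Finite G] [CommGroup Z] (U : Subgroup G) (act : G → Z →* Z)
    (hpow : Function.Bijective fun z : Z => z ^ U.index) (c : G → G → Z)
    (hc : ∀ g h k, c g h * c (g * h) k = act g (c h k) * c g (h * k))
    (hU : ∀ g h, ∀ u ∈ U, c g (h * u) = c g h) :
    ∃ β : G → Z, (∀ g h, c g h * β (g * h) = act g (β h) * β g) ∧ ∀ g, (∀ h, c g h = 1) → β g = 1 := by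
  letI := Fintype.ofFinite (G ⧸ U)
  choose β hβ using fun g => hpow.2 (∏ q : G ⧸ U, c g q.out)
  simp only [] at hβ
  refine ⟨β, fun g h => hpow.1 ?_, fun g hg => hpow.1 ?_⟩
  · simp only []
    rw [mul_pow, mul_pow, ← map_pow, hβ, hβ, hβ, ← prod_shift U (c g) (hU g) h, map_prod, ← Finset.prod_mul_distrib]
    simp only [← hc, Finset.prod_mul_distrib, Finset.prod_const, Finset.card_univ, Subgroup.index,
      Nat.card_eq_fintype_card]
  · simp only [hβ, hg, Finset.prod_const_one, one_pow]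

variable {p : ℕ} [Fact p.Prime]

/-- a section multiplicative modulo an abelian normal `p`-subgroup and equivariant for a subgroup of index prime
to `p` can be corrected to a homomorphism -/
theorem exists_hom_of_section {G H : Type*} [Group G] [Finite G] [Group H] (U : Subgroup G) (Z : Subgroup H)
    [Finite Z] [hn : Z.Normal] (hZ : ∀ a ∈ Z, ∀ b ∈ Z, a * b = b * a) (hp : IsPGroup p Z) (hU : ¬ p ∣ U.index)
    (τ : G → H) (h1 : ∀ g h, τ g * τ h * (τ (g * h))⁻¹ ∈ Z) (h2 : ∀ g, ∀ u ∈ U, τ (g * u) = τ g * τ u)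
    (h3 : ∀ u ∈ U, ∀ g, τ (u * g) = τ u * τ g) :
    ∃ σ : G →* H, (∀ u ∈ U, σ u = τ u) ∧ ∀ g, ∃ z ∈ Z, σ g = z * τ g := by
  letI : CommGroup Z := { (inferInstance : Group Z) with mul_comm := fun a b => Subtype.ext (hZ _ a.2 _ b.2) }
  let act : G → Z →* Z := fun g => MonoidHom.mk' (fun z => ⟨τ g * z * (τ g)⁻¹, hn.conj_mem _ z.2 _⟩)
    fun a b => Subtype.ext (by simp only [Subgroup.coe_mul]; group)
  obtain ⟨β, hβ, hβ1⟩ := avg_two U act (pow_bijective_of_not_dvd hp hU) (fun g h => ⟨_, h1 g h⟩)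
    (fun g h k => Subtype.ext (by simp only [act, Subgroup.coe_mul, MonoidHom.mk'_apply, mul_assoc g]; group))
    (fun g h u hu => Subtype.ext (by simp only [← mul_assoc g, h2 _ u hu]; group))
  refine ⟨MonoidHom.mk' (fun g => (β g : H)⁻¹ * τ g) fun g h => ?_, fun u hu => ?_,
    fun g => ⟨_, Z.inv_mem (β g).2, rfl⟩⟩
  · have e := congrArg Subtype.val ((mul_comm _ _).trans (hβ g h))
    simp only [act, Subgroup.coe_mul, MonoidHom.mk'_apply] at e
    have : (β (g * h) : H) = τ g * β h * (τ g)⁻¹ * β g * (τ g * τ h * (τ (g * h))⁻¹)⁻¹ := by rw [← e]; group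
    have e2 := hZ _ (Z.inv_mem (Z.mul_mem (hn.conj_mem _ (β h).2 (τ g)) (β g).2)) _ (h1 g h)
    rw [this, mul_inv_rev, inv_inv, ← e2]
    group
  · simp [hβ1 u fun h => Subtype.ext (by simp [h3 u hu])]

/-- an automorphism of a group of characteristic `p` fixing a Sylow subgroup is conjugation by a central element of
the Sylow subgroup -/
theorem aut_eq_conj {G : Type*} [Group G] [Finite G] {T : Subgroup G} (hT : SylIn p T ⊤) (hG : ChP p (⊤ : Subgroup G))
    (ψ : G →* G) (hψ : ∀ x ∈ T, ψ x = x) : ∃ z ∈ centralizerIn T T, ∀ g, ψ g = z * g * z⁻¹ := by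
  set Q := Op p (⊤ : Subgroup G)
  have hQ : Q ≤ T := hT.op_le
  have hN : ∀ g : G, ∀ x ∈ Q, g * x * g⁻¹ ∈ Q := fun g x hx =>
    (Subgroup.mem_normalizer_iff.1 (le_normalizer_op p ⊤ (Subgroup.mem_top g)) x).1 hx
  have hZ : centralizerIn ⊤ Q ≤ Q := hG
  letI : CommGroup (centralizerIn ⊤ Q) :=
    { (inferInstance : Group (centralizerIn ⊤ Q)) with mul_comm := fun a b => Subtype.ext (b.2.2 a (hZ a.2)) }
  have hc : ∀ (g : G) (z : G), z ∈ centralizerIn ⊤ Q → g * z * g⁻¹ ∈ centralizerIn ⊤ Q := fun g z hz =>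
    ⟨trivial, fun x hx => by
      have := hz.2 _ (hN g⁻¹ x hx)
      calc x * (g * z * g⁻¹) = g * (g⁻¹ * x * g⁻¹⁻¹ * z) * g⁻¹ := by group
        _ = _ := by rw [this]; group⟩
  let act : G → centralizerIn ⊤ Q →* centralizerIn ⊤ Q := fun g => MonoidHom.mk' (fun z => ⟨_, hc g z z.2⟩)
    fun a b => Subtype.ext (by simp only [Subgroup.coe_mul]; group)
  have hf : ∀ g, ψ g * g⁻¹ ∈ centralizerIn ⊤ Q := fun g => ⟨trivial, fun x hx => by
    have h1 := hψ _ (hQ (hN g⁻¹ x hx))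
    rw [map_mul, map_mul, hψ x (hQ hx), inv_inv, map_inv] at h1
    calc x * (ψ g * g⁻¹) = ψ g * ((ψ g)⁻¹ * x * ψ g) * g⁻¹ := by group
      _ = _ := by rw [h1]; group⟩
  obtain ⟨b, hb⟩ := avg_one T act (pow_bijective_of_not_dvd (isPGroup_of_le hT.isPGroup (hZ.trans hQ))
    (by simpa using hT.not_dvd_relIndex)) (fun g => ⟨_, hf g⟩)
    (fun g h => Subtype.ext (by simp only [act, Subgroup.coe_mul, MonoidHom.mk'_apply, map_mul]; group))
    (fun g u hu => Subtype.ext (by simp only [map_mul, hψ u hu]; group))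
  have e : ∀ g, ψ g = b * g * (b : G)⁻¹ := fun g => by
    have := congrArg Subtype.val (hb g)
    simp only [act, Subgroup.coe_mul, MonoidHom.mk'_apply] at this
    calc ψ g = ψ g * g⁻¹ * (g * b * g⁻¹) * g * (b : G)⁻¹ := by group
      _ = _ := by rw [this]
  refine ⟨b, ⟨hQ (hZ b.2), fun x hx => ?_⟩, e⟩
  have := (e x).symm.trans (hψ x hx)
  exact (mul_inv_eq_iff_eq_mul.1 this).symm

/-- an isomorphism of the Sylow fusion systems of groups of characteristic `p` extends to an injective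
homomorphism -/
theorem exists_hom_of_fIso {G H : Type*} [Group G] [Finite G] [Group H] [Finite H] {T : Subgroup G} {R : Subgroup H}
    (hT : SylIn p T ⊤) (hG : ChP p (⊤ : Subgroup G)) (hR : SylIn p R ⊤) (hH : ChP p (⊤ : Subgroup H)) {η : G → H}
    (h : FIso (fusionSystemOfSubgroup ⊤ T hT.le) (fusionSystemOfSubgroup ⊤ R hR.le) η) :
    ∃ σ : G →* H, Function.Injective σ ∧ ∀ x ∈ T, σ x = η x := by
  have hη := h.hom
  have hQ : Op p (⊤ : Subgroup G) ≤ T := hT.op_le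
  have hc := h.img_core
  rw [core_ofSubgroup hT hG, core_ofSubgroup hR hH] at hc
  have hN : ∀ g : G, ∀ x ∈ Op p (⊤ : Subgroup G), g * x * g⁻¹ ∈ Op p (⊤ : Subgroup G) := fun g x hx =>
    (Subgroup.mem_normalizer_iff.1 (le_normalizer_op p ⊤ (Subgroup.mem_top g)) x).1 hx
  letI : MulAction (T × T) G :=
    { smul := fun y g => y.1 * g * (y.2 : G)⁻¹
      one_smul := fun g => by show ((1 : T) : G) * g * ((1 : T) : G)⁻¹ = g; simp
      mul_smul := fun a b g => by
        show ((a.1 * b.1 : T) : G) * g * ((a.2 * b.2 : T) : G)⁻¹ = a.1 * (b.1 * g * (b.2 : G)⁻¹) * (a.2 : G)⁻¹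
        simp only [Subgroup.coe_mul]; group }
  have hs : ∀ (y : T × T) (g : G), y • g = y.1 * g * (y.2 : G)⁻¹ := fun _ _ => rfl
  obtain ⟨τ, h1, h2⟩ := exists_equivariant_section (P := T × T) (X := G) (V := H)
    (fun y _ v => η y.1 * v * (η y.2)⁻¹)
    (fun g v => (∀ t ∈ T, g * t * g⁻¹ ∈ T → η (g * t * g⁻¹) = v * η t * v⁻¹) ∧ (g ∈ T → v = η g))
    (fun y y' x v _ => by
      simp only [Prod.fst_mul, Prod.snd_mul, Subgroup.coe_mul, hη.map_mul y.1.2 y'.1.2, hη.map_mul y.2.2 y'.2.2]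
      group)
    (fun y x v ⟨hv, hv'⟩ => by
      rw [hs]
      refine ⟨fun t ht ht' => ?_, fun hx => ?_⟩
      · have a1 : (y.2 : G)⁻¹ * t * y.2 ∈ T := T.mul_mem (T.mul_mem (T.inv_mem y.2.2) ht) y.2.2
        have a2 : x * ((y.2 : G)⁻¹ * t * y.2) * x⁻¹ ∈ T := by
          have := T.mul_mem (T.mul_mem (T.inv_mem y.1.2) ht') y.1.2
          convert this using 1; group
        have a3 := hv _ a1 a2
        rw [show y.1 * x * (y.2 : G)⁻¹ * t * (y.1 * x * (y.2 : G)⁻¹)⁻¹ =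
          y.1 * (x * ((y.2 : G)⁻¹ * t * y.2) * x⁻¹) * (y.1 : G)⁻¹ by group, hη.map_conj y.1.2 a2, a3,
          hη.map_mul (T.mul_mem (T.inv_mem y.2.2) ht) y.2.2, hη.map_mul (T.inv_mem y.2.2) ht, hη.map_inv y.2.2]
        group
      · have a1 : x ∈ T := by
          have := T.mul_mem (T.mul_mem (T.inv_mem y.1.2) hx) y.2.2
          convert this using 1; group
        rw [hv' a1, hη.map_mul (T.mul_mem y.1.2 a1) (T.inv_mem y.2.2), hη.map_mul y.1.2 a1, hη.map_inv y.2.2])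
    (fun g => by
      have key : ∃ v, (∀ t ∈ T, g * t * g⁻¹ ∈ T → η (g * t * g⁻¹) = v * η t * v⁻¹) ∧ (g ∈ T → v = η g) := by
        by_cases hg : g ∈ T
        · exact ⟨η g, fun t ht _ => hη.map_conj hg ht, fun _ => rfl⟩
        · have hm : Mor (fusionSystemOfSubgroup ⊤ T hT.le) (T ⊓ T.comap (MulAut.conj g).toMonoidHom) (cj g) :=
            mor_ofSubgroup_iff.2 ⟨inf_le_left, fun x hx => hx.2, g, trivial, fun _ _ => rfl⟩
          obtain ⟨f', hf', e⟩ := h.fac.down _ _ hm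
          obtain ⟨-, -, v, -, e'⟩ := mor_ofSubgroup_iff.1 hf'
          exact ⟨v, fun t ht ht' => (e t ⟨ht, ht'⟩).symm.trans (e' _ (mem_img_of_mem η ⟨ht, ht'⟩)),
            fun h => absurd h hg⟩
      obtain ⟨v, hv, hv'⟩ := key
      refine ⟨v, ⟨hv, hv'⟩, fun y hy => ?_⟩
      rw [hs] at hy
      have e : g * y.2 * g⁻¹ = y.1 := by
        calc g * y.2 * g⁻¹ = (y.1 * g * (y.2 : G)⁻¹) * y.2 * g⁻¹ := by rw [hy]
          _ = _ := by group
      have := hv _ y.2.2 (e ▸ y.1.2)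
      rw [e] at this
      rw [this]; group)
  have hτ : ∀ x ∈ T, τ x = η x := fun x hx => (h1 x).2 hx
  have hq : ∀ g, ∀ x ∈ Op p (⊤ : Subgroup G), η (g * x * g⁻¹) = τ g * η x * (τ g)⁻¹ := fun g x hx =>
    (h1 g).1 x (hQ hx) (hQ (hN g x hx))
  have hZ : centralizerIn ⊤ (Op p (⊤ : Subgroup H)) ≤ Op p ⊤ := hH
  haveI : (Op p (⊤ : Subgroup H)).Normal := Subgroup.normalizer_eq_top_iff.1 (top_le_iff.1 (le_normalizer_op p ⊤))
  haveI : (centralizerIn ⊤ (Op p (⊤ : Subgroup H))).Normal := by rw [centralizerIn_top]; infer_instance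
  obtain ⟨σ, hσ, hσ'⟩ := exists_hom_of_section T (centralizerIn ⊤ (Op p (⊤ : Subgroup H)))
    (fun a ha b hb => hb.2 a (hZ ha)) (isPGroup_of_le hR.isPGroup (hZ.trans hR.op_le))
    (by simpa using hT.not_dvd_relIndex) τ
    (fun g k => ⟨trivial, fun y hy => by
      rw [← hc] at hy
      obtain ⟨x, hx, rfl⟩ := (hη.mono hQ).mem_img.1 hy
      have a1 := hN (g * k)⁻¹ x hx
      have a2 := hq (g * k) _ a1
      have a3 := hq g _ (hN k _ a1)
      rw [hq k _ a1, show g * (k * ((g * k)⁻¹ * x * (g * k)⁻¹⁻¹) * k⁻¹) * g⁻¹ = x by group] at a3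
      rw [show g * k * ((g * k)⁻¹ * x * (g * k)⁻¹⁻¹) * (g * k)⁻¹ = x by group] at a2
      conv_lhs => rw [a3]
      conv_rhs => rw [a2]
      group⟩)
    (fun g u hu => by
      have := h2 (1, ⟨u⁻¹, T.inv_mem hu⟩) g
      simp only [hs, Subgroup.coe_one, hη.map_one, hη.map_inv hu, one_mul, inv_inv] at this
      rw [← this, hτ u hu])
    (fun u hu g => by
      have := h2 (⟨u, hu⟩, 1) g
      simp only [hs, Subgroup.coe_one, hη.map_one, mul_one, inv_one] at this
      rw [← this, hτ u hu])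
  refine ⟨σ, (injective_iff_map_eq_one σ).2 fun g hg => ?_, fun x hx => (hσ x hx).trans (hτ x hx)⟩
  obtain ⟨z, hz, e⟩ := hσ' g
  have h3 : g ∈ Op p (⊤ : Subgroup G) := hG ⟨trivial, fun x hx => by
    have a1 := hq g x hx
    have a2 : τ g = z⁻¹ := by rw [eq_inv_iff_mul_eq_one, ← mul_eq_one_comm, ← e, hg]
    have a3 := hz.2 _ (hc ▸ mem_img_of_mem η hx : η x ∈ Op p (⊤ : Subgroup H))
    rw [a2, inv_inv, mul_assoc z⁻¹, a3, inv_mul_cancel_left] at a1
    exact (mul_inv_eq_iff_eq_mul.1 (h.inj (hQ (hN g x hx)) (hQ hx) a1)).symm⟩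
  refine h.inj (hQ h3) T.one_mem ?_
  rw [← hτ g (hQ h3), ← hσ g (hQ h3), hg, hη.map_one]

/-- uniqueness of models -/
theorem exists_equiv_of_fIso {G H : Type*} [Group G] [Finite G] [Group H] [Finite H] {T : Subgroup G} {R : Subgroup H}
    (hT : SylIn p T ⊤) (hG : ChP p (⊤ : Subgroup G)) (hR : SylIn p R ⊤) (hH : ChP p (⊤ : Subgroup H)) {η : G → H}
    (h : FIso (fusionSystemOfSubgroup ⊤ T hT.le) (fusionSystemOfSubgroup ⊤ R hR.le) η) :
    ∃ σ : G ≃* H, ∀ x ∈ T, σ x = η x := by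
  obtain ⟨σ, h1, h2⟩ := exists_hom_of_fIso hT hG hR hH h
  obtain ⟨η', h', -⟩ := h.exists_inv
  obtain ⟨σ', h1', -⟩ := exists_hom_of_fIso hR hH hT hG h'
  exact ⟨MulEquiv.ofBijective σ ((Nat.bijective_iff_injective_and_card σ).2 ⟨h1,
    le_antisymm (Nat.card_le_card_of_injective _ h1) (Nat.card_le_card_of_injective _ h1')⟩), h2⟩

end H14.Fus
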