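import Cfsg.Agent.S2984
import Cfsg.Agent.H4.Stable
import Cfsg.Agent.H4.Replace

/-!
Additive models of abelian sections, and linear algebra in dimension two.
-/

set_option autoImplicit false
set_option linter.unusedSectionVars false
set_option linter.unusedVariables false

namespace H14.Bb
open Cfsg Subgroup H10 H12 Matrix Module
open scoped commutatorElement MatrixGroups

universe u
variable {G : Type u} [Group G]

/-- additive model of the section `U / U₀` -/
structure Md {V : Type*} [AddCommGroup V] (U U₀ : Subgroup G) (ψ : G → V) : Prop where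
  add : ∀ x ∈ U, ∀ y ∈ U, ψ (x * y) = ψ x + ψ y
  ker : ∀ x ∈ U, ψ x = 0 ↔ x ∈ U₀
  surj : ∀ v, ∃ x ∈ U, ψ x = v

open Classical in
/-- conjugation action on a model -/
noncomputable def act {V : Type*} [AddCommGroup V] (U : Subgroup G) (ψ : G → V) (g : G) : End ℤ V :=
  if h : ∃ α : End ℤ V, ∀ x ∈ U, α (ψ x) = ψ (g * x * g⁻¹) then h.choose else 0

namespace Md
variable {V : Type*} [AddCommGroup V] {U U₀ : Subgroup G} {ψ : G → V} (h : Md U U₀ ψ)
include h

theorem one : ψ 1 = 0 := (h.ker 1 (one_mem _)).2 (one_mem _)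

theorem inv {x : G} (hx : x ∈ U) : ψ x⁻¹ = -ψ x := by
  rw [eq_neg_iff_add_eq_zero, ← h.add _ (inv_mem hx) _ hx, inv_mul_cancel, h.one]

theorem sub {x y : G} (hx : x ∈ U) (hy : y ∈ U) : ψ (x * y⁻¹) = ψ x - ψ y := by
  rw [h.add _ hx _ (inv_mem hy), h.inv hy, sub_eq_add_neg]

theorem eq_iff {x y : G} (hx : x ∈ U) (hy : y ∈ U) : ψ x = ψ y ↔ x * y⁻¹ ∈ U₀ := by
  rw [← h.ker _ (mul_mem hx (inv_mem hy)), h.sub hx hy, sub_eq_zero]

theorem pow {x : G} (hx : x ∈ U) (n : ℕ) : ψ (x ^ n) = n • ψ x := by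
  induction n with
  | zero => simp [h.one]
  | succ n ih => rw [pow_succ, h.add _ (pow_mem hx n) _ hx, ih, succ_nsmul]

theorem ext {f g : End ℤ V} (e : ∀ x ∈ U, f (ψ x) = g (ψ x)) : f = g :=
  LinearMap.ext fun v => by obtain ⟨x, hx, rfl⟩ := h.surj v; exact e x hx

theorem act_apply {g x : G} (hg : g ∈ NN(U) ⊓ NN(U₀)) (hx : x ∈ U) : act U ψ g (ψ x) = ψ (g * x * g⁻¹) := by
  have c := fun {y} (hy : y ∈ U) => conj_mem_of_mem_NN hg.1 hy
  have : ∃ α : End ℤ V, ∀ x ∈ U, α (ψ x) = ψ (g * x * g⁻¹) := by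
    choose s hs e using h.surj
    have k : ∀ x ∈ U, ψ (g * s (ψ x) * g⁻¹) = ψ (g * x * g⁻¹) := fun x hx => by
      rw [h.eq_iff (c (hs _)) (c hx)]
      convert conj_mem_of_mem_NN hg.2 ((h.eq_iff (hs _) hx).1 (e (ψ x))) using 1
      group
    refine ⟨(AddMonoidHom.mk' (fun v => ψ (g * s v * g⁻¹)) fun a b => ?_).toIntLinearMap, k⟩
    rw [← h.add _ (c (hs a)) _ (c (hs b)), ← e a, ← e b, ← h.add _ (hs a) _ (hs b), k _ (mul_mem (hs a) (hs b)), e, e]
    congr 1; group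
  rw [act, dif_pos this]
  exact this.choose_spec x hx

theorem act_mul {g k : G} (hg : g ∈ NN(U) ⊓ NN(U₀)) (hk : k ∈ NN(U) ⊓ NN(U₀)) :
    act U ψ (g * k) = act U ψ g * act U ψ k := h.ext fun x hx => by
  rw [End.mul_apply, h.act_apply hk hx, h.act_apply hg (conj_mem_of_mem_NN hk.1 hx), h.act_apply (mul_mem hg hk) hx]
  congr 1; group

theorem act_one : act U ψ 1 = 1 := h.ext fun x hx => by rw [h.act_apply (one_mem _) hx]; simp

theorem act_pow {g : G} (hg : g ∈ NN(U) ⊓ NN(U₀)) (n : ℕ) : act U ψ (g ^ n) = act U ψ g ^ n := by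
  induction n with
  | zero => simp [h.act_one]
  | succ n ih => rw [pow_succ, h.act_mul (pow_mem hg n) hg, ih, pow_succ]

theorem act_mul_inv {g : G} (hg : g ∈ NN(U) ⊓ NN(U₀)) : act U ψ g * act U ψ g⁻¹ = 1 := by
  rw [← h.act_mul hg (inv_mem hg), mul_inv_cancel, h.act_one]

theorem act_inv_mul {g : G} (hg : g ∈ NN(U) ⊓ NN(U₀)) : act U ψ g⁻¹ * act U ψ g = 1 := by
  rw [← h.act_mul (inv_mem hg) hg, inv_mul_cancel, h.act_one]

theorem comm {g x : G} (hg : g ∈ NN(U) ⊓ NN(U₀)) (hx : x ∈ U) : ψ ⁅g, x⁆ = (act U ψ g - 1) (ψ x) := by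
  rw [commutatorElement_def, h.sub (conj_mem_of_mem_NN hg.1 hx) hx, ← h.act_apply hg hx]; rfl

theorem fix_iff {g x : G} (hg : g ∈ NN(U) ⊓ NN(U₀)) (hx : x ∈ U) : act U ψ g (ψ x) = ψ x ↔ ⁅g, x⁆ ∈ U₀ := by
  rw [h.act_apply hg hx, h.eq_iff (conj_mem_of_mem_NN hg.1 hx) hx, commutatorElement_def]

theorem act_eq_one {g : G} (hg : g ∈ NN(U) ⊓ NN(U₀)) : act U ψ g = 1 ↔ ∀ x ∈ U, ⁅g, x⁆ ∈ U₀ :=
  ⟨fun e x hx => (h.fix_iff hg hx).1 (by rw [e]; rfl), fun e => h.ext fun x hx => (h.fix_iff hg hx).2 (e x hx)⟩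

end Md

theorem exists_md {U U₀ : Subgroup G} (h1 : U ≤ NN(U₀)) (h2 : ⁅U, U⁆ ≤ U₀) :
    ∃ (V : Type u) (_ : AddCommGroup V) (ψ : G → V), Md U U₀ ψ := by
  classical
  haveI := normal_subgroupOf h1
  letI : CommGroup (U ⧸ U₀.subgroupOf U) := { QuotientGroup.Quotient.group _ with
    mul_comm := fun a b => by
      obtain ⟨a, rfl⟩ := QuotientGroup.mk_surjective a
      obtain ⟨b, rfl⟩ := QuotientGroup.mk_surjective b
      rw [← QuotientGroup.mk_mul, ← QuotientGroup.mk_mul, QuotientGroup.eq, mem_subgroupOf]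
      convert h2 (commutator_mem_commutator (inv_mem b.2) (inv_mem a.2)) using 1
      simp [commutatorElement_def, mul_assoc] }
  refine ⟨Additive (U ⧸ U₀.subgroupOf U), inferInstance,
    fun x => if hx : x ∈ U then Additive.ofMul (QuotientGroup.mk ⟨x, hx⟩) else 0, fun x hx y hy => ?_,
    fun x hx => ?_, fun v => ?_⟩
  · simp only [dif_pos hx, dif_pos hy, dif_pos (mul_mem hx hy)]; rfl
  · simp only [dif_pos hx, ofMul_eq_zero, QuotientGroup.eq_one_iff, mem_subgroupOf]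
  · obtain ⟨a, e⟩ := QuotientGroup.mk_surjective v.toMul
    exact ⟨a, a.2, by simp only [dif_pos a.2]; exact congrArg Additive.ofMul e⟩

theorem twelve {V : Type*} [AddCommGroup V] {α β : End ℤ V} (h : α * β = 1) {v : V}
    (e : α v + β v = 0 ∨ α v + β v = v ∨ α v + β v = -v) : (α ^ 12) v = v := by
  have h1 : α (β v) = v := by rw [← End.mul_apply, h]; rfl
  have k : ∀ n, (α ^ n) v = v → ∀ m, (α ^ (n * m)) v = v := fun n hn m => by
    induction m with
    | zero => rfl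
    | succ m ih => rw [Nat.mul_succ, pow_add, End.mul_apply, hn, ih]
  rcases e with e | e | e <;> have e2 := congrArg α e <;> rw [map_add, h1] at e2
  · have e3 : α (α v) = -v := by rw [eq_neg_iff_add_eq_zero, e2, map_zero]
    exact k 4 (by simp [pow_succ, e3]) 3
  · have e3 : α (α v) = α v - v := eq_sub_of_add_eq e2
    exact k 6 (by simp [pow_succ, e3]) 2
  · have e3 : α (α v) = -α v - v := by rw [← map_neg, ← e2]; abel
    exact k 3 (by simp [pow_succ, e3]) 4

/-- the ring computation behind the quadratic element -/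
theorem quad_ring {R : Type*} [Ring R] {n x : R} (h1 : n * n = 0) (h2 : x * x = 0) (h3 : x * n * x = 0) :
    ((1 + n + x) * (1 + n - x) - 1) * ((1 + n + x) * (1 + n - x) - 1) = 0 := by
  have e : (1 + n + x) * (1 + n - x) - 1 = 2 * n + (x * n - n * x) + (n * n - x * x) := by noncomm_ring
  rw [e, h1, h2]
  have : (2 * n + (x * n - n * x) + (0 - 0)) * (2 * n + (x * n - n * x) + (0 - 0)) = 4 * (n * n) - 2 * (n * n) * x
    + 2 * x * (n * n) + (x * n * x) * n - x * (n * n) * x - n * (x * x) * n + n * (x * n * x) := by noncomm_ring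
  rw [this, h1, h2, h3]; simp

section LA
variable {F : Type*} [Field F]

/-- determinant of two vectors -/
def dt (v w : Fin 2 → F) : F := v 0 * w 1 - v 1 * w 0

theorem dt_mulVec (g : SL(2, F)) (v w : Fin 2 → F) : dt (g.1 *ᵥ v) (g.1 *ᵥ w) = dt v w := by
  have := g.2
  rw [det_fin_two] at this
  simp only [dt, mulVec, dotProduct, Fin.sum_univ_two]
  linear_combination (v 0 * w 1 - v 1 * w 0) * this

theorem par {v w : Fin 2 → F} (h0 : v ≠ 0) (h : dt v w = 0) : ∃ c : F, w = c • v := by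
  unfold dt at h
  by_cases h1 : v 0 = 0
  · have h2 : v 1 ≠ 0 := fun h2 => h0 (by ext i; fin_cases i <;> simp [h1, h2])
    refine ⟨w 1 / v 1, ?_⟩
    ext i; fin_cases i <;> simp <;> field_simp
    linear_combination -h
  · refine ⟨w 0 / v 0, ?_⟩
    ext i; fin_cases i <;> simp <;> field_simp
    linear_combination h

theorem scalar {φ : End ℤ (Fin 2 → F)} (h : ∀ g : SL(2, F), ∀ v, φ (g.1 *ᵥ v) = g.1 *ᵥ φ v) :
    ∃ μ : F, ∀ v, φ v = μ • v := by
  have h1 := congrFun (h ⟨!![1, 1; 0, 1], by simp [det_fin_two]⟩ ![1, 0]) 0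
  have h2 : (!![1, 1; 0, 1] : Matrix (Fin 2) (Fin 2) F) *ᵥ ![1, 0] = ![1, 0] := by
    ext i; fin_cases i <;> simp [mulVec, dotProduct]
  simp only [h2] at h1
  have h3 : φ ![1, 0] = φ ![1, 0] 0 • ![1, 0] := by
    ext i; fin_cases i
    · simp
    · simpa [mulVec, dotProduct] using h1
  refine ⟨φ ![1, 0] 0, fun v => ?_⟩
  by_cases hv : v = 0
  · simp [hv]
  obtain ⟨g, -, rfl⟩ := exists_comm_e hv
  rw [h, h3, mulVec_smul]; simp

theorem neg_one_mem (h3 : (3 : F) = 0) : (-1 : SL(2, F)) ∈ commutator SL(2, F) := by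
  let i : SL(2, F) := ⟨!![0, 1; -1, 0], by simp [det_fin_two]⟩
  let j : SL(2, F) := ⟨!![1, 1; 1, -1], by simp [det_fin_two]; linear_combination -h3⟩
  have : (-1 : SL(2, F)) = ⁅i, j⁆ := by
    rw [commutatorElement_def, eq_mul_inv_iff_mul_eq, eq_mul_inv_iff_mul_eq]
    apply Subtype.ext
    change (-1 : Matrix (Fin 2) (Fin 2) F) * j.1 * i.1 = i.1 * j.1
    simp [i, j]
  rw [this]
  exact commutator_mem_commutator (mem_top _) (mem_top _)

theorem two_cases : (∀ c : F, c = 0 ∨ c = 1 ∨ c = -1) ∨ commutator SL(2, F) = ⊤ := by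
  by_cases h : ∃ a : F, a ≠ 0 ∧ a ^ 2 ≠ 1
  · obtain ⟨a, h1, h2⟩ := h
    exact Or.inr (SL2.commutator_eq_top h1 h2)
  · push Not at h
    exact Or.inl fun c => or_iff_not_imp_left.2 fun hc => sq_eq_one_iff.1 (h c hc)

theorem lin_of_three (h : ∀ c : F, c = 0 ∨ c = 1 ∨ c = -1) (α : End ℤ (Fin 2 → F)) (c : F) (v : Fin 2 → F) :
    α (c • v) = c • α v := by
  rcases h c with rfl | rfl | rfl <;> simp

/-- a linear additive map as a linear map -/
def toL (α : End ℤ (Fin 2 → F)) (h : ∀ (c : F) v, α (c • v) = c • α v) : End F (Fin 2 → F) :=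
  { toFun := α, map_add' := map_add α, map_smul' := h }

theorem toL_cube {α : End ℤ (Fin 2 → F)} (h : ∀ (c : F) v, α (c • v) = c • α v) (e : α ^ 3 = 1) : toL α h ^ 3 = 1 :=
  LinearMap.ext fun v => by simpa [pow_succ, toL] using LinearMap.congr_fun e v

theorem quad_of_cube (h3 : (3 : F) = 0) {α : End ℤ (Fin 2 → F)} (h : ∀ (c : F) v, α (c • v) = c • α v)
    (e : α ^ 3 = 1) : (α - 1) * (α - 1) = 0 := by
  have e1 : (toL α h - 1) ^ 3 = 0 := by
    have : ∀ {R : Type _} [Ring R] (a : R), (a - 1) ^ 3 = a ^ 3 - 1 + 3 • (a - a ^ 2) := fun a => by noncomm_ring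
    rw [this, ← Nat.cast_smul_eq_nsmul F, Nat.cast_ofNat, h3, toL_cube h e]; simp
  refine LinearMap.ext fun v => ?_
  have := End.ker_pow_le_ker_pow_finrank (toL α h - 1) 3 (x := v) (by simp [e1])
  simpa [pow_succ, toL] using this

theorem exists_SL (h3 : (3 : F) = 0) {α : End ℤ (Fin 2 → F)} (h : ∀ (c : F) v, α (c • v) = c • α v)
    (e : α ^ 3 = 1) : ∃ g : SL(2, F), ∀ v, α v = g.1 *ᵥ v := by
  refine ⟨⟨LinearMap.toMatrix' (toL α h), ?_⟩, fun v => by rw [LinearMap.toMatrix'_mulVec]; rfl⟩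
  have := congrArg LinearMap.det (toL_cube h e)
  rw [map_pow, map_one] at this
  rw [LinearMap.det_toMatrix', ← sub_eq_zero]
  exact pow_eq_zero_iff three_ne_zero |>.1 (by linear_combination this + (_ - _ ^ 2) * h3)

theorem lin_of_quad (h2 : (2 : F) ≠ 0) {α β : End ℤ (Fin 2 → F)} (e1 : α * β = 1) (e2 : β * α = 1)
    (hn : ∀ g : SL(2, F), ∃ g' : SL(2, F), ∀ v, α (g'.1 *ᵥ v) = g.1 *ᵥ α v) (hq : (α - 1) * (α - 1) = 0)
    (c : F) (v : Fin 2 → F) : α (c • v) = c • α v := by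
  have a1 : ∀ v, α (β v) = v := fun v => LinearMap.congr_fun e1 v
  have a2 : ∀ v, β (α v) = v := fun v => LinearMap.congr_fun e2 v
  have hs : ∀ c : F, ∃ μ : F, ∀ v, α (c • v) = μ • α v := fun c => by
    obtain ⟨μ, hμ⟩ := scalar (φ := α * (DistribMulAction.toAddMonoidHom _ c).toIntLinearMap * β) fun g v => by
      obtain ⟨g', hg⟩ := hn g
      have : β (g.1 *ᵥ v) = g'.1 *ᵥ β v := by rw [← a1 v, ← hg, a2, a2]
      change α (c • β _) = _ *ᵥ α (c • β v)
      rw [this, ← mulVec_smul, hg]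
    exact ⟨μ, fun v => by simpa [a2] using hμ (α v)⟩
  choose σ hσ using hs
  have q : ∀ v, α (α v) = (2 : F) • α v - v := fun v => by
    have := LinearMap.congr_fun hq v
    simp only [End.mul_apply, LinearMap.sub_apply, End.one_apply, map_sub, LinearMap.zero_apply] at this
    rw [two_smul]; linear_combination (exp := 1) this
  have k : ∀ v, (2 * (σ (σ c) - σ c)) • α v = (σ (σ c) - c) • v := fun v => by
    have := q (c • v)
    rw [hσ, hσ, q] at this
    linear_combination (norm := module) this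
  have n0 : (![1, 0] : Fin 2 → F) ≠ 0 := by simp
  by_cases h : σ (σ c) = σ c
  · have := k ![1, 0]
    rw [h, sub_self, mul_zero, zero_smul, eq_comm, smul_eq_zero, sub_eq_zero] at this
    rw [hσ, this.resolve_right n0]
  · have h' := mul_ne_zero h2 (sub_ne_zero.2 h)
    refine smul_right_injective _ h' ?_
    simp only
    rw [k, smul_comm, ← k, smul_comm]

theorem inv_pm (h2 : (2 : F) ≠ 0) {α : End ℤ (Fin 2 → F)} (e : α * α = 1) (hd : ∀ v w, dt (α v) (α w) = dt v w) :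
    α = 1 ∨ α = -1 := by
  have a1 : ∀ v, α (α v) = v := fun v => LinearMap.congr_fun e v
  by_contra h
  push Not at h
  obtain ⟨x, hx⟩ : ∃ x, α x - x ≠ 0 := by
    by_contra! hc; exact h.1 (LinearMap.ext fun x => sub_eq_zero.1 (hc x))
  obtain ⟨y, hy⟩ : ∃ y, α y + y ≠ 0 := by
    by_contra! hc; exact h.2 (LinearMap.ext fun x => eq_neg_iff_add_eq_zero.2 (hc x))
  have o : ∀ x y, dt (α x - x) (α y + y) = 0 := fun x y => by
    have := hd (α x - x) (α y + y)
    rw [map_sub, map_add, a1, a1] at this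
    refine mul_left_cancel₀ h2 ?_
    simp only [dt, Pi.sub_apply, Pi.add_apply] at this ⊢
    linear_combination -this
  obtain ⟨c, hc⟩ := par hx (o x y)
  have c0 : c ≠ 0 := fun h => hy (by rw [hc, h, zero_smul])
  have k : ∀ w, dt (α x - x) w = 0 := fun w => by
    have k1 := o x w
    have k2 := o w y
    rw [hc] at k2
    refine mul_left_cancel₀ (mul_ne_zero h2 c0) ?_
    simp only [dt, Pi.sub_apply, Pi.add_apply, Pi.smul_apply, smul_eq_mul] at k1 k2 ⊢
    linear_combination c * k1 + k2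
  refine hx ?_
  ext i; fin_cases i
  · simpa [dt] using k ![0, 1]
  · have := k ![1, 0]
    simp [dt] at this ⊢
    linear_combination -this

end LA

end H14.Bb
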