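import Cfsg.Agent.H14.BbA

/-!
Exceptional Baumann blocks: coordinates and the commutator form.
-/

set_option autoImplicit false
set_option linter.unusedSectionVars false
set_option linter.unusedVariables false

namespace H14.Bb
open Cfsg Subgroup H10 H12 Matrix Module
open scoped commutatorElement MatrixGroups

universe u
variable {G : Type u} [Group G] {F : Type} [Field F]

theorem sl_ext {g k : SL(2, F)} (h : ∀ v, g.1 *ᵥ v = k.1 *ᵥ v) : g = k :=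
  Subtype.ext (Matrix.ext_of_mulVec_single fun i => h _)

theorem sl_mul (g k : SL(2, F)) (v : Fin 2 → F) : (g * k).1 *ᵥ v = g.1 *ᵥ k.1 *ᵥ v := (mulVec_mulVec _ _ _).symm

theorem sl_one (v : Fin 2 → F) : (1 : SL(2, F)).1 *ᵥ v = v := one_mulVec v

theorem sl_neg (v : Fin 2 → F) : (-1 : SL(2, F)).1 *ᵥ v = -v := by simp [neg_mulVec]

theorem sl_inv (h2 : (2 : F) ≠ 0) {g : SL(2, F)} (h : g * g = 1) : g = 1 ∨ g = -1 := by
  refine (inv_pm h2 (α := (Matrix.mulVecLin g.1).restrictScalars ℤ) (LinearMap.ext fun v => ?_)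
    (dt_mulVec g)).imp (fun e => ?_) fun e => ?_
  · change g.1 *ᵥ g.1 *ᵥ v = v
    rw [← sl_mul, h, sl_one]
  · exact sl_ext fun v => (LinearMap.congr_fun e v).trans (sl_one v).symm
  · exact sl_ext fun v => (LinearMap.congr_fun e v).trans (sl_neg v).symm

/-- natural action on a section -/
structure Sc (E U U₀ : Subgroup G) (ψ : G → Fin 2 → F) (ρ : E →* SL(2, F)) : Prop extends Md U U₀ ψ where
  nU : E ≤ NN(U)
  le : U₀ ≤ U
  range : ρ.range = commutator SL(2, F)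
  conj : ∀ e : E, ∀ x ∈ U, ψ (e * x * (e : G)⁻¹) = (ρ e).1 *ᵥ ψ x
  irr : ∀ V ≤ U, E ≤ NN(V) → V ≤ U₀ ∨ U ≤ V ⊔ U₀

theorem sc_of {E U U₀ : Subgroup G} (h : ActsAsSL2OnSection F (commutator SL(2, F)) E U U₀) :
    ∃ (ψ : G → Fin 2 → F) (ρ : E →* SL(2, F)), Sc E U U₀ ψ ρ := by
  classical
  have hi := fun V => sl2sec_irr (V := V) h
  obtain ⟨h1, h2, ρ, ψ, h3, h4, h5, h6⟩ := h
  refine ⟨fun x => if hx : x ∈ U then (ψ ⟨x, hx⟩).toAdd else 0, ρ, ⟨fun x hx y hy => ?_, fun x hx => ?_, fun v => ?_⟩,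
    h1, h2, h3, fun e x hx => ?_, hi⟩
  · simp only [dif_pos hx, dif_pos hy, dif_pos (mul_mem hx hy)]
    exact congrArg Multiplicative.toAdd (map_mul ψ ⟨x, hx⟩ ⟨y, hy⟩)
  · simp only [dif_pos hx]; exact h5 ⟨x, hx⟩
  · obtain ⟨a, e⟩ := h4 (Multiplicative.ofAdd v)
    exact ⟨a, a.2, by simp only [dif_pos a.2]; exact congrArg Multiplicative.toAdd e⟩
  · obtain ⟨w, hw, e⟩ := h6 e ⟨x, hx⟩
    simp only at hw
    simp only [← hw, dif_pos hx, dif_pos w.2]; exact e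

namespace Sc
variable {E U U₀ : Subgroup G} {ψ : G → Fin 2 → F} {ρ : E →* SL(2, F)} (h : Sc E U U₀ ψ ρ)
include h

theorem nn : E ≤ NN(U) ⊓ NN(U₀) := le_inf h.nU (le_NN_iff.2 fun e he x hx => by
  rw [← h.ker _ (conj_mem_of_mem_NN (h.nU he) (h.le hx)), h.conj ⟨e, he⟩ _ (h.le hx), (h.ker _ (h.le hx)).2 hx,
    mulVec_zero])

theorem act_eq (e : E) (v : Fin 2 → F) : act U ψ e v = (ρ e).1 *ᵥ v := by
  obtain ⟨x, hx, rfl⟩ := h.surj v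
  rw [h.act_apply (h.nn e.2) hx, h.conj e x hx]

theorem eq_one_iff (e : E) : ρ e = 1 ↔ act U ψ e = 1 :=
  ⟨fun k => LinearMap.ext fun v => by rw [h.act_eq, k]; simp, fun k =>
    sl_ext fun v => by rw [← h.act_eq, k, sl_one]; rfl⟩

theorem exists_e {g : SL(2, F)} (hg : g ∈ commutator SL(2, F)) : ∃ e : E, ρ e = g := by rwa [← h.range] at hg

theorem ker_iff [Finite G] {p : ℕ} (hc : ⁅pCoreOf p E, U⁆ ≤ U₀)
    (hi : Nonempty (E ⧸ pCore p E ≃* commutator SL(2, F))) (e : E) : ρ e = 1 ↔ e.1 ∈ pCoreOf p E := by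
  have h1 : pCore p E ≤ ρ.ker := fun x hx => (h.eq_one_iff x).2 ((h.act_eq_one (h.nn x.2)).2 fun y hy =>
    hc (commutator_mem_commutator ⟨x, hx, rfl⟩ hy))
  have h2 : (pCore p E).index = ρ.ker.index := by
    rw [index_ker, h.range, ← Nat.card_congr hi.some.toEquiv]; rfl
  have h3 : pCore p E = ρ.ker := eq_of_le_of_card_ge h1 (Nat.eq_of_mul_eq_mul_right
    (Nat.pos_of_ne_zero (index_ne_zero_of_finite (H := ρ.ker))) (by rw [card_mul_index, ← h2, card_mul_index])).le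
  rw [← MonoidHom.mem_ker, ← h3, ← pCoreOf_subgroupOf, mem_subgroupOf]

end Sc

/-- `O₃(E)` -/
abbrev QQ (E : Subgroup G) : Subgroup G := pCoreOf 3 E
/-- `Ω₁ Z(O₃(E))` -/
abbrev Wf (E : Subgroup G) : Subgroup G := ZO 3 (QQ E)
/-- `Z(E)` -/
abbrev ZZ (E : Subgroup G) : Subgroup G := Wf E ⊓ CC(E)
/-- `W_E` -/
abbrev WW (E : Subgroup G) : Subgroup G := ⁅Wf E, E⁆

/-- data of an exceptional block -/
structure Exc [Fintype F] (T E : Subgroup G) (ψ₁ ψ₂ : G → Fin 2 → F) (ρ₁ ρ₂ : E →* SL(2, F)) (t : E) : Prop where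
  blk : IsBaumannBlock 3 T E
  h3 : (3 : F) = 0
  s1 : Sc E (Wf E) (ZZ E) ψ₁ ρ₁
  s2 : Sc E (QQ E) (Wf E) ψ₂ ρ₂
  k1 : ∀ e : E, ρ₁ e = 1 ↔ e.1 ∈ QQ E
  k2 : ∀ e : E, ρ₂ e = 1 ↔ e.1 ∈ QQ E
  comm : ⁅QQ E, QQ E⁆ = ZZ E
  fr : frOf (QQ E) = ZZ E
  card : Nat.card (ZZ E) = Nat.card F
  nq : ∀ b ∈ baumannSubgroupOf 3 T, b ∉ CC(Wf E) → ¬ ⁅⁅QQ E, zpowers b⁆, zpowers b⁆ ≤ ZZ E
  tt : t * t = 1
  t1 : ρ₁ t = -1
  t2 : ρ₂ t = -1

theorem two_ne (h3 : (3 : F) = 0) : (2 : F) ≠ 0 := fun h => one_ne_zero (by linear_combination h3 - h : (1 : F) = 0)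

theorem neg_ne (h3 : (3 : F) = 0) : (-1 : SL(2, F)) ≠ 1 := fun h => two_ne h3 (by
  have := congrFun (congrFun (congrArg Subtype.val h) 0) 0
  simp at this; linear_combination -this)

theorem exc_of [Finite G] {p : ℕ} {T E : Subgroup G} (h : IsBaumannBlock p T E)
    (hne : pCoreOf p E ≠ ZO p (pCoreOf p E)) : p = 3 ∧ ∃ (F : Type) (_ : Field F) (_ : Fintype F)
      (ψ₁ ψ₂ : G → Fin 2 → F) (ρ₁ ρ₂ : E →* SL(2, F)) (t : E), Exc T E ψ₁ ψ₂ ρ₁ ρ₂ t := by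
  rcases h.2.2.2.2 with ⟨F, _, _, n, hF, hi, a1, h1 | ⟨rfl, a2, h2, h3, h4, h5, h6⟩⟩ | ⟨-, m, -, -, h1⟩
  · exact absurd h1 hne
  · obtain ⟨ψ₁, ρ₁, s1⟩ := sc_of a1
    obtain ⟨ψ₂, ρ₂, s2⟩ := sc_of a2
    have c3 : (3 : F) = 0 := by
      have := FiniteField.cast_card_eq_zero F
      rw [hF, Nat.cast_pow] at this
      exact_mod_cast pow_eq_zero_iff (by rintro rfl; simp at this) |>.1 this
    have k1 := s1.ker_iff ((comm_eq_bot.2 (le_CC_ZO _)).le.trans bot_le) hi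
    have k2 := s2.ker_iff (h2.le.trans inf_le_left) hi
    obtain ⟨e, he⟩ := s1.exists_e (neg_one_mem c3)
    obtain ⟨k, hk⟩ := isPGroup_iff_mem.1 (isPGroup_pCoreOf E) _ ((k1 (e * e)).1 (by rw [map_mul, he]; simp))
    have tt : e ^ 3 ^ k * e ^ 3 ^ k = 1 := by rw [← (Commute.refl e).mul_pow]; exact Subtype.ext hk
    have t1 : ρ₁ (e ^ 3 ^ k) = -1 := by rw [map_pow, he]; exact Odd.neg_one_pow (Odd.pow (by decide))
    refine ⟨rfl, F, _, _, ψ₁, ψ₂, ρ₁, ρ₂, e ^ 3 ^ k, h, c3, s1, s2, k1, k2, h2, h3, ?_, ?_, tt, t1,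
      (sl_inv (two_ne c3) (by rw [← map_mul, tt, map_one])).resolve_left fun h => ?_⟩
    · rw [Nat.card_eq_fintype_card (α := F), hF, ← h5, h4]; rfl
    · rw [h4] at h6; exact h6
    · exact neg_ne c3 (t1.symm.trans ((k1 _).2 ((k2 _).1 h)))
  · exact absurd h1 hne

theorem mem_of_sq {H : Subgroup G} {x : G} {k : ℕ} (h3 : x ^ 3 ^ k = 1) (h : x * x ∈ H) : x ∈ H := by
  obtain ⟨m, hm⟩ : Odd (3 ^ k) := Odd.pow (by decide)
  have : x = (x * x) ^ (m + 1) := by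
    rw [← pow_two, ← pow_mul, show 2 * (m + 1) = 3 ^ k + 1 by omega, pow_succ, h3, one_mul]
  rw [this]; exact pow_mem h _

namespace Exc
variable [Finite G] [Fintype F] {T E : Subgroup G} {ψ₁ ψ₂ : G → Fin 2 → F} {ρ₁ ρ₂ : E →* SL(2, F)} {t : E}
  (h : Exc T E ψ₁ ψ₂ ρ₁ ρ₂ t)
include h

theorem QE : QQ E ≤ E := pCoreOf_le E
theorem WQ : Wf E ≤ QQ E := ZO_le _
theorem WWf : WW E ≤ Wf E := comm_le_left h.s1.nU
theorem pQ {x : G} (hx : x ∈ QQ E) : ∃ k, x ^ 3 ^ k = 1 := isPGroup_iff_mem.1 (isPGroup_pCoreOf E) x hx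
theorem cW {w x : G} (hw : w ∈ Wf E) (hx : x ∈ QQ E) : Commute x w := mem_CC.1 (ZO_le_CC _ hw) x hx
theorem cZ {w x : G} (hw : w ∈ ZZ E) (hx : x ∈ E) : Commute x w := mem_CC.1 hw.2 x hx
theorem comm_mem {x y : G} (hx : x ∈ QQ E) (hy : y ∈ QQ E) : ⁅x, y⁆ ∈ ZZ E :=
  h.comm.le (commutator_mem_commutator hx hy)
theorem tt' : (t : G) * t = 1 := congrArg Subtype.val h.tt
theorem tinv : (t : G)⁻¹ = t := inv_eq_of_mul_eq_one_right h.tt'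

theorem tZ {w : G} (hw : w ∈ Wf E) : t * w * (t : G)⁻¹ * w ∈ ZZ E := by
  have c := conj_mem_of_mem_NN (h.s1.nU t.2) hw
  rw [← h.s1.ker _ (mul_mem c hw), h.s1.add _ c _ hw, h.s1.conj t _ hw, h.t1]; simp [neg_mulVec]

theorem tW {x : G} (hx : x ∈ QQ E) : t * x * (t : G)⁻¹ * x ∈ Wf E := by
  have c := conj_mem_of_mem_NN (h.s2.nU t.2) hx
  rw [← h.s2.ker _ (mul_mem c hx), h.s2.add _ c _ hx, h.s2.conj t _ hx, h.t2]; simp [neg_mulVec]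

theorem tcomm (e : E) : ⁅(t : G), (e : G)⁆ ∈ QQ E :=
  (h.k1 ⁅t, e⁆).1 (by rw [map_commutatorElement, h.t1, commutatorElement_eq_one_iff_commute]; exact Commute.neg_one_left _)

theorem tinvW {w : G} (hw : w ∈ WW E) : t * w * (t : G)⁻¹ = w⁻¹ := by
  let I : Subgroup G :=
    { carrier := {w | w ∈ Wf E ∧ t * w * (t : G)⁻¹ = w⁻¹}
      one_mem' := ⟨one_mem _, by simp⟩
      mul_mem' := fun {a b} ha hb => ⟨mul_mem ha.1 hb.1, by
        rw [(h.cW hb.1 (h.WQ ha.1)).eq, _root_.mul_inv_rev, ← ha.2, ← hb.2, (h.cW ha.1 (h.WQ hb.1)).eq]; group⟩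
      inv_mem' := fun {a} ha => ⟨inv_mem ha.1, by rw [← congrArg (·⁻¹) ha.2]; group⟩ }
  refine (commutator_le.2 (fun w hw e he => ?_ : ∀ w ∈ Wf E, ∀ e ∈ E, ⁅w, e⁆ ∈ I) hw).2
  have c := fun {w} (hw : w ∈ Wf E) => conj_mem_of_mem_NN (h.s1.nU he) hw
  have c' := conj_mem_of_mem_NN (h.s1.nU t.2) hw
  refine ⟨h.WWf (commutator_mem_commutator hw he), ?_⟩
  have e1 := (h.cW (c c') (h.tcomm ⟨e, he⟩)).eq
  have e2 := (h.cZ (h.tZ hw) he).eq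
  have e3 := (h.cW (c hw) (h.WQ hw)).eq
  have e4 := (h.cW (c c') (h.WQ c')).eq
  simp only [commutatorElement_def] at e1 ⊢
  set a := (t : G) * w * (t : G)⁻¹
  have e5 : (t : G) * (e * w * e⁻¹) * (t : G)⁻¹ = e * a * e⁻¹ := by
    have : (t : G) * (e * w * e⁻¹) * (t : G)⁻¹ = t * e * (t : G)⁻¹ * e⁻¹ * (e * a * e⁻¹) * (t * e * (t : G)⁻¹ * e⁻¹)⁻¹ := by
      simp only [a]; group
    rw [this, e1]; group
  have e6 : e * a * e⁻¹ * (e * w * e⁻¹) = a * w := by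
    rw [show e * a * e⁻¹ * (e * w * e⁻¹) = e * (a * w) * e⁻¹ by group, e2]; group
  calc (t : G) * (w * e * w⁻¹ * e⁻¹) * (t : G)⁻¹ = a * ((t : G) * (e * w * e⁻¹) * (t : G)⁻¹)⁻¹ := by simp only [a]; group
    _ = (e * a * e⁻¹)⁻¹ * a := by rw [e5, mul_inv_eq_iff_eq_mul, mul_assoc, e4]; group
    _ = (e * w * e⁻¹) * w⁻¹ := by rw [inv_mul_eq_iff_eq_mul, ← mul_assoc, e6]; group
    _ = _ := by group

theorem WZ {w : G} (hw : w ∈ WW E) (hz : w ∈ ZZ E) : w = 1 := by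
  obtain ⟨k, hk⟩ := h.pQ (h.WQ hz.1)
  refine mem_bot.1 (mem_of_sq hk ?_)
  rw [mem_bot, mul_eq_one_iff_eq_inv, ← h.tinvW hw, (h.cZ hz t.2).eq]; group

theorem Wf_le : Wf E ≤ WW E ⊔ ZZ E := fun w hw => by
  obtain ⟨k, hk⟩ := h.pQ (h.WQ hw)
  refine mem_of_sq hk ?_
  rw [show w * w = ⁅w, (t : G)⁆ * (t * w * (t : G)⁻¹ * w) by simp only [commutatorElement_def]; group]
  exact mul_mem (mem_sup_left (commutator_mem_commutator hw t.2)) (mem_sup_right (h.tZ hw))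

theorem Q_eq : ⁅QQ E, zpowers (t : G)⁆ = QQ E := by
  refine eq_of_sup_frOf (N := ZZ E) (comm_le_left (zpowers_le.2 (h.s2.nU t.2))) h.fr.ge fun x hx => ?_
  have k : ∀ x ∈ QQ E, t * x * (t : G)⁻¹ * x ∈ ⁅QQ E, zpowers (t : G)⁆ ⊔ ZZ E → x ∈ ⁅QQ E, zpowers (t : G)⁆ ⊔ ZZ E :=
    fun x hx hm => by
      obtain ⟨k, hk⟩ := h.pQ hx
      refine mem_of_sq hk ?_
      rw [show x * x = ⁅x, (t : G)⁆ * (t * x * (t : G)⁻¹ * x) by simp only [commutatorElement_def]; group]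
      exact mul_mem (mem_sup_left (commutator_mem_commutator hx (mem_zpowers _))) hm
  exact k x hx (k _ (h.WQ (h.tW hx)) (mem_sup_right (h.tZ (h.tW hx))))

theorem det : ∃ f : F → G, Function.Injective f ∧ f 0 = 1 ∧ ∀ x ∈ QQ E, ∀ y ∈ QQ E, ⁅x, y⁆ = f (dt (ψ₂ x) (ψ₂ y)) := by
  choose s hs es using h.s2.surj
  have c1 : ∀ x ∈ QQ E, ∀ y ∈ QQ E, ∀ y' ∈ QQ E, ⁅x, y * y'⁆ = ⁅x, y⁆ * ⁅x, y'⁆ := fun x hx y hy y' hy' => by
    rw [commutatorElement_mul_right_eq_mul_conj, mul_assoc _ y, (h.cZ (h.comm_mem hx hy') (h.QE hy)).eq]; group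
  have c2 : ∀ x ∈ QQ E, ∀ y ∈ QQ E, ∀ y' ∈ QQ E, ψ₂ y = ψ₂ y' → ⁅x, y⁆ = ⁅x, y'⁆ := fun x hx y hy y' hy' e => by
    have := (h.s2.eq_iff hy hy').1 e
    rw [← inv_mul_cancel_right y y', c1 x hx _ (h.WQ this) _ hy', (h.cW this hx).commutator_eq, one_mul]
  have c3 : ∀ x ∈ QQ E, ∀ y ∈ QQ E, ⁅s (ψ₂ x), s (ψ₂ y)⁆ = ⁅x, y⁆ := fun x hx y hy => by
    rw [c2 _ (hs _) _ (hs _) y hy (es _), ← commutatorElement_inv, c2 y hy _ (hs _) x hx (es _), commutatorElement_inv]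
  have c4 : ∀ v w w', ⁅s v, s (w + w')⁆ = ⁅s v, s w⁆ * ⁅s v, s w'⁆ := fun v w w' => by
    rw [← c1 _ (hs _) _ (hs _) _ (hs _)]
    exact c2 _ (hs _) _ (hs _) _ (mul_mem (hs _) (hs _)) (by rw [h.s2.add _ (hs _) _ (hs _), es, es, es])
  have c5 : ∀ g ∈ commutator SL(2, F), ∀ v w, ⁅s (g.1 *ᵥ v), s (g.1 *ᵥ w)⁆ = ⁅s v, s w⁆ := fun g hg v w => by
    obtain ⟨e, rfl⟩ := h.s2.exists_e hg
    have n := fun v => conj_mem_of_mem_NN (h.s2.nU e.2) (hs v)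
    rw [← es v, ← es w, ← h.s2.conj e _ (hs _), ← h.s2.conj e _ (hs _), c3 _ (n _) _ (n _), es, es,
      ← conjugate_commutatorElement, (h.cZ (h.comm_mem (hs _) (hs _)) e.2).eq]; group
  have c6 : ∀ v, ⁅s v, s 0⁆ = 1 := fun v => (h.cW ((h.s2.ker _ (hs _)).1 (es 0)) (hs v)).commutator_eq
  have c7 : ∀ μ : F, ⁅s ![1, 0], s ![μ, 0]⁆ = 1 := fun μ => by
    rcases two_cases (F := F) with k | k
    · rcases k μ with rfl | rfl | rfl
      · exact (by ext i; fin_cases i <;> rfl : (0 : Fin 2 → F) = ![0, 0]) ▸ c6 _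
      · simp
      · have := c4 ![1, 0] ![1, 0] ![-1, 0]
        rw [show (![1, 0] + ![-1, 0] : Fin 2 → F) = 0 by ext i; fin_cases i <;> simp, c6] at this
        simpa using this.symm
    · have := c5 ⟨!![1, μ; 0, 1], by simp [det_fin_two]⟩ (k ▸ mem_top _) ![1, 0] ![0, 1]
      rw [show (!![1, μ; 0, 1] : Matrix _ _ F) *ᵥ ![1, 0] = ![1, 0] by ext i; fin_cases i <;> simp [mulVec, dotProduct],
        show (!![1, μ; 0, 1] : Matrix _ _ F) *ᵥ ![0, 1] = ![μ, 0] + ![0, 1] by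
          ext i; fin_cases i <;> simp [mulVec, dotProduct], c4] at this
      simpa using this
  have z0 : (![0, 0] : Fin 2 → F) = 0 := by ext i; fin_cases i <;> rfl
  have c8 : ∀ v w, ⁅s v, s w⁆ = ⁅s ![1, 0], s ![0, dt v w]⁆ := fun v w => by
    by_cases hv : v = 0
    · rw [hv, ← commutatorElement_inv, c6, show dt 0 w = 0 by simp [dt], z0, c6, inv_one]
    obtain ⟨g, hg, rfl⟩ := exists_comm_e hv
    obtain ⟨w, rfl⟩ : ∃ w', g.1 *ᵥ w' = w := ⟨(g⁻¹).1 *ᵥ w, by rw [← sl_mul, mul_inv_cancel, sl_one]⟩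
    rw [c5 g hg, dt_mulVec, show w = ![w 0, 0] + ![0, w 1] by ext i; fin_cases i <;> simp, c4, c7]
    simp [dt]
  let φ : Multiplicative F →* G := MonoidHom.mk' (fun d => ⁅s ![1, 0], s ![0, d.toAdd]⁆) fun a b => by
    rw [← c4]; simp
  have r : ZZ E ≤ φ.range := h.comm ▸ commutator_le.2 fun x hx y hy =>
    ⟨Multiplicative.ofAdd (dt (ψ₂ x) (ψ₂ y)), by rw [← c3 x hx y hy, c8]; rfl⟩
  have i := (φ.rangeRestrict_surjective.bijective_of_nat_card_le (h.card.ge.trans (card_le_of_le r))).1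
  exact ⟨fun d => φ (Multiplicative.ofAdd d), fun a b e => i (Subtype.ext e), map_one φ,
    fun x hx y hy => by rw [← c3 x hx y hy, c8]; rfl⟩

theorem center_le {x : G} (hx : x ∈ QQ E) (hc : x ∈ CC(QQ E)) : x ∈ Wf E := by
  obtain ⟨f, f1, f0, f2⟩ := h.det
  have k : ∀ v, dt (ψ₂ x) v = 0 := fun v => by
    obtain ⟨y, hy, rfl⟩ := h.s2.surj v
    exact f1 (by rw [← f2 x hx y hy, f0]; exact (Commute.symm (mem_CC.1 hc y hy)).commutator_eq)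
  rw [← h.s2.ker x hx]
  ext i; fin_cases i
  · simpa [dt] using k ![0, 1]
  · simpa [dt] using k ![1, 0]

theorem dt_act {g : G} (hg : g ∈ NN(QQ E)) (hc : g ∈ CC(ZZ E)) (v w : Fin 2 → F) :
    dt (act (QQ E) ψ₂ g v) (act (QQ E) ψ₂ g w) = dt v w := by
  obtain ⟨f, f1, f0, f2⟩ := h.det
  obtain ⟨x, hx, rfl⟩ := h.s2.surj v
  obtain ⟨y, hy, rfl⟩ := h.s2.surj w
  have n : g ∈ NN(QQ E) ⊓ NN(Wf E) := ⟨hg, NN_le_NN_ZO _ hg⟩
  rw [h.s2.act_apply n hx, h.s2.act_apply n hy]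
  refine f1 ?_
  rw [← f2 _ (conj_mem_of_mem_NN hg hx) _ (conj_mem_of_mem_NN hg hy), ← f2 x hx y hy, ← conjugate_commutatorElement,
    ← mem_CC.1 hc _ (h.comm_mem hx hy)]; group

end Exc

end H14.Bb
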