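import Cfsg.Agent.H14.BbB

/-!
Exceptional Baumann blocks: no element centralizes `Q/Ω₁Z(Q)` and inverts `Ω₁Z(Q)/Z(E)`.
-/

set_option autoImplicit false
set_option linter.unusedSectionVars false
set_option linter.unusedVariables false

namespace H14.Bb
open Cfsg Subgroup H10 H12 Matrix Module
open scoped commutatorElement MatrixGroups

universe u
variable {G : Type u} [Group G] {F : Type} [Field F]

theorem abs_quad {V : Type*} [AddCommGroup V] (U : Submodule ℤ V) {a σ : End ℤ V} (h3 : ∀ v : V, 3 • v = 0)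
    (h1 : ∀ v, σ v - v ∈ U) (h2 : ∀ u ∈ U, σ u = -u) (h4 : ∀ v, ((a - 1) * (a - 1)) v ∈ U)
    (h5 : ∀ u ∈ U, ((a - 1) * (a - 1)) u = 0) (h6 : ∀ u ∈ U, a u ∈ U) :
    σ * σ = 1 ∧ (a * (σ * a * σ) - 1) * (a * (σ * a * σ) - 1) = 0 := by
  have ss : σ * σ = 1 := LinearMap.ext fun v => by
    have := h2 _ (h1 v)
    rw [map_sub, sub_eq_iff_eq_add] at this
    rw [End.mul_apply, this]; simp
  have t3 : ∀ f : End ℤ V, f + f + f = 0 := fun f => LinearMap.ext fun v => by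
    rw [LinearMap.zero_apply, ← h3 (f v), three'_nsmul]; rfl
  set x := σ * a * σ - a with hx
  set n := a - 1 - x with hn
  have x1 : ∀ v, x v ∈ U := fun v => by
    convert U.add_mem (h1 (a (σ v))) (h6 _ (h1 v)) using 1
    simp [hx]
  have x2 : ∀ u ∈ U, x u = 0 := fun u hu => by simp [hx, h2 u hu, h2 _ (h6 u hu)]
  have n1 : ∀ u ∈ U, n u = (a - 1) u := fun u hu => by rw [hn, LinearMap.sub_apply, x2 u hu, sub_zero]
  have n2 : ∀ u ∈ U, (a - 1) u ∈ U := fun u hu => U.sub_mem (h6 u hu) hu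
  have n3 : ∀ u ∈ U, (n * n) u = 0 := fun u hu => by rw [End.mul_apply, n1 u hu, n1 _ (n2 u hu)]; exact h5 u hu
  have n4 : ∀ v, (n * n) v ∈ U := fun v => by
    have : n * n = (a - 1) * (a - 1) - (a - 1) * x - x * n := by rw [hn]; noncomm_ring
    rw [this]
    exact U.sub_mem (U.sub_mem (h4 v) (n2 _ (x1 v))) (x1 _)
  have c : σ * n = n * σ := by
    have : σ * n - n * σ = (σ * a + σ * a + σ * a) - (a * σ + a * σ + a * σ) - (σ * σ - 1) * a * σ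
      + σ * a * (σ * σ - 1) := by rw [hn, hx]; noncomm_ring
    rw [← sub_eq_zero, this, t3, t3, ss]; simp
  have nn : n * n = 0 := LinearMap.ext fun v => by
    have e1 := h2 _ (n4 v)
    have e2 := n3 _ (h1 v)
    rw [← End.mul_apply, ← mul_assoc, c, mul_assoc, c, ← mul_assoc, End.mul_apply] at e1
    rw [map_sub, e1] at e2
    have := h3 ((n * n) v)
    rw [LinearMap.zero_apply]
    linear_combination (norm := module) this + e2
  have := quad_ring nn (LinearMap.ext fun v => x2 _ (x1 v))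
    (LinearMap.ext fun v => x2 _ (by rw [n1 _ (x1 v)]; exact n2 _ (x1 v)) : x * n * x = 0)
  have e1 : 1 + n + x = a := by rw [hn]; abel
  have e2 : 1 + n - x = σ * a * σ := by
    rw [← sub_eq_zero, ← neg_zero, ← t3 x, hn, hx]; abel
  rw [e1, e2] at this
  exact ⟨ss, this⟩

namespace Md
variable {V : Type*} [AddCommGroup V] {U U₀ : Subgroup G} {ψ : G → V} (h : Md U U₀ ψ)
include h

/-- the action as a homomorphism -/
noncomputable def hom {L : Subgroup G} (hL : L ≤ NN(U) ⊓ NN(U₀)) : L →* End ℤ V where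
  toFun g := act U ψ g
  map_one' := h.act_one
  map_mul' a b := h.act_mul (hL a.2) (hL b.2)

theorem quad_le [Finite G] {b : G} (hb : b ∈ NN(U) ⊓ NN(U₀)) (hq : (act U ψ b - 1) * (act U ψ b - 1) = 0) :
    ⁅⁅U, zpowers b⁆, zpowers b⁆ ≤ U₀ := by
  have k : ∀ g ∈ zpowers b, ∃ m : ℕ, act U ψ g - 1 = m • (act U ψ b - 1) := fun g hg => by
    obtain ⟨m, rfl⟩ := (mem_powers_iff_mem_zpowers.2 hg : g ∈ Submonoid.powers b)
    refine ⟨m, ?_⟩
    simp only [h.act_pow hb]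
    clear hg
    induction m with
    | zero => simp
    | succ m ih =>
      rw [pow_succ, sub_eq_iff_eq_add.1 ih, succ_nsmul, ← sub_eq_zero, ← smul_zero m, ← hq, ← smul_mul_assoc]
      noncomm_ring
  have hz : zpowers b ≤ NN(U) ⊓ NN(U₀) := zpowers_le.2 hb
  let I : Subgroup G :=
    { carrier := {y | y ∈ U ∧ (act U ψ b - 1) (ψ y) = 0}
      one_mem' := ⟨one_mem _, by rw [h.one, map_zero]⟩
      mul_mem' := fun {x y} hx hy => ⟨mul_mem hx.1 hy.1, by rw [h.add _ hx.1 _ hy.1, map_add, hx.2, hy.2, add_zero]⟩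
      inv_mem' := fun {x} hx => ⟨inv_mem hx.1, by rw [h.inv hx.1, map_neg, hx.2, neg_zero]⟩ }
  have m : ∀ g ∈ zpowers b, ∀ x ∈ U, ⁅g, x⁆ ∈ U := fun g hg x hx =>
    mul_mem (conj_mem_of_mem_NN (hz hg).1 hx) (inv_mem hx)
  have h1 : ⁅U, zpowers b⁆ ≤ I := by
    rw [commutator_comm]
    refine commutator_le.2 fun g hg x hx => ⟨m g hg x hx, ?_⟩
    obtain ⟨j, hj⟩ := k g hg
    rw [h.comm (hz hg) hx, hj, ← End.mul_apply, mul_smul_comm, hq]; simp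
  refine (commutator_mono h1 le_rfl).trans ?_
  rw [commutator_comm]
  refine commutator_le.2 fun g hg x hx => ?_
  obtain ⟨j, hj⟩ := k g hg
  rw [← h.ker _ (m g hg x hx.1), h.comm (hz hg) hx.1, hj, LinearMap.smul_apply, hx.2, smul_zero]

end Md

namespace Exc
variable [Finite G] [Fintype F] {T : Sylow 3 G} {E : Subgroup G} {ψ₁ ψ₂ : G → Fin 2 → F} {ρ₁ ρ₂ : E →* SL(2, F)} {t : E}
  (h : Exc (T : Subgroup G) E ψ₁ ψ₂ ρ₁ ρ₂ t)
include h

theorem N1 : NN(QQ E) ≤ NN(Wf E) ⊓ NN(ZZ E) :=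
  le_inf (NN_le_NN_ZO _) (h.comm ▸ le_NN_commutator le_rfl le_rfl)
theorem N2 : NN(QQ E) ≤ NN(QQ E) ⊓ NN(Wf E) := le_inf le_rfl (NN_le_NN_ZO _)
theorem N3 : NN(QQ E) ≤ NN(QQ E) ⊓ NN(ZZ E) := le_inf le_rfl (h.N1.trans inf_le_right)
theorem BE : baumannSubgroupOf 3 (T : Subgroup G) ≤ NN(E) := h.blk.2.1 ▸ right_le_NN_comm E _
theorem BQ : baumannSubgroupOf 3 (T : Subgroup G) ≤ NN(QQ E) := le_NN_pCoreOf' h.BE
theorem EQ : E ≤ NN(QQ E) := h.s2.nU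

/-- an element centralizing `E/Q` acts as a scalar -/
theorem scal {c : G} (hc : c ∈ NN(QQ E)) (k : ∀ e ∈ E, act (QQ E) ψ₂ ⁅c, e⁆ = 1) (top : commutator SL(2, F) = ⊤) :
    ∃ μ : F, ∀ v, act (QQ E) ψ₂ c v = μ • v := scalar fun g v => by
  obtain ⟨e, rfl⟩ := h.s2.exists_e (top ▸ mem_top g)
  have he := h.EQ e.2
  rw [← h.s2.act_eq, ← h.s2.act_eq, ← End.mul_apply, ← End.mul_apply, ← h.s2.act_mul (h.N2 hc) (h.N2 he),
    ← h.s2.act_mul (h.N2 he) (h.N2 hc), show c * e = ⁅c, (e : G)⁆ * (e * c) by simp [commutatorElement_def],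
    h.s2.act_mul (h.N2 (commutator_le_self _ (commutator_mem_commutator hc he))) (h.N2 (mul_mem he hc)), k e e.2,
    one_mul]

theorem exists_a (hG : centralizer (pCore 3 G : Set G) ≤ pCore 3 G) :
    ∃ a ∈ baumannSubgroupOf 3 (T : Subgroup G), act (Wf E) ψ₁ a ^ 3 = 1 ∧ act (Wf E) ψ₁ a ≠ 1 ∧
      (act (Wf E) ψ₁ a - 1) * (act (Wf E) ψ₁ a - 1) = 0 ∧ (act (QQ E) ψ₂ a - 1) * (act (QQ E) ψ₂ a - 1) = 0 := by
  obtain ⟨-, h2, h3⟩ := Cfsg.Agent.S2984.result hG T E h.blk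
  change WW E ≤ ZO 3 _ at h2
  change ⁅WW E, _⁆ ≠ ⊥ at h3
  have hW : baumannSubgroupOf 3 (T : Subgroup G) ≤ NN(WW E) := le_NN_commutator (le_NN_ZO h.BQ) h.BE
  obtain ⟨A, hA, h4⟩ : ∃ A ∈ H4.maxAb 3 (T : Subgroup G), ⁅WW E, A⁆ ≠ ⊥ := by
    by_contra! hc
    exact h3 (comm_eq_bot'.2 (H4.thompsonOf_le_iff.2 fun A hA => comm_eq_bot'.1 (hc A hA)))
  have hB := fun {A} (hA : A ∈ H4.maxAb 3 (T : Subgroup G)) => (H4.le_thompsonOf hA).trans (J_le_baum _)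
  obtain ⟨r1, r2, r3⟩ := H4.thompson_replacement (elab_of_le (elab_ZO _) h2) (h2.trans ((ZO_le _).trans
    ((isSylowIn_top T).le_of_NN isPGroup_pCore' le_top (le_NN_of_normal _ _)))) hA ((hB hA).trans hW)
  set A₀ := ⁅WW E, A⁆ ⊔ (A ⊓ CC(⁅WW E, A⁆))
  obtain ⟨a, ha, hn⟩ := SetLike.not_le_iff_exists.1 fun k => r3 h4 (comm_eq_bot'.2 k)
  have aQ := h.BQ (hB r1 ha)
  have aE := h.BE (hB r1 ha)
  have a3 : a ^ 3 = 1 := (isElementaryAbelian_iff.1 (H4.maxAb_elemAb r1)).2 a ha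
  have m : ∀ w ∈ WW E, ⁅a, w⁆ ∈ ⁅WW E, A₀⁆ := fun w hw => commutator_comm A₀ _ ▸ commutator_mem_commutator ha hw
  have m' : ∀ w ∈ WW E, ⁅a, w⁆ ∈ WW E := fun w hw => comm_le_left ((hB r1).trans hW) (m w hw)
  have q1 : (act (Wf E) ψ₁ a - 1) * (act (Wf E) ψ₁ a - 1) = 0 := h.s1.ext fun x hx => by
    obtain ⟨w, hw, z, hz, rfl⟩ := (mem_sup_of_NN (h.WWf.trans (h.WQ.trans ((le_NN_self _).trans
      (h.N1.trans inf_le_right))))).1 (h.Wf_le hx)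
    rw [h.s1.add _ (h.WWf hw) _ hz.1, (h.s1.ker _ hz.1).2 hz, add_zero, End.mul_apply, ← h.s1.comm (h.N1 aQ) (h.WWf hw),
      ← h.s1.comm (h.N1 aQ) (h.WWf (m' w hw)), (show Commute a _ from mem_CC.1 (comm_eq_bot.1 r2 (m w hw)) a ha).commutator_eq,
      h.s1.one]; rfl
  have c1 : act (Wf E) ψ₁ a ^ 3 = 1 := by rw [← h.s1.act_pow (h.N1 aQ), a3, h.s1.act_one]
  refine ⟨a, hB r1 ha, c1, fun e => hn (mem_CC.2 fun w hw => ?_), q1, quad_of_cube h.h3 ?_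
    (by rw [← h.s2.act_pow (h.N2 aQ), a3, h.s2.act_one])⟩
  · exact (commutatorElement_eq_one_iff_mul_comm.1
      (h.WZ (m' w hw) ((h.s1.act_eq_one (h.N1 aQ)).1 e w (h.WWf hw)))).symm
  rcases two_cases (F := F) with k | top
  · exact lin_of_three k _
  have lin := lin_of_quad (two_ne h.h3) (h.s1.act_mul_inv (h.N1 aQ)) (h.s1.act_inv_mul (h.N1 aQ)) (fun g => by
    obtain ⟨e, rfl⟩ := h.s1.exists_e (top ▸ mem_top g)
    have he := conj_mem_of_mem_NN' aE e.2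
    refine ⟨ρ₁ ⟨_, he⟩, fun v => ?_⟩
    rw [← h.s1.act_eq, ← h.s1.act_eq, ← End.mul_apply, ← End.mul_apply, ← h.s1.act_mul (h.N1 aQ) (h.N1 (h.EQ he)),
      ← h.s1.act_mul (h.N1 (h.EQ e.2)) (h.N1 aQ)]
    congr 2; group) q1
  obtain ⟨g, hg⟩ := exists_SL h.h3 lin c1
  obtain ⟨e, rfl⟩ := h.s1.exists_e (top ▸ mem_top g)
  have cQ := mul_mem (inv_mem (h.EQ e.2)) aQ
  have cE := mul_mem (inv_mem (le_NN_self E e.2)) aE
  have c2 : h.s1.hom h.N1 ⟨_, cQ⟩ = 1 := by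
    change act _ _ _ = 1
    rw [h.s1.act_mul (h.N1 (inv_mem (h.EQ e.2))) (h.N1 aQ), ← h.s1.act_inv_mul (h.N1 (h.EQ e.2))]
    exact congrArg _ (LinearMap.ext fun v => by rw [hg, h.s1.act_eq])
  obtain ⟨μ, hμ⟩ := h.scal cQ (fun x hx => by
    have hm : ⁅(e : G)⁻¹ * a, x⁆ ∈ E := mul_mem (conj_mem_of_mem_NN cE hx) (inv_mem hx)
    refine (h.s2.eq_one_iff ⟨_, hm⟩).1 ((h.k2 _).2 ((h.k1 _).1 ((h.s1.eq_one_iff _).2 ?_)))
    have : ⁅(⟨_, cQ⟩ : NN(QQ E)), ⟨x, h.EQ hx⟩⁆ ∈ (h.s1.hom h.N1).ker :=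
      commutator_le_left _ ⊤ (commutator_mem_commutator c2 (mem_top _))
    exact this) top
  intro c v
  have : ∀ v, act (QQ E) ψ₂ a v = μ • (ρ₂ e).1 *ᵥ v := fun v => by
    rw [← mulVec_smul, ← hμ, ← h.s2.act_eq, ← End.mul_apply, ← h.s2.act_mul (h.N2 (h.EQ e.2)) (h.N2 cQ),
      mul_inv_cancel_left]
  rw [this, this, mulVec_smul, smul_comm]

theorem nos (hG : centralizer (pCore 3 G : Set G) ≤ pCore 3 G) {s : G} (hs : s ∈ NN(QQ E))
    (s2 : act (QQ E) ψ₂ s = 1) (s1 : act (Wf E) ψ₁ s = -1) : False := by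
  set B := baumannSubgroupOf 3 (T : Subgroup G) with hB
  have inv1 : ∀ s ∈ NN(QQ E), act (Wf E) ψ₁ s = -1 → act (Wf E) ψ₁ s⁻¹ = -1 := fun s hs e => by
    have := h.s1.act_mul_inv (h.N1 hs)
    rwa [e, neg_one_mul, neg_eq_iff_eq_neg] at this
  wlog hn : s ∈ NN(B) generalizing s
  · let K := ((h.s1.hom h.N1).ker ⊓ (h.s2.hom h.N2).ker).map NN(QQ E).subtype
    have hK : B ≤ NN(K) := h.BQ.trans (le_NN_map_subtype _)
    have hT := isSylowIn_top T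
    have pB : IsPGroup 3 B := hT.isPGroup.to_le (baum_le _)
    have l : cj s B ≤ B ⊔ K := cj_le_of fun b hb => by
      have bQ := h.BQ hb
      rw [show s * b * s⁻¹ = b * (⁅b⁻¹, s⁆) by simp [commutatorElement_def, mul_assoc]]
      refine mul_mem (mem_sup_left hb) (mem_sup_right ⟨⁅(⟨b, bQ⟩ : NN(QQ E))⁻¹, ⟨s, hs⟩⁆, ⟨?_,
        commutator_le_right ⊤ _ (commutator_mem_commutator (mem_top _) s2)⟩, rfl⟩)
      change h.s1.hom h.N1 _ = 1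
      rw [commutatorElement_def, inv_inv, map_mul, map_mul, map_mul]
      change act _ _ b⁻¹ * act _ _ s * act _ _ b * act _ _ s⁻¹ = 1
      rw [inv1 s hs s1, s1]; simp [h.s1.act_inv_mul (h.N1 bQ)]
    obtain ⟨S₁, h1, h2⟩ := exists_isSylowIn_ge pB (le_sup_left : B ≤ B ⊔ K)
    obtain ⟨g, hg, h3⟩ := h1.exists_cj_le (isPGroup_cj s pB) l
    obtain ⟨S, h4, h5⟩ := exists_isSylowIn_ge h1.isPGroup (le_top (a := S₁))
    rw [← cj_mul] at h3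
    have h6 : g * s ∈ NN(B) := by
      rw [mem_NN, hB, cj_baum, ← baum_eq_of_le (hT.cj_top _) h4 (by rw [← cj_baum]; exact h3.trans h5),
        baum_eq_of_le hT h4 (h2.trans h5)]
    obtain ⟨b, hb, _, ⟨k, hk, rfl⟩, rfl⟩ := (mem_sup_of_NN hK).1 hg
    refine this (mul_mem k.2 hs) ?_ ?_ (by simpa [mul_assoc] using mul_mem (inv_mem (le_NN_self B hb)) h6)
    · rw [h.s2.act_mul (h.N2 k.2) (h.N2 hs), s2, mul_one]; exact hk.2
    · rw [h.s1.act_mul (h.N1 k.2) (h.N1 hs), s1, show act _ ψ₁ k = 1 from hk.1, one_mul]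
  obtain ⟨a, ha, a3, a1, q1, q2⟩ := h.exists_a hG
  have aQ := h.BQ ha
  have a'B := conj_mem_of_mem_NN hn ha
  refine h.nq _ (mul_mem ha a'B) (fun hc => a1 ?_) ?_
  · have := (h.s1.act_eq_one (h.N1 (h.BQ (mul_mem ha a'B)))).2 fun x hx => by
      rw [(show Commute _ x from (mem_CC.1 hc x hx).symm).commutator_eq]; exact one_mem _
    rw [h.s1.act_mul (h.N1 aQ) (h.N1 (h.BQ a'B)), h.s1.act_mul (h.N1 (mul_mem hs aQ)) (h.N1 (inv_mem hs)),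
      h.s1.act_mul (h.N1 hs) (h.N1 aQ), inv1 s hs s1, s1, neg_one_mul, mul_neg_one, neg_neg] at this
    rw [← a3, pow_succ, pow_two, this, one_mul]
  obtain ⟨V, _, χ, m⟩ := exists_md ((le_NN_self _).trans (h.N1.trans inf_le_right)) h.comm.le
  let U : Submodule ℤ V := AddSubgroup.toIntSubmodule
    { carrier := {v | ∃ w ∈ Wf E, χ w = v}
      zero_mem' := ⟨1, one_mem _, m.one⟩
      add_mem' := by
        rintro _ _ ⟨x, hx, rfl⟩ ⟨y, hy, rfl⟩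
        exact ⟨_, mul_mem hx hy, m.add _ (h.WQ hx) _ (h.WQ hy)⟩
      neg_mem' := by
        rintro _ ⟨x, hx, rfl⟩
        exact ⟨_, inv_mem hx, m.inv (h.WQ hx)⟩ }
  have cm : ∀ {X : Subgroup G} {g x : G}, g ∈ NN(X) → x ∈ X → ⁅g, x⁆ ∈ X := fun hg hx =>
    mul_mem (conj_mem_of_mem_NN hg hx) (inv_mem hx)
  obtain ⟨ss, e⟩ := abs_quad U (a := act (QQ E) χ a) (σ := act (QQ E) χ s) (fun v => by
      obtain ⟨x, hx, rfl⟩ := m.surj v
      rw [← m.pow hx, m.ker _ (pow_mem hx _), ← h.fr]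
      exact pow_mem_frOf (isPGroup_pCoreOf E) hx)
    (fun v => by
      obtain ⟨x, hx, rfl⟩ := m.surj v
      exact ⟨_, (h.s2.act_eq_one (h.N2 hs)).1 s2 x hx, m.comm (h.N3 hs) hx⟩)
    (by
      rintro _ ⟨x, hx, rfl⟩
      have c := conj_mem_of_mem_NN (h.N1 hs).1 hx
      rw [m.act_apply (h.N3 hs) (h.WQ hx), eq_neg_iff_add_eq_zero, ← m.add _ (h.WQ c) _ (h.WQ hx),
        m.ker _ (h.WQ (mul_mem c hx)), ← h.s1.ker _ (mul_mem c hx), h.s1.add _ c _ hx,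
        ← h.s1.act_apply (h.N1 hs) hx, s1]; simp)
    (fun v => by
      obtain ⟨x, hx, rfl⟩ := m.surj v
      refine ⟨⁅a, ⁅a, x⁆⁆, ?_, by rw [m.comm (h.N3 aQ) (cm aQ hx), m.comm (h.N3 aQ) hx]; rfl⟩
      rw [← h.s2.ker _ (cm aQ (cm aQ hx)), h.s2.comm (h.N2 aQ) (cm aQ hx), h.s2.comm (h.N2 aQ) hx, ← End.mul_apply, q2]
      rfl)
    (by
      rintro _ ⟨x, hx, rfl⟩
      have n := (h.N1 aQ).1
      rw [End.mul_apply, ← m.comm (h.N3 aQ) (h.WQ hx), ← m.comm (h.N3 aQ) (h.WQ (cm n hx)),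
        m.ker _ (h.WQ (cm n (cm n hx))), ← h.s1.ker _ (cm n (cm n hx)), h.s1.comm (h.N1 aQ) (cm n hx),
        h.s1.comm (h.N1 aQ) hx, ← End.mul_apply, q1]
      rfl)
    (by
      rintro _ ⟨x, hx, rfl⟩
      exact ⟨_, conj_mem_of_mem_NN (h.N1 aQ).1 hx, (m.act_apply (h.N3 aQ) (h.WQ hx)).symm⟩)
  refine m.quad_le (h.N3 (h.BQ (mul_mem ha a'B))) ?_
  rwa [m.act_mul (h.N3 aQ) (h.N3 (h.BQ a'B)), m.act_mul (h.N3 (mul_mem hs aQ)) (h.N3 (inv_mem hs)),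
    m.act_mul (h.N3 hs) (h.N3 aQ), ← left_inv_eq_right_inv ss (m.act_mul_inv (h.N3 hs))]

end Exc

end H14.Bb
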