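import Cfsg.Agent.H14.BbC
import Cfsg.Agent.H2.ZS3

/-!
Exceptional Baumann blocks inside `O₃(G)`.
-/

set_option autoImplicit false
set_option linter.unusedSectionVars false
set_option linter.unusedVariables false

namespace H14.Bb
open Cfsg Subgroup H10 H12 Matrix Module
open scoped commutatorElement MatrixGroups

universe u
variable {G : Type u} [Group G] {F : Type} [Field F]

/-- a linear action as an action by automorphisms -/
def toAut {V : Type*} [AddCommGroup V] (φ : G →* End ℤ V) : G →* MulAut (Multiplicative V) where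
  toFun g :=
    { toFun := fun v => Multiplicative.ofAdd (φ g v.toAdd)
      invFun := fun v => Multiplicative.ofAdd (φ g⁻¹ v.toAdd)
      left_inv := fun v => by simp [← End.mul_apply, ← map_mul]
      right_inv := fun v => by simp [← End.mul_apply, ← map_mul]
      map_mul' := fun v w => by simp }
  map_one' := by ext v; simp
  map_mul' a b := by ext v; simp

theorem cm {X : Subgroup G} {g x : G} (hg : g ∈ NN(X)) (hx : x ∈ X) : ⁅g, x⁆ ∈ X :=
  mul_mem (conj_mem_of_mem_NN hg hx) (inv_mem hx)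

theorem zp_le {x : G} {V N : Subgroup G} (h : x ∈ stabMod V N) : ⁅V, zpowers x⁆ ≤ N :=
  commutator_comm (zpowers x) V ▸ (le_stabMod.1 (zpowers_le.2 h)).2

theorem mem_stab {L V N : Subgroup G} {x : G} (hx : x ∈ L) (h1 : L ≤ NN(N)) (h2 : ⁅L, V⁆ ≤ N) : x ∈ stabMod V N :=
  le_stabMod.2 ⟨h1, h2⟩ hx

/-- `Z(O₃(G))` -/
abbrev ZP (G : Type u) [Group G] : Subgroup G := pCore 3 G ⊓ CC(pCore 3 G)

theorem nP (L : Subgroup G) : L ≤ NN(pCore 3 G) := le_NN_of_normal _ _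
theorem nZP (L : Subgroup G) : L ≤ NN(ZP G) := le_NN_inf (nP L) (le_NN_CC (nP L))

variable [Finite G]

theorem fin_step {p : ℕ} [Fact p.Prime] {T : Sylow p G} {E : Subgroup G} (hE : IsBaumannBlock p (T : Subgroup G) E)
    (h : IsPGroup p (⁅CC(⁅ZO p (pCoreOf p E), E⁆), E⁆ : Subgroup G)) : CC(⁅ZO p (pCoreOf p E), E⁆) ≤ NN(E) := by
  have BE : baumannSubgroupOf p (T : Subgroup G) ≤ NN(E) := hE.2.1 ▸ right_le_NN_comm E _
  have h1 := block_le_NN (isSylowIn_top T) hE h (le_NN_commutator (le_NN_CC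
    (le_NN_commutator (le_NN_ZO (le_NN_pCoreOf' BE)) BE)) BE) (right_le_NN_comm _ _)
  have h2 := (resOf_sup_pgroup h h1).trans hE.1
  refine le_trans ?_ ((NN_le_NN_resOf (p := p) _).trans (by rw [h2]))
  apply le_NN_of_comm_le_left
  refine comm_sup_le (le_sup_left.trans (le_NN_self _)) (le_sup_right.trans (le_NN_self _))
    ((commutator_comm _ _).le.trans le_sup_right) ((comm_le_left (left_le_NN_comm _ _)).trans le_sup_right)

theorem comm_CE {E C V N : Subgroup G} (h : ⁅V, E⁆ ≤ N) (h1 : E ≤ NN(N)) (h2 : C ≤ NN(V)) (h3 : C ≤ NN(N)) :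
    ⁅C, E⁆ ≤ stabMod V N := le_stabMod.2 ⟨comm_le_of_le h3 h1, (commutator_mono (comm_le_ncl E C) le_rfl).trans
      (comm_ncl_le (commutator_comm V E ▸ h) h1 h2 h3)⟩

theorem PE {p : ℕ} [Fact p.Prime] {T : Sylow p G} {E : Subgroup G} (hE : IsBaumannBlock p (T : Subgroup G) E) :
    pCore p G ≤ NN(E) :=
  block_le_NN (isSylowIn_top T) hE isPGroup_pCore' (le_NN_of_normal _ _) (le_NN_of_normal _ _)

theorem PEQ {p : ℕ} [Fact p.Prime] {T : Sylow p G} {E : Subgroup G} (hE : IsBaumannBlock p (T : Subgroup G) E) :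
    ⁅pCore p G, E⁆ ≤ pCoreOf p E :=
  le_pCoreOf (isPGroup_pCore'.to_le (comm_le_left (le_NN_of_normal _ _))) (comm_le_right (PE hE))
    (right_le_NN_comm _ _)

theorem easy {p : ℕ} [Fact p.Prime] (hG : centralizer (pCore p G : Set G) ≤ pCore p G) {T : Sylow p G} {E : Subgroup G}
    (hE : IsBaumannBlock p (T : Subgroup G) E) (h : ⁅pCore p G, E⁆ ≤ ZO p (pCoreOf p E)) :
    CC(⁅ZO p (pCoreOf p E), E⁆) ≤ NN(E) := by
  have hr : resOf p E = E := hE.1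
  have h1 : ⁅pCore p G, E⁆ ≤ ⁅ZO p (pCoreOf p E), E⁆ := hr ▸
    comm_resOf_le_of_le isPGroup_pCore' (le_NN_of_normal _ _) (hr.symm ▸ h) le_rfl
  have h2 := (le_stabMod.1 (comm_CE h1 (right_le_NN_comm _ _) (le_NN_of_normal _ _) (CC_le_NN _))).2
  refine fin_step hE ((charPIn_top.2 hG).isPGroup le_top ?_)
  rw [pCoreOf_top]
  refine resOf_le_CC_of_step ((isPGroup_ZO _).to_le (comm_le_left (le_NN_ZO (le_NN_pCoreOf E))))
    ((commutator_comm _ _).le.trans ((commutator_mono (resOf_le _) le_rfl).trans h2))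
    ((resOf_le _).trans (comm_le_left (le_NN_CC (right_le_NN_comm _ _))))

namespace Exc
variable [Fintype F] {T : Sylow 3 G} {E : Subgroup G} {ψ₁ ψ₂ : G → Fin 2 → F} {ρ₁ ρ₂ : E →* SL(2, F)} {t : E}
  (h : Exc (T : Subgroup G) E ψ₁ ψ₂ ρ₁ ρ₂ t)
include h

theorem not_le : ¬ QQ E ≤ Wf E := fun k => by
  obtain ⟨x, hx, e⟩ := h.s2.surj ![1, 0]
  simpa using congrFun (e.symm.trans ((h.s2.ker x hx).2 (k hx))) 0

theorem pW {Y : Subgroup G} (hY : IsPGroup 3 Y) (h1 : Y ≤ NN(QQ E)) (h2 : E ≤ NN(Y)) : ⁅QQ E, Y⁆ ≤ Wf E := by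
  refine (h.s2.irr _ (comm_le_left h1) (le_NN_commutator h.EQ h2)).resolve_right fun k => h.not_le ?_
  exact le_of_le_sup_comm_pgroup (isPGroup_sup_of_NN' (isPGroup_pCoreOf E) hY h1) le_sup_left (h.WQ.trans le_sup_left)
    le_sup_right (le_NN_ZO h1) (sup_comm _ (Wf E) ▸ k)

theorem act_t1 : act (Wf E) ψ₁ t = -1 := LinearMap.ext fun v => by rw [h.s1.act_eq, h.t1, sl_neg]; rfl
theorem act_t2 : act (QQ E) ψ₂ t = -1 := LinearMap.ext fun v => by rw [h.s2.act_eq, h.t2, sl_neg]; rfl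

theorem ord_t : orderOf (t : G) = 2 := orderOf_eq_prime (by rw [pow_two, h.tt']) fun k =>
  neg_ne h.h3 (by rw [← h.t1, show t = 1 from Subtype.ext k, map_one])

variable (hG : centralizer (pCore 3 G : Set G) ≤ pCore 3 G)
include hG

theorem WZP : WW E ≤ ZP G := (Cfsg.Agent.S2984.result hG T E h.blk).2.1.trans (omegaOne_le _)

theorem QP_of (k : ¬ ⁅pCore 3 G, E⁆ ≤ Wf E) : QQ E ≤ pCore 3 G := by
  have := (h.s2.irr (QQ E ⊓ pCore 3 G) inf_le_left (le_NN_inf h.EQ (nP _))).resolve_left fun k' =>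
    k ((le_inf (PEQ h.blk) (comm_le_left (nP _))).trans k')
  refine (eq_of_sup_frOf (N := ZZ E) inf_le_left h.fr.ge (this.trans (sup_le le_sup_left (h.Wf_le.trans
    (sup_le_sup_right (le_inf (h.WWf.trans h.WQ) ((h.WZP hG).trans inf_le_left)) _))))).ge.trans inf_le_right

variable (hQ : QQ E ≤ pCore 3 G)
include hQ

theorem QPW : ⁅QQ E, pCore 3 G⁆ ≤ Wf E := h.pW isPGroup_pCore' (le_NN_pCoreOf' (PE h.blk)) (nP _)

theorem WfZP : Wf E ≤ ZP G := by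
  refine h.Wf_le.trans (sup_le (h.WZP hG) (le_inf (inf_le_left.trans (h.WQ.trans hQ)) ?_))
  have k : ⁅⁅QQ E, pCore 3 G⁆, QQ E⁆ ≤ ⊥ :=
    (commutator_mono (h.QPW hG hQ) le_rfl).trans (comm_eq_bot.2 (ZO_le_CC _)).le
  rw [← h.comm, ← comm_eq_bot, ← le_bot_iff]
  exact three_subgroups (le_NN_of_normal _ _) (le_NN_of_normal _ _) (le_NN_of_normal _ _) k
    (commutator_comm (QQ E) (pCore 3 G) ▸ k)

theorem ZPE : ⁅ZP G, E⁆ ≤ WW E := by
  have hr : resOf 3 E = E := h.blk.1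
  have k : ⁅ZP G, E⁆ ≤ Wf E := fun x hx => h.center_le (((commutator_mono inf_le_left le_rfl).trans (PEQ h.blk)) hx)
    (CC_anti hQ (comm_le_left (nZP E) hx).2)
  have := comm_resOf_le_of_le (V := ZP G) (L := E) (U := WW E) (isPGroup_pCore'.to_le inf_le_left) (nZP _)
    (hr.symm ▸ k) (hr.symm ▸ le_rfl)
  rwa [hr] at this

theorem Q_eq' : ⁅pCore 3 G, zpowers (t : G)⁆ = QQ E :=
  le_antisymm ((commutator_mono le_rfl (zpowers_le.2 t.2)).trans (PEQ h.blk))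
    (h.Q_eq.ge.trans (commutator_mono hQ le_rfl))

theorem NQ_of {g : G} (k : Commute (t : G) g) : g ∈ NN(QQ E) :=
  h.Q_eq' hG hQ ▸ mem_NN_commutator (nP ⊤ (mem_top g)) (CC_le_NN _ (by
    rw [CC_zpowers, mem_centralizer_singleton_iff]; exact k.symm.eq))

theorem RC : ⁅CC(WW E), E⁆ ≤ CC(WW E) := comm_le_left (le_NN_CC (right_le_NN_comm _ _))

theorem cenZP {x : G} (hx : x ∈ ⁅CC(WW E), E⁆) (ho : (orderOf x).Coprime 3) : x ∈ CC(ZP G) := by
  have hr := resOf_eq_of_coprime (coprime_zpowers ho)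
  have := resOf_le_CC_of_step (V := ZP G) (L := zpowers x) ((isPGroup_ZO _).to_le h.WWf) (hr.symm ▸ zp_le
    (comm_CE (h.ZPE hG hQ) (right_le_NN_comm _ _) (nZP _) (CC_le_NN _) hx)) (hr.symm ▸ zpowers_le.2 (h.RC hG hQ hx))
  exact this (hr.symm ▸ mem_zpowers x)

theorem triv {x : G} (hx : x ∈ ⁅CC(WW E), E⁆) (ho : (orderOf x).Coprime 3) {X : Subgroup G} (hX : X ≤ pCore 3 G)
    (h1 : x ∈ stabMod (pCore 3 G) X) (h2 : x ∈ stabMod X (ZP G)) : x = 1 := by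
  have hr := resOf_eq_of_coprime (coprime_zpowers ho)
  have := resOf_le_CC_of_step (V := pCore 3 G) (L := zpowers x) (isPGroup_pCore'.to_le hX) (hr.symm ▸ zp_le h1)
    (resOf_le_CC_of_step (isPGroup_pCore'.to_le inf_le_left) (hr.symm ▸ zp_le h2)
      (hr.symm ▸ zpowers_le.2 (h.cenZP hG hQ hx ho)))
  exact (charPIn_top.2 hG).eq_one (mem_top x) (pCoreOf_top (p := 3) (G := G) ▸ this (hr.symm ▸ mem_zpowers x)) ho

theorem dt_R {x : G} (hx : x ∈ ⁅CC(WW E), E⁆) (ho : (orderOf x).Coprime 3) (hn : x ∈ NN(QQ E)) (v w : Fin 2 → F) :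
    dt (act (QQ E) ψ₂ x v) (act (QQ E) ψ₂ x w) = dt v w :=
  h.dt_act hn (CC_anti (inf_le_left.trans (h.WfZP hG hQ)) (h.cenZP hG hQ hx ho)) v w

omit h hG hQ in
theorem cop2 {r : G} (rr : r * r = 1) : (orderOf r).Coprime 3 :=
  Nat.Coprime.coprime_dvd_left (orderOf_dvd_of_pow_eq_one (by rw [pow_two, rr] : r ^ 2 = 1)) (by decide)

theorem invol {r : G} (hx : r ∈ ⁅CC(WW E), E⁆) (rr : r * r = 1) (hn : r ∈ NN(QQ E)) : act (QQ E) ψ₂ r = 1 := by
  have tQ := h.EQ t.2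
  refine (inv_pm (two_ne h.h3) (by rw [← h.s2.act_mul (h.N2 hn) (h.N2 hn), rr, h.s2.act_one])
    (h.dt_R hG hQ hx (cop2 rr) hn)).resolve_right fun e => h.nos hG (mul_mem hn tQ) ?_ ?_
  · rw [h.s2.act_mul (h.N2 hn) (h.N2 tQ), e, h.act_t2]; simp
  · rw [h.s1.act_mul (h.N1 hn) (h.N1 tQ), h.act_t1, (h.s1.act_eq_one (h.N1 hn)).2 fun x hx' => ?_, one_mul]
    rw [(show Commute r x from (mem_CC.1 (h.cenZP hG hQ hx (cop2 rr)) x (h.WfZP hG hQ hx')).symm).commutator_eq]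
    exact one_mem _

theorem stab2 {x : G} (hn : x ∈ NN(QQ E)) (e : act (QQ E) ψ₂ x = 1) : x ∈ stabMod (QQ E) (ZP G) :=
  ⟨nZP ⊤ (mem_top x), fun y hy => h.WfZP hG hQ ((h.s2.act_eq_one (h.N2 hn)).1 e y hy)⟩

omit h hG hQ in
theorem stab_sup {x : G} {X : Subgroup G} (e : x ∈ stabMod X (ZP G)) : x ∈ stabMod (X ⊔ ZP G) (ZP G) :=
  mem_stab (mem_zpowers x) (nZP _) (comm_sup_le' (nZP _) (nZP _) (commutator_comm X _ ▸ zp_le e) (comm_le_right (nZP _)))

theorem t_stab {X : Subgroup G} (hX : QQ E ≤ X) (hn : (t : G) ∈ NN(X)) : (t : G) ∈ stabMod (pCore 3 G) X :=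
  ⟨hn, fun y hy => hX (PEQ h.blk (commutator_comm E _ ▸ commutator_mem_commutator t.2 hy))⟩

theorem stepA {c : G} (hc : c ∈ CC(WW E)) (k : Commute (t : G) (c * t * c⁻¹)) : c * t * c⁻¹ = t := by
  have sQ := h.NQ_of hG hQ k
  have tQ := h.EQ t.2
  have hr : c * t * c⁻¹ * t ∈ ⁅CC(WW E), E⁆ := by
    have := commutator_mem_commutator hc t.2
    rwa [commutatorElement_def, h.tinv] at this
  have ss : c * t * c⁻¹ * (c * t * c⁻¹) = 1 := by rw [conj_mul, h.tt']; simp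
  have rr : c * t * c⁻¹ * t * (c * t * c⁻¹ * t) = 1 := by
    have tt := h.tt'
    generalize c * t * c⁻¹ = s at k ss
    rw [mul_assoc s, ← mul_assoc (t : G), k.eq, mul_assoc s, tt, mul_one, ss]
  have e1 := h.invol hG hQ hr rr (mul_mem sQ tQ)
  have e2 : act (QQ E) ψ₂ (c * t * c⁻¹) = -1 := by
    rwa [h.s2.act_mul (h.N2 sQ) (h.N2 tQ), h.act_t2, mul_neg_one, neg_eq_iff_eq_neg] at e1
  have l0 : ∀ x ∈ pCore 3 G, ⁅c * t * c⁻¹, x⁆ ∈ cj c (QQ E) := fun x hx => by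
    have := conj_mem_cj (g := c) (h.t_stab hG hQ le_rfl tQ |>.2 _ (conj_mem_of_mem_NN' (nP ⊤ (mem_top c)) hx))
    rw [conjugate_commutatorElement] at this
    convert this using 2; group
  have l1 : QQ E ⊔ ZP G ≤ cj c (QQ E ⊔ ZP G) := by
    rw [cj_sup, cj_eq_of_mem_NN (nZP ⊤ (mem_top c))]
    refine sup_le (fun x hx => ?_) le_sup_right
    obtain ⟨j, hj⟩ := h.pQ hx
    have c1 := conj_mem_of_mem_NN sQ hx
    refine mem_of_sq hj ?_
    rw [show x * x = ⁅c * t * c⁻¹, x⁆⁻¹ * (c * t * c⁻¹ * x * (c * t * c⁻¹)⁻¹ * x) by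
      simp only [commutatorElement_def]; group]
    refine mul_mem (mem_sup_left (inv_mem (l0 x (hQ hx)))) (mem_sup_right (h.WfZP hG hQ ?_))
    rw [← h.s2.ker _ (mul_mem c1 hx), h.s2.add _ c1 _ hx, ← h.s2.act_apply (h.N2 sQ) hx, e2]; simp
  have l2 := eq_of_le_of_card_ge l1 (card_cj _ _).le
  have n := fun {g} (hg : g ∈ NN(QQ E)) => mem_NN_sup hg (nZP ⊤ (mem_top g))
  have := h.triv hG hQ hr (cop2 rr) (sup_le hQ inf_le_left) (mul_mem ⟨n sQ, fun x hx => by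
    rw [l2, cj_sup]; exact mem_sup_left (l0 x hx)⟩ (h.t_stab hG hQ le_sup_left (n tQ)))
    (stab_sup (h.stab2 hG hQ (mul_mem sQ tQ) e1))
  rw [mul_eq_one_iff_eq_inv.1 this, h.tinv]

end Exc

end H14.Bb
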