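import Cfsg.Agent.H3.S8h
import Cfsg.Agent.H2.P2
import Cfsg.Prelude.Def_Local

/-! A strongly embedded argument for `Alt(5) × Alt(5)`. -/

set_option autoImplicit false
open Subgroup Equiv H3S

namespace H14.D4

theorem p1 : ∀ a : Perm (Fin 5), Perm.sign a = 1 → a * a = 1 → a = 1 ∨
    ∃ c : Perm (Fin 5), Perm.sign c = 1 ∧ a = c * (swap 0 1 * swap 3 4) * c⁻¹ := by
  decide +kernel

theorem p2 : ∀ a : Perm (Fin 5), Perm.sign a = 1 →
    a * (swap 0 1 * swap 3 4) = (swap 0 1 * swap 3 4) * a → a = 1 ∨ a = swap 0 1 * swap 3 4 ∨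
      a = swap 0 3 * swap 1 4 ∨ a = (swap 0 1 * swap 3 4) * (swap 0 3 * swap 1 4) := by
  decide +kernel

theorem a1 (a : A5) (h : a * a = 1) : a = 1 ∨ ∃ c : A5, a = c * e5 * c⁻¹ := by
  rcases p1 a.1 a.2 (congrArg Subtype.val h) with e | ⟨c, hc, e⟩
  · exact .inl (Subtype.ext e)
  · exact .inr ⟨⟨c, hc⟩, Subtype.ext e⟩

theorem ee : e5 * e5 = 1 := Subtype.ext (by decide)
theorem ff : f5 * f5 = 1 := Subtype.ext (by decide)
theorem ef : e5 * f5 = f5 * e5 := Subtype.ext (by decide)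
theorem e1 : e5 ≠ 1 := fun h => absurd (congrArg Subtype.val h) (by decide)
theorem f1 : f5 ≠ 1 := fun h => absurd (congrArg Subtype.val h) (by decide)
theorem enf : e5 ≠ f5 := fun h => absurd (congrArg Subtype.val h) (by decide)
theorem ef1 : e5 * f5 ≠ 1 := fun h => absurd (congrArg Subtype.val h) (by decide)
theorem efe : e5 * (e5 * f5) ≠ 1 := fun h => absurd (congrArg Subtype.val h) (by decide)
theorem efef : e5 * f5 * (e5 * f5) = 1 := Subtype.ext (by decide)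
theorem enef : e5 ≠ e5 * f5 := fun h => absurd (congrArg Subtype.val h) (by decide)
theorem fnef : f5 ≠ e5 * f5 := fun h => absurd (congrArg Subtype.val h) (by decide)

theorem eV : e5 ∈ V4 := subset_closure (by simp)
theorem fV : f5 ∈ V4 := subset_closure (by simp)

theorem a2 (a : A5) (h : a * e5 = e5 * a) : a = 1 ∨ a = e5 ∨ a = f5 ∨ a = e5 * f5 := by
  rcases p2 a.1 a.2 (congrArg Subtype.val h) with e | e | e | e
  · exact .inl (Subtype.ext e)
  · exact .inr (.inl (Subtype.ext e))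
  · exact .inr (.inr (.inl (Subtype.ext e)))
  · exact .inr (.inr (.inr (Subtype.ext e)))

theorem V_le : V4 ≤ centralizer {e5} := by
  rw [V4, closure_le]
  rintro _ (rfl | rfl)
  · exact mem_centralizer_singleton_iff.2 rfl
  · exact mem_centralizer_singleton_iff.2 ef.symm

theorem memV (a : A5) : a ∈ V4 ↔ a = 1 ∨ a = e5 ∨ a = f5 ∨ a = e5 * f5 := by
  constructor
  · intro h
    exact a2 a (mem_centralizer_singleton_iff.1 (V_le h))
  · rintro (rfl | rfl | rfl | rfl)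
    · exact one_mem _
    · exact eV
    · exact fV
    · exact mul_mem eV fV

theorem Vcomm {a b : A5} (ha : a ∈ V4) (hb : b ∈ V4) : a * b = b * a := by
  rcases (memV a).1 ha with rfl | rfl | rfl | rfl <;>
    rcases (memV b).1 hb with rfl | rfl | rfl | rfl <;> exact Subtype.ext (by decide)

theorem cardV : Nat.card V4 = 4 := by
  have : (V4 : Set A5) = {1, e5, f5, e5 * f5} := by
    ext a; simp [memV]
  rw [← SetLike.coe_sort_coe, this, Nat.card_coe_set_eq, Set.ncard_insert_of_notMem,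
    Set.ncard_insert_of_notMem, Set.ncard_pair fnef]
  · simp only [Set.mem_insert_iff, Set.mem_singleton_iff, not_or]
    exact ⟨enf, enef⟩
  · simp only [Set.mem_insert_iff, Set.mem_singleton_iff, not_or]
    exact ⟨e1.symm, f1.symm, ef1.symm⟩

theorem syl {X : Type*} [Group X] [Finite X] (H : Subgroup X) (h16 : Nat.card H = 16)
    (h32 : ¬ 32 ∣ Nat.card X) : ∃ P : Sylow 2 X, (P : Subgroup X) = H := by
  have : Fact (Nat.Prime 2) := ⟨by norm_num⟩
  refine ⟨Sylow.ofCard H ?_, rfl⟩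
  have a := (Nat.Prime.pow_dvd_iff_le_factorization (p := 2) (k := 4) (by norm_num)
    (Nat.card_pos (α := X)).ne').1 (by have := card_subgroup_dvd_card H; rwa [h16] at this)
  have b := mt (Nat.Prime.pow_dvd_iff_le_factorization (p := 2) (k := 5) (by norm_num)
    (Nat.card_pos (α := X)).ne').2 h32
  have : (Nat.card X).factorization 2 = 4 := by omega
  rw [this, h16]; rfl

variable {G : Type*} [Group G] [Finite G] {σ t : G} {θ : A5 × A5 →* G}

theorem two {x y : G} (xx : x * x = 1) (yy : y * y = 1) (h : ¬ IsConj x y) :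
    ∃ k : ℕ, (x * y) ^ k ≠ 1 ∧ (x * y) ^ k * (x * y) ^ k = 1 ∧ (x * y) ^ k * x = x * (x * y) ^ k ∧
      (x * y) ^ k * y = y * (x * y) ^ k := by
  set c := x * y with hc
  have xi : x⁻¹ = x := inv_eq_of_mul_eq_one_right xx
  have yi : y⁻¹ = y := inv_eq_of_mul_eq_one_right yy
  have hx : x * c * x⁻¹ = c⁻¹ := by
    rw [hc, mul_inv_rev, xi, yi, ← mul_assoc, xx, one_mul]
  have hy : y * c * y⁻¹ = c⁻¹ := by
    rw [hc, mul_inv_rev, xi, yi, mul_assoc, mul_assoc, yy, mul_one]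
  have hxk : ∀ k : ℕ, x * c ^ k * x⁻¹ = (c ^ k)⁻¹ := fun k => by rw [← conj_pow, hx, inv_pow]
  have hyk : ∀ k : ℕ, y * c ^ k * y⁻¹ = (c ^ k)⁻¹ := fun k => by rw [← conj_pow, hy, inv_pow]
  have po := orderOf_pos c
  have pw := pow_orderOf_eq_one c
  rcases Nat.even_or_odd' (orderOf c) with ⟨k, e | e⟩
  · have kk : c ^ k * c ^ k = 1 := by rw [← pow_add, ← two_mul, ← e, pw]
    have ki : (c ^ k)⁻¹ = c ^ k := inv_eq_of_mul_eq_one_right kk
    refine ⟨k, pow_ne_one_of_lt_orderOf (by omega) (by omega), kk, ?_, ?_⟩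
    · have := hxk k
      rw [ki, mul_inv_eq_iff_eq_mul] at this
      exact this.symm
    · have := hyk k
      rw [ki, mul_inv_eq_iff_eq_mul] at this
      exact this.symm
  · exfalso
    apply h
    rw [isConj_iff]
    refine ⟨c ^ k, ?_⟩
    have h2 : c ^ k * c ^ k * c = 1 := by rw [← pow_add, ← pow_succ, ← two_mul, ← e, pw]
    have h3 : x * (c ^ k)⁻¹ = c ^ k * x := by
      rw [← hxk k, ← mul_assoc, ← mul_assoc, xx, one_mul, xi]
    have h4 : y = c⁻¹ * x := by rw [hc, mul_inv_rev, xi, yi, mul_assoc, xx, mul_one]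
    rw [mul_assoc, h3, ← mul_assoc, h4, eq_inv_of_mul_eq_one_left h2]

omit [Finite G] in
theorem memU (u : G) : u ∈ U θ ↔ ∃ a ∈ V4, ∃ b ∈ V4, u = θ (a, b) := by
  constructor
  · rintro ⟨⟨a, b⟩, ⟨ha, hb⟩, rfl⟩
    exact ⟨a, ha, b, hb, rfl⟩
  · rintro ⟨a, ha, b, hb, rfl⟩
    exact ⟨(a, b), ⟨ha, hb⟩, rfl⟩

omit [Finite G] in
theorem Ucomm {u v : G} (hu : u ∈ U θ) (hv : v ∈ U θ) : u * v = v * u := by
  obtain ⟨a, ha, b, hb, rfl⟩ := (memU u).1 hu
  obtain ⟨c, hc, d, hd, rfl⟩ := (memU v).1 hv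
  rw [← map_mul, ← map_mul, Prod.mk_mul_mk, Prod.mk_mul_mk, Vcomm ha hc, Vcomm hb hd]

omit [Finite G] in
theorem cardU (h : Function.Injective θ) : Nat.card (U θ) = 16 := by
  rw [U, card_map_of_injective h, Nat.card_congr (prodEquiv V4 V4).toEquiv, Nat.card_prod, cardV]

omit [Finite G] in
theorem U_le : U θ ≤ θ.range := map_le_range _ _

omit [Finite G] in
theorem norm_sub {X : Subgroup G} (hU : U θ ≤ X) (n : X)
    (hn : n ∈ normalizer (((U θ).subgroupOf X : Subgroup X) : Set X)) :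
    (n : G) ∈ normalizer (U θ : Set G) := by
  rw [← subgroupOf_normalizer_eq hU] at hn
  exact hn

omit [Finite G] in
theorem cconj {N : Subgroup G} (hM : θ.range ≤ N) {x : G}
    (hx : ∀ g ∈ N, g * x = x * g → g ∈ θ.range) {m : G} (hm : m ∈ θ.range) :
    ∀ g ∈ N, g * (m * x * m⁻¹) = m * x * m⁻¹ * g → g ∈ θ.range := by
  intro g hg e
  have := hx (m⁻¹ * g * m) (mul_mem (mul_mem (inv_mem (hM hm)) hg) (hM hm)) (by
    calc m⁻¹ * g * m * x = m⁻¹ * (g * (m * x * m⁻¹)) * m := by group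
      _ = _ := by rw [e]; group)
  have e2 : g = m * (m⁻¹ * g * m) * m⁻¹ := by group
  rw [e2]
  exact mul_mem (mul_mem hm this) (inv_mem hm)

omit [Finite G] in
theorem stepA (N : Subgroup G) (hM : θ.range ≤ N)
    (hr : ∀ g ∈ N, g * θ (1, e5) = θ (1, e5) * g → g ∈ θ.range) {a : A5} (aa : a * a = 1)
    (a0 : a ≠ 1) : ∀ g ∈ N, g * θ (1, a) = θ (1, a) * g → g ∈ θ.range := by
  obtain ⟨c, rfl⟩ := (a1 a aa).resolve_left a0
  have : θ (1, c * e5 * c⁻¹) = θ (1, c) * θ (1, e5) * (θ (1, c))⁻¹ := by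
    rw [← map_inv, ← map_mul, ← map_mul]; simp
  rw [this]
  exact cconj hM hr ⟨_, rfl⟩

omit [Finite G] in
theorem stepA' (h : H2 θ t σ) (N : Subgroup G) [hN : N.Normal] (hM : θ.range ≤ N)
    (hr : ∀ g ∈ N, g * θ (1, e5) = θ (1, e5) * g → g ∈ θ.range) {a : A5} (aa : a * a = 1)
    (a0 : a ≠ 1) : ∀ g ∈ N, g * θ (a, 1) = θ (a, 1) * g → g ∈ θ.range := by
  intro g hg e
  have si : σ⁻¹ = σ := inv_eq_of_mul_eq_one_right h.ss
  obtain ⟨⟨x, y⟩, e2⟩ := stepA N hM hr aa a0 (σ * g * σ⁻¹) (hN.conj_mem g hg σ) (by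
    have e3 := h.sa a 1
    nth_rw 2 [← si] at e3
    rw [← e3]
    calc σ * g * σ⁻¹ * (σ * θ (a, 1) * σ⁻¹) = σ * (g * θ (a, 1)) * σ⁻¹ := by group
      _ = _ := by rw [e]; group)
  refine ⟨(y, x), ?_⟩
  rw [← h.sa, e2]
  nth_rw 1 [← si]
  group

theorem stepB (h : H2 θ t σ) (N : Subgroup G) (hM : θ.range ≤ N) (h32 : ¬ 32 ∣ Nat.card N)
    (hn : NU θ N) (hr : ∀ g ∈ N, g * θ (1, e5) = θ (1, e5) * g → g ∈ θ.range) :
    ∀ g ∈ N, g * θ (e5, e5) = θ (e5, e5) * g → g ∈ θ.range := by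
  have : Fact (Nat.Prime 2) := ⟨by norm_num⟩
  set X : Subgroup G := N ⊓ centralizer {θ (e5, e5)} with hX
  have dU : θ (e5, e5) ∈ U θ := (memU _).2 ⟨_, eV, _, eV, rfl⟩
  have hU : U θ ≤ X := fun u hu => ⟨hM (U_le hu), mem_centralizer_singleton_iff.2 (Ucomm hu dU)⟩
  obtain ⟨P, hP⟩ := syl ((U θ).subgroupOf X)
    (by rw [Nat.card_congr (subgroupOfEquivOfLe hU).toEquiv, cardU h.inj])
    (fun e => h32 (e.trans (card_dvd_of_le inf_le_left)))
  have hc : normalizer ((P : Subgroup X) : Set X) ≤ centralizer ((P : Subgroup X) : Set X) := by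
    rw [hP]
    intro n hn' u hu
    obtain ⟨a, -, b, -, e⟩ := hn n n.2.1 (norm_sub hU n hn')
    have e2 := e _ dU
    rw [mem_centralizer_singleton_iff.1 n.2.2, mul_inv_cancel_right, eq_mul_inv_iff_mul_eq,
      ← map_mul, ← map_mul] at e2
    have e3 := h.inj e2
    have ha : a ∈ V4 := (memV a).2 (a2 a (congrArg Prod.fst e3).symm)
    have hb : b ∈ V4 := (memV b).2 (a2 b (congrArg Prod.snd e3).symm)
    have hu' : (u : G) ∈ U θ := hu
    have e4 := e u hu'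
    rw [Ucomm ((memU _).2 ⟨a, ha, b, hb, rfl⟩) hu', mul_inv_cancel_right,
      mul_inv_eq_iff_eq_mul] at e4
    exact Subtype.ext e4.symm
  have co := MonoidHom.ker_transferSylow_isComplement' P hc
  have od := MonoidHom.not_dvd_card_ker_transferSylow P hc
  set K' := (MonoidHom.transferSylow P hc).ker with hK'
  have nK : ∀ u ∈ U θ, u ∈ normalizer ((K'.map X.subtype : Subgroup G) : Set G) := by
    intro u hu
    have : (⟨u, hU hu⟩ : X) ∈ normalizer (K' : Set X) := by rw [normalizer_eq_top]; trivial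
    exact le_normalizer_map X.subtype ⟨_, this, rfl⟩
  have hK : K'.map X.subtype ≤ θ.range := by
    refine H2.P2.fgen (a := θ (1, e5)) (b := θ (1, f5)) ?_ ?_ ?_ ?_ ?_ ?_ ?_
      (nK _ ((memU _).2 ⟨_, one_mem _, _, eV, rfl⟩)) (nK _ ((memU _).2 ⟨_, one_mem _, _, fV, rfl⟩)) ?_
    · rw [card_subtype]
      exact Nat.odd_iff.2 (by omega)
    · rw [← map_mul, Prod.mk_mul_mk, ee, one_mul]; exact map_one θ
    · rw [← map_mul, Prod.mk_mul_mk, ff, one_mul]; exact map_one θ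
    · rw [← map_mul, ← map_mul, Prod.mk_mul_mk, Prod.mk_mul_mk, ef]
    · exact fun e => e1 (congrArg Prod.snd (h.inj (e.trans (map_one θ).symm)))
    · exact fun e => f1 (congrArg Prod.snd (h.inj (e.trans (map_one θ).symm)))
    · exact fun e => enf (congrArg Prod.snd (h.inj e))
    · intro y hy g hg
      have gN : g ∈ N := (map_subtype_le K' hg.1).1
      have gc := mem_centralizer_singleton_iff.1 hg.2
      simp only [List.mem_cons, List.not_mem_nil, or_false] at hy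
      rcases hy with rfl | rfl | rfl
      · exact stepA N hM hr ee e1 g gN gc
      · exact stepA N hM hr ff f1 g gN gc
      · rw [← map_mul, Prod.mk_mul_mk, one_mul] at gc
        exact stepA N hM hr efef ef1 g gN gc
  intro g hg e
  obtain ⟨⟨k, p⟩, e2⟩ := co.2 (⟨g, hg, mem_centralizer_singleton_iff.2 e⟩ : X)
  have e3 : g = (k.1 : G) * (p.1 : G) := (congrArg Subtype.val e2).symm
  rw [e3]
  refine mul_mem (hK ⟨k.1, k.2, rfl⟩) (U_le ?_)
  have : p.1 ∈ (U θ).subgroupOf X := hP ▸ p.2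
  exact this

omit [Finite G] in
theorem intoU {i : G} (hi : i ∈ θ.range) (inj : Function.Injective θ) (ii : i * i = 1) :
    ∃ m ∈ θ.range, ∃ u ∈ U θ, i = m * u * m⁻¹ := by
  obtain ⟨⟨a, b⟩, rfl⟩ := hi
  rw [← map_mul, ← map_one θ] at ii
  have e := inj ii
  have ha : ∀ a : A5, a * a = 1 → ∃ c : A5, ∃ v ∈ V4, a = c * v * c⁻¹ := by
    intro a aa
    rcases a1 a aa with rfl | ⟨c, rfl⟩
    · exact ⟨1, 1, one_mem _, by simp⟩
    · exact ⟨c, e5, eV, rfl⟩
  obtain ⟨c, v, hv, rfl⟩ := ha a (congrArg Prod.fst e)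
  obtain ⟨c', v', hv', rfl⟩ := ha b (congrArg Prod.snd e)
  refine ⟨θ (c, c'), ⟨_, rfl⟩, θ (v, v'), (memU _).2 ⟨_, hv, _, hv', rfl⟩, ?_⟩
  rw [← map_inv, ← map_mul, ← map_mul]; rfl

theorem d4 (h : H2 θ t σ) (h1 : ¬ IsConj (θ (1, e5)) (θ (e5, e5))) (N : Subgroup G) [N.Normal] (hM : θ.range ≤ N) (h32 : ¬ 32 ∣ Nat.card N) (hn : NU θ N) (hr : ∀ g ∈ N, g * θ (1, e5) = θ (1, e5) * g → g ∈ θ.range) : N = θ.range := by
  have : Fact (Nat.Prime 2) := ⟨by norm_num⟩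
  have hd := stepB h N hM h32 hn hr
  have hC : ∀ i ∈ θ.range, i * i = 1 → i ≠ 1 → ∀ g ∈ N, g * i = i * g → g ∈ θ.range := by
    rintro _ ⟨⟨a, b⟩, rfl⟩ ii i1
    rw [← map_mul, ← map_one θ] at ii
    have e := h.inj ii
    have aa : a * a = 1 := congrArg Prod.fst e
    have bb : b * b = 1 := congrArg Prod.snd e
    by_cases a0 : a = 1
    · subst a0
      exact stepA N hM hr bb fun b0 => i1 (by rw [b0]; exact map_one θ)
    by_cases b0 : b = 1
    · subst b0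
      exact stepA' h N hM hr aa a0
    obtain ⟨c, rfl⟩ := (a1 a aa).resolve_left a0
    obtain ⟨c', rfl⟩ := (a1 b bb).resolve_left b0
    have : θ (c * e5 * c⁻¹, c' * e5 * c'⁻¹) = θ (c, c') * θ (e5, e5) * (θ (c, c'))⁻¹ := by
      rw [← map_inv, ← map_mul, ← map_mul]; rfl
    rw [this]
    exact cconj hM hd ⟨_, rfl⟩
  have hU : U θ ≤ N := U_le.trans hM
  obtain ⟨P, hP⟩ := syl ((U θ).subgroupOf N)
    (by rw [Nat.card_congr (subgroupOfEquivOfLe hU).toEquiv, cardU h.inj]) h32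
  have : IsMulCommutative P := ⟨⟨fun x y => by
    have hx : x.1 ∈ (U θ).subgroupOf N := hP ▸ x.2
    have hy : y.1 ∈ (U θ).subgroupOf N := hP ▸ y.2
    exact Subtype.ext (Subtype.ext (Ucomm hx hy))⟩⟩
  have hD : ∀ i ∈ θ.range, i * i = 1 → i ≠ 1 → ∀ g ∈ N, g⁻¹ * i * g ∈ θ.range → g ∈ θ.range := by
    intro i hi ii i1 g hg hgi
    obtain ⟨m, hm, u, hu, rfl⟩ := intoU hi h.inj ii
    obtain ⟨m', hm', u', hu', e⟩ := intoU hgi h.inj (by
      calc g⁻¹ * (m * u * m⁻¹) * g * (g⁻¹ * (m * u * m⁻¹) * g)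
          = g⁻¹ * (m * u * m⁻¹ * (m * u * m⁻¹)) * g := by group
        _ = 1 := by rw [ii]; group)
    have gN : m⁻¹ * g * m' ∈ N := mul_mem (mul_mem (inv_mem (hM hm)) hg) (hM hm')
    have e2 : (m⁻¹ * g * m')⁻¹ * u * (m⁻¹ * g * m') = u' := by
      calc (m⁻¹ * g * m')⁻¹ * u * (m⁻¹ * g * m') = m'⁻¹ * (g⁻¹ * (m * u * m⁻¹) * g) * m' := by group
        _ = _ := by rw [e]; group
    obtain ⟨n, hn', e3⟩ := P.conj_eq_normalizer_conj_of_mem ⟨u, hU hu⟩ ⟨_, gN⟩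
      (by rw [← SetLike.mem_coe, ← Sylow.coe_coe, hP]; exact hu)
      (by
        rw [← SetLike.mem_coe, ← Sylow.coe_coe, hP]
        show (m⁻¹ * g * m')⁻¹ * u * (m⁻¹ * g * m') ∈ U θ
        rw [e2]; exact hu')
    have e4 : (m⁻¹ * g * m')⁻¹ * u * (m⁻¹ * g * m') = (n : G)⁻¹ * u * n := congrArg Subtype.val e3
    have hn2 : n ∈ normalizer (((U θ).subgroupOf N : Subgroup N) : Set N) := by
      rw [← hP]; exact hn'
    obtain ⟨a, -, b, -, e5'⟩ := hn (n : G)⁻¹ (inv_mem n.2) (inv_mem (norm_sub hU n hn2))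
    have e6 := e5' u hu
    rw [inv_inv, ← e4] at e6
    have uu : u * u = 1 := by
      calc u * u = m⁻¹ * (m * u * m⁻¹ * (m * u * m⁻¹)) * m := by group
        _ = 1 := by rw [ii]; group
    have u1 : u ≠ 1 := fun e => i1 (by rw [e]; group)
    have := hC u (U_le hu) uu u1 (m⁻¹ * g * m' * θ (a, b)) (mul_mem gN (hM ⟨_, rfl⟩)) (by
      calc m⁻¹ * g * m' * θ (a, b) * u
          = m⁻¹ * g * m' * (θ (a, b) * u * (θ (a, b))⁻¹) * θ (a, b) := by group
        _ = _ := by rw [← e6]; group)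
    have e7 : g = m * (m⁻¹ * g * m' * θ (a, b)) * (θ (a, b))⁻¹ * m'⁻¹ := by group
    rw [e7]
    exact mul_mem (mul_mem (mul_mem hm this) (inv_mem ⟨_, rfl⟩)) (inv_mem hm')
  refine le_antisymm (fun g hg => ?_) hM
  have rr : θ (1, e5) * θ (1, e5) = 1 := by
    rw [← map_mul, Prod.mk_mul_mk, ee, one_mul]; exact map_one θ
  have dd : θ (e5, e5) * θ (e5, e5) = 1 := by
    rw [← map_mul, Prod.mk_mul_mk, ee]; exact map_one θ
  obtain ⟨k, w1, ww, wr, wd⟩ := two (x := θ (1, e5)) (y := g * θ (e5, e5) * g⁻¹) rr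
    (by
      calc g * θ (e5, e5) * g⁻¹ * (g * θ (e5, e5) * g⁻¹) = g * (θ (e5, e5) * θ (e5, e5)) * g⁻¹ := by
            group
        _ = 1 := by rw [dd]; group)
    (fun e => h1 (e.trans (isConj_iff.2 ⟨g, rfl⟩).symm))
  have wN : (θ (1, e5) * (g * θ (e5, e5) * g⁻¹)) ^ k ∈ N :=
    pow_mem (mul_mem (hM ⟨_, rfl⟩) (mul_mem (mul_mem hg (hM ⟨_, rfl⟩)) (inv_mem hg))) k
  generalize (θ (1, e5) * (g * θ (e5, e5) * g⁻¹)) ^ k = w at w1 ww wr wd wN
  refine hD w (hr w wN wr) ww w1 g hg (hd _ (mul_mem (mul_mem (inv_mem hg) wN) hg) ?_)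
  calc g⁻¹ * w * g * θ (e5, e5) = g⁻¹ * (w * (g * θ (e5, e5) * g⁻¹)) * g := by group
    _ = _ := by rw [wd]; group

end H14.D4
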