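/-
The normalizer of a subgroup in a normal subsystem; an `A × B` lemma for normal subsystems.
-/
import Cfsg.Agent.H14.ES4
import Cfsg.Agent.H14.ZLift

set_option autoImplicit false
set_option linter.unusedVariables false
set_option linter.unusedSectionVars false
set_option linter.style.haveILetI false
open Cfsg Cfsg.FusionSystem Equiv H13

namespace H14.Fus
universe u

variable {Ω : Type u} [Group Ω] {p : ℕ} [Fact p.Prime]
variable {S T : Subgroup Ω} [Finite S] {F : FusionSystem S} {E : FusionSystem T}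

theorem pd_conj' (hS : IsPGroup p S) (hF : F.IsSaturated p) (hE : E.IsNormalIn F p) {Q Q' Y P : Subgroup Ω}
    {γ σ : Perm Ω} (hγ : Iso F Q Q' γ) (hY : Y = Q ⊔ T) (hY' : Q' ⊔ T ≤ Y) (hσ : Mor (PD E F p Y) P σ) (h1 : P ≤ Q)
    (h2 : ∀ x ∈ P, σ x ∈ Q) : Mor (PD E F p Y) (img γ P) (γ * σ * γ⁻¹ : Perm Ω) := by
  subst hY
  have hI := nrm_inv hE
  obtain ⟨ν, c⟩ := exists_spF hS hF hE hγ.1
  have a1 := c.2.mor.iso_of_le h1
  have a2 := pd_conj hI c.1 (fun x hx => hY' ((c.iso hI hγ.2).1.mem hx))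
    ((c.2.mor.mul hσ h2).mul a1.inv.1 fun x hx => a1.inv_mem hx)
  rw [a1.hom.img_mul, mul_inv_cancel_left] at a2
  convert a2 using 2; group

/-- the normalizer of a fully normalized subgroup in a normal subsystem -/
theorem exists_normal_nsys (hS : IsPGroup p S) (hF : F.IsSaturated p) (hE : E.IsNormalIn F p) {X : Subgroup Ω}
    (hX : F.IsFullyNormalized X) {N : FusionSystem (normalizerIn S X)} (hN : F.IsNormalizerSystem X N) :
    ∃ D : FusionSystem (normalizerIn T X), D.IsNormalIn N p ∧ D.IsSubsystemOf E := by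
  have hI := nrm_inv hE
  haveI := finite_of_le (normalizerIn_le S X)
  have hS₁ := isPGroup_of_le hS (normalizerIn_le S X)
  have hT₁ := normalizerIn_mono hI.le X
  haveI := finite_of_le hT₁
  have sN := saturated_normalizer hS hF hX hN
  have sD := pd_saturated hS hF hE hI.le le_rfl
  have iD := pd_pPowerIndex hS hI (nrm_sat hE) hI.le le_rfl
  have uD : (PD E F p S).IsSubsystemOf F := pd_sub le_rfl
  have hD := isNormalizerSystem_nsys (PD E F p S) X hX.1
  have sND := saturated_normalizer hS sD (fn_local hI.sc uD hX (normalizerIn_le _ _)) hD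
  have uND := H13.normalizerSystem_sub hD
  have uN : (Nsys (PD E F p S) X hX.1).IsSubsystemOf N := isSubsystemOf_iff.2 fun P f hf => by
    obtain ⟨a1, τ, a2, a3, a4⟩ := (mor_normalizer_iff hD).1 hf
    exact (mor_normalizer_iff hN).2 ⟨a1, τ, a2.of_sub uD, a3, a4⟩
  have hh : (Nsys (PD E F p S) X hX.1).hyperfocalSubgroup p ≤ normalizerIn T X := fun x hx =>
    ⟨iD.2.1 (H13.hyp_mono uND hx), (H13.hyp_le _ p hx).2⟩
  obtain ⟨D, d1, d2, d3⟩ := exists_pPowerIndex_of_sc hS₁ sND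
    (sc_normalizerIn hI.sc (isSubsystemOf_trans uND uD) hT₁ le_rfl) hh
  have hY : X ⊔ T ≤ S := sup_le hX.1 hI.le
  haveI := finite_of_le hY
  have hX' := isNormalizerSystem_nsys (PD E F p (X ⊔ T)) X le_sup_left
  have hT₂ : normalizerIn T X ≤ normalizerIn (X ⊔ T) X := normalizerIn_mono le_sup_right X
  have uX : (Nsys (PD E F p (X ⊔ T)) X le_sup_left).IsSubsystemOf (Nsys (PD E F p S) X hX.1) :=
    isSubsystemOf_iff.2 fun P f hf => by
      obtain ⟨a1, τ, a2, a3, a4⟩ := (mor_normalizer_iff hX').1 hf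
      exact (mor_normalizer_iff hD).2 ⟨a1.trans (normalizerIn_mono hY X), τ, a2.of_sub (pd_mono hY), a3, a4⟩
  have d4 : D.IsSubsystemOf (Nsys (PD E F p (X ⊔ T)) X le_sup_left) :=
    sub_of_coprime (isPGroup_of_le hS₁ hT₁) d1 hT₂ fun V a1 _ _ α a2 a3 => by
      have a4 := (iso_of_mem_autF a1.1 a2).of_sub d2.1
      obtain ⟨-, τ, b1, b2, b3⟩ := (mor_normalizer_iff hD).1 a4.1
      have b4 : Iso _ _ _ τ := ⟨b1, b1.hom.maps_sup (a4.2.congr fun x hx => (b2 x hx).symm) b3⟩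
      obtain ⟨n, c1, c2⟩ := b4.exists_coprime_pow le_sup_left (autF_mono uND a4.le (autF_mono d2.1 a1.1 a2)) b2 a3
      exact (mor_normalizer_iff hX').2 ⟨a1.1.trans hT₂, _, (sp_of_coprime hS hI le_rfl b4.le
        (Subgroup.pow_mem _ b4.rs_mem n) c1).mor_pd (sup_le ((a1.1.trans (normalizerIn_le _ _)).trans le_sup_right)
          le_sup_left) le_sup_right, c2, (b3.congr fun x hx => (rs_apply b4.2 (Subgroup.mem_sup_right hx)).symm).pow n⟩
  have conj : ∀ Q γ, Q ≤ normalizerIn T X → Iso N Q Q γ → ∀ (P : Subgroup Ω) (σ : Perm Ω),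
      Mor (Nsys (PD E F p (X ⊔ T)) X le_sup_left) P σ → P ≤ Q → (∀ x ∈ P, σ x ∈ Q) →
      Mor (Nsys (PD E F p (X ⊔ T)) X le_sup_left) (img γ P) (γ * σ * γ⁻¹ : Perm Ω) := fun Q γ a1 a2 P σ a3 a4 a5 => by
    obtain ⟨-, γ', b1, b2, b3⟩ := (mor_normalizer_iff hN).1 a2.1
    have b4 : Iso _ _ _ γ' := ⟨b1, b1.hom.maps_sup (a2.2.congr fun x hx => (b2 x hx).symm) b3⟩
    obtain ⟨-, τ, c1, c2, c3⟩ := (mor_normalizer_iff hX').1 a3
    have c4 : X ⊔ T = Q ⊔ X ⊔ T := le_antisymm (sup_le_sup_right le_sup_right T)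
      (sup_le (sup_le ((a1.trans (normalizerIn_le _ _)).trans le_sup_right) le_sup_left) le_sup_right)
    have c5 : img τ (P ⊔ X) ≤ Q ⊔ X := by
      rw [c1.hom.img_sup, c3.img_eq]
      exact sup_le_sup_right (img_le_iff.2 fun x hx => (c2 x hx).symm ▸ a5 x hx) X
    have c6 := pd_conj' hS hF hE b4 c4 c4.ge c1 (sup_le_sup_right a4 X) (img_le_iff.1 c5)
    have c7 : Maps P (img γ P) γ' := (a2.hom.mono a4).maps_img.congr fun x hx => (b2 x (a4 hx)).symm
    rw [((b1.hom.mono (sup_le_sup_right a4 X)).maps_sup c7 b3).img_eq] at c6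
    refine (mor_normalizer_iff hX').2 ⟨(img_le_iff.2 fun x hx => a1 (a2.mem (a4 hx))).trans hT₂, _, c6, fun y hy => ?_,
      (b3.mul c3).mul b3.inv⟩
    obtain ⟨x, hx, rfl⟩ := (a2.hom.mono a4).mem_img.1 hy
    rw [mul_ap, mul_ap, mul_ap, mul_ap, inv_ap, ← b2 x (a4 hx), inv_ap, c2 x hx, b2 _ (a5 x hx)]
  have sc := sc_normalizerIn hI.sc (H13.normalizerSystem_sub hN) hT₁ le_rfl
  have d5 : Inv D N := inv_of_frattini hS₁ sN (isSubsystemOf_trans d2.1 uN) sc
    (fun γ hγ P σ hσ => conj_of_pPowerIndex hS₁ d1 d2 hγ.hom hγ.2 (fun P σ hσ =>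
      (conj _ γ le_rfl hγ P σ (hσ.of_sub d4) hσ.le fun x hx => hσ.mem hx).of_sub uX) hσ) fun U a1 a2 _ => by
    have a3 := a1.le.trans hT₂
    haveI := finite_of_le a1.le
    have a4 := oUp_mono p (autF_mono uX a3)
    obtain ⟨b1, b2⟩ := syl_sup_oUp hS₁ sN sc a2 (autF_mono (isSubsystemOf_trans uX uN) a3)
      (le_normalizer_iff.2 fun γ hγ σ hσ => by
        have c1 := iso_of_mem_autF a2.1 hγ
        have c2 := iso_of_mem_autF a3 hσ
        have c3 := conj U γ a1.le c1 U σ c2.1 le_rfl fun x hx => c2.mem hx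
        rw [c1.img_eq] at c3
        exact (mem_autF a3).2 ⟨⟨c3, (c1.2.mul c2.2).mul c1.2.inv⟩,
          fix_of_mem_autF (c1.conj_mem_autF (autF_mono (isSubsystemOf_trans uX uN) a3 hσ))⟩)
      (autBy_le_autF _ a3 hT₂) ((inf_le_inf_left _ a4).trans
        (autBy_inf_oUp_le hS₁ sND hh (fn_local sc uN a2 (normalizerIn_le _ _))))
    exact ⟨_, sup_le (autBy_le_autF D a1.le le_rfl) (a4.trans (oUp_le_iff.2 fun β hβ hc =>
      (pPowerIndex_iff.1 d2).2.2 U a1.le β hβ hc)), b2, b1⟩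
  exact ⟨OPp D p, opp_normalIn hS₁ sN d5 d1, isSubsystemOf_trans (opp_sub D p)
    (sub_of_pPowerIndex hS d1 (isSubsystemOf_trans d2.1 uND) iD (normalizerIn_le _ _))⟩

/-- an `A × B` lemma for normal subsystems -/
theorem mem_cs_of_fix (hS : IsPGroup p S) (hF : F.IsSaturated p) (hE : E.IsNormalIn F p) :
    ∀ V, V ≤ S → ∀ β ∈ AutF F V, (orderOf β).Coprime p → ∀ Y, Y ≤ V → (∀ x ∈ Y, β x = x) →
      (∀ Y' χ, Iso F Y Y' χ → centralizerIn T Y' ≤ Y') → ∀ x ∈ V, x⁻¹ * β x ∈ CS E F p := by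
  have hI := nrm_inv hE
  have hC := cs_sc hS hF hE
  refine down_induction fun V₀ hV₀ ih β₀ hβ₀ hc₀ Y₀ hY₀ hf₀ hh₀ => ?_
  have main : ∀ V : Subgroup Ω, Nat.card V = Nat.card V₀ → F.IsFullyNormalized V → ∀ β ∈ AutF F V, (orderOf β).Coprime p →
      ∀ Y, Y ≤ V → (∀ x ∈ Y, β x = x) → (∀ Y' χ, Iso F Y Y' χ → centralizerIn T Y' ≤ Y') →
      ∀ x ∈ V, x⁻¹ * β x ∈ CS E F p := fun V hcard hn β hβ hc Y hY hf hh => by
    have hV := hn.1
    haveI := finite_of_le hV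
    have h1 := iso_of_mem_autF hV hβ
    have hN : V ≤ Subgroup.normalizer ((V ⊓ T : Subgroup Ω) : Set Ω) := fun g hg =>
      normalizer_inf (V.le_normalizer hg) (sc_le_normalizer hI.sc (hV hg))
    have h2 := fix_of_AB hS hV inf_le_left hY hN h1.hom (sc_maps_inf hI.sc h1) hc hf
      fun x hx => hf x (hh Y 1 (iso_one F (hY.trans hV)) ⟨hx.1.2, hx.2⟩)
    by_cases hT : T ≤ V
    · rw [inf_eq_right.2 hT] at h2
      refine triv_step hS hV (centralizerIn_le V T) (((centralizerIn_le V T).trans hV).trans (sc_le_normalizer hC))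
        hβ hc (fun x hx => ⟨V.mul_mem (V.inv_mem hx) (h1.mem hx), ?_⟩)
        fun x hx => inv_mul_mem_cs hS hF hE h1.1 hT h2 hx.1 ⟨hV hx.1, hx.2⟩
      have := (homOn_id V).inv_mul_mem_centralizer h1.hom hT (fun y hy => (h2 y hy).symm) hx
        (sc_le_normalizer hI.sc (hV hx))
      rwa [img_id] at this
    obtain ⟨τ, a1, a2⟩ := receptive_extend_of_conj (fn_rec hS hF hn) h1 (normalizerIn_mono hI.le V) fun t ht => by
      have b1 := cr_mem_autF F hV (hI.le ht.1) ht.2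
      have b2 : t ∈ Subgroup.normalizer ((V ⊓ T : Subgroup Ω) : Set Ω) := normalizer_inf ht.2 (T.le_normalizer ht.1)
      have b3 : Maps (V ⊓ T) (V ⊓ T) (cr V t) := sc_maps_inf hI.sc (iso_of_mem_autF hV b1)
      have b4 : ∀ x ∈ V, x⁻¹ * cr V t x ∈ T := fun x hx => by
        rw [cr_apply ht.2 hx, show x⁻¹ * (t * x * t⁻¹) = x⁻¹ * t * x⁻¹⁻¹ * t⁻¹ by group]
        exact T.mul_mem (sc_conj_mem hI.sc (S.inv_mem (hV hx)) ht.1) (T.inv_mem ht.1)
      have b5 : cr V t ∈ H13.trivMod V T := H13.mem_trivMod.2 ⟨maps_cr ht.2, b4⟩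
      have b6 := Subgroup.mul_mem _ (conj_mem_of_normalizer (trivMod_normal_sc hI.sc hV hβ) b5) (Subgroup.inv_mem _ b5)
      have b7 := Subgroup.mul_mem _ (h1.conj_mem_autF b1) (Subgroup.inv_mem _ b1)
      have b8 := (fn_syl hS hF hn).op_le (mem_op_of_chain2 (isPGroup_of_le hS hV) inf_le_left (autF_le_autAll F V)
        (fun α hα => sc_maps_inf hI.sc (iso_of_mem_autF hV hα)) b7 (fun x hx => by
          have b9 := b3.inv_mem hx
          rw [mul_ap, mul_ap, mul_ap, show β⁻¹ ((cr V t)⁻¹ x) = (cr V t)⁻¹ x from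
            Perm.inv_eq_iff_eq.2 (h2 _ b9).symm, ap_inv, h2 x hx])
        fun x hx => ⟨V.mul_mem (V.inv_mem hx) ((maps_of_mem_autF b7).mem hx), (H13.mem_trivMod.1 b6).2 x hx⟩)
      simpa using Subgroup.mul_mem _ b8 (cr_mem_autBy (hI.le ht.1) ht.2)
    have a3 := h1.2.congr fun x hx => (a2 x hx).symm
    have a4 : img τ (V ⊔ normalizerIn T V) ≤ V ⊔ normalizerIn T V := by
      rw [a1.hom.img_sup, a3.img_eq]
      exact sup_le_sup_left (img_le_iff.2 fun g hg =>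
        sc_mem_normalizerIn hI.sc a1 le_sup_left a3 (Subgroup.mem_sup_right hg) hg) V
    obtain ⟨β', b1, b2, b3⟩ := (a1.iso_self (img_le_iff.1 a4)).exists_coprime_ext le_sup_left hβ a2 hc
    haveI := a1.finite
    intro x hx
    rw [← b3 x hx]
    exact ih _ a1.le (hcard ▸ card_lt_of_lt (left_lt_sup.2 fun h => hT
      (le_of_normalizerIn_le hS hV hI.le (hV.trans (sc_le_normalizer hI.sc)) h))) β' b1 b2 Y (hY.trans le_sup_left)
      (fun y hy => (b3 y (hY hy)).trans (hf y hy)) hh x (Subgroup.mem_sup_left hx)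
  obtain ⟨V, χ, h1, h2⟩ := exists_fullyNormalized F hV₀
  have h3 := h1.1.iso_of_le hY₀
  intro x hx
  have h4 := main V h1.card_eq.symm h2 _ (h1.conj_mem_autF hβ₀) (orderOf_conj_coprime hc₀) _
    ((h3.2.le_iff h1.2).1 hY₀) (fun y hy => by rw [mul_ap, mul_ap, hf₀ _ (h3.inv_mem hy), ap_inv])
    (fun Y' ψ hψ => hh₀ Y' _ (hψ.mul h3)) _ (h1.mem hx)
  have h5 := (maps_of_mem_autF hβ₀).mem hx
  rwa [mul_ap, mul_ap, inv_ap, ← h1.hom.map_inv hx, ← h1.hom.map_mul (V₀.inv_mem hx) h5,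
    sc_mem_iff hC h1.1 (V₀.mul_mem (V₀.inv_mem hx) h5)] at h4

theorem cent_le_of_fn (hS : IsPGroup p S) (hF : F.IsSaturated p) (hT : F.StronglyClosed T) {X Y' : Subgroup Ω}
    (hX : F.IsFullyNormalized X) {χ : Perm Ω} (hχ : Iso F (X ⊔ normalizerIn T X) Y' χ) : centralizerIn T Y' ≤ Y' := by
  have h1 := hχ.1.iso_of_le le_sup_left
  obtain ⟨ψ, h2, h3⟩ := exists_mor_normalizer hS hF hX h1.inv
  haveI := finite_of_le ((normalizerIn_le T X).trans hT.1)
  haveI := finite_of_le ((normalizerIn_le T (img χ X)).trans hT.1)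
  have h4 := (hχ.hom.mono le_sup_right).maps_of_card
    (fun g hg => sc_mem_normalizerIn hT hχ.1 le_sup_left h1.2 (Subgroup.mem_sup_right hg) hg)
    (card_le_of_mapsTo (σ := ψ) fun g hg => sc_mem_normalizerIn hT h2 (le_normalizerIn h1.le') h3
      (normalizerIn_mono hT.1 _ hg) hg)
  exact ((centralizerIn_mono le_rfl ((h1.2.le_iff hχ.2).1 le_sup_left)).trans (centralizerIn_le_normalizerIn _ _)).trans
    ((h4.le_iff hχ.2).1 le_sup_right)

/-- components of a normalizer system lie in a normal subsystem or in its centralizer -/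
theorem comp_nsys_le (hS : IsPGroup p S) (hF : F.IsSaturated p) (hE : E.IsNormalIn F p) {X : Subgroup Ω}
    (hX : F.IsFullyNormalized X) {N : FusionSystem (normalizerIn S X)} (hN : F.IsNormalizerSystem X N)
    {U : Subgroup Ω} {C : FusionSystem U} (hC : C.IsComponentIn N p) : U ≤ T ∨ U ≤ CS E F p := by
  have hI := nrm_inv hE
  haveI := finite_of_le (normalizerIn_le S X)
  have hS₁ := isPGroup_of_le hS (normalizerIn_le S X)
  have sN := saturated_normalizer hS hF hX hN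
  have uN := H13.normalizerSystem_sub hN
  have hU := comp_le sN hC
  haveI := finite_of_le hU
  obtain ⟨D, d1, -⟩ := exists_normal_nsys hS hF hE hX hN
  rcases comp_normal hC.2 hC.1 inferInstance hS₁ _ D d1 with h | h
  · exact Or.inl ((subnormal_facts (nrm_sat d1) h).1.trans (normalizerIn_le _ _))
  have nX := normal_normalizerSystem hX.1 hN
  obtain ⟨C₁, a1, a2⟩ := exists_csub' hS₁ sN d1
  obtain ⟨C₂, a3, a4⟩ := exists_normal_cent hS₁ sN nX
  obtain ⟨L, ⟨l1, l2, l3⟩, -⟩ := exists_meet hS₁ sN (nrm_inv a1) (nrm_inv a3) (nrm_sat a1) (nrm_sat a3) rfl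
  have a5 := comp_sub_of_le hS₁ sN hC l1 (le_inf (qs_foc hC.2 ▸ h.foc_le_cs hS₁ sN d1 hU)
    (le_centralizerIn_comm hU (comp_cen_normal hS₁ sN hC nX).1))
  have a6 := ((cen_iff_le_cs hS₁ sN l1).2 (sup_le ((a4.of_sub (nrm_sub l3)).le_cs hS₁ sN l1)
    ((a2.of_sub (nrm_sub l2)).le_cs hS₁ sN l1))).of_sub a5
  refine Or.inr (hC.2.2.1 ▸ H13.hyp_le_iff'.2 fun P hP α hα hc x hx => ?_)
  obtain ⟨β, b1, b2, b3, b4⟩ := exists_lift_of_cExt (a6.1.trans (centralizerIn_antitone _ hP)) hα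
    (autF_mono (comp_sub sN hC) hP hα) hc (a6.2 P α (iso_of_mem_autF hP hα).1)
  have b5 := sup_le (hP.trans hU) a6.le
  rw [← b3 x hx]
  exact mem_cs_of_fix hS hF hE _ (b5.trans (normalizerIn_le _ _)) β (autF_mono uN b5 (mem_lg.1 b1).1) b2 _ le_sup_right
    b4 (fun Y' χ hχ => cent_le_of_fn hS hF hI.sc hX hχ) x (Subgroup.mem_sup_left hx)

theorem triv_of_cj (hS : IsPGroup p S) (hT : S ≤ Subgroup.normalizer (T : Set Ω)) {P : Subgroup Ω} {α : Perm Ω}
    (hm : Maps P P α) (hc : (orderOf α).Coprime p) {s : Ω} (hs : s ∈ S)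
    (h : ∀ x ∈ P, (s * x * s⁻¹)⁻¹ * α x ∈ T) : ∀ x ∈ P, x⁻¹ * α x ∈ T := by
  have key : ∀ n : ℕ, ∀ x ∈ P, (s ^ n * x * (s ^ n)⁻¹)⁻¹ * (α ^ n) x ∈ T := fun n => by
    induction n with
    | zero => intro x hx; simp
    | succ n ih =>
      intro x hx
      have := T.mul_mem (conj_mem_of_normalizer' (hT hs) (conj_mem_of_normalizer (hT hs)
        (conj_mem_of_normalizer (hT hs) (ih x hx)))) (h _ ((hm.pow n).mem hx))
      rw [pow_succ' α, mul_ap]
      convert this using 1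
      rw [pow_succ']; group
  obtain ⟨k, hk⟩ := isPGroup_iff_mem.1 hS s hs
  exact (H13.mem_trivMod.1 (mem_of_pow_mem_of_coprime (hc.pow_right k) (H13.mem_trivMod.2 ⟨hm.pow _,
    fun x hx => by simpa [hk] using key (p ^ k) x hx⟩))).2

theorem CP.hyp_le_of_inner {R W : Subgroup Ω} {M : FusionSystem W} [Finite W] (hW : IsPGroup p W)
    (h : CP (innerFusionSystem R) E M) : M.hyperfocalSubgroup p ≤ T := by
  refine H13.hyp_le_iff'.2 fun P hP α hα hc => ?_
  obtain ⟨P₁, P₂, f₁, f₂, a1, a2, a3⟩ := (h.mor _ _).1 (iso_of_mem_autF hP hα).1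
  obtain ⟨a4, s, hs, a5⟩ := mor_inner_iff.1 a1
  refine triv_of_cj hW (sc_le_normalizer (h.symm.sc_of (sc_top E))) (maps_of_mem_autF hα) hc (h.le₁ hs) fun x hx => ?_
  obtain ⟨a, ha, b, hb, rfl, e⟩ := a3 x hx
  have := T.mul_mem (T.inv_mem (a2.le hb)) (a2.mem hb)
  rw [e, a5 a ha]
  convert this using 1
  rw [← mul_assoc s a b, mul_assoc (s * a) b, ← h.data.comm _ (R.inv_mem hs) b (a2.le hb)]; group

theorem layer_le_hyp (hS : IsPGroup p S) (hF : F.IsSaturated p) (hE : E.IsLayerOf F p) : T ≤ E.hyperfocalSubgroup p := by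
  haveI := finite_of_le (nrm_le hE.1)
  obtain ⟨D, hD⟩ := exists_pResidual (isPGroup_of_le hS (nrm_le hE.1)) (nrm_sat hE.1)
  exact le_of_isSubsystemOf (layer_sub_of_le hS hF hE (pResidual_normalIn hS hF hE.1 hD) fun U C hC =>
    hC.2.2.1 ▸ H13.hyp_mono (hE.2.1 U C hC))

end H14.Fus
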