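/-
`C_S(T) ≤ T C_S(E)` for odd `p` (Gross's theorem for normal subsystems).
-/
import Cfsg.Agent.H14.ES4
import Cfsg.Agent.H14.Avg
import Cfsg.Agent.H3.FS4

set_option autoImplicit false
set_option linter.unusedVariables false
set_option linter.unusedSectionVars false
set_option linter.style.haveILetI false
open Cfsg Cfsg.FusionSystem Equiv H13

namespace H14.Fus
universe u

theorem exists_central_of_chP {G : Type*} [Group G] [Finite G] {p : ℕ} [Fact p.Prime] {R T : Subgroup G}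
    (hR : SylIn p R ⊤) (hG : ChP p (⊤ : Subgroup G)) (hT : T ≤ R) (hN : R ≤ Subgroup.normalizer (T : Set G))
    (h : R ⊓ OUp p ⊤ ≤ T) {c : G} (hc : c ∈ Subgroup.centralizer (T : Set G)) (hRc : R ≤ T ⊔ Subgroup.zpowers c) :
    ∃ z ∈ T, ∀ g, g * (z⁻¹ * c) = z⁻¹ * c * g := by
  have hK : (⊤ : Subgroup G) ≤ Subgroup.normalizer ((OUp p ⊤ : Subgroup G) : Set G) := le_normalizer_oUp p ⊤
  haveI : (OUp p (⊤ : Subgroup G)).Normal := Subgroup.normalizer_eq_top_iff.1 (top_le_iff.1 hK)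
  have hH : (⊤ : Subgroup G) ≤ Subgroup.normalizer ((T ⊔ OUp p ⊤ : Subgroup G) : Set G) := fun g _ => by
    obtain ⟨r, hr, n, hn, rfl⟩ := hR.exists_mul_oUp (Subgroup.mem_top g)
    exact Subgroup.mul_mem _ (Subgroup.normalizer_inf_normalizer_le_normalizer_sup _ _ ⟨hN hr, hK trivial⟩)
      (Subgroup.le_normalizer (Subgroup.mem_sup_right hn))
  haveI : (T ⊔ OUp p ⊤).Normal := Subgroup.normalizer_eq_top_iff.1 (top_le_iff.1 hH)
  have hs : SylIn p T (T ⊔ OUp p ⊤) := by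
    have h1 := hR.inf_normal le_top hH
    rwa [show R ⊓ (T ⊔ OUp p ⊤) = T from le_antisymm (fun x hx => by
      obtain ⟨a, ha, b, hb, rfl⟩ := (mem_sup_of_normalizes (le_top.trans hK)).1 hx.2
      exact T.mul_mem ha (h ⟨(R.mul_mem_cancel_left (hT ha)).1 hx.1, hb⟩)) (le_inf hT le_sup_left)] at h1
  obtain ⟨z, hz, e⟩ := aut_eq_conj (G := ↥(T ⊔ OUp p ⊤)) (T := T.subgroupOf _)
    ((sylIn_subtype_iff (Subgroup.map_subgroupOf_eq_of_le le_sup_left)).2 hs)
    (charP_subtype_iff.2 (hG.normal le_top hH)) (MulAut.conjNormal c).toMonoidHom fun x hx => Subtype.ext (by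
      show c * x * c⁻¹ = x
      rw [← hc x hx, mul_inv_cancel_right])
  have h2 : T ⊔ OUp p ⊤ ≤ Subgroup.centralizer {(z : G)⁻¹ * c} := fun g hg => by
    have : c * g * c⁻¹ = z * g * (z : G)⁻¹ := congrArg Subtype.val (e ⟨g, hg⟩)
    rw [Subgroup.mem_centralizer_singleton_iff]
    calc g * ((z : G)⁻¹ * c) = (z : G)⁻¹ * (z * g * (z : G)⁻¹) * c := by group
      _ = _ := by rw [← this]; group
  have h3 : c ∈ Subgroup.centralizer {(z : G)⁻¹ * c} := by
    rw [Subgroup.mem_centralizer_singleton_iff, ← mul_assoc, ← hc (z : G)⁻¹ (T.inv_mem hz.1)]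
  refine ⟨z, hz.1, fun g => ?_⟩
  obtain ⟨r, hr, n, hn, rfl⟩ := hR.exists_mul_oUp (Subgroup.mem_top g)
  exact Subgroup.mem_centralizer_singleton_iff.1 (Subgroup.mul_mem _
    (sup_le (le_sup_left.trans h2) (Subgroup.zpowers_le.2 h3) (hRc hr)) (h2 (Subgroup.mem_sup_right hn)))

variable {Ω : Type u} [Group Ω] {S T : Subgroup Ω} [Finite S] {F : FusionSystem S} {E : FusionSystem T}
  {p : ℕ} [Fact p.Prime]

theorem exists_central_of_constrained (hS : IsPGroup p S) (hF : F.IsConstrained p) (hT : T ≤ S)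
    (hN : S ≤ Subgroup.normalizer (T : Set Ω)) (h : F.hyperfocalSubgroup p ≤ T) {c : Ω} (hc : c ∈ centralizerIn S T)
    (hSc : S ≤ T ⊔ Subgroup.zpowers c) : ∃ z ∈ T, F.IsCentral (Subgroup.zpowers (z⁻¹ * c)) := by
  obtain ⟨G, _, _, S', hS', θ, hG, hθ⟩ := exists_model' hS hF
  have hz : ∀ x ∈ S, img θ (Subgroup.zpowers x) = Subgroup.zpowers (θ x) := fun x hx => by
    rw [Subgroup.zpowers_eq_closure, Subgroup.zpowers_eq_closure, HomOn.img_closure (hθ.hom.mono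
      ((Subgroup.closure_le _).2 (Set.singleton_subset_iff.2 hx))), Set.image_singleton]
  have hle : T ⊔ Subgroup.zpowers c ≤ S := sup_le hT (Subgroup.zpowers_le.2 hc.1)
  obtain ⟨z, hz', e⟩ := exists_central_of_chP hS' hG (T := img θ T) (c := θ c) (hθ.1.img_le hT)
    (hθ.img_eq ▸ hθ.hom.img_normalizes hT le_rfl hN)
    (by rw [← hyp_ofSubgroup hS', ← hθ.1.img_hyp]; exact img_mono θ h)
    ((hθ.img_centralizerIn hT).le (mem_img_of_mem θ hc)).2
    (by rw [← hz c hc.1, ← (hθ.hom.mono hle).img_sup, ← hθ.img_eq]; exact img_mono θ hSc)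
  obtain ⟨z, hzT, rfl⟩ := (hθ.hom.mono hT).mem_img.1 hz'
  have hy : z⁻¹ * c ∈ S := S.mul_mem (S.inv_mem (hT hzT)) hc.1
  refine ⟨z, hzT, (hθ.central_iff (Subgroup.zpowers_le.2 hy)).1 ((central_ofSubgroup_iff hS' hG).2
    ⟨hθ.1.img_le (Subgroup.zpowers_le.2 hy), le_centralizer_comm ?_⟩)⟩
  rw [hz _ hy, Subgroup.zpowers_le, hθ.hom.map_mul (S.inv_mem (hT hzT)) hc.1, hθ.hom.map_inv (hT hzT)]
  exact fun g _ => e g

theorem cent_thompsonA_le (S : Subgroup Ω) [Finite S] :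
    centralizerIn S (thompsonSubgroupAOf S) ≤ thompsonSubgroupAOf S := fun x hx => by
  refine ⟨⟨x, hx.1⟩, ?_, rfl⟩
  rw [H4.thompsonSubgroupA_eq, ← H4.thompsonOf_top]
  refine H4.mem_thompsonOf_of_centralizes trivial (pow_zero _) fun y hy => Subtype.ext (hx.2 y ⟨y, ?_, rfl⟩)
  rwa [H4.thompsonSubgroupA_eq, ← H4.thompsonOf_top]

theorem exists_central_of_odd (hp : p ≠ 2) (hS : IsPGroup p S) (hF : F.IsSaturated p) (hT : T ≤ S)
    (hN : S ≤ Subgroup.normalizer (T : Set Ω)) (h : F.hyperfocalSubgroup p ≤ T) {c : Ω} (hc : c ∈ centralizerIn S T)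
    (hSc : S ≤ T ⊔ Subgroup.zpowers c) : ∃ z ∈ T, F.IsCentral (Subgroup.zpowers (z⁻¹ * c)) := by
  have hJ : thompsonSubgroupAOf S ≤ S := Subgroup.map_subtype_le _
  have hn := H3.thompsonA_le_normalizer hS
  have hle : S ≤ normalizerIn S (thompsonSubgroupAOf S) := le_inf le_rfl hn
  have hN' := isNormalizerSystem_nsys F _ hJ
  haveI := finite_of_le (normalizerIn_le S (thompsonSubgroupAOf S))
  obtain ⟨z, hz, e⟩ := exists_central_of_constrained (isPGroup_of_le hS (normalizerIn_le _ _))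
    (constrained_of_normal (saturated_nsys hS hF (fullyNormalized_of_normal hJ hn)) (normalizerSystem_normal hJ hN')
      (fun x hx => cent_thompsonA_le S ⟨hx.1.1, hx.2⟩)) (hT.trans hle) (inf_le_left.trans hN)
    ((H13.hyp_mono (H14.Fus.normalizerSystem_sub hN')).trans h) (c := c) ⟨hle hc.1, hc.2⟩ (inf_le_left.trans hSc)
  exact ⟨z, hz, central_iff_le_center.2 (H3.center_eq_thompson hS hF (Or.inl hp) hN' ▸ central_iff_le_center.1 e)⟩

theorem cent_le_sup_cs (hp : p ≠ 2) (hS : IsPGroup p S) (hF : F.IsSaturated p) (hE : E.IsNormalIn F p) :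
    centralizerIn S T ≤ T ⊔ CS E F p := fun c hc => by
  have hT := nrm_le hE
  have hR : T ⊔ Subgroup.zpowers c ≤ S := sup_le hT (Subgroup.zpowers_le.2 hc.1)
  haveI := finite_of_le hR
  obtain ⟨z, hz, e⟩ := exists_central_of_odd hp (isPGroup_of_le hS hR) (pd_saturated hS hF hE le_sup_left hR)
    le_sup_left (hR.trans (sc_le_normalizer (nrm_inv hE).sc))
    (pd_pPowerIndex hS (nrm_inv hE) (nrm_sat hE) le_sup_left hR).2.1 (c := c)
    ⟨Subgroup.mem_sup_right (Subgroup.mem_zpowers c), hc.2⟩ le_rfl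
  have h1 : Cen E F (Subgroup.zpowers (z⁻¹ * c)) := by
    refine Cen.mono_sys (F := PD E F p (T ⊔ Subgroup.zpowers c)) ⟨Subgroup.zpowers_le.2 ⟨e.1 (Subgroup.mem_zpowers _),
      fun t ht => ?_⟩, fun P f hf => (central_iff_fun.1 e).2 P f
        (isSubsystemOf_iff.1 (le_pd hS (nrm_inv hE) (nrm_sat hE) le_sup_left) P f hf)⟩ (pd_sub hR)
    exact central_le_centralizer e (Subgroup.mem_zpowers _) t (Subgroup.mem_sup_left ht)
  rw [← mul_inv_cancel_left z c]
  exact Subgroup.mul_mem_sup hz (h1.le_cs hS hF hE (Subgroup.mem_zpowers _))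

end H14.Fus
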