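import Cfsg.Agent.H14.SS3
import Cfsg.Agent.H26.BN

/-! Iterated cores for a maximal parabolic subgroup and its neighbour. -/

set_option autoImplicit false
set_option linter.unusedVariables false
set_option linter.unusedSectionVars false
set_option linter.style.haveILetI false

namespace H14.PC
open H24 H24.St0 Finset Subgroup

section
variable {G : Type*} [Group G]

/-- core of `Y` in `M` -/
def cr (M Y : Subgroup G) : Subgroup G := (Y.subgroupOf M).normalCore.map M.subtype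

theorem mem_cr {M Y : Subgroup G} {x : G} : x ∈ cr M Y ↔ x ∈ M ∧ ∀ m ∈ M, m * x * m⁻¹ ∈ Y :=
  ⟨by rintro ⟨y, h, rfl⟩; exact ⟨y.2, fun m hm => h ⟨m, hm⟩⟩, fun h => ⟨⟨x, h.1⟩, fun m => h.2 m m.2, rfl⟩⟩

theorem cr_le {M Y : Subgroup G} : cr M Y ≤ Y := fun x hx => by simpa using (mem_cr.1 hx).2 1 (one_mem _)

theorem cr_conj {M Y : Subgroup G} {m x : G} (hm : m ∈ M) (hx : x ∈ cr M Y) : m * x * m⁻¹ ∈ cr M Y :=
  mem_cr.2 ⟨mul_mem (mul_mem hm (mem_cr.1 hx).1) (inv_mem hm), fun a ha => by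
    simpa [mul_assoc] using (mem_cr.1 hx).2 _ (mul_mem ha hm)⟩

theorem mem_cj {M : Subgroup G} {g x : G} : x ∈ M.map (MulAut.conj g).toMonoidHom ↔ g⁻¹ * x * g ∈ M :=
  ⟨by rintro ⟨y, h, rfl⟩; simpa [mul_assoc] using h, fun h => ⟨_, h, by simp [mul_assoc]⟩⟩

theorem cr_cj (M Y : Subgroup G) {g : G} (hg : g * g = 1) :
    (cr M (Y ⊓ Y.map (MulAut.conj g).toMonoidHom)).map (MulAut.conj g).toMonoidHom =
      cr (M.map (MulAut.conj g).toMonoidHom) (Y ⊓ Y.map (MulAut.conj g).toMonoidHom) := by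
  have e : g⁻¹ = g := inv_eq_of_mul_eq_one_right hg
  have e1 : ∀ x, g * (g * x) = x := fun x => by rw [← mul_assoc, hg, one_mul]
  ext x
  simp only [mem_cj, mem_cr, Subgroup.mem_inf, e]
  refine and_congr_right fun _ => ⟨fun h m hm => ?_, fun h m hm => ?_⟩
  · simpa [mul_assoc, e, e1, hg] using (h _ hm).symm
  · simpa [mul_assoc, e, e1, hg] using (h (g * m * g) (by simpa [mul_assoc, e1, hg] using hm)).symm

/-- the sequence of iterated cores -/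
def seq (M : Subgroup G) (g : G) : ℕ → Subgroup G
  | 0 => M
  | i + 1 => cr M (seq M g i ⊓ (seq M g i).map (MulAut.conj g).toMonoidHom)

end

variable {ι Φ : Type} [Fintype ι] [DecidableEq ι] [Fintype Φ] [DecidableEq Φ] {R : CD ι Φ} {F : Type*} [Field F]
  {G : Type*} [Group G] (S : St R F G) (i0 : ι)

variable (R) in
/-- roots of level at least `k` -/
def Lv (k : ℤ) : Set Φ := {r | k ≤ R.rt r i0}

variable {i0}

theorem Lv_pos {k : ℤ} (hk : 0 < k) {r : Φ} (h : r ∈ Lv R i0 k) : R.Pos r := R.pos_of_rt_pos (hk.trans_le h)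

theorem Lv_mono {k l : ℤ} (h : k ≤ l) : Lv R i0 l ⊆ Lv R i0 k := fun r hr => h.trans hr

theorem nml_Lv {k : ℤ} (hk : 0 < k) {r : Φ} (h : 0 ≤ R.rt r i0) : R.Nml r (Lv R i0 k) := fun s hs => by
  simp only [Lv, Set.mem_setOf_eq] at hs ⊢
  refine ⟨?_, fun u i j hi hj e => ?_⟩
  · rintro rfl
    rw [R.rt_neg, Pi.neg_apply] at hs; omega
  · rw [e]; simp only [Pi.add_apply, Pi.smul_apply, smul_eq_mul]; nlinarith

theorem closed_Lv {k : ℤ} (hk : 0 < k) : R.Closed (Lv R i0 k) := fun r hr s hs =>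
  (nml_Lv hk (hk.le.trans hr) s hs).2

theorem conj_Lv {k : ℤ} (hk : 0 < k) {m x : G} (hm : m ∈ S.PJ {i0}ᶜ) (hx : x ∈ S.XS (Lv R i0 k)) :
    m * x * m⁻¹ ∈ S.XS (Lv R i0 k) := by
  have : S.PJ {i0}ᶜ ≤ normalizer (S.XS (Lv R i0 k) : Set G) := by
    rw [S.PJ_eq]
    exact sup_le (S.H_le_normalizer _) (S.XS_le_normalizer fun r hr =>
      nml_Lv hk (hr.elim (fun h => h i0) fun h => (h i0 (by simp)).ge))
  exact (mem_normalizer_iff.1 (this hm) x).1 hx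

theorem closed_ne (i : ι) : R.Closed {s | R.Pos s ∧ s ≠ R.sim i} := RS.pos_not_InJ_singleton i ▸ RS.closed_UJ {i}

theorem no_sim {i : ι} {n g : G} (hn : S.Rep n (R.s i)) {M : Subgroup G} (hM : S.U ≤ M)
    (h : ∀ t, S.x (R.neg (R.sim i)) t ∈ M → t = 0) (hg : g ∈ S.U) (h' : n * g * n⁻¹ ∈ M) :
    g ∈ S.XS {s | R.Pos s ∧ s ≠ R.sim i} := by
  obtain ⟨a, ha, b, hb, rfl⟩ := S.exists_mul_of_part (f := RS.htv) RS.closed_pos (fun r => R.ht_pos) (· = R.sim i) hg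
  obtain ⟨t, rfl⟩ := S.mem_XS_singleton.1 (S.XS_mono (T' := {R.sim i}) (fun r hr => hr.2) ha)
  obtain ⟨c, hc, e⟩ := hn.exists_conj (R.sim i)
  have h1 := hM (hn.conj_mem (T' := {r | R.Pos r}) (fun r hr => R.pos_s hr.1 hr.2) b hb)
  rw [show n * (S.x (R.sim i) t * b) * n⁻¹ = n * S.x (R.sim i) t * n⁻¹ * (n * b * n⁻¹) by group,
    mul_mem_cancel_right h1, e, R.s_sim] at h'
  rw [(mul_eq_zero.1 (h _ h')).resolve_left hc, S.x_zero, one_mul]
  exact hb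

theorem down {X : Subgroup G} (hn : ∀ m ∈ S.PJ {i0}ᶜ, ∀ x ∈ X, m * x * m⁻¹ ∈ X) {T0 : Set Φ} (c0 : R.Closed T0)
    (p0 : ∀ r ∈ T0, R.Pos r) (hX : X ≤ S.XS T0) {k : ℤ} (hk : ∀ r ∈ T0, k ≤ R.rt r i0)
    (h : ∀ r ∈ T0, R.rt r i0 = k → ∃ i, i ≠ i0 ∧ 0 < R.A (R.sim i) r) : X ≤ S.XS (Lv R i0 (k + 1)) := by
  obtain ⟨T, hT0, hT⟩ := exists_minimal_le_of_wellFoundedLT
    (fun T : Set Φ => R.Closed T ∧ (∀ r ∈ T, R.Pos r) ∧ X ≤ S.XS T) T0 ⟨c0, p0, hX⟩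
  obtain ⟨a1, a2, a3⟩ := hT.1
  have key : ∀ T', R.Closed T' → (∀ r ∈ T', R.Pos r) → X ≤ S.XS T' → T ⊆ T' := fun T' b1 b2 b3 =>
    Set.subset_inter_iff.1 (hT.2 ⟨a1.inter b1, fun r hr => a2 r hr.1, by
      rw [← S.sep.XS_inf (f := RS.htv) a1 b1 (fun r hr => R.ht_pos (a2 r hr)) fun r hr => R.ht_pos (b2 r hr)]
      exact le_inf a3 b3⟩ Set.inter_subset_left) |>.2
  have hU : X ≤ S.U := a3.trans (S.XS_mono a2)
  have inv : ∀ i, i ≠ i0 → ∀ r ∈ T, R.s i r ∈ T := fun i hi => by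
    have hr := S.n_rep_s i one_ne_zero
    have hm : S.n (R.sim i) 1 ∈ S.PJ {i0}ᶜ := S.n_mem_PJ hi
    have h1 := key _ (closed_ne i) (fun _ h => h.1) fun x hx => no_sim S hr le_rfl (fun t ht => by_contra fun e =>
      R.not_pos_neg_sim i (S.pos_of_x_mem_U e ht)) (hU hx) (hU (hn _ hm x hx))
    refine key _ (a1.preimage (R.s_mem_Aut i)) (fun r hr => R.s_s i r ▸ R.pos_s (h1 hr).1 (h1 hr).2) fun x hx => ?_
    have := hr.conj_mem (T' := R.s i ⁻¹' T) (fun r hr => by simpa [R.s_s] using hr) _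
      (a3 (hn _ (inv_mem hm) x hx))
    rwa [show ∀ n : G, n * (n⁻¹ * x * n⁻¹⁻¹) * n⁻¹ = x from fun n => by group] at this
  have fin : ∀ n : ℕ, ∀ r ∈ T, R.ht r < n → R.rt r i0 ≠ k := fun n => by
    induction n with
    | zero => exact fun r hr h1 => absurd (R.ht_pos (a2 r hr)) (by omega)
    | succ n ih =>
      intro r hr h1 h2
      obtain ⟨i, hi, h3⟩ := h r (hT0 hr) h2
      exact ih _ (inv i hi r hr) (by rw [R.ht_s]; omega) (by rw [R.rt_s_of_ne i r hi.symm, h2])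
  exact a3.trans (S.XS_mono fun r hr => lt_of_le_of_ne (hk r (hT0 hr))
    (fin ((R.ht r).toNat + 1) r hr (by omega)).symm)

theorem neg_not_mem (t : F) (h : S.x (R.neg (R.sim i0)) t ∈ S.PJ {i0}ᶜ) : t = 0 := by
  by_contra ht
  have h0 : -t⁻¹ ≠ 0 := by simpa using ht
  have h1 : S.n (R.sim i0) (-t⁻¹) ∈ S.PJ {i0}ᶜ := by
    have := S.B_le_PJ {i0}ᶜ (S.x_mem_B (R.pos_sim i0) (-t⁻¹))
    exact mul_mem (mul_mem this (by simpa using h)) this
  obtain ⟨w, hw, h2⟩ := S.mem_PJ_iff.1 h1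
  obtain rfl := S.cell_unique h2 (mem_cell_of_rep _ (S.n_mem h0) (S.n_rep_s i0 h0))
  have := RS.rt_of_mem_WJ hw (R.sim i0) (i := i0) (by simp)
  rw [R.s_sim, R.rt_neg, Pi.neg_apply, R.rt_sim] at this
  simp at this

theorem rt_s0 (r : Φ) : R.rt (R.s i0 r) i0 = R.rt r i0 - R.A (R.sim i0) r := by
  rw [R.rt_s, R.rt_sim]; simp

theorem coatom (hG : S.Gr = ⊤) : IsCoatom (S.PJ {i0}ᶜ) := by
  refine ⟨fun e => one_ne_zero (neg_not_mem S (i0 := i0) 1 (e ▸ mem_top _)), fun M hM => ?_⟩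
  have hB := (S.B_le_PJ _).trans hM.le
  by_cases h : S.n (R.sim i0) 1 ∈ M
  · rw [eq_top_iff, ← hG, ← S.PJ_univ]
    refine sup_le hB ((closure_le _).2 ?_)
    rintro _ ⟨j, -, rfl⟩
    by_cases e : j = i0
    exacts [e ▸ h, hM.le (S.n_mem_PJ e)]
  · refine absurd ((H26.BN.eq_parabolic (P := S.bn hG) hB).trans_le (sup_le_sup_left (Subgroup.closure_mono ?_) _)) hM.not_ge
    rintro _ ⟨⟨j, rfl⟩, hj⟩
    exact ⟨j, fun e => h ((show j = i0 from e) ▸ hj), rfl⟩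

variable (hH : S.H = ⊥) (h1 : ∀ r, R.rt r i0 = 1 → r ≠ R.sim i0 → ∃ i, i ≠ i0 ∧ 0 < R.A (R.sim i) r)
  (h2 : ∀ j, ∃ a b, R.rt a i0 = 1 ∧ R.rt b i0 = 1 ∧ (j = i0 ∨ R.rt a = R.rt b + R.rt (R.sim j)))
  (h3 : ∀ r, r ≠ R.sim i0 → R.A (R.sim i0) r ≤ 1)

include hH h1 h2 in
theorem first {X : Subgroup G} (hn : ∀ m ∈ S.PJ {i0}ᶜ, ∀ x ∈ X, m * x * m⁻¹ ∈ X) (hX : X ≤ S.PJ {i0}ᶜ)
    (hX' : X ≤ (S.PJ {i0}ᶜ).map (MulAut.conj (S.n (R.sim i0) 1)).toMonoidHom) : X ≤ S.XS (Lv R i0 2) := by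
  have hB : S.B ≤ S.U := sup_le le_rfl (hH ▸ bot_le)
  have hr0 : S.Rep (S.n (R.sim i0) 1)⁻¹ (R.s i0) := R.s_inv i0 ▸ (S.n_rep_s i0 one_ne_zero).inv
  have p1 : ∀ r ∈ Lv R i0 1, R.Pos r := fun r => Lv_pos one_pos
  have a1 : X ⊓ S.XS (Lv R i0 1) ≤ S.XS (Lv R i0 2) := by
    refine down S (k := 1) (fun m hm x hx => Subgroup.mem_inf.2 ⟨hn m hm x hx.1, conj_Lv S one_pos hm hx.2⟩)
      ((closed_Lv one_pos).inter (closed_ne i0)) (fun r hr => hr.2.1) (fun x hx => ?_) (fun r hr => hr.1)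
      fun r hr e => h1 r e hr.2.2
    rw [← S.sep.XS_inf (f := RS.htv) (closed_Lv one_pos) (closed_ne i0) (fun r hr => R.ht_pos (p1 r hr))
      fun r hr => R.ht_pos hr.1]
    exact ⟨hx.2, no_sim S hr0 (S.U_le_B.trans (S.B_le_PJ _)) (neg_not_mem S) (S.XS_mono p1 hx.2)
      (by simpa using mem_cj.1 (hX' hx.1))⟩
  have a2 : X ≤ S.U := fun g hg => by
    obtain ⟨w, hw, b, hb, n, hN, hr, b', hb', rfl⟩ := S.mem_PJ_iff.1 (hX hg)
    rw [BK_univ] at hb hb'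
    have hb2 := mul_mem hb' hb
    have hg2 : b' * b * n ∈ X := by simpa [mul_assoc] using hn _ (S.B_le_PJ _ hb') _ hg
    have key : ∀ r, R.rt r i0 = 1 → w r = r := fun r e => by
      have e' : R.rt (w r) i0 = 1 := (RS.rt_of_mem_WJ hw r (by simp)).trans e
      have hx := S.x_mem (T := Lv R i0 1) e.ge 1
      obtain ⟨d, hd, ed⟩ := hr.exists_conj r
      obtain ⟨c, hc, ec⟩ := S.B_conj_x (T := Lv R i0 1) (fun s hs => nml_Lv one_pos (hs i0)) p1 e'.ge hb2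
      have e1 := a1 (x := b' * b * n * S.x r 1 * (b' * b * n)⁻¹ * (S.x r 1)⁻¹) (Subgroup.mem_inf.2 ⟨by
        simpa [mul_assoc] using mul_mem hg2 (hn _ (S.B_le_PJ _ (S.x_mem_B (p1 r e.ge) 1)) _ (inv_mem hg2)),
        mul_mem (conj_Lv S one_pos (hX hg2) hx) (inv_mem hx)⟩)
      let T : Set Φ := {s | s ∈ Lv R i0 1 ∧ (R.ht (w r) < R.ht s ∨ s ∈ Lv R i0 2 ∨ s = r)}
      have hT : R.Closed T := fun a ha b hb u i j hi hj e => by
        have : u ∈ Lv R i0 2 := by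
          have := ha.1
          have := hb.1
          simp only [Lv, Set.mem_setOf_eq] at *
          rw [e]; simp only [Pi.add_apply, Pi.smul_apply, smul_eq_mul]; nlinarith
        exact ⟨Lv_mono one_le_two this, .inr (.inl this)⟩
      have e2 := mul_mem (mul_mem (S.XS_mono (T' := T) (fun s hs => ⟨Lv_mono one_le_two hs, .inr (.inl hs)⟩) e1)
        (S.x_mem (T := T) ⟨e.ge, .inr (.inr rfl)⟩ 1))
        (inv_mem (S.XS_mono (T' := T) (fun s hs => ⟨hs.1, .inl hs.2⟩) (ec (d * 1))))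
      rw [← ed] at e2
      have := S.mem_of_x_mem (f := RS.htv) hT (fun s hs => R.ht_pos (p1 s hs.1)) (R.ht_pos (p1 _ e'.ge))
        (t := c * (d * 1)) (by simp [hc, hd]) (by simpa [mul_assoc] using e2)
      rcases this.2 with h | h | h
      · exact absurd h (lt_irrefl _)
      · exact absurd (e' ▸ h : (2 : ℤ) ≤ 1) (by norm_num)
      · exact h
    have ha := R.WJ_le_Aut _ hw
    obtain rfl : w = 1 := RS.Aut.eq_one_of_fix ha fun j => by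
      obtain ⟨a, b, e1, e2, rfl | e3⟩ := h2 j
      · exact key _ (by simp [R.rt_sim])
      · have := congrArg (R.lin w) e3
        rw [map_add, RS.Aut.lin_rt ha, RS.Aut.lin_rt ha, RS.Aut.lin_rt ha, key a e1, key b e2, e3] at this
        exact R.rt_inj (add_left_cancel this).symm
    exact hB (mul_mem (mul_mem hb (S.H_le_B (S.mem_H_of_rep_one hN hr))) hb')
  have a3 := down S (k := 0) hn RS.closed_pos (fun _ h => h) a2 (fun r hr => hr i0) fun r hr e => by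
    obtain ⟨i, e1, e2⟩ := R.exists_A_pos hr
    exact ⟨i, by rintro rfl; omega, e1⟩
  exact fun x hx => a1 ⟨hx, a3 hx⟩

theorem next {X : Subgroup G} (hn : ∀ m ∈ S.PJ {i0}ᶜ, ∀ x ∈ X, m * x * m⁻¹ ∈ X) {k : ℤ} (hk : 2 ≤ k)
    (hX : X ≤ S.XS (Lv R i0 k)) (hX' : X ≤ (S.XS (Lv R i0 k)).map (MulAut.conj (S.n (R.sim i0) 1)).toMonoidHom) :
    X ≤ S.XS (Lv R i0 (k + 1)) := by
  have k0 : 0 < k := by omega
  have c1 := (closed_Lv (R := R) (i0 := i0) k0).preimage (R.s_mem_Aut i0)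
  refine down S hn ((closed_Lv k0).inter c1) (fun r hr => Lv_pos k0 hr.1) ?_ (fun r hr => hr.1) fun r hr e => ?_
  · rw [← S.sep.XS_inf (f := RS.htv) (closed_Lv k0) c1 (fun r hr => R.ht_pos (Lv_pos k0 hr)) fun r hr =>
      R.ht_pos (R.s_s i0 r ▸ R.pos_s (Lv_pos k0 hr) fun e => by
        rw [Set.mem_preimage, e] at hr
        simp [Lv, R.rt_sim] at hr; omega)]
    refine le_inf hX (hX'.trans ?_)
    rw [(S.n_rep_s i0 one_ne_zero).map_XS]
    exact S.XS_mono (by rintro _ ⟨r, hr, rfl⟩; simpa [R.s_s] using hr)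
  · obtain ⟨i, e1, e2⟩ := R.exists_A_pos (Lv_pos k0 hr.1)
    refine ⟨i, ?_, e1⟩
    rintro rfl
    have : k ≤ _ := hr.2
    rw [rt_s0] at this; omega

include hH h1 h2 in
theorem upper (i : ℕ) : seq (S.PJ {i0}ᶜ) (S.n (R.sim i0) 1) (i + 1) ≤ S.XS (Lv R i0 (i + 2)) := by
  induction i with
  | zero => exact first S hH h1 h2 (fun m hm x => cr_conj hm) (cr_le.trans inf_le_left) (cr_le.trans inf_le_right)
  | succ i ih =>
    rw [show ((i + 1 : ℕ) : ℤ) + 2 = i + 2 + 1 by push_cast; ring]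
    exact next S (fun m hm x => cr_conj hm) (by omega) (cr_le.trans (inf_le_left.trans ih))
      (cr_le.trans (inf_le_right.trans (map_mono ih)))

include h3 in
theorem lower (i : ℕ) : S.XS (Lv R i0 (i + 1)) ≤ seq (S.PJ {i0}ᶜ) (S.n (R.sim i0) 1) i := by
  have a : ∀ i : ℕ, S.XS (Lv R i0 (i + 1)) ≤ S.PJ {i0}ᶜ := fun i =>
    (S.XS_mono fun r => Lv_pos (by omega)).trans (S.U_le_B.trans (S.B_le_PJ _))
  induction i with
  | zero => exact a 0
  | succ i ih =>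
    refine fun x hx => mem_cr.2 ⟨a _ hx, fun m hm => ?_⟩
    have := conj_Lv S (by omega) hm hx
    refine ⟨ih (S.XS_mono (Lv_mono (by omega)) this), map_mono ih ?_⟩
    rw [(S.n_rep_s i0 one_ne_zero).map_XS]
    refine S.XS_mono (fun r hr => ?_) this
    refine ⟨R.s i0 r, ?_, R.s_s _ _⟩
    simp only [Lv, Set.mem_setOf_eq, rt_s0] at hr ⊢
    have := h3 r (by rintro rfl; simp [R.rt_sim] at hr; omega)
    omega

end H14.PC
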