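import Cfsg.Agent.H24.LT1
import Cfsg.Agent.H24.Misc
import Cfsg.Agent.H4.QuadPair
import Cfsg.Agent.H4.Dk6

/-! Overgroups of subfield subgroups: the strong embedding argument. -/

set_option autoImplicit false
set_option maxHeartbeats 400000
set_option linter.unusedSectionVars false

namespace H14.SF
open H24 H24.St0 Subgroup

section Abstract
variable {G : Type*} [Group G] [Finite G] {p : ℕ} [Fact p.Prime]

theorem exists_norm {T Q : Subgroup G} (hT : IsPGroup p T) (h : ¬ T ≤ Q) (hQ : Q ≤ T) :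
    ∃ g ∈ T, g ∈ normalizer (Q : Set G) ∧ g ∉ Q := by
  have := hT.isNilpotent
  have h1 : Q.subgroupOf T < ⊤ := lt_top_iff_ne_top.2 fun e => h (subgroupOf_eq_top.1 e)
  obtain ⟨g, hg, hg'⟩ := SetLike.exists_of_lt (normalizerCondition_of_isNilpotent _ h1)
  refine ⟨g, g.2, mem_normalizer_of_conj (fun m hm => ?_) fun m hm => ?_, hg'⟩
  · exact (mem_normalizer_iff.1 hg ⟨m, hQ hm⟩).1 hm
  · exact (mem_normalizer_iff''.1 hg ⟨m, hQ hm⟩).1 hm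

/-- `A ⊓ M` is strongly embedded in `M` (or everything) -/
def SE (p : ℕ) (M A : Subgroup G) : Prop :=
  ∀ Q : Subgroup G, Q ≤ M → Q ≤ A → IsPGroup p Q → Q ≠ ⊥ → ∀ g ∈ M, g ∈ normalizer (Q : Set G) → g ∈ A

theorem SE.le {M A : Subgroup G} (h : SE p M A) {T : Subgroup G} (hT : IsPGroup p T) (hTM : T ≤ M) {x : G}
    (hx : x ∈ T) (hA : x ∈ A) (h1 : x ≠ 1) : T ≤ A := by
  by_contra hne
  obtain ⟨g, hg, h2, h3⟩ := exists_norm (Q := T ⊓ A) hT (fun e => hne (e.trans inf_le_right)) inf_le_left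
  exact h3 ⟨hg, h _ (inf_le_left.trans hTM) inf_le_right (hT.to_le inf_le_left)
    (fun e => h1 (mem_bot.1 (e ▸ (⟨hx, hA⟩ : x ∈ T ⊓ A)))) g (hTM hg) h2⟩

theorem isPGroup_zp {x : G} {k : ℕ} (hk : x ^ p ^ k = 1) : IsPGroup p (zpowers x) := by
  rintro ⟨_, m, rfl⟩
  refine ⟨k, Subtype.ext ?_⟩
  change (x ^ m) ^ p ^ k = 1
  rw [← zpow_natCast, ← zpow_mul, mul_comm m, zpow_mul, zpow_natCast, hk, one_zpow]

theorem SE.cent {M A : Subgroup G} (h : SE p M A) {x g : G} {k : ℕ} (hk : x ^ p ^ k = 1) (hx : x ∈ M) (hA : x ∈ A)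
    (h1 : x ≠ 1) (hg : g ∈ M) (e : Commute g x) : g ∈ A :=
  h (zpowers x) (zpowers_le.2 hx) (zpowers_le.2 hA) (isPGroup_zp hk) (by simpa using h1) g hg
    (centralizer_le_normalizer _ (mem_centralizer_iff.2 (by
      rintro _ ⟨m, rfl⟩; exact (e.zpow_right m).symm.eq)))

theorem SE.conj {M A : Subgroup G} (h : SE p M A) {x g : G} {k : ℕ} (hk : x ^ p ^ k = 1) (hx : x ∈ M) (hA : x ∈ A)
    (h1 : x ≠ 1) (hg : g ∈ M) (e : g * x * g⁻¹ ∈ A) : g ∈ A := by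
  obtain ⟨P, hP⟩ := (isPGroup_zp (G := M) (x := ⟨x, hx⟩) (k := k) (Subtype.ext hk)).exists_le_sylow
  have key : ∀ Q : Sylow p M, ∀ y : M, y ∈ (Q : Subgroup M) → (y : G) ∈ A → (y : G) ≠ 1 →
      (Q : Subgroup M) ≤ A.subgroupOf M := fun Q y h1 h2 h3 a ha =>
    h.le (T := (Q : Subgroup M).map M.subtype) (Q.isPGroup'.map _) (map_subtype_le _) ⟨y, h1, rfl⟩ h2 h3 ⟨a, ha, rfl⟩
  have h2 := key P _ (hP (mem_zpowers _)) hA h1
  have h3 := key ((⟨g, hg⟩ : M) • P) (⟨g, hg⟩ * ⟨x, hx⟩ * ⟨g, hg⟩⁻¹) (by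
    rw [Sylow.smul_def, Sylow.pointwise_smul_def]
    exact smul_mem_pointwise_smul _ (MulAut.conj (⟨g, hg⟩ : M)) _ (hP (mem_zpowers _))) e (by simpa using h1)
  obtain ⟨m, hm⟩ := MulAction.exists_smul_eq (A.subgroupOf M) (P.subtype h2) (((⟨g, hg⟩ : M) • P).subtype h3)
  rw [Sylow.smul_subtype] at hm
  have h4 : ((m : M)⁻¹ * ⟨g, hg⟩) • P = P := by
    rw [mul_smul, ← Sylow.subtype_injective hm]; exact inv_smul_smul (m : M) P
  have h5 := Sylow.smul_eq_iff_mem_normalizer.1 h4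
  have h6 := h ((P : Subgroup M).map M.subtype) (map_subtype_le _) (by rintro _ ⟨a, ha, rfl⟩; exact h2 ha)
    (P.isPGroup'.map _) (fun e => h1 (mem_bot.1 (e ▸ (⟨_, hP (mem_zpowers _), rfl⟩ :
      x ∈ (P : Subgroup M).map M.subtype)))) _ ((m : M)⁻¹ * ⟨g, hg⟩).2 (le_normalizer_map _ ⟨_, h5, rfl⟩)
  exact (A.mul_mem_cancel_left (A.inv_mem m.2)).1 h6

/-- two non-conjugate involutions -/
theorem SE.dihedral {M A : Subgroup G} (h : SE 2 M A) {x y : G} (hx : x ∈ M) (hy : y ∈ M) (hA : y ∈ A)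
    (h1 : y ≠ 1) (x2 : x * x = 1) (y2 : y * y = 1) (hc : ∀ g : G, g * x * g⁻¹ ≠ y) : x ∈ A := by
  have xi : x⁻¹ = x := inv_eq_of_mul_eq_one_right x2
  have yi : y⁻¹ = y := inv_eq_of_mul_eq_one_right y2
  have hx' : ∀ n : ℕ, x * (x * y) ^ n * x⁻¹ = ((x * y) ^ n)⁻¹ := fun n => by
    rw [← conj_pow, ← inv_pow]; congr 1; rw [mul_inv_rev, xi, yi, ← mul_assoc, x2, one_mul]
  have hy' : ∀ n : ℕ, y * (x * y) ^ n * y⁻¹ = ((x * y) ^ n)⁻¹ := fun n => by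
    rw [← conj_pow, ← inv_pow]; congr 1; rw [mul_inv_rev, xi, yi, mul_assoc, mul_assoc, y2, mul_one]
  have ho := pow_orderOf_eq_one (x * y)
  rcases Nat.even_or_odd' (orderOf (x * y)) with ⟨m, hm | hm⟩
  · have hpos := orderOf_pos (x * y)
    have w1 : (x * y) ^ m ≠ 1 := pow_ne_one_of_lt_orderOf (by omega) (by omega)
    have wi : ((x * y) ^ m)⁻¹ = (x * y) ^ m := inv_eq_of_mul_eq_one_right (by rw [← pow_add, ← two_mul, ← hm, ho])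
    have wM := M.pow_mem (M.mul_mem hx hy) m
    have wA := h.cent (x := y) (k := 1) (by rw [pow_one, sq, y2]) hy hA h1 wM
      (Commute.symm (mul_inv_eq_iff_eq_mul.1 ((hy' m).trans wi)))
    exact h.cent (k := 1) (by rw [pow_one, ← pow_mul, mul_comm m, ← hm, ho]) wM wA w1 hx
      (mul_inv_eq_iff_eq_mul.1 ((hx' m).trans wi))
  · refine absurd ?_ (hc ((x * y) ^ m))
    have e1 : x * ((x * y) ^ m)⁻¹ = (x * y) ^ m * x := by
      rw [← hx' m, xi, ← mul_assoc, ← mul_assoc, x2, one_mul]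
    have e2 : (x * y) ^ (2 * m) * (x * y) = 1 := by rw [← pow_succ, ← hm, ho]
    rw [mul_assoc, e1, ← mul_assoc, ← pow_add, ← two_mul]
    rw [← mul_assoc, mul_eq_one_iff_eq_inv, yi] at e2
    exact e2

/-- two involutions with a product of odd order -/
theorem exists_conj_odd {x y : G} (x2 : x * x = 1) (y2 : y * y = 1) {n : ℕ} (hn : Odd n) (h : (x * y) ^ n = 1) :
    ∃ m : ℕ, (x * y) ^ m * x * ((x * y) ^ m)⁻¹ = y := by
  have xi : x⁻¹ = x := inv_eq_of_mul_eq_one_right x2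
  have yi : y⁻¹ = y := inv_eq_of_mul_eq_one_right y2
  obtain ⟨m, rfl⟩ := hn
  have hx' : x * (x * y) ^ m * x⁻¹ = ((x * y) ^ m)⁻¹ := by
    rw [← conj_pow, ← inv_pow]; congr 1; rw [mul_inv_rev, xi, yi, ← mul_assoc, x2, one_mul]
  refine ⟨m, ?_⟩
  have e1 : x * ((x * y) ^ m)⁻¹ = (x * y) ^ m * x := by
    rw [← hx', xi, ← mul_assoc, ← mul_assoc, x2, one_mul]
  rw [mul_assoc, e1, ← mul_assoc, ← pow_add, ← two_mul]
  rwa [pow_succ, ← mul_assoc, mul_eq_one_iff_eq_inv, yi] at h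

/-- a stable radical overgroup -/
theorem exists_radical (σ : G →* G) (hσ : Function.Injective σ) {Γ Q : Subgroup G} (hΓ : ∀ g ∈ Γ, σ g ∈ Γ)
    (hQ : IsPGroup p Q) (hQΓ : Q ≤ Γ) (hs : ∀ x ∈ Q, σ x ∈ Q) {g : G} (hgΓ : g ∈ Γ) (hg : g ∈ normalizer (Q : Set G)) :
    ∃ X : Subgroup G, IsPGroup p X ∧ Q ≤ X ∧ X ≤ Γ ∧ (∀ x ∈ X, σ x ∈ X) ∧ g ∈ normalizer (X : Set G) ∧
      ∀ Y : Subgroup G, IsPGroup p Y → Y ≤ Γ ⊓ normalizer (X : Set G) →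
        Γ ⊓ normalizer (X : Set G) ≤ normalizer (Y : Set G) → Y ≤ X := by
  obtain ⟨X, ⟨h1, h2, h3, h4, h5⟩, hm⟩ := Set.Finite.exists_maximal (s := {X : Subgroup G | IsPGroup p X ∧ Q ≤ X ∧
    X ≤ Γ ∧ (∀ x ∈ X, σ x ∈ X) ∧ g ∈ normalizer (X : Set G)}) (Set.toFinite _) ⟨Q, hQ, le_rfl, hQΓ, hs, hg⟩
  refine ⟨X, h1, h2, h3, h4, h5, ?_⟩
  set N := Γ ⊓ normalizer (X : Set G) with hN
  have hXs : X.map σ = X := eq_of_le_of_card_ge (by rintro _ ⟨x, hx, rfl⟩; exact h4 x hx)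
    (card_map_of_injective hσ).ge
  have hN1 : N.map σ ≤ N := by
    rintro _ ⟨x, hx, rfl⟩
    have := le_normalizer_map σ (⟨x, hx.2, rfl⟩ : σ x ∈ (normalizer (X : Set G)).map σ)
    rw [hXs] at this
    exact ⟨hΓ x hx.1, this⟩
  have hNs : N.map σ = N := eq_of_le_of_card_ge hN1 (card_map_of_injective hσ).ge
  obtain ⟨Z, ⟨z1, z2, z3⟩, hz⟩ := Set.Finite.exists_maximal (s := {Y : Subgroup G | IsPGroup p Y ∧ Y ≤ N ∧
    N ≤ normalizer (Y : Set G)}) (Set.toFinite _) ⟨X, h1, le_inf h3 le_normalizer, inf_le_right⟩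
  have key : ∀ Y : Subgroup G, IsPGroup p Y → Y ≤ N → N ≤ normalizer (Y : Set G) → Y ≤ Z := fun Y y1 y2 y3 =>
    le_sup_right.trans (hz ⟨z1.to_sup_of_normal_left' y1 (y2.trans z3), sup_le z2 y2,
      (le_inf z3 y3).trans (normalizer_inf_normalizer_le_normalizer_sup _ _)⟩ le_sup_left)
  have hXZ := key X h1 (le_inf h3 le_normalizer) inf_le_right
  have hZX : Z ≤ X := hm ⟨z1, h2.trans hXZ, z2.trans inf_le_left, fun x hx => key (Z.map σ) (z1.map σ)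
    ((map_mono z2).trans hN1) (hNs.ge.trans ((map_mono z3).trans (le_normalizer_map σ))) ⟨x, hx, rfl⟩,
    z3 ⟨hgΓ, h5⟩⟩ hXZ
  exact fun Y y1 y2 y3 => (key Y y1 y2 y3).trans hZX

end Abstract

variable {ι Φ : Type} [Fintype ι] [DecidableEq ι] [Fintype Φ] [DecidableEq Φ] {R : CD ι Φ} {F : Type*} [Field F]
  {G : Type*} [Group G] {S : St R F G}

theorem B_norm (S : St R F G) {A : Set Φ} (hA : ∀ s, R.Pos s → R.Nml s A) : S.B ≤ normalizer (S.XS A : Set G) :=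
  fun b hb => by
    obtain ⟨u, hu, k, hk, rfl⟩ := S.mem_B_iff.1 hb
    exact mul_mem (S.XS_le_normalizer (fun s hs => hA s hs) hu) (S.H_le_normalizer _ hk)

/-- the positive roots not below `r`, without `r` -/
def Up (R : CD ι Φ) (r : Φ) : Set Φ := {s | R.Pos s ∧ R.ht r ≤ R.ht s ∧ s ≠ r}

theorem ht_comb {r s u : Φ} {i j : ℕ} (e : R.rt u = (i : ℤ) • R.rt r + (j : ℤ) • R.rt s) :
    R.ht u = i * R.ht r + j * R.ht s := RS.f_comb (f := RS.htv) e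

theorem nml_Up (r s : Φ) (hs : R.Pos s) : R.Nml s (Up R r) := fun t ht => by
  have h1 := R.ht_pos hs
  have h2 := R.ht_pos ht.1
  refine ⟨RS.ne_neg_of_pos (f := RS.htv) h1 h2, fun u i j hi hj e => ?_⟩
  have h3 := ht_comb e
  have h4 : R.ht t < R.ht u := by nlinarith
  exact ⟨(R.pos_iff_ht u).2 (h2.trans h4), ht.2.1.trans h4.le, fun e => absurd ht.2.1 (e ▸ h4.not_ge)⟩

theorem closed_Up (r : Φ) : R.Closed (Up R r) := fun a ha b hb => (nml_Up r a ha.1 b hb).2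

theorem x_not_mem_Up (S : St R F G) {r : Φ} (hr : R.Pos r) {t : F} (ht : t ≠ 0) : S.x r t ∉ S.XS (Up R r) := fun h =>
  (S.mem_of_x_mem (f := RS.htv) (closed_Up r) (fun _ h => R.ht_pos h.1) (R.ht_pos hr) ht h).2.2 rfl

section fld
variable (y : Tw S) (hy : y.ρ = 1)
include hy

theorem σXS {T : Set Φ} {g : G} (hg : g ∈ S.XS T) : y.σ g ∈ S.XS T := y.σ_mem_XS (fun r hr => by rwa [hy]) hg

theorem σcell {w : Equiv.Perm Φ} {g : G} (hg : g ∈ S.Cell Set.univ w) : y.σ g ∈ S.Cell Set.univ w := by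
  simpa [hy] using y.σ_mem_cell hg

theorem σPJ {J : Set ι} {g : G} (hg : g ∈ S.PJ J) : y.σ g ∈ S.PJ J := by
  obtain ⟨w, hw, h⟩ := S.mem_PJ_iff.1 hg
  exact S.mem_PJ_iff.2 ⟨w, hw, σcell y hy h⟩

end fld

/-- the hypotheses of the strong embedding argument -/
structure Hyp (z : Tw S) (Γ : Subgroup G) (y : Tw S) (M : Subgroup G) : Prop where
  hy : y.ρ = 1
  le : M ≤ Γ
  stab : ∀ g ∈ Γ, y.σ g ∈ Γ
  hU : ∀ u ∈ S.U, u ∈ Γ → u ∈ y.Fx → u ∈ M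
  hN : ∀ w ∈ z.sym.W1, ∃ n ∈ S.N, n ∈ M ∧ n ∈ y.Fx ∧ S.Rep n w
  hB : ∀ b ∈ S.B, b ∈ M → b ∈ y.Fx
  hY : ∀ r, R.Pos r → ∃ u ∈ M, u ∈ S.XS {s | R.Pos s ∧ R.ht s = R.ht r ∧
    ∀ J : Set ι, (∀ i, z.π i ∈ J ↔ i ∈ J) → R.InJ J s → R.InJ J r} ∧ u ∉ S.XS (Up R r)

namespace Hyp
variable {z y : Tw S} {κ : Type} {O : z.sym.Orb κ} {Γ M : Subgroup G} (hΓ : z.Sub O Γ) (H : Hyp z Γ y M)
include hΓ H

theorem rat_B {x : G} (hx : x ∈ Γ) (h : x⁻¹ * y.σ x ∈ S.B) : ∃ m ∈ M, m ∈ y.Fx ∧ m⁻¹ * x ∈ S.B := by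
  obtain ⟨w, hw, u, hu, n, hn, hr, u', hu', e⟩ := hΓ.exists_decomp (Γ.inv_mem hx)
  obtain ⟨n0, h0, h1, h2, h3⟩ := H.hN w hw
  have hb : u * (n * n0⁻¹) ∈ S.B := mul_mem (S.U_le_B hu.1) (S.H_le_B (by
    simpa using S.mem_H_of_rep (inv_mem hn.1) (inv_mem h0) hr.inv h3.inv))
  have e1 : x⁻¹ = u * (n * n0⁻¹) * n0 * u' := by rw [e]; group
  have e2 := S.canon_unique h3 (y.σ_mem_B hb) (mul_mem (inv_mem h) hb) (σXS y H.hy hu'.1) hu'.1 (by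
    rw [mul_assoc (_⁻¹), mul_assoc (_⁻¹), ← e1, ← y.mem_Fx.1 h2, ← map_mul, ← map_mul, y.mem_Fx.1 h2, ← e1]
    simp)
  have h4 := H.hU u' (S.Um_le_U _ hu'.1) hu'.2 e2.2
  refine ⟨(n0 * u')⁻¹, inv_mem (mul_mem h1 h4), inv_mem (mul_mem h2 e2.2), ?_⟩
  have : (n0 * u')⁻¹⁻¹ * x = (u * (n * n0⁻¹))⁻¹ := by
    rw [← inv_inv x, e1]; group
  rw [this]; exact inv_mem hb

theorem rat_P (hG : S.Gr = ⊤) {J : Set ι} (hJ : ∀ i, z.π i ∈ J ↔ i ∈ J) {x : G} (hx : x ∈ Γ)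
    (h : x⁻¹ * y.σ x ∈ S.PJ J) : ∃ m ∈ M, m ∈ y.Fx ∧ m⁻¹ * x ∈ S.PJ J := by
  induction hn : R.N (S.wc hG x) using Nat.strong_induction_on generalizing x with
  | _ N ih =>
  by_cases h0 : ∀ j ∈ J, R.Pos (S.wc hG x (R.sim j))
  · obtain ⟨m, h1, h2, h3⟩ := H.rat_B hΓ hx (S.mem_B_of_min hG h0 (by
      rwa [S.wc_eq hG (σcell y H.hy (S.wc_mem hG x))]) h)
    exact ⟨m, h1, h2, S.B_le_PJ _ h3⟩
  push Not at h0
  obtain ⟨j, hj, h0⟩ := h0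
  obtain ⟨w, hw, u, hu, n, hn', hr, u', hu', e⟩ := hΓ.exists_decomp hx
  have e1 : S.wc hG x = w := S.wc_eq hG (e ▸ S.canon_mem_cell hn'.1 hr (S.U_le_B hu.1) (S.U_le_B (S.Um_le_U _ hu'.1)))
  rw [e1] at h0 hn
  have hp : u'⁻¹ * hΓ.nk (O.o j) ∈ S.PJ J := mul_mem (inv_mem (S.B_le_PJ _ (S.U_le_B (S.Um_le_U _ hu'.1))))
    (hΓ.nk_PJ fun i hi => RS.Sym.Orb.sub_of O hJ (show O.o i = O.o j from hi).symm hj)
  have e2 : S.wc hG (x * (u'⁻¹ * hΓ.nk (O.o j))) = w * O.wk (O.o j) := S.wc_eq hG (by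
    rw [show x * (u'⁻¹ * hΓ.nk (O.o j)) = u * (n * hΓ.nk (O.o j)) * 1 by rw [e]; group]
    exact S.canon_mem_cell (mul_mem hn'.1 (hΓ.nk_N _)) (hr.mul (hΓ.nk_rep _)) (S.U_le_B hu.1) (one_mem _))
  have h1 := O.N_mul_wk (mul_mem hw (O.wk_mem (O.o j))) ((O.pos_mul_wk hw _).2 (by rwa [← O.pos_iff hw (i := j) rfl]))
  rw [mul_assoc, O.wk_sq, mul_one] at h1
  have h2 := O.N_wk_pos (O.o j)
  obtain ⟨m, h3, h4, h5⟩ := ih _ (by rw [e2]; omega) (mul_mem hx (mul_mem (inv_mem hu'.2) (hΓ.nk_M _))) (by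
    rw [map_mul, mul_inv_rev, mul_assoc, ← mul_assoc x⁻¹]
    exact mul_mem (inv_mem hp) (mul_mem h (σPJ y H.hy hp))) rfl
  exact ⟨m, h3, h4, (mul_mem_cancel_right hp).1 (by rwa [mul_assoc])⟩

omit hΓ in
theorem mem_B_of_cent (hc : ∃ r, ∀ i, R.rt r i ≠ 0) {J : Set ι} (hJ : ∀ i, z.π i ∈ J ↔ i ∈ J) {i0 : ι} (h0 : i0 ∉ J)
    {g : G} (hg : g ∈ S.PJ J) (h : ∀ u ∈ S.UJ J, u ∈ M → g * u = u * g) : g ∈ S.B := by
  set T : Set Φ := {r | R.Pos r ∧ ¬ R.InJ J r}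
  obtain ⟨w, hw, b, hb, n, hn, hr, b', hb', rfl⟩ := S.mem_PJ_iff.1 hg
  rw [BK_univ] at hb hb'
  have hwT : ∀ r, w r ∈ T ↔ r ∈ T := fun r => by
    simp only [T, Set.mem_setOf_eq, RS.InJ_iff_of_mem_WJ hw]
    exact and_congr_left fun h => RS.pos_iff_of_mem_WJ hw h
  have hw1 : ∀ r ∈ T, R.ht r ≤ R.ht (w r) := fun r hrT => by
    obtain ⟨u, huM, hu, hu'⟩ := H.hY r hrT.1
    have hL : ∀ s, R.Pos s → R.Nml s (R.lvl T RS.htv (R.ht r)) := fun s hs t ht => by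
      have h1 := R.ht_pos hs
      have h2 := R.ht_pos ht.1.1
      refine ⟨RS.ne_neg_of_pos (f := RS.htv) h1 h2, fun v i j hi hj e =>
        ⟨(RS.nml_UJ (Or.inl hs) t ht.1).2 v i j hi hj e, ?_⟩⟩
      have h3 := ht_comb e
      have h4 : R.ht r ≤ R.ht t := ht.2
      change R.ht r ≤ R.ht v
      nlinarith
    have huL : u ∈ S.XS (R.lvl T RS.htv (R.ht r)) :=
      S.XS_mono (fun s hs => And.intro (And.intro hs.1 fun e => hrT.2 (hs.2.2 J hJ e)) hs.2.1.ge) hu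
    have e2 : n * (b' * u * b'⁻¹) * n⁻¹ = b⁻¹ * u * b := by
      have := h u (S.XS_mono (fun s hs => hs.1) huL) huM
      calc _ = b⁻¹ * (b * n * b' * u) * (b * n * b')⁻¹ * b := by group
        _ = _ := by rw [this]; group
    have e3 := S.mem_XS_of_conj (fun a ha c hc => (hL a ha.1.1 c hc).2) (fun _ h => h.1.1) hr
      ((mem_normalizer_iff.1 (B_norm S hL hb') _).1 huL) (e2 ▸ (mem_normalizer_iff''.1 (B_norm S hL hb) _).1 huL)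
    by_contra hlt
    refine hu' ((mem_normalizer_iff.1 (B_norm S (nml_Up r) hb') _).2 (S.XS_mono (fun s hs => ?_) e3))
    exact ⟨hs.1.1.1, hs.1.2, fun e => hlt (by have := hs.2.2; rw [e] at this; exact this)⟩
  have hw2 : ∀ r ∈ T, R.ht (w r) = R.ht r := fun r hr => by
    have : ∀ k : ℕ, (w ^ (k + 1)) r ∈ T ∧ R.ht (w r) ≤ R.ht ((w ^ (k + 1)) r) := fun k => by
      induction k with
      | zero => simpa using (hwT r).2 hr
      | succ k ih => rw [pow_succ']; exact ⟨(hwT _).2 ih.1, ih.2.trans (hw1 _ ih.1)⟩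
    have h1 := (this (orderOf w - 1)).2
    rw [Nat.sub_add_cancel (orderOf_pos w), pow_orderOf_eq_one] at h1
    exact le_antisymm h1 (hw1 r hr)
  obtain rfl : w = 1 := R.W_eq_one_of_pos (R.WJ_le_W _ hw) fun i => (R.pos_iff_ht _).2 <| by
    have := R.span_UJ hc h0 (LinearMap.eqLocus (RS.htv.comp (R.lin w)) RS.htv).toAddSubgroup (fun r h1 h2 => by
      change RS.htv (R.lin w _) = _
      rw [RS.Aut.lin_rt (R.WJ_le_Aut _ hw)]; exact hw2 r ⟨h1, h2⟩) (R.rt (R.sim i))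
    change RS.htv (R.lin w _) = R.ht _ at this
    rw [RS.Aut.lin_rt (R.WJ_le_Aut _ hw), R.ht_sim] at this
    exact zero_lt_one.trans_eq this.symm
  exact mul_mem (mul_mem hb (S.H_le_B (S.mem_H_of_rep_one hn hr))) hb'

theorem fix_P (hc : ∃ r, ∀ i, R.rt r i ≠ 0) {J : Set ι} (hJ : ∀ i, z.π i ∈ J ↔ i ∈ J) {i0 : ι} (h0 : i0 ∉ J)
    {g : G} (hg : g ∈ S.PJ J) (hM : g ∈ M) : g ∈ y.Fx := by
  obtain ⟨m, h1, h2, h3⟩ := H.rat_B hΓ (H.le hM) (H.mem_B_of_cent hc hJ h0 (mul_mem (inv_mem hg) (σPJ y H.hy hg))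
    fun u hu huM => by
      have a1 := y.mem_Fx.1 (H.hB u (S.U_le_B (S.UJ_le_U _ hu)) huM)
      have a2 := y.mem_Fx.1 (H.hB _ (S.U_le_B (S.UJ_le_U _ ((mem_normalizer_iff.1 (S.PJ_le_normalizer J hg) _).1 hu)))
        (mul_mem (mul_mem hM huM) (inv_mem hM)))
      rw [map_mul, map_mul, a1, map_inv] at a2
      calc _ = g⁻¹ * (y.σ g * u * (y.σ g)⁻¹) * y.σ g := by group
        _ = _ := by rw [a2]; group)
  exact (mul_mem_cancel_left (inv_mem h2)).1 (H.hB _ h3 (mul_mem (inv_mem h1) hM))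

theorem se [Fintype F] (p : ℕ) [Fact p.Prime] [CharP F p] [Finite G] (ha : S.Adj) (hG : S.Gr = ⊤)
    (hc : ∃ r, ∀ i, R.rt r i ≠ 0) (L : z.sym.Lam) : SE p M y.Fx := fun Q h1 h2 h3 h4 g hg hgQ => by
  have hinj := (y.bijective hG ha).1
  obtain ⟨X, x1, x2, x3, x4, x5, x6⟩ := exists_radical y.σ hinj H.stab h3 (h1.trans H.le)
    (fun x hx => by rwa [y.mem_Fx.1 (h2 hx)]) (H.le hg) hgQ
  obtain ⟨P, hP⟩ := (x1.comap_subtype (K := Γ)).exists_le_sylow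
  obtain ⟨g0, rfl⟩ := MulAction.exists_smul_eq Γ (hΓ.syl p ha) P
  obtain ⟨a, ha', J, hJ, b1, b2⟩ := hΓ.borelTits L (X := X) g0.2 (fun x hx => by
    obtain ⟨v, hv, e⟩ := hP (show (⟨x, x3 hx⟩ : Γ) ∈ X.comap Γ.subtype from hx)
    have e' : (g0 : G) * v * (g0 : G)⁻¹ = x := congrArg Subtype.val e
    rw [← e']
    simpa [mul_assoc] using (hΓ.mem_syl p ha).1 hv)
  have b3 : ∀ v ∈ Γ ⊓ normalizer (X : Set G), a⁻¹ * v * a ∈ S.PJ J := fun v hv =>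
    b2 v hv.1 fun x hx => (mem_normalizer_iff''.1 hv.2 x).1 hx
  obtain ⟨i0, hi⟩ : ∃ i, i ∉ J := by
    by_contra! hJ'
    refine h4 (eq_bot_iff.2 fun x hx => ?_)
    have := b1 x (x2 hx)
    rw [Set.eq_univ_of_forall hJ', S.UJ_univ, mem_bot] at this
    simpa [mul_assoc, inv_mul_eq_one] using this
  let V : Subgroup G := (S.UJ J).comap (MulAut.conj a⁻¹).toMonoidHom ⊓ Γ
  have hV : ∀ v, v ∈ V ↔ a⁻¹ * v * a ∈ S.UJ J ∧ v ∈ Γ := fun v => by simp [V]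
  have pV : IsPGroup p V := (((S.isPGroup_U p).to_le (S.UJ_le_U J)).comap_of_injective _
    (MulAut.conj a⁻¹).injective).to_le inf_le_left
  have hVX : V ≤ X := by
    by_contra hne
    obtain ⟨v, v1, v2, v3⟩ := exists_norm pV hne fun x hx => (hV x).2 ⟨b1 x hx, x3 hx⟩
    have key : ∀ c ∈ Γ ⊓ normalizer (X : Set G), ∀ m ∈ V ⊓ normalizer (X : Set G),
        c * m * c⁻¹ ∈ V ⊓ normalizer (X : Set G) := fun c hc m hm =>
      ⟨(hV _).2 ⟨by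
        convert (mem_normalizer_iff.1 (S.PJ_le_normalizer J (b3 c hc)) _).1 ((hV _).1 hm.1).1 using 1; group,
        mul_mem (mul_mem hc.1 hm.1.2) (inv_mem hc.1)⟩, mul_mem (mul_mem hc.2 hm.2) (Subgroup.inv_mem _ hc.2)⟩
    exact v3 (x6 (V ⊓ normalizer (X : Set G)) (pV.to_le inf_le_left) (inf_le_inf_right _ inf_le_right)
      (fun c hc => mem_normalizer_of_conj (key c hc) fun m hm => by
        have := key c⁻¹ (inv_mem hc) m hm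
        rwa [inv_inv] at this) ⟨v1, v2⟩)
  have hXs : X.map y.σ = X := eq_of_le_of_card_ge (by rintro _ ⟨x, hx, rfl⟩; exact x4 x hx)
    (card_map_of_injective hinj).ge
  obtain ⟨m, m1, m2, m3⟩ := H.rat_P hΓ hG hJ ha' (inv_mem_iff.1 (hΓ.mem_PJ_of_conj hJ
    (inv_mem (mul_mem (inv_mem ha') (H.stab a ha'))) fun x hx => by
      obtain ⟨v, hv, e⟩ := hXs.ge (hVX ((hV (a * x * a⁻¹)).2 ⟨by simpa [mul_assoc] using hx.1,
        mul_mem (mul_mem ha' (hΓ.U_le ⟨S.UJ_le_U _ hx.1, hx.2⟩)) (inv_mem ha')⟩))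
      have := y.σ_mem_U (S.UJ_le_U _ (b1 v hv))
      rw [map_mul, map_mul, e, map_inv] at this
      convert this using 1; group))
  have := H.fix_P hΓ hc hJ hi (g := m⁻¹ * g * m) (by
    convert mul_mem (mul_mem m3 (b3 g ⟨H.le hg, x5⟩)) (inv_mem m3) using 1; group)
    (mul_mem (mul_mem (inv_mem m1) hg) m1)
  exact (mul_mem_cancel_left (inv_mem m2)).1 ((mul_mem_cancel_right m2).1 this)

end Hyp

end H14.SF
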