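import Cfsg.Agent.H14.SF1
import Cfsg.Agent.H24.Tor
import Cfsg.Agent.H24.Chr

/-! Overgroups of subfield subgroups: from strong embedding to containment. -/

set_option autoImplicit false
set_option maxHeartbeats 400000
set_option linter.unusedSectionVars false

namespace H14.SF
open H24 H24.St0 Subgroup H4
open scoped MatrixGroups

theorem neg_one_mem {K : Type*} [Field K] [Finite K] (p : ℕ) [Fact p.Prime] [CharP K p] (hp2 : p ≠ 2)
    {D : Subgroup SL(2, K)} {s t : K} (hs : s ≠ 0) (ht : t ≠ 0) (h1 : upT s ∈ D) (h2 : loT t ∈ D) : -1 ∈ D := by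
  have h : 1 < Nat.card (Sylow p D) := by
    by_contra hne
    have : Subsingleton (Sylow p D) := Finite.card_le_one_iff_subsingleton.1 (not_lt.1 hne)
    have hp : ∀ u : D, (u : SL(2, K)) ^ p ^ 1 = 1 → u ∈ ((default : Sylow p D) : Subgroup D) := fun u hu => by
      obtain ⟨P, hP⟩ := (isPGroup_zp (x := u) (k := 1) (Subtype.ext hu)).exists_le_sylow
      exact Subsingleton.elim P default ▸ hP (mem_zpowers _)
    exact not_isPGroup_of_upT_loT (H := ((default : Sylow p D) : Subgroup D).map D.subtype) hs ht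
      ⟨⟨_, h1⟩, hp _ (by simp [upT_pow, upT_zero]), rfl⟩ ⟨⟨_, h2⟩, hp _ (by simp [loT_pow, loT_zero]), rfl⟩
      ((default : Sylow p D).isPGroup'.map _)
  obtain ⟨φ, hφ, hD⟩ := dickson_of_sylow (p := p) hp2 D h
  rcases sl_sq_eq_one (two_ne_zero_of_char p hp2) (u := φ (-1)) (by rw [← map_mul]; simp) with e | e
  · have e1 : (-1 : SL(2, ZMod p)) = 1 := hφ (e.trans (map_one φ).symm)
    have e2 : (-1 : ZMod p) = 1 := by simpa using congrArg (fun M : SL(2, ZMod p) => M.1 0 0) e1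
    exact absurd (show (2 : ZMod p) = 0 by linear_combination -e2) (two_ne_zero_of_char p hp2)
  · exact e ▸ hD ⟨_, rfl⟩

variable {ι Φ : Type} [Fintype ι] [DecidableEq ι] [Fintype Φ] [DecidableEq Φ] {R : CD ι Φ} {F : Type*} [Field F]
  {G : Type*} [Group G] {S : St R F G}

/-- the highest root -/
def Top (R : CD ι Φ) (θ : Φ) : Prop := ∀ s, s ≠ θ → R.ht s < R.ht θ

namespace Top
variable {θ : Φ} (h : Top R θ)
include h

theorem le (s : Φ) : R.ht s ≤ R.ht θ := by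
  by_cases e : s = θ
  · rw [e]
  · exact (h s e).le

theorem ht_pos : 0 < R.ht θ := by have := h _ (R.neg_ne θ); rw [R.ht_neg] at this; omega

theorem pos : R.Pos θ := (R.pos_iff_ht θ).2 h.ht_pos

theorem commute (S : St R F G) {s : Φ} (hs : R.Pos s) (t u : F) : Commute (S.x s t) (S.x θ u) :=
  S.commute_x (RS.ne_neg_of_pos (f := RS.htv) h.ht_pos (R.ht_pos hs)) (fun v i j hi hj e => by
    have := ht_comb e
    have := h.le v
    have := R.ht_pos hs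
    have := h.ht_pos
    nlinarith) u t

theorem comm_U (S : St R F G) {g : G} (hg : g ∈ S.U) (u : F) : Commute g (S.x θ u) :=
  S.XS_induction (P := fun g => Commute g (S.x θ u)) (Commute.one_left _)
    (fun _ _ _ hr t ih => ih.mul_left (h.commute S hr t u)) g hg

theorem A_le {r : Φ} (hr : R.Pos r) (e : r ≠ θ) : 0 ≤ R.A θ r ∧ R.A θ r ≤ 1 := by
  have h1 : R.ht (R.w θ r) = R.ht r - R.A θ r * R.ht θ := by
    change RS.htv _ = RS.htv _ - _ * RS.htv _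
    rw [R.rt_w, map_sub, map_smul]; rfl
  have h2 := h.le (R.w θ r)
  have h3 := h.le (R.neg (R.w θ r))
  rw [R.ht_neg] at h3
  have h4 := h r e
  have h5 := R.ht_pos hr
  constructor <;> nlinarith

theorem comm_neg (S : St R F G) {g : G} (hg : g ∈ S.XS {r | R.Pos r ∧ R.A θ r = 0}) (u : F) :
    Commute g (S.x (R.neg θ) u) :=
  S.XS_induction (P := fun g => Commute g (S.x (R.neg θ) u)) (Commute.one_left _) (fun _ _ r hr t ih =>
    ih.mul_left (S.commute_x (fun e => by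
      have := hr.2; rw [e, R.neg_neg', R.A_self] at this; omega) (fun v i j hi hj e => by
      have h1 := ht_comb (RS.Aut.comb (R.W_le_Aut (R.w_mem θ)) e)
      rw [R.w_neg_self, show R.w θ r = r from R.rt_inj (by rw [R.rt_w, hr.2, zero_smul, sub_zero])] at h1
      have := h.le (R.w θ v)
      have := R.ht_pos hr.1
      have := h.ht_pos
      nlinarith) u t)) g hg

theorem conj_form (hG : S.Gr = ⊤) (g : G) {t : F} (ht : t ≠ 0) : ∃ u ∈ S.U, ∃ w ∈ R.W, ∃ c : F, c ≠ 0 ∧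
    g * S.x θ t * g⁻¹ = u * S.x (w θ) c * u⁻¹ := by
  obtain ⟨w, hw, b, hb, n, -, hr, b', hb', rfl⟩ := S.mem_Gr_iff.1 (hG.ge (mem_top g))
  rw [BK_univ] at hb hb'
  obtain ⟨u, hu, k, hk, rfl⟩ := S.mem_B_iff.1 hb
  obtain ⟨k', hk', u', hu', rfl⟩ := S.mem_B_iff'.1 hb'
  obtain ⟨c, hc, e⟩ := (((S.rep_of_mem_H hk).mul hr).mul (S.rep_of_mem_H hk')).exists_conj θ
  refine ⟨u, hu, w, hw, c * t, mul_ne_zero hc ht, ?_⟩
  have := e t
  rw [one_mul, mul_one] at this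
  rw [← this]
  calc _ = u * (k * n * k' * (u' * S.x θ t * u'⁻¹) * (k * n * k')⁻¹) * u⁻¹ := by group
    _ = _ := by rw [(h.comm_U S hu' t).eq, mul_inv_cancel_right]

theorem exists_pos {s : Φ} (e : s ≠ R.neg θ) (hl : R.len s = R.len θ) : ∃ v ∈ R.Aut, R.Pos (v s) ∧ R.Pos (v θ) := by
  by_cases hs : R.Pos s
  · exact ⟨1, one_mem _, hs, h.pos⟩
  have h1 : R.Pos (R.neg s) := (R.pos_neg_iff s).2 hs
  have h2 : R.neg s ≠ θ := fun e' => e (by rw [← e', R.neg_neg'])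
  refine ⟨R.w s, R.W_le_Aut (R.w_mem s), by rwa [R.w_self], (R.pos_iff_ht _).2 ?_⟩
  have h3 : R.ht (R.w s θ) = R.ht θ - R.A s θ * R.ht s := by
    change RS.htv _ = RS.htv _ - _ * RS.htv _
    rw [R.rt_w, map_sub, map_smul]; rfl
  have h4 : R.A s θ = R.A θ s := mul_left_cancel₀ (R.len_ne s) (by rw [R.len_A, hl])
  have h5 := h.A_le h1 h2
  have h6 := h _ h2
  have h7 := R.ht_pos h1
  rw [R.A_neg_right] at h5
  rw [R.ht_neg] at h6 h7
  rw [h3, h4]
  nlinarith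

variable [Fintype F] (p : ℕ) [Fact p.Prime] [CharP F p] [Finite G] {M A : Subgroup G}

theorem le_odd (hG : S.Gr = ⊤) (hp2 : p ≠ 2) (se : SE p M A) {c : F} (hc : c ≠ 0) (h1 : S.x θ c ∈ M) (h2 : S.x θ c ∈ A)
    (h3 : S.h θ (-1) ∈ M) (h4 : S.h θ (-1) ∈ A) {y : G} (y1 : y ∈ M) (y2 : y ∈ A) (y3 : y ≠ 1)
    (y4 : y ∈ S.XS {r | R.Pos r ∧ R.A θ r = 0}) : M ≤ A := fun g hg => by
  have hz : S.x θ c ^ p ^ 1 = 1 := by simp [S.x_pow]
  have hz1 : S.x θ c ≠ 1 := fun e => hc (S.x_eq_one_iff.1 e)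
  refine se.conj hz h1 h2 hz1 hg ?_
  have hM : g * S.x θ c * g⁻¹ ∈ M := mul_mem (mul_mem hg h1) (inv_mem hg)
  obtain ⟨u, hu, w, hw, d, hd, e⟩ := h.conj_form hG g hc
  rw [e] at hM ⊢
  have hzu : u⁻¹ * S.x θ c * u = S.x θ c := by rw [mul_assoc, ← (h.comm_U S hu c).eq, inv_mul_cancel_left]
  by_cases hn : w θ = R.neg θ
  swap
  · obtain ⟨v, hv, a1, a2⟩ := h.exists_pos hn (RS.Aut.len (R.W_le_Aut hw) θ)
    have a3 : ∀ r, R.Pos (v r) → r ∈ {r | 0 < (RS.htv.comp (R.lin v)) (R.rt r)} := fun r hr => by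
      change 0 < RS.htv (R.lin v _)
      rw [RS.Aut.lin_rt hv]; exact R.ht_pos hr
    have a4 := (S.isPGroup_XS p (RS.closed_f_pos (R := R.toRS) (RS.htv.comp (R.lin v))) fun _ h => h).comap_of_injective
      (MulAut.conj u⁻¹).toMonoidHom (MulAut.conj u⁻¹).injective
    refine se.le (a4.to_le (inf_le_left (b := M))) inf_le_right (x := S.x θ c) ⟨?_, h1⟩ h2 hz1 ⟨?_, hM⟩
    · simpa [hzu] using S.x_mem (a3 _ a2) c
    · simpa [mul_assoc] using S.x_mem (a3 _ a1) d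
  rw [hn] at hM ⊢
  obtain ⟨φ, -, φ1, φ2⟩ := S.exists_sl2 S.r3_of_finite θ
  have b1 : φ (-1) = S.h θ (-1) := by
    rw [St0.h, St0.n, ← φ1, ← φ2, ← map_mul, ← map_mul, ← map_mul]
    congr 1
    refine sl2_ext ?_ ?_ ?_ ?_ <;> simp only [sl2_mul_apply, coe_upT, coe_loT] <;> simp
  have b2 := neg_one_mem p hp2 (D := M.comap ((MulAut.conj u).toMonoidHom.comp φ)) hc hd
    (by simpa [φ1, (h.comm_U S hu c).eq] using h1) (by simpa [φ2] using hM)
  have b3 : u * S.h θ (-1) * u⁻¹ ∈ M := by simpa [b1] using b2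
  have b4 : Commute (S.h θ (-1)) (S.x θ c) := by rw [← b1, ← φ1]; exact (Commute.neg_one_left _).map φ
  have b5 := se.cent hz h1 h2 hz1 b3 (((h.comm_U S hu c).mul_left b4).mul_left (h.comm_U S (inv_mem hu) c))
  have b6 : S.h θ (-1) * S.h θ (-1) = 1 := by rw [← b1, ← map_mul]; simp
  have b7 : S.h θ (-1) * (u * S.h θ (-1) * u⁻¹) ∈ S.U := by
    have := mul_mem ((mem_normalizer_iff.1 (S.H_le_normalizer _ (S.h_mem (r := θ) (t := -1) (by simp))) u).1 hu)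
      (inv_mem hu)
    rw [inv_eq_of_mul_eq_one_right b6] at this
    simpa only [mul_assoc, St0.U] using this
  obtain ⟨k, hk⟩ := S.isPGroup_U p ⟨_, b7⟩
  obtain ⟨m, hm⟩ := exists_conj_odd b6 (y := u * S.h θ (-1) * u⁻¹) (by
    rw [conj_mul, b6, mul_one, mul_inv_cancel]) (((Fact.out : p.Prime).odd_of_ne_two hp2).pow (n := k))
    (congrArg Subtype.val hk)
  have c1 := pow_mem b7 m
  have c2 := pow_mem (mul_mem h3 b3) m
  have c3 := pow_mem (mul_mem h4 b5) m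
  generalize (S.h θ (-1) * (u * S.h θ (-1) * u⁻¹)) ^ m = v at hm c1 c2 c3
  have c4 : v⁻¹ * u ∈ S.XS {r | R.Pos r ∧ (r = θ ∨ R.A θ r = 0)} := by
    obtain ⟨t, ht⟩ := S.exists_pl (mul_mem (inv_mem c1) hu)
    have e : S.h θ (-1) * (v⁻¹ * u) * (S.h θ (-1))⁻¹ = v⁻¹ * u := by
      calc _ = v⁻¹ * (v * S.h θ (-1) * v⁻¹) * u * (S.h θ (-1))⁻¹ := by group
        _ = _ := by rw [hm]; group
    rw [ht] at e ⊢
    refine S.prod_mem_of fun r hr => ?_
    by_cases h0 : t r = 0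
    · rw [h0, x_zero]; exact one_mem _
    have hr' := (R.mem_pl r).1 hr
    refine S.x_mem (And.intro hr' ?_) _
    by_contra! hne
    have a1 := S.supp_of_fixed (S.h_acts θ (-1)) e hr' h0
    have a2 := h.A_le hr' hne.1
    rw [show R.A θ r = 1 by omega, zpow_one] at a1
    have a3 : (-1 : F) = 1 := by simpa using congrArg Units.val a1
    exact two_ne_zero_of_char p hp2 (show (2 : F) = 0 by linear_combination -a3)
  have c5 : R.Closed {r | R.Pos r ∧ (r = θ ∨ R.A θ r = 0)} := fun a ha b hb s i j hi hj e => by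
    refine ⟨RS.closed_pos a ha.1 b hb.1 s i j hi hj e, Or.inr ?_⟩
    have a1 := ht_comb e
    have a2 := h.le s
    have a3 := R.ht_pos ha.1
    have a4 := R.ht_pos hb.1
    have a5 : R.A θ s = i * R.A θ a + j * R.A θ b := RS.f_comb (f := R.Av θ) e
    rw [a5, ha.2.resolve_left (by rintro rfl; nlinarith), hb.2.resolve_left (by rintro rfl; nlinarith)]
    simp
  obtain ⟨a, ha, b, hb, e'⟩ := S.exists_mul_of_part (f := RS.htv) c5 (fun r hr => R.ht_pos hr.1) (· = θ) c4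
  obtain ⟨t, rfl⟩ := S.mem_XS_singleton.1 (S.XS_mono (T' := {θ}) (fun r hr => hr.2) ha)
  have d1 := h.comm_neg S (S.XS_mono (fun r hr => And.intro hr.1.1 (hr.1.2.resolve_left hr.2)) hb) d
  have d2 : u * S.x (R.neg θ) d * u⁻¹ = v * (S.x θ t * S.x (R.neg θ) d * (S.x θ t)⁻¹) * v⁻¹ := by
    rw [show u = v * (S.x θ t * b) by rw [← e']; group]
    calc _ = v * (S.x θ t * (b * S.x (R.neg θ) d * b⁻¹) * (S.x θ t)⁻¹) * v⁻¹ := by group
      _ = _ := by rw [d1.eq, mul_inv_cancel_right]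
  have yU : y ∈ S.U := S.XS_mono (fun r hr => hr.1) y4
  obtain ⟨k, hk⟩ := S.isPGroup_U p ⟨y, yU⟩
  refine se.cent (x := v * y * v⁻¹) (k := k) (by
    rw [conj_pow, show y ^ p ^ k = 1 from congrArg Subtype.val hk]; simp) (mul_mem (mul_mem c2 y1) (inv_mem c2))
    (mul_mem (mul_mem c3 y2) (inv_mem c3)) (by simpa using y3) hM ?_
  rw [d2]
  exact ((((h.comm_U S yU t).mul_right (h.comm_neg S y4 d)).mul_right (h.comm_U S yU t).inv_right).symm.map
    (MulAut.conj v) :)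

theorem eq_sim (hG : S.Gr = ⊤) (g : G) {t : F} (ht : t ≠ 0) (hU : g * S.x θ t * g⁻¹ ∈ S.U) : ∃ s, R.len s = R.len θ ∧
    ∀ i, g * S.x θ t * g⁻¹ ∉ S.XS (Up R (R.sim i)) → s = R.sim i := by
  obtain ⟨u, hu, w, hw, d, hd, e⟩ := h.conj_form hG g ht
  refine ⟨w θ, RS.Aut.len (R.W_le_Aut hw) θ, fun i hi => by_contra fun hne => hi ?_⟩
  rw [e] at hU ⊢
  have h1 := S.pos_of_x_mem_U hd ((mul_mem_cancel_left hu).1 ((mul_mem_cancel_right (inv_mem hu)).1 hU))
  exact (mem_normalizer_iff.1 (B_norm S (nml_Up _) (S.U_le_B hu)) _).1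
    (S.x_mem (T := Up R _) ⟨h1, by rw [R.ht_sim]; exact R.ht_pos h1, hne⟩ d)

theorem le_two [CharP F 2] (hG : S.Gr = ⊤) (se : SE 2 M A) {c : F} (hc : c ≠ 0) (h1 : S.x θ c ∈ M) (h2 : S.x θ c ∈ A)
    {y : G} (y1 : y ∈ M) (y2 : y ∈ A) (y3 : y * y = 1) (y4 : y ∈ S.U) {i j : ι} (yi : y ∉ S.XS (Up R (R.sim i)))
    (yj : y ∉ S.XS (Up R (R.sim j))) (hij : i ≠ j ∨ R.len (R.sim i) ≠ R.len θ) : M ≤ A := fun g hg => by
  have hz : S.x θ c ^ 2 ^ 1 = 1 := by simp [S.x_pow, CharTwo.two_eq_zero]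
  refine se.conj hz h1 h2 (fun e => hc (S.x_eq_one_iff.1 e)) hg (se.dihedral (mul_mem (mul_mem hg h1) (inv_mem hg))
    y1 y2 (by rintro rfl; exact yi (one_mem _)) (by rw [conj_mul, ← sq, show S.x θ c ^ 2 = 1 from hz]; simp) y3
    fun a e => ?_)
  have e' : a * g * S.x θ c * (a * g)⁻¹ = y := by rw [← e]; group
  obtain ⟨s, s1, s2⟩ := h.eq_sim hG (a * g) hc (e' ▸ y4)
  rw [e'] at s2
  rcases hij with h3 | h3
  · exact h3 (R.sim_inj ((s2 i yi).symm.trans (s2 j yj)))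
  · exact h3 (s2 i yi ▸ s1)

end Top

end H14.SF
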