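import Cfsg.Agent.H14.SF2

/-! Overgroups of subfield subgroups: the Borel subgroup. -/

set_option autoImplicit false
set_option maxHeartbeats 400000
set_option linter.unusedSectionVars false

namespace H14.SF
open H24 H24.St0 Subgroup

variable {ι Φ : Type} [Fintype ι] [DecidableEq ι] [Fintype Φ] [DecidableEq Φ] {R : CD ι Φ} {F : Type*} [Field F]
  {G : Type*} [Group G] {S : St R F G}

/-- positive roots without sums -/
def NoSum (R : CD ι Φ) (Z : Set Φ) : Prop := (∀ r ∈ Z, R.Pos r) ∧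
  ∀ a ∈ Z, ∀ b ∈ Z, ∀ u (i j : ℕ), 0 < i → 0 < j → R.rt u ≠ (i : ℤ) • R.rt a + (j : ℤ) • R.rt b

/-- upper sets -/
def IsUp (R : CD ι Φ) (T : Set Φ) : Prop := ∀ δ ∈ T, R.Pos δ ∧ ∀ u, R.ht δ < R.ht u → u ∈ T

theorem NoSum.closed {Z T : Set Φ} (h : NoSum R Z) (hT : T ⊆ Z) : R.Closed T :=
  fun a ha b hb u i j hi hj e => absurd e (h.2 a (hT ha) b (hT hb) u i j hi hj)

theorem NoSum.closed_union {Z T : Set Φ} (h : NoSum R Z) (hT : IsUp R T) : R.Closed (Z ∪ T) :=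
  fun a ha b hb u i j hi hj e => by
    have h1 := ht_comb e
    have h2 := R.ht_pos (ha.elim (h.1 a) fun h => (hT a h).1)
    have h3 := R.ht_pos (hb.elim (h.1 b) fun h => (hT b h).1)
    rcases ha with ha | ha
    · rcases hb with hb | hb
      · exact absurd e (h.2 a ha b hb u i j hi hj)
      · exact Or.inr ((hT b hb).2 u (by nlinarith))
    · exact Or.inr ((hT a ha).2 u (by nlinarith))

theorem isUp_pos : IsUp R {r | R.Pos r} := fun δ h => ⟨h, fun u hu => (R.pos_iff_ht u).2 ((R.ht_pos h).trans hu)⟩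

theorem IsUp.diff {T O : Set Φ} (hT : IsUp R T) {r : Φ} (hr : ∀ s ∈ T, R.ht r ≤ R.ht s)
    (hO : ∀ s ∈ O, R.ht s = R.ht r) : IsUp R (T \ O) := fun δ h =>
  ⟨(hT δ h.1).1, fun u hu => ⟨(hT δ h.1).2 u hu, fun e => by have := hO u e; have := hr δ h.1; omega⟩⟩

theorem up_induction (P : Set Φ → Prop) (h0 : P ∅) (hs : ∀ T r, IsUp R T → r ∈ T → (∀ s ∈ T, R.ht r ≤ R.ht s) →
    (∀ O : Set Φ, r ∈ O → (∀ s ∈ O, R.ht s = R.ht r) → P (T \ O)) → P T) (T : Set Φ) (hT : IsUp R T) : P T := by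
  induction hn : T.ncard using Nat.strong_induction_on generalizing T with
  | _ n ih =>
  rcases T.eq_empty_or_nonempty with rfl | hne
  · exact h0
  obtain ⟨r, hr, hm⟩ := Set.exists_min_image T R.ht (Set.toFinite _) hne
  exact hs T r hT hr hm fun O h1 h2 => ih _ (hn ▸ Set.ncard_lt_ncard
    (Set.diff_ssubset_left_iff.2 ⟨r, hr, h1⟩) (Set.toFinite _)) _ (hT.diff hm h2) rfl

/-- centralisers in `U` -/
theorem cent_of {Z : Set Φ} (P : G → Prop) (h : ∀ r, R.Pos r → r ∉ Z → ∀ t, ∀ b ∈ S.XS (Z ∪ Up R r),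
    P (S.x r t * b) → t = 0) (hZ : NoSum R Z) {u : G} (hu : u ∈ S.U) (hP : P u) : u ∈ S.XS Z := by
  refine up_induction (R := R) (fun T => u ∈ S.XS (Z ∪ T) → u ∈ S.XS Z) (by simp) (fun T r hT hr hm ih h1 => ?_) _
    isUp_pos (S.XS_mono Set.subset_union_right hu)
  refine ih {r} rfl (by simp) ?_
  by_cases hrZ : r ∈ Z
  · refine S.XS_mono (fun s hs => ?_) h1
    by_cases e : s = r
    · exact Or.inl (e ▸ hrZ)
    · exact hs.imp_right fun h => ⟨h, e⟩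
  obtain ⟨a, ha, b, hb, rfl⟩ := S.exists_mul_of_part (f := RS.htv) (hZ.closed_union hT)
    (fun s hs => R.ht_pos (hs.elim (hZ.1 s) fun h => (hT s h).1)) (· = r) h1
  obtain ⟨t, rfl⟩ := S.mem_XS_singleton.1 (S.XS_mono (T' := {r}) (fun r hr => hr.2) ha)
  rw [h r (hT r hr).1 hrZ t b (S.XS_mono (fun s hs => hs.1.imp_right fun h => ⟨(hT s h).1, hm s h, hs.2⟩) hb) hP,
    x_zero, one_mul]
  exact S.XS_mono (fun s hs => hs.1.imp_right fun h => ⟨h, hs.2⟩) hb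

theorem test_of {T : Set Φ} (hT : ∀ s ∈ T, R.Pos s) {r v : Φ} (hr : R.Pos r) {m : G} (hm : m ∈ S.U)
    (h1 : ∀ δ ∈ T, ∀ t, m⁻¹ * (S.x δ t)⁻¹ * m * S.x δ t ∈ S.XS (Up R v)) {t : F} {b : G} (hb : b ∈ S.XS T)
    (h : Commute (S.x r t * b) m) : m⁻¹ * (S.x r t)⁻¹ * m * S.x r t ∈ S.XS (Up R v) := by
  have hN : S.U ≤ normalizer (S.XS (Up R v) : Set G) := S.U_le_B.trans (B_norm S (nml_Up v))
  have h2 := comm_mem_of_closure (M := S.XS (Up R v)) (B := {m}) ((S.XS_mono hT).trans hN)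
    (by simpa using hN hm) (by rintro _ ⟨δ, hδ, t, rfl⟩ _ rfl; exact h1 δ hδ t) b hb m (subset_closure rfl)
  have h3 := (mem_normalizer_iff.1 (hN (S.XS_mono hT hb)) _).1 (inv_mem h2)
  convert h3 using 1
  calc _ = m⁻¹ * (S.x r t)⁻¹ * (m * (S.x r t * b)) * b⁻¹ := by group
    _ = m⁻¹ * b * m * b⁻¹ := by rw [← h.eq]; group
    _ = _ := by group

/-- the hypotheses on the Borel subgroup -/
structure HypB (z : Tw S) (Γ : Subgroup G) (y : Tw S) (M : Subgroup G) (Z : Set Φ) : Prop where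
  hy : y.ρ = 1
  le : M ≤ Γ
  stab : ∀ g ∈ Γ, y.σ g ∈ Γ
  hU : ∀ u ∈ S.U, u ∈ Γ → u ∈ y.Fx → u ∈ M
  hN : ∀ w ∈ z.sym.W1, ∃ n ∈ S.N, n ∈ M ∧ n ∈ y.Fx ∧ S.Rep n w
  hY : ∀ r, R.Pos r → ∃ u ∈ M, u ∈ S.XS {s | R.Pos s ∧ R.ht s = R.ht r ∧
    ∀ J : Set ι, (∀ i, z.π i ∈ J ↔ i ∈ J) → R.InJ J s → R.InJ J r} ∧ u ∉ S.XS (Up R r)
  hZ : NoSum R Z
  hZρ : ∀ s, z.ρ s ∈ Z ↔ s ∈ Z
  hC : ∀ r, R.Pos r → r ∉ Z → ∀ t, ∀ b ∈ S.XS (Z ∪ Up R r),
    (∀ m ∈ S.U, m ∈ M → m ∈ y.Fx → Commute (S.x r t * b) m) → t = 0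
  hO : ∀ r, R.Pos r → ∃ O : Set Φ, r ∈ O ∧ NoSum R O ∧ (∀ s ∈ O, R.ht s = R.ht r) ∧ (∀ s, z.ρ s ∈ O ↔ s ∈ O) ∧
    ∀ T : Set Φ, (∀ s, z.ρ s ∈ T ↔ s ∈ T) → ∀ s ∈ O, (s ∈ T ↔ r ∈ T)
  hE : ∀ u ∈ S.XS Z, u ∈ M → u ∈ y.Fx
  hF : ∀ r ∈ Z, ∃ w ∈ z.sym.W1, (∀ s ∈ Z, R.Pos (w s)) ∧ w r ∉ Z

namespace HypB
variable {z y : Tw S} {κ : Type} {O : z.sym.Orb κ} {Γ M : Subgroup G} {Z : Set Φ} (hΓ : z.Sub O Γ)
  (H : HypB z Γ y M Z)
include hΓ H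

theorem exists_rat {u : G} (hu : u ∈ S.U) (hΓu : u ∈ Γ) (h : u⁻¹ * y.σ u ∈ S.XS Z) :
    ∃ a ∈ S.U, a ∈ M ∧ a ∈ y.Fx ∧ a⁻¹ * u ∈ S.XS Z := by
  refine up_induction (R := R) (fun T => (∀ s, z.ρ s ∈ T ↔ s ∈ T) → ∀ u ∈ S.XS (Z ∪ T), u ∈ Γ →
    u⁻¹ * y.σ u ∈ S.XS Z → ∃ a ∈ S.U, a ∈ M ∧ a ∈ y.Fx ∧ a⁻¹ * u ∈ S.XS Z)
    (fun _ u hu _ _ => ⟨1, one_mem _, one_mem _, one_mem _, by simpa using hu⟩)
    (fun T r hT hr hm ih hρ u h1 h2 h3 => ?_) _ isUp_pos z.ρ_pos u (S.XS_mono Set.subset_union_right hu) hΓu h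
  obtain ⟨Q, q1, q2, q3, q4, q5⟩ := H.hO r (hT r hr).1
  have ih' := ih Q q1 q3 fun s => by simp only [Set.mem_diff, hρ, q4]
  by_cases hrZ : r ∈ Z
  · refine ih' u (S.XS_mono (fun s hs => ?_) h1) h2 h3
    by_cases e : s ∈ Q
    · exact Or.inl ((q5 Z H.hZρ s e).2 hrZ)
    · exact hs.imp_right fun h => ⟨h, e⟩
  have hp : ∀ s ∈ Z ∪ T, R.Pos s := fun s hs => hs.elim (H.hZ.1 s) fun h => (hT s h).1
  obtain ⟨a, ha, b, hb, rfl⟩ := S.exists_mul_of_part (f := RS.htv) (H.hZ.closed_union hT)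
    (fun s hs => R.ht_pos (hp s hs)) (· ∈ Q) h1
  have ha' : a ∈ S.XS Q := S.XS_mono (fun s hs => hs.2) ha
  have hb' : b ∈ S.XS (Z ∪ T \ Q) := S.XS_mono (fun s hs => hs.1.imp_right fun h => ⟨h, hs.2⟩) hb
  have hI : S.XS Q ⊓ S.XS (Z ∪ T \ Q) = ⊥ := by
    rw [S.sep.XS_inf (f := RS.htv) (q2.closed le_rfl) (H.hZ.closed_union (hT.diff hm q3))
      (fun s hs => R.ht_pos (q2.1 s hs)) fun s hs => R.ht_pos (hp s (hs.imp_right fun h => h.1)), ← S.XS_empty]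
    congr 1
    exact Set.eq_empty_of_forall_notMem fun s hs => hs.2.elim (fun h => hrZ ((q5 Z H.hZρ s hs.1).1 h)) fun h => h.2 hs.1
  have f1 := (z.fixed_of_mul hI (fun a => z.σ_mem_XS fun s hs => (q4 s).2 hs) (fun a => z.σ_mem_XS fun s hs =>
    hs.imp (H.hZρ s).2 fun h => ⟨(hρ s).2 h.1, fun e => h.2 ((q4 s).1 e)⟩) ha' hb' (hΓ.le_Fx h2)).1
  have aU : a ∈ S.U := S.XS_mono q2.1 ha'
  have f2 : a ∈ y.Fx := by
    have : a⁻¹ * y.σ a ∈ S.XS Q ⊓ S.XS (Z ∪ T \ Q) := mem_inf.2 ⟨mul_mem (inv_mem ha') (σXS y H.hy ha'), by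
      have := mul_mem (mul_mem hb' (S.XS_mono Set.subset_union_left h3)) (inv_mem (σXS y H.hy hb'))
      rw [map_mul] at this
      convert this using 1; group⟩
    rw [hI, mem_bot, inv_mul_eq_one] at this
    exact this.symm
  have f3 := hΓ.U_le ⟨aU, f1⟩
  obtain ⟨c, c1, c2, c3, c4⟩ := ih' b hb' ((mul_mem_cancel_left f3).1 h2) (by
    rw [map_mul, y.mem_Fx.1 f2] at h3
    simpa [mul_assoc] using h3)
  exact ⟨a * c, mul_mem aU c1, mul_mem (H.hU a aU f3 f2) c2, mul_mem f2 c3, by simpa [mul_assoc] using c4⟩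

omit hΓ H in
theorem comm_of {g m : G} (h1 : m ∈ y.Fx) (h2 : g * m * g⁻¹ ∈ y.Fx) : Commute (g⁻¹ * y.σ g) m := by
  rw [y.mem_Fx, map_mul, map_mul, y.mem_Fx.1 h1, map_inv] at h2
  change _ = _
  calc _ = g⁻¹ * (y.σ g * m * (y.σ g)⁻¹) * y.σ g := by group
    _ = _ := by rw [h2]; group

variable [Fintype F] (p : ℕ) [Fact p.Prime] [CharP F p] [Finite G]
include p

theorem fix_U {u : G} (hu : u ∈ S.U) (hM : u ∈ M) : u ∈ y.Fx := by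
  by_contra hne
  obtain ⟨g, g1, g2, g3⟩ := exists_norm (T := S.U ⊓ M) (Q := S.U ⊓ M ⊓ y.Fx) ((S.isPGroup_U p).to_le inf_le_left)
    (fun e => hne (e ⟨hu, hM⟩).2) inf_le_left
  obtain ⟨a, -, a2, a3, a4⟩ := H.exists_rat hΓ g1.1 (H.le g1.2) (cent_of (fun g => ∀ m ∈ S.U, m ∈ M → m ∈ y.Fx → Commute g m) H.hC H.hZ
    (mul_mem (inv_mem g1.1) (y.σ_mem_U g1.1)) fun m m1 m2 m3 =>
      comm_of m3 ((mem_normalizer_iff.1 g2 m).1 ⟨⟨m1, m2⟩, m3⟩).2)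
  exact g3 ⟨g1, (mul_mem_cancel_left (inv_mem a3)).1 (H.hE _ a4 (mul_mem (inv_mem a2) g1.2))⟩

theorem d_mem (ha : S.Adj) {b : G} (hb : b ∈ S.B) (hM : b ∈ M) : b⁻¹ * y.σ b ∈ S.XS Z := by
  have h : ∀ m ∈ S.U, m ∈ M → Commute (b⁻¹ * y.σ b) m := fun m m1 m2 => comm_of (H.fix_U hΓ p m1 m2)
    (H.fix_U hΓ p ((mem_normalizer_iff.1 (S.B_le_normalizer_U hb) m).1 m1) (mul_mem (mul_mem hM m2) (inv_mem hM)))
  refine cent_of (fun g => ∀ m ∈ S.U, m ∈ M → m ∈ y.Fx → Commute g m) H.hC H.hZ ?_ fun m m1 m2 _ => h m m1 m2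
  obtain ⟨u, hu, k, hk, e⟩ := S.mem_B_iff.1 (mul_mem (inv_mem hb) (y.σ_mem_B hb))
  rw [e] at h ⊢
  obtain ⟨c, hc⟩ := S.exists_chi hk
  have h1 : ∀ i, c i = 1 := fun i => by
    obtain ⟨m, m1, m2, m3⟩ := H.hY _ (R.pos_sim i)
    have mU : m ∈ S.U := S.XS_mono (fun s hs => hs.1) m2
    obtain ⟨a, ha, v, hv, rfl⟩ := S.exists_mul_of_part (f := RS.htv) RS.closed_pos (fun _ h => R.ht_pos h)
      (· = R.sim i) mU
    obtain ⟨t, rfl⟩ := S.mem_XS_singleton.1 (S.XS_mono (T' := {R.sim i}) (fun r hr => hr.2) ha)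
    have hv' : v ∈ S.XS (Up R (R.sim i)) :=
      S.XS_mono (fun s hs => And.intro hs.1 ⟨by rw [R.ht_sim]; exact R.ht_pos hs.1, hs.2⟩) hv
    have ht : t ≠ 0 := by rintro rfl; exact m3 (by simpa using hv')
    have h4 := S.comm_mem_lvl (T := {r | R.Pos r}) (f := RS.htv) RS.closed_pos (fun _ hr => R.ht_pos hr) 1 hu
      (b := S.x (R.sim i) t * v) (S.XS_mono (fun s hs => And.intro hs (R.ht_pos hs)) mU)
    have h5 : k * (S.x (R.sim i) t * v) * k⁻¹ = u⁻¹ * (S.x (R.sim i) t * v) * u := by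
      have := (h _ mU m1).eq
      calc _ = u⁻¹ * (u * k * (S.x (R.sim i) t * v)) * k⁻¹ := by group
        _ = _ := by rw [this]; group
    have h6 := S.XS_mono (T' := Up R (R.sim i)) (fun s hs => ⟨hs.1, by rw [R.ht_sim]; exact R.ht_pos hs.1, by
      rintro rfl; have : 1 + 1 ≤ R.ht (R.sim i) := hs.2; rw [R.ht_sim] at this; omega⟩) h4
    have h7 := mul_mem (mul_mem hv' h6) (inv_mem ((mem_normalizer_iff.1 (S.H_le_normalizer _ hk) _).1 hv'))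
    rw [show v * ((S.x (R.sim i) t * v)⁻¹ * u⁻¹ * (S.x (R.sim i) t * v) * u) * (k * v * k⁻¹)⁻¹ =
      (S.x (R.sim i) t)⁻¹ * (u⁻¹ * (S.x (R.sim i) t * v) * u) * (k * v * k⁻¹)⁻¹ by group, ← h5,
      show (S.x (R.sim i) t)⁻¹ * (k * (S.x (R.sim i) t * v) * k⁻¹) * (k * v * k⁻¹)⁻¹ =
        (S.x (R.sim i) t)⁻¹ * (k * S.x (R.sim i) t * k⁻¹) by group, hc, ← S.x_neg, Equiv.Perm.one_apply, ← S.x_add] at h7
    simp only [R.rt_sim, RS.chi_single] at h7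
    by_contra hne
    exact x_not_mem_Up S (R.pos_sim i) (fun e => hne (Units.ext (mul_right_cancel₀ ht (by
      rw [Units.val_one]; linear_combination e)))) h7
  rw [show c = 1 from funext h1] at hc
  simp only [RS.chi_one] at hc
  rwa [ha k hk hc, mul_one]

theorem fix_B (ha : S.Adj) {b : G} (hb : b ∈ S.B) (hM : b ∈ M) : b ∈ y.Fx := by
  have hZU : S.XS Z ≤ S.U := S.XS_mono H.hZ.1
  have h1 := H.d_mem hΓ p ha hb hM
  obtain ⟨u, hu, k, hk, rfl⟩ := S.mem_B_iff.1 hb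
  have uΓ : u ∈ Γ := hΓ.U_le ⟨hu, (z.fixed_B hu hk (hΓ.le_Fx (H.le hM))).1⟩
  have h2 : k⁻¹ * y.σ k = 1 := S.eq_one_of_mem_U_H (by
    have := S.U.mul_mem (S.U.inv_mem ((mem_normalizer_iff''.1 (S.H_le_normalizer _ hk) _).1
      (mul_mem (inv_mem hu) (y.σ_mem_U hu)))) (hZU h1)
    rw [map_mul] at this
    convert this using 1; group) (mul_mem (inv_mem hk) (y.σ_mem_H hk))
  have h3 : y.σ k = k := (inv_mul_eq_one.1 h2).symm
  obtain ⟨a, a1, a2, a3, a4⟩ := H.exists_rat hΓ hu uΓ (by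
    have := (mem_normalizer_iff.1 (S.H_le_normalizer Z hk) _).1 h1
    rw [map_mul, h3] at this
    convert this using 1; group)
  have h4 : a⁻¹ * (u * k) ∈ M := mul_mem (inv_mem a2) hM
  rw [← mul_mem_cancel_left (inv_mem a3)]
  rw [← mul_assoc] at h4 ⊢
  generalize a⁻¹ * u = v at a4 h4
  have h5 : ∀ r ∈ Z, (v * k)⁻¹ * y.σ (v * k) ∈ S.XS (Z \ {r}) := fun r hr => by
    obtain ⟨w, hw, w1, w2⟩ := H.hF r hr
    obtain ⟨n, n1, n2, n3, n4⟩ := H.hN w hw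
    have := H.d_mem hΓ p ha (b := n * (v * k) * n⁻¹) (by
      rw [← conj_mul]
      exact mul_mem (S.U_le_B (n4.conj_mem (T' := {r | R.Pos r}) w1 v a4)) (S.H_le_B (S.conj_mem_H n1 hk)))
      (mul_mem (mul_mem n2 h4) (inv_mem n2))
    refine S.XS_mono (fun s hs => And.intro hs.1 fun e => w2 (by rw [← show s = r from e]; exact hs.2))
      (S.mem_XS_of_conj (H.hZ.closed le_rfl) H.hZ.1 n4 (H.d_mem hΓ p ha (mul_mem (S.U_le_B (hZU a4)) (S.H_le_B hk)) h4) ?_)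
    rw [map_mul, map_mul, map_inv, y.mem_Fx.1 n3] at this
    convert this using 1; group
  have h6 : ∀ s : Finset Φ, (v * k)⁻¹ * y.σ (v * k) ∈ S.XS (Z \ s) := fun s => by
    induction s using Finset.induction_on with
    | empty => simpa using H.d_mem hΓ p ha (mul_mem (S.U_le_B (hZU a4)) (S.H_le_B hk)) h4
    | insert r s _ ih =>
      by_cases hr : r ∈ Z
      · refine S.XS_mono (fun t ht => And.intro ht.1.1 ?_) ((S.sep.XS_inf (f := RS.htv) (H.hZ.closed Set.diff_subset)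
          (H.hZ.closed Set.diff_subset) (fun t ht => R.ht_pos (H.hZ.1 t ht.1))
          fun t ht => R.ht_pos (H.hZ.1 t ht.1)).le ⟨ih, h5 r hr⟩)
        simpa using And.intro ht.2.2 ht.1.2
      · refine S.XS_mono (fun t ht => And.intro ht.1 ?_) ih
        simpa using And.intro (fun e : t = r => hr (e ▸ ht.1)) ht.2
  have := h6 Finset.univ
  rw [Finset.coe_univ, Set.diff_univ, S.XS_empty, mem_bot, inv_mul_eq_one] at this
  exact this.symm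

theorem se (ha : S.Adj) (hG : S.Gr = ⊤) (hc : ∃ r, ∀ i, R.rt r i ≠ 0) (L : z.sym.Lam) : SE p M y.Fx :=
  Hyp.se hΓ ⟨H.hy, H.le, H.stab, H.hU, H.hN, fun _ hb hM => H.fix_B hΓ p ha hb hM, H.hY⟩ p ha hG hc L

end HypB

end H14.SF
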