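import Cfsg.Agent.H14.SF3
import Cfsg.Agent.H24.LT2

/-! Overgroups of subfield subgroups: the untwisted groups. -/

set_option autoImplicit false
set_option maxHeartbeats 400000
set_option linter.unusedSectionVars false

namespace H14.SF
open H24 H24.St0 Subgroup

variable {ι Φ : Type} [Fintype ι] [DecidableEq ι] [Fintype Φ] [DecidableEq Φ] {R : CD ι Φ} {F : Type*} [Field F]
  {G : Type*} [Group G] {S : St R F G}

/-- a field endomorphism as a twist -/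
def fTw [Finite F] (φ : F →+* F) (σ : G →* G) (hσ : ∀ r t, σ (S.x r t) = S.x r (φ t)) : Tw S where
  σ := σ
  ρ := 1
  π := 1
  τ _ := φ
  σ_x := hσ
  ρ_sim _ := rfl
  ρ_neg _ := rfl
  τ_bij _ := Finite.injective_iff_bijective.1 φ.injective
  τ_neg _ t := by simp

theorem noSum_single {r : Φ} (hr : R.Pos r) : NoSum R {r} := ⟨by simpa using hr, by
  rintro _ rfl b rfl u i j hi hj e
  have h1 := ht_comb e
  rw [show u = b from RS.closed_singleton b b rfl b rfl u i j hi hj e] at h1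
  have := R.ht_pos hr
  nlinarith⟩

theorem Top.noSum {θ : Φ} (h : Top R θ) {Z : Set Φ} (hZ : ∀ r ∈ Z, R.ht θ < 2 * R.ht r) : NoSum R Z :=
  ⟨fun r hr => (R.pos_iff_ht r).2 (by have := hZ r hr; have := h.ht_pos; omega), fun a ha b hb u i j hi hj e => by
    have := ht_comb e
    have := h.le u
    have := hZ a ha
    have := hZ b hb
    have := h.ht_pos
    nlinarith⟩

theorem comm_Up (S : St R F G) {r s v δ : Φ} (hs : R.Pos s) (hδ : R.Pos δ) (h : R.ht v ≤ R.ht δ + R.ht s)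
    (hv : R.rt v ≠ R.rt δ + R.rt s) (t u : F) : (S.x s u)⁻¹ * (S.x δ t)⁻¹ * S.x s u * S.x δ t ∈ S.XS (Up R v) := by
  have h1 := R.ht_pos hs
  have h2 := R.ht_pos hδ
  refine S.comm_x_mem (RS.ne_neg_of_pos (f := RS.htv) h2 h1) (fun w i j hi hj e => ?_) t u
  have h3 := ht_comb e
  refine ⟨(R.pos_iff_ht w).2 (by nlinarith), by nlinarith, ?_⟩
  rintro rfl
  have hi' : (1 : ℤ) ≤ i := by exact_mod_cast hi
  have hj' : (1 : ℤ) ≤ j := by exact_mod_cast hj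
  obtain rfl : i = 1 := by exact_mod_cast (show (i : ℤ) = 1 by nlinarith)
  obtain rfl : j = 1 := by exact_mod_cast (show (j : ℤ) = 1 by push_cast at h3; nlinarith)
  exact hv (by simpa using e)

theorem eq_zero_of_terms (S : St R F G) {r s v : Φ} (hr : R.Pos r) (hs : R.Pos s) (hsr : s ≠ r) {c : ℤ}
    {L : List (Φ × ℤ × ℕ × ℕ)} (e : R.terms r s = (v, c, 1, 1) :: L) (hL : ∀ a ∈ L, 3 ≤ a.2.2.1 + a.2.2.2)
    (hc : (c : F) ≠ 0) {t u : F} (hu : u ≠ 0)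
    (h : (S.x s u)⁻¹ * (S.x r t)⁻¹ * S.x s u * S.x r t ∈ S.XS (Up R v)) : t = 0 := by
  have h1 := R.ht_pos hs
  have h2 := R.ht_pos hr
  have hv := ht_comb (R.terms_rt r s (v, c, 1, 1) (by simp [e])).1
  simp only [Nat.cast_one, one_mul] at hv
  rw [mul_assoc, S.comm r s t u hsr (RS.ne_neg_of_pos (f := RS.htv) h2 h1),
    show ∀ a b c : G, a⁻¹ * b⁻¹ * (b * a * c) = c from fun a b c => by group, e, List.map_cons, List.prod_cons,
    mul_mem_cancel_right (list_prod_mem fun y hy => ?_)] at h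
  · by_contra ht
    exact x_not_mem_Up S ((R.pos_iff_ht v).2 (by omega)) (by simp [hc, ht, hu]) h
  · obtain ⟨a, ha, rfl⟩ := List.mem_map.1 hy
    obtain ⟨a1, a2, a3⟩ := R.terms_rt r s a (by simp [e, ha])
    have h3 := ht_comb a1
    have h4 := hL a ha
    have h5 : R.ht v < R.ht a.1 := by
      rcases (show 2 ≤ a.2.2.1 ∨ 2 ≤ a.2.2.2 by omega) with h | h <;> nlinarith
    exact S.x_mem (T := Up R v) ⟨(R.pos_iff_ht _).2 (by omega), h5.le, fun e => absurd h5 (e ▸ lt_irrefl _)⟩ _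

theorem n_mem_of {M : Subgroup G} {r : Φ} (h1 : S.x r 1 ∈ M) (h2 : S.x (R.neg r) 1 ∈ M) : S.n r 1 ∈ M :=
  mul_mem (mul_mem h1 (by rw [inv_one, S.x_neg]; exact inv_mem h2)) h1

theorem nw_mem_of {M : Subgroup G} (h : ∀ r, S.x r 1 ∈ M) (l : List ι) : S.nw l ∈ M := by
  induction l with
  | nil => exact one_mem _
  | cons i l ih => exact S.nw_cons i l ▸ mul_mem (n_mem_of (h _) (h _)) ih

theorem h_mem_of {M : Subgroup G} {r : Φ} (h : S.n r 1 ∈ M) : S.h r (-1) ∈ M := by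
  rw [St0.h, S.n_neg]; exact mul_mem (inv_mem h) (inv_mem h)

/-- the root data of the untwisted case -/
structure Dat (S : St R F G) (θ : Φ) (Z : Set Φ) : Prop where
  top : Top R θ
  ht : ∀ r ∈ Z, R.ht θ < 2 * R.ht r
  cen : ∀ δ ∈ Z, ∀ s, R.Pos s → ∀ t u, Commute (S.x s t) (S.x δ u)
  test : ∀ r, R.Pos r → r ∉ Z → ∃ s v c L, R.Pos s ∧ s ≠ r ∧ R.terms r s = (v, c, 1, 1) :: L ∧
    (∀ a ∈ L, 3 ≤ a.2.2.1 + a.2.2.2) ∧ (c : F) ≠ 0
  mv : ∀ r ∈ Z, ∃ i, (∀ s ∈ Z, s ≠ R.sim i) ∧ R.s i r ∉ Z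
  orth : ∃ r, R.Pos r ∧ R.A θ r = 0
  two : (∃ i, R.len (R.sim i) ≠ R.len θ) ∨ ∃ i j, i ≠ j ∧ R.terms (R.sim i) (R.sim j) = []

theorem Dat.le_fix [Fintype F] (p : ℕ) [Fact p.Prime] [CharP F p] [Finite G] (ha : S.Adj) (hG : S.Gr = ⊤)
    (hc : ∃ r, ∀ i, R.rt r i ≠ 0) {θ : Φ} {Z : Set Φ} (D : Dat S θ Z) (φ : F →+* F) (σ : G →* G)
    (hσ : ∀ r t, σ (S.x r t) = S.x r (φ t)) {M : Subgroup G} (hM : ∀ r t, S.x r t ∈ M ↔ φ t = t)
    (hE : ∀ u ∈ S.XS Z, u ∈ M → σ u = u) : ∀ g ∈ M, σ g = g := by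
  let y := fTw φ σ hσ
  have h1 : ∀ r, S.x r 1 ∈ M := fun r => (hM r 1).2 (map_one φ)
  have h2 : ∀ r, S.x r 1 ∈ y.Fx := fun r => y.mem_Fx.2 ((hσ r 1).trans (by rw [map_one]))
  have hΓ := S.tid_sub
  rw [S.tid_G1, hG] at hΓ
  have H : HypB S.tid ⊤ y M Z := {
    hy := rfl
    le := le_top
    stab := fun _ _ => mem_top _
    hU := fun u hu _ e => by
      obtain ⟨t, rfl⟩ := S.exists_pl hu
      have e1 : σ (S.prod R.pl t) = S.prod R.pl fun r => φ (t r) := by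
        simp only [St0.prod, map_list_prod, List.map_map, Function.comp_def, hσ]
      exact S.prod_mem_of fun r hr => (hM r _).2 (S.pl_inj (e1.symm.trans e) ((R.mem_pl r).1 hr))
    hN := fun w hw => by
      obtain ⟨l, rfl⟩ := R.mem_W_iff.1 (S.tid.sym.W1_le_W hw)
      exact ⟨_, S.nw_mem l, nw_mem_of h1 l, nw_mem_of h2 l, S.nw_rep l⟩
    hY := fun r hr => ⟨_, h1 r, S.x_mem (And.intro hr ⟨rfl, fun _ _ h => h⟩) 1, x_not_mem_Up S hr one_ne_zero⟩
    hZ := D.top.noSum D.ht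
    hZρ := fun _ => Iff.rfl
    hC := fun r hr hZ t b hb h => by
      obtain ⟨s, v, c, L, a1, a2, a3, a4, a5⟩ := D.test r hr hZ
      have a6 := (R.terms_rt r s (v, c, 1, 1) (by simp [a3])).1
      have a7 := ht_comb a6
      simp only [Nat.cast_one, one_mul, one_smul] at a6 a7
      refine eq_zero_of_terms S hr a1 a2 a3 a4 a5 one_ne_zero (test_of (fun s hs => hs.elim
        ((D.top.noSum D.ht).1 s) fun h => h.1) hr (S.x_mem_U a1 1) (fun δ hδ t => ?_) hb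
        (h _ (S.x_mem_U a1 1) (h1 s) (h2 s)))
      rcases hδ with hδ | hδ
      · rw [mul_assoc, (D.cen δ hδ s a1 1 t).eq]; simp [mul_assoc]
      · exact comm_Up S (r := r) a1 hδ.1 (by have := hδ.2.1; omega) (fun e => hδ.2.2 (R.rt_inj
          (add_right_cancel (e.symm.trans a6)))) t 1
    hO := fun r hr => ⟨{r}, rfl, noSum_single hr, by simp, fun _ => Iff.rfl, by simp⟩
    hE := hE
    hF := fun r hr => by
      obtain ⟨i, a1, a2⟩ := D.mv r hr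
      exact ⟨R.s i, S.tid.sym.mem_W1.2 ⟨R.s_mem_W i, by simp [Tw.sym, St.tid]⟩,
        fun s hs => R.pos_s ((D.top.noSum D.ht).1 s hs) (a1 s hs), a2⟩ }
  have se := H.se hΓ p ha hG hc (S.tid.sym.lam fun _ _ => rfl)
  change M ≤ y.Fx
  by_cases hp : p = 2
  · subst hp
    have e2 : ∀ r, S.x r 1 * S.x r 1 = 1 := fun r => by rw [← S.x_add, CharTwo.add_self_eq_zero, x_zero]
    rcases D.two with ⟨i, hi⟩ | ⟨i, j, hij, e⟩
    · exact D.top.le_two hG se one_ne_zero (h1 θ) (h2 θ) (h1 _) (h2 _) (e2 _) (S.x_mem_U (R.pos_sim i) 1)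
        (x_not_mem_Up S (R.pos_sim i) one_ne_zero) (x_not_mem_Up S (R.pos_sim i) one_ne_zero) (Or.inr hi)
    · have c1 := S.comm (R.sim i) (R.sim j) 1 1 (fun e => hij (R.sim_inj e).symm)
        (RS.ne_neg_of_pos (f := RS.htv) (R.ht_pos (R.pos_sim i)) (R.ht_pos (R.pos_sim j)))
      rw [e, List.map_nil, List.prod_nil, mul_one] at c1
      have c2 : ∀ i j, i ≠ j → S.x (R.sim i) 1 * S.x (R.sim j) 1 ∉ S.XS (Up R (R.sim i)) := fun i j hij h =>
        x_not_mem_Up S (R.pos_sim i) one_ne_zero ((mul_mem_cancel_right (S.x_mem (T := Up R _)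
          ⟨R.pos_sim j, by rw [R.ht_sim, R.ht_sim], fun e => hij (R.sim_inj e).symm⟩ 1)).1 h)
      refine D.top.le_two hG se one_ne_zero (h1 θ) (h2 θ) (mul_mem (h1 _) (h1 _)) (mul_mem (h2 _) (h2 _)) ?_
        (mul_mem (S.x_mem_U (R.pos_sim i) 1) (S.x_mem_U (R.pos_sim j) 1)) (c2 i j hij) (c1 ▸ c2 j i hij.symm)
        (Or.inl hij)
      rw [mul_assoc, ← mul_assoc (S.x (R.sim j) 1), c1, mul_assoc, e2, mul_one, e2]
  · obtain ⟨r, r1, r2⟩ := D.orth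
    exact D.top.le_odd p hG hp se one_ne_zero (h1 θ) (h2 θ) (h_mem_of (n_mem_of (h1 _) (h1 _)))
      (h_mem_of (n_mem_of (h2 _) (h2 _))) (h1 r) (h2 r) (fun e => one_ne_zero (S.x_eq_one_iff.1 e))
      (S.x_mem (And.intro r1 r2) 1)

end H14.SF
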