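import Cfsg.Agent.H14.SF4

/-! Overgroups of subfield subgroups: the field of parameters. -/

set_option autoImplicit false
set_option maxHeartbeats 400000
set_option linter.unusedSectionVars false

namespace H14.SF
open H24 H24.St0 Subgroup

section field
variable {F : Type*} [Field F] [Fintype F]

/-- a subring of a finite field -/
def toSubfield (A : AddSubgroup F) (h1 : (1 : F) ∈ A) (hm : ∀ s ∈ A, ∀ t ∈ A, s * t ∈ A) : Subfield F where
  carrier := A
  mul_mem' ha hb := hm _ ha _ hb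
  one_mem' := h1
  add_mem' := A.add_mem
  zero_mem' := A.zero_mem
  neg_mem' := A.neg_mem
  inv_mem' x hx := by
    by_cases h0 : x = 0
    · rw [h0, inv_zero]; exact A.zero_mem
    have h2 : ∀ n : ℕ, x ^ n ∈ A := fun n => by
      induction n with
      | zero => simpa using h1
      | succ n ih => rw [pow_succ]; exact hm _ ih _ hx
    have h3 := FiniteField.pow_card_sub_one_eq_one x h0
    have h4 := Fintype.one_lt_card (α := F)
    rw [show Fintype.card F - 1 = Fintype.card F - 2 + 1 by omega, pow_succ] at h3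
    rw [← eq_inv_of_mul_eq_one_left h3]
    exact h2 _

theorem mem_of_nat_mul {A : AddSubgroup F} {n : ℕ} (hn : (n : F) ≠ 0) {t : F} (h : n * t ∈ A) : t ∈ A := by
  have h3 := FiniteField.pow_card_sub_one_eq_one _ hn
  have h4 := Fintype.one_lt_card (α := F)
  rw [show Fintype.card F - 1 = Fintype.card F - 2 + 1 by omega, pow_succ] at h3
  have := A.nsmul_mem h (n ^ (Fintype.card F - 2))
  rwa [nsmul_eq_mul, Nat.cast_pow, ← mul_assoc, h3, one_mul] at this

theorem mem_of_pow {p : ℕ} [Fact p.Prime] [CharP F p] {A : Set F} (h : ∀ t ∈ A, t ^ p ∈ A) {t : F} (ht : t ^ p ∈ A) :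
    t ∈ A := by
  obtain ⟨n, -, hn⟩ := FiniteField.card F p
  have h2 : ∀ k : ℕ, t ^ p ^ (k + 1) ∈ A := fun k => by
    induction k with
    | zero => simpa using ht
    | succ k ih => rw [pow_succ, pow_mul]; exact h _ ih
  have := h2 (n - 1)
  rwa [Nat.sub_add_cancel n.pos, ← hn, FiniteField.pow_card] at this

theorem le_of_scale {E : Subfield F} {A : AddSubgroup F} (h1 : (1 : F) ∈ A)
    (h : ∀ w ∈ E, ∀ t ∈ E, w * (t ^ 2 - t) ∈ A) {s : F} (hs : s ∈ E) : s ∈ A := by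
  by_cases e : s ^ 2 - s = 0
  · rcases mul_eq_zero.1 (show s * (s - 1) = 0 by linear_combination e) with e | e
    · rw [e]; exact A.zero_mem
    · rwa [sub_eq_zero.1 e]
  · have := h _ (E.div_mem hs (E.sub_mem (E.pow_mem hs 2) hs)) s hs
    rwa [div_mul_cancel₀ _ e] at this

end field

variable {ι Φ : Type} [Fintype ι] [DecidableEq ι] [Fintype Φ] [DecidableEq Φ] {R : CD ι Φ} {F : Type*} [Field F]
  {G : Type*} [Group G] {S : St R F G} {M : Subgroup G}

/-- the parameters of root elements in `M` -/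
def AR (S : St R F G) (M : Subgroup G) (r : Φ) : AddSubgroup F where
  carrier := {t | S.x r t ∈ M}
  add_mem' ha hb := by rw [Set.mem_setOf_eq, S.x_add]; exact mul_mem ha hb
  zero_mem' := by simp
  neg_mem' ha := by rw [Set.mem_setOf_eq, S.x_neg]; exact inv_mem ha

theorem mem_AR {r : Φ} {t : F} : t ∈ AR S M r ↔ S.x r t ∈ M := Iff.rfl

theorem unit_mul_mem {A : AddSubgroup F} (e : ℤˣ) {t : F} : ((e : ℤ) : F) * t ∈ A ↔ t ∈ A := by
  rcases Int.units_eq_one_or e with rfl | rfl <;> simp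

theorem AR_eq (h1 : ∀ r, S.x r 1 ∈ M) (hW : ∀ r s, R.len r = R.len s → ∃ w ∈ R.W, w r = s) {r s : Φ}
    (e : R.len r = R.len s) : AR S M r = AR S M s := by
  have key : ∀ r s, R.len r = R.len s → AR S M r ≤ AR S M s := fun r s e t ht => by
    obtain ⟨w, hw, rfl⟩ := hW r s e
    obtain ⟨l, rfl⟩ := R.mem_W_iff.1 hw
    clear hw e
    induction l with
    | nil => exact ht
    | cons i l ih =>
      have := mul_mem (mul_mem (n_mem_of (h1 (R.sim i)) (h1 _)) ih) (inv_mem (n_mem_of (h1 (R.sim i)) (h1 _)))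
      rw [S.n_conj _ _ one_ne_zero, one_zpow, mul_one, R.w_sim] at this
      exact (unit_mul_mem _).1 this
  exact le_antisymm (key r s e) (key s r e.symm)

theorem comm_mem {a b : Φ} (h1 : b ≠ a) (h2 : b ≠ R.neg a) {L : List (Φ × ℤ × ℕ × ℕ)} (e : R.terms a b = L) {t u : F}
    (ht : S.x a t ∈ M) (hu : S.x b u ∈ M) :
    (L.map fun c => S.x c.1 ((c.2.1 : F) * (-t) ^ c.2.2.1 * u ^ c.2.2.2)).prod ∈ M := by
  have := mul_mem hu ht
  rwa [S.comm a b t u h1 h2, e, mul_mem_cancel_left (mul_mem ht hu)] at this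

/-- the parameters form a field -/
def Fld (S : St R F G) (M : Subgroup G) (Z : Set Φ) : Prop :=
  ∃ E : Subfield F, (∀ r t, S.x r t ∈ M ↔ t ∈ E) ∧
    ∀ u ∈ S.XS Z, u ∈ M → u ∈ closure {g | ∃ r, ∃ t ∈ E, g = S.x r t}

theorem fld_single {E : Subfield F} (h : ∀ r t, S.x r t ∈ M ↔ t ∈ E) (θ : Φ) : Fld S M {θ} :=
  ⟨E, h, fun u hu hM => by
    obtain ⟨t, rfl⟩ := S.mem_XS_singleton.1 hu
    exact subset_closure ⟨θ, t, (h θ t).1 hM, rfl⟩⟩

theorem fld_pair {E : Subfield F} (h : ∀ r t, S.x r t ∈ M ↔ t ∈ E) {c d : Φ}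
    (hc : ∀ t u, Commute (S.x c t) (S.x d u)) (H : ∀ t u, S.x c t * S.x d u ∈ M → u ∈ E) : Fld S M {c, d} :=
  ⟨E, h, fun u hu hM => by
    obtain ⟨t, v, rfl⟩ : ∃ t v, u = S.x c t * S.x d v :=
      S.XS_induction (P := fun g => ∃ t v, g = S.x c t * S.x d v) ⟨0, 0, by simp⟩ (by
        rintro _ _ r (rfl | rfl) s ⟨t, v, rfl⟩
        · exact ⟨t + s, v, by rw [mul_assoc, ← (hc s v).eq, S.x_add, mul_assoc]⟩
        · exact ⟨t, v + s, by rw [S.x_add, mul_assoc]⟩) u hu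
    have h1 := H t v hM
    exact mul_mem (subset_closure ⟨c, t, (h c t).1 ((mul_mem_cancel_right ((h d v).2 h1)).1 hM), rfl⟩)
      (subset_closure ⟨d, v, h1, rfl⟩)⟩

variable [Fintype F] (h1 : ∀ r, S.x r 1 ∈ M) (hW : ∀ r s, R.len r = R.len s → ∃ w ∈ R.W, w r = s)
include h1 hW

theorem mul_mem_AR {a b c : Φ} (n1 : b ≠ a) (n2 : b ≠ R.neg a) {ε : ℤˣ} (e : R.terms a b = [(c, (ε : ℤ), 1, 1)])
    (hb : R.len b = R.len a) (hc : R.len c = R.len a) : ∀ s ∈ AR S M a, ∀ t ∈ AR S M a, s * t ∈ AR S M a :=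
  fun s hs t ht => by
    have := comm_mem n1 n2 e hs (AR_eq h1 hW hb ▸ ht : t ∈ AR S M b)
    simp only [List.map_cons, List.map_nil, List.prod_cons, List.prod_nil, mul_one, pow_one, mul_assoc, ← mem_AR,
      unit_mul_mem, neg_mul, mul_neg, neg_mem_iff] at this
    rwa [AR_eq h1 hW hc] at this

theorem fld_sl {a b c : Φ} (n1 : b ≠ a) (n2 : b ≠ R.neg a) {ε : ℤˣ} (e : R.terms a b = [(c, (ε : ℤ), 1, 1)])
    (hl : ∀ r, R.len r = R.len a) (θ : Φ) : Fld S M {θ} :=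
  fld_single (E := toSubfield _ (h1 a) (mul_mem_AR h1 hW n1 n2 e (hl b) (hl c)))
    (fun r _ => by rw [← mem_AR, AR_eq h1 hW (hl r)]; rfl) θ

omit h1 hW in
/-- a subsystem of type `B₂` -/
structure B2D (R : CD ι Φ) (a b c d : Φ) : Prop where
  n1 : b ≠ a
  n2 : b ≠ R.neg a
  tm : ∃ ε ε' : ℤˣ, R.terms a b = [(c, (ε : ℤ), 1, 1), (d, (ε' : ℤ), 1, 2)]
  hc : R.len c = R.len b
  hd : R.len d = R.len a
  hl : ∀ r, R.len r = R.len a ∨ R.len r = R.len b
  Aab : R.A a b = -1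
  Aba : R.A b a = -2

theorem B2D.fld_odd {a b c d : Φ} (D : B2D R a b c d) (h2 : (2 : F) ≠ 0) (θ : Φ) : Fld S M {θ} := by
  obtain ⟨ε, ε', e⟩ := D.tm
  have key : ∀ t ∈ AR S M a, ∀ u ∈ AR S M b, t * u ∈ AR S M b ↔ t * u ^ 2 ∈ AR S M a := fun t ht u hu => by
    have := comm_mem D.n1 D.n2 e ht hu
    simp only [List.map_cons, List.map_nil, List.prod_cons, List.prod_nil, mul_one, pow_one] at this
    constructor <;> intro h
    · rw [mul_mem_cancel_left (by
        simpa only [mul_assoc, ← mem_AR, unit_mul_mem, neg_mul, mul_neg, neg_mem_iff, AR_eq h1 hW D.hc] using h)] at this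
      simpa only [mul_assoc, ← mem_AR, unit_mul_mem, neg_mul, mul_neg, neg_mem_iff, AR_eq h1 hW D.hd] using this
    · rw [mul_mem_cancel_right (by
        simpa only [mul_assoc, ← mem_AR, unit_mul_mem, neg_mul, mul_neg, neg_mem_iff, AR_eq h1 hW D.hd] using h)] at this
      simpa only [mul_assoc, ← mem_AR, unit_mul_mem, neg_mul, mul_neg, neg_mem_iff, AR_eq h1 hW D.hc] using this
  have k1 : ∀ u ∈ AR S M b, u ^ 2 ∈ AR S M a := fun u hu => by
    simpa using (key 1 (h1 a) u hu).1 (by rwa [one_mul])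
  have k2 : AR S M a = AR S M b := le_antisymm
    (fun t ht => by simpa using (key t ht 1 (h1 b)).2 (by simpa using ht)) fun u hu =>
      mem_of_nat_mul (n := 2) (by exact_mod_cast h2) (by
        convert sub_mem (sub_mem (k1 _ (add_mem hu (h1 b))) (k1 u hu)) (h1 a) using 1
        push_cast; ring)
  rw [← k2] at k1
  refine fld_single (E := toSubfield (AR S M a) (h1 a) fun s hs t ht =>
    mem_of_nat_mul (n := 2) (by exact_mod_cast h2) ?_) (fun r _ => ?_) θ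
  · convert sub_mem (sub_mem (k1 _ (add_mem hs ht)) (k1 s hs)) (k1 t ht) using 1
    push_cast; ring
  · rcases D.hl r with h | h
    · rw [← mem_AR, AR_eq h1 hW h]; rfl
    · rw [← mem_AR, AR_eq h1 hW h, ← k2]; rfl

theorem B2D.fld_two [CharP F 2] {a b c d : Φ} (D : B2D R a b c d) (ca : ∀ t u, Commute (S.x c t) (S.x a u))
    (cb : ∀ t u, Commute (S.x c t) (S.x b u)) (cd : ∀ t u, Commute (S.x c t) (S.x d u))
    (da : ∀ t u, Commute (S.x d t) (S.x a u)) (db : ∀ t u, Commute (S.x d t) (S.x b u)) : Fld S M {c, d} := by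
  obtain ⟨ε, ε', e⟩ := D.tm
  have hu : ∀ η : ℤˣ, ((η : ℤ) : F) = 1 := fun η => by
    rcases Int.units_eq_one_or η with rfl | rfl <;> simp [CharTwo.neg_eq]
  have rc := (R.terms_rt a b (c, ε, 1, 1) (by simp [e])).1
  have rd := (R.terms_rt a b (d, ε', 1, 2) (by simp [e])).1
  have Aac : R.A a c = 1 := (RS.f_comb (f := R.Av a) rc).trans (by simp [← R.A_def, R.A_self, D.Aab])
  have Aad : R.A a d = 0 := (RS.f_comb (f := R.Av a) rd).trans (by simp [← R.A_def, R.A_self, D.Aab])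
  have Abc : R.A b c = 0 := (RS.f_comb (f := R.Av b) rc).trans (by simp [← R.A_def, R.A_self, D.Aba])
  have Abd : R.A b d = 2 := (RS.f_comb (f := R.Av b) rd).trans (by simp [← R.A_def, R.A_self, D.Aba])
  have wac : R.w a c = b := R.rt_inj (by rw [R.rt_w, Aac, rc]; simp)
  have wad : R.w a d = d := R.rt_inj (by rw [R.rt_w, Aad]; simp)
  have wbc : R.w b c = c := R.rt_inj (by rw [R.rt_w, Abc]; simp)
  have wbd : R.w b d = a := R.rt_inj (by rw [R.rt_w, Abd, rd]; simp)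
  have cj : ∀ r α β, S.x c α * S.x d β ∈ M → S.x (R.w r c) α * S.x (R.w r d) β ∈ M := fun r α β h => by
    have := mul_mem (mul_mem (n_mem_of (h1 r) (h1 _)) h) (inv_mem (n_mem_of (h1 r) (h1 _)))
    rwa [← conj_mul, S.n_conj _ _ one_ne_zero, S.n_conj _ _ one_ne_zero, hu, hu, one_zpow, one_zpow, one_mul,
      one_mul, one_mul] at this
  have key : ∀ α β α' β', S.x c α * S.x d β ∈ M → S.x c α' * S.x d β' ∈ M →
      S.x c (β' * α) * S.x d (β' * α ^ 2) ∈ M := fun α β α' β' h h' => by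
    have g1 := cj a α β h
    have g2 := cj b α' β' h'
    rw [wac, wad] at g1
    rw [wbc, wbd] at g2
    have g3 := S.comm a b β' α D.n1 D.n2
    simp only [e, List.map_cons, List.map_nil, List.prod_cons, List.prod_nil, mul_one, pow_one, hu, one_mul,
      CharTwo.neg_eq] at g3
    have g4 : S.x b α * S.x d β * (S.x c α' * S.x a β') = S.x c α' * S.x a β' * (S.x b α * S.x d β) *
        (S.x c (β' * α) * S.x d (β' * α ^ 2)) := by
      calc _ = S.x c α' * (S.x b α * S.x a β') * S.x d β := by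
            rw [mul_assoc, ← mul_assoc (S.x d β), ← (cd α' β).eq, mul_assoc, (da β β').eq, ← mul_assoc, ← mul_assoc,
              ← (cb α' α).eq, mul_assoc (S.x c α')]
        _ = _ := by
            rw [g3]
            simp only [mul_assoc]
            rw [S.x_comm_self d _ β, ← mul_assoc (S.x c (β' * α)), (cd _ β).eq, mul_assoc]
    exact (mul_mem_cancel_left (mul_mem g2 g1)).1 (g4 ▸ mul_mem g1 g2)
  let A : AddSubgroup F :=
    { carrier := {α | ∃ β, S.x c α * S.x d β ∈ M}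
      add_mem' := fun {α α'} ⟨β, h⟩ ⟨β', h'⟩ => ⟨β + β', by
        have := mul_mem h h'
        rwa [mul_assoc, ← mul_assoc (S.x d β), ← (cd α' β).eq, mul_assoc, ← mul_assoc, ← S.x_add, ← S.x_add] at this⟩
      zero_mem' := ⟨0, by simp⟩
      neg_mem' := fun {α} h => by rwa [CharTwo.neg_eq] }
  have o1 : S.x c 1 * S.x d 1 ∈ M := mul_mem (h1 c) (h1 d)
  have k1 : ∀ α β, S.x c α * S.x d β ∈ M → S.x c β * S.x d β ∈ M := fun α β h => by simpa using key 1 1 α β o1 h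
  have k2 : ∀ α ∈ A, S.x c α * S.x d α ∈ M := fun α ⟨β, h⟩ =>
    mem_of_pow (p := 2) (A := {β | S.x c β * S.x d β ∈ M}) (fun t ht => k1 _ _ (by simpa using key t t 1 1 ht o1))
      (k1 _ _ (by simpa using key α β 1 1 h o1))
  let E := toSubfield A ⟨1, o1⟩ fun s hs t ht => ⟨_, key t t s s (k2 t ht) (k2 s hs)⟩
  have k3 : ∀ s ∈ E, s ∈ AR S M d := fun s => le_of_scale (h1 d) fun w hw t ht => by
    have := mul_mem (inv_mem (k2 _ (E.mul_mem hw ht))) (key t t w w (k2 t ht) (k2 w hw))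
    rwa [mul_inv_rev, mul_assoc, inv_mul_cancel_left, ← S.x_neg, ← S.x_add,
      show -(w * t) + w * t ^ 2 = w * (t ^ 2 - t) by ring] at this
  have k4 : ∀ t, t ∈ AR S M d ↔ t ∈ E := fun t => ⟨fun h => ⟨t, k1 0 t (by rwa [x_zero, one_mul])⟩, k3 t⟩
  have k5 : ∀ t, t ∈ AR S M c ↔ t ∈ E := fun t => ⟨fun h => ⟨0, by rwa [x_zero, mul_one]⟩, fun h =>
    (mul_mem_cancel_right (mem_AR.1 (k3 t h))).1 (k2 t h)⟩
  refine fld_pair (E := E) (fun r t => ?_) cd fun t u h => ⟨u, k1 t u h⟩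
  rcases D.hl r with h | h
  · rw [← mem_AR, AR_eq h1 hW (h.trans D.hd.symm), k4]
  · rw [← mem_AR, AR_eq h1 hW (h.trans D.hc.symm), k5]

omit h1 hW in
/-- the system `G₂` -/
structure G2D (S : St R F G) (a b c d e f : Φ) : Prop where
  n1 : a ≠ b ∧ a ≠ R.neg b
  n2 : e ≠ b ∧ e ≠ R.neg b
  n3 : d ≠ a ∧ d ≠ R.neg a
  n4 : d ≠ c ∧ d ≠ R.neg c
  t1 : R.terms b a = [(c, 1, 1, 1), (d, 1, 1, 2), (e, -1, 1, 3), (f, -2, 2, 3)]
  t2 : R.terms b e = [(f, 1, 1, 1)]
  t3 : R.terms a d = [(e, 3, 1, 1)]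
  t4 : R.terms c d = [(f, 3, 1, 1)]
  db : ∀ t u, Commute (S.x d t) (S.x b u)
  de : ∀ t u, Commute (S.x d t) (S.x e u)
  df : ∀ t u, Commute (S.x d t) (S.x f u)
  ef : ∀ t u, Commute (S.x e t) (S.x f u)
  fb : ∀ t u, Commute (S.x f t) (S.x b u)
  hc : R.len c = R.len a
  hd : R.len d = R.len a
  he : R.len e = R.len b
  hf : R.len f = R.len b
  hl : ∀ r, R.len r = R.len a ∨ R.len r = R.len b
  wc : R.w b c = a
  wd : R.w b d = d
  wf : R.w b f = e

theorem G2D.fld {a b c d e f : Φ} (D : G2D S a b c d e f) :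
    ∃ E : Subfield F, (∀ r t, S.x r t ∈ M ↔ t ∈ E) ∧ ∀ t u, S.x d t * S.x f u ∈ M → u ∈ E := by
  let E := toSubfield _ (h1 b) (mul_mem_AR h1 hW D.n2.1 D.n2.2 (ε := 1) D.t2 D.he D.hf)
  have hb : ∀ t, S.x b t ∈ M ↔ t ∈ E := fun _ => Iff.rfl
  have he : ∀ t, S.x e t ∈ M ↔ t ∈ E := fun _ => by rw [← mem_AR, AR_eq h1 hW D.he]; rfl
  have hf : ∀ t, S.x f t ∈ M ↔ t ∈ E := fun _ => by rw [← mem_AR, AR_eq h1 hW D.hf]; rfl
  have hc : ∀ t, S.x c t ∈ M ↔ t ∈ AR S M a := fun _ => by rw [← mem_AR, AR_eq h1 hW D.hc]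
  have hd : ∀ t, S.x d t ∈ M ↔ t ∈ AR S M a := fun _ => by rw [← mem_AR, AR_eq h1 hW D.hd]
  have hn := n_mem_of (h1 b) (h1 _)
  have c1 : ∀ t u, S.x a u * S.x b t = S.x b t * S.x a u * (S.x c (-(t * u)) * (S.x d (-(t * u ^ 2)) *
      (S.x e (t * u ^ 3) * S.x f (-2 * t ^ 2 * u ^ 3)))) := fun t u => by
    simpa [D.t1] using S.comm b a t u D.n1.1 D.n1.2
  have c2 : ∀ u, S.x e u * S.x b 1 = S.x b 1 * S.x e u * S.x f (-u) := fun u => by
    simpa [D.t2] using S.comm b e 1 u D.n2.1 D.n2.2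
  have c4 : ∀ t u, S.x d u * S.x c t = S.x c t * S.x d u * S.x f (-(3 * t * u)) := fun t u => by
    simpa [D.t4] using S.comm c d t u D.n4.1 D.n4.2
  have P : ∀ t ∈ E, ∀ u ∈ AR S M a, S.x c (-(t * u)) * (S.x d (-(t * u ^ 2)) *
      (S.x e (t * u ^ 3) * S.x f (-2 * t ^ 2 * u ^ 3))) ∈ M := fun t ht u hu =>
    (mul_mem_cancel_left (mul_mem ((hb t).2 ht) hu)).1 (c1 t u ▸ mul_mem hu ((hb t).2 ht))
  have lg : ∀ t ∈ E, ∀ u ∈ E, S.x e (t * u ^ 3) * S.x f (-2 * t ^ 2 * u ^ 3) ∈ M := fun t ht u hu =>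
    mul_mem ((he _).2 (E.mul_mem ht (E.pow_mem hu 3))) ((hf _).2 (E.mul_mem (E.mul_mem (E.neg_mem (ofNat_mem E 2))
      (E.pow_mem ht 2)) (E.pow_mem hu 3)))
  have Q : ∀ t ∈ E, ∀ u ∈ AR S M a, u ∈ E → S.x c (-(t * u)) * S.x d (-(t * u ^ 2)) ∈ M := fun t ht u hu hu' => by
    have := P t ht u hu
    rwa [← mul_assoc, mul_mem_cancel_right (lg t ht u hu')] at this
  have L : ∀ y β, Commute y (S.x b 1) → y * S.x e β ∈ M → β ∈ E := fun y β hy h => by
    have := mul_mem h (h1 b)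
    rw [mul_assoc, c2, ← mul_assoc, ← mul_assoc, hy.eq, mul_assoc (S.x b 1), mul_mem_cancel_left (mul_mem (h1 b) h),
      hf] at this
    exact neg_mem_iff.1 this
  have k1 : (2 : F) ≠ 0 → ∀ t ∈ E, t ∈ AR S M a := fun h2 t ht => by
    have := mul_mem (Q t ht 1 (h1 a) E.one_mem) (Q t ht (-1) (neg_mem (h1 a)) (E.neg_mem E.one_mem))
    simp only [mul_one, one_pow, mul_neg, neg_neg, neg_one_sq] at this
    rw [mul_assoc, ← mul_assoc (S.x d _), c4, ← mul_assoc, ← mul_assoc, ← mul_assoc, ← S.x_add, neg_add_cancel, x_zero,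
      one_mul, mul_assoc, ← (D.df _ _).eq, ← mul_assoc, ← S.x_add, mul_mem_cancel_right ((hf _).2 (E.neg_mem
        (E.mul_mem (E.mul_mem (ofNat_mem E 3) ht) (E.neg_mem ht)))), hd] at this
    refine mem_of_nat_mul (n := 2) (by exact_mod_cast h2) ?_
    convert neg_mem this using 1
    push_cast; ring
  have k2 : (3 : F) ≠ 0 → ∀ u ∈ AR S M a, u ∈ E := fun h3 u hu => by
    have := comm_mem D.n3.1 D.n3.2 D.t3 hu (h1 d)
    simp only [List.map_cons, List.map_nil, List.prod_cons, List.prod_nil, mul_one, pow_one, he] at this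
    have h4 := E.div_mem (E.neg_mem this) (ofNat_mem E 3)
    rwa [show -(((3 : ℤ) : F) * -u) / 3 = u by push_cast; field_simp] at h4
  have k3 : ∀ t, t ∈ AR S M a ↔ t ∈ E := by
    by_cases h2 : (2 : F) = 0
    · have h3 : (3 : F) ≠ 0 := fun h => one_ne_zero (show (1 : F) = 0 by linear_combination h - h2)
      refine fun t => ⟨k2 h3 t, le_of_scale (h1 a) fun w hw t ht => ?_⟩
      have ng : ∀ t : F, -t = t := fun t => by linear_combination (-t) * h2
      have hu : ∀ η : ℤˣ, ((η : ℤ) : F) = 1 := fun η => by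
        rcases Int.units_eq_one_or η with rfl | rfl <;> simp [ng]
      have q1 : ∀ t ∈ E, S.x c t * S.x d t ∈ M := fun t ht => by simpa [ng] using Q t ht 1 (h1 a) E.one_mem
      have q2 := mul_mem (mul_mem hn (q1 t ht)) (inv_mem hn)
      rw [← conj_mul, S.n_conj _ _ one_ne_zero, S.n_conj _ _ one_ne_zero, hu, hu, one_zpow, one_zpow, one_mul,
        one_mul, D.wc, D.wd] at q2
      have q3 := mul_mem q2 ((hb w).2 hw)
      rw [mul_assoc, (D.db t w).eq, ← mul_assoc, c1, mul_assoc, mul_assoc, mul_mem_cancel_left ((hb w).2 hw),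
        mul_assoc (S.x c _), ← (Commute.mul_right (S.x_comm_self d t _) ((D.de t _).mul_right (D.df t _))).eq,
        ← mul_assoc (S.x c _), show ∀ s, S.x c s * S.x d t = S.x d t * S.x c s * (S.x f (-(3 * s * t)))⁻¹ from
          fun s => by rw [c4, mul_inv_cancel_right], mul_assoc, mul_assoc, ← mul_assoc,
        mul_mem_cancel_left q2, ← mul_assoc _ (S.x d _), ← (D.df _ _).inv_right.eq, ← mul_assoc,
        mul_mem_cancel_right (lg w hw t ht), ← mul_assoc, mul_mem_cancel_right (inv_mem ((hf _).2 (E.neg_mem (E.mul_mem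
          (E.mul_mem (ofNat_mem E 3) (E.neg_mem (E.mul_mem hw ht))) ht)))), ng, ng] at q3
      have := mul_mem (inv_mem (q1 _ (E.mul_mem hw ht))) q3
      rwa [mul_inv_rev, mul_assoc, inv_mul_cancel_left, ← S.x_neg, ← S.x_add,
        show -(w * t) + w * t ^ 2 = w * (t ^ 2 - t) by ring, hd] at this
    by_cases h3 : (3 : F) = 0
    swap
    · exact fun t => ⟨k2 h3 t, k1 h2 t⟩
    refine fun u => ⟨fun hu => ?_, k1 h2 u⟩
    have q1 : ∀ u ∈ AR S M a, S.x d (-u ^ 2) * (S.x e (u ^ 3) * S.x f (-2 * u ^ 3)) ∈ M := fun u hu => by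
      simpa using (mul_mem_cancel_left ((hc _).2 (neg_mem (by rwa [one_mul])))).1 (P 1 E.one_mem u hu)
    have q2 := L (S.x d (-u ^ 2) * S.x f (-2 * u ^ 3)) (u ^ 3) ((D.db _ _).mul_left (D.fb _ _))
      (by rw [mul_assoc, ← (D.ef _ _).eq]; exact q1 u hu)
    haveI : CharP F 3 := (CharP.charP_iff_prime_eq_zero Nat.prime_three).2 (by exact_mod_cast h3)
    haveI : Fact (Nat.Prime 3) := ⟨Nat.prime_three⟩
    exact mem_of_pow (p := 3) (A := (E : Set F)) (fun t ht => E.pow_mem ht 3) (t := u) q2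
  refine ⟨E, fun r t => ?_, fun t u h => ?_⟩
  · rcases D.hl r with h | h
    · rw [← mem_AR, AR_eq h1 hW h, k3]
    · rw [← mem_AR, AR_eq h1 hW h]; rfl
  · have q2 := mul_mem (mul_mem hn h) (inv_mem hn)
    rw [← conj_mul, S.n_conj _ _ one_ne_zero, S.n_conj _ _ one_ne_zero, one_zpow, one_zpow, mul_one, mul_one,
      D.wd, D.wf] at q2
    exact (unit_mul_mem (A := E.toAddSubgroup) _).1 (L _ _ (D.db _ _) q2)

end H14.SF
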