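import Cfsg.Agent.H14.SF5
import Cfsg.Agent.H24.Aut3

/-! Overgroups of subfield subgroups: the tables. -/

set_option autoImplicit false
set_option maxHeartbeats 400000
set_option linter.unusedSectionVars false

namespace H14.SF
open H24 H24.St0 Subgroup Cfsg.Lie

/-- heights -/
noncomputable def htT (T : Tab) (r : ℕ) : ℤ := sumLt T.l (T.rtv r)

noncomputable def chkTop (T : Tab) : Bool :=
  allLt T.n fun s => bor (Nat.beq s (Nat.sub T.n 1)) (ile (Int.add (htT T s) 1) (htT T (Nat.sub T.n 1)))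

noncomputable def chkDat (T : Tab) (p : ℕ) (Z : List ℕ) (Ns : List ℤ) : Bool :=
  band (chkTop T) <|
  band (allL Z fun r => band (Nat.blt r T.n) <| band (ile (Int.add (htT T (Nat.sub T.n 1)) 1) (Int.mul 2 (htT T r))) <|
    band (bor (Nat.beq r (Nat.sub T.n 1)) (allLt T.n fun s => bor (bnot (T.posB s)) (decide (T.CmP p [] s r)))) <|
    anyLt T.l fun i => decide ((∀ s ∈ Z, s ≠ T.simple i) ∧ T.refl i r ∉ Z)) <|
  band (allLt T.n fun r => bor (bnot (T.posB r)) <| bor (decide (r ∈ Z)) <| anyLt T.n fun s =>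
    band (T.cR r s 1).isSome <| band (T.posB s) <| decide (s ≠ r ∧ T.cM r s 1 ∈ Ns)) <|
  band (anyLt T.n fun r => band (T.posB r) (ibeq (T.A (Nat.sub T.n 1) r) 0)) <|
  anyLt T.l fun i => bor (bnot (Nat.beq (T.len (T.simple i)) (T.len (Nat.sub T.n 1)))) <|
    anyLt T.l fun j => decide (i ≠ j ∧ gTerms T.chain (T.simple i) (T.simple j) = [])

section
variable {D : ChevalleyDatum} {T : Tab} (h : T.Chk D) {F : Type*} [Field F] {G : Type*} [Group G]

theorem ht_eq (r : Fin D.nroots) : h.cd.ht r = htT T r := by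
  rw [RS.ht_def, htT, h.sumLt_eq']; rfl

include h in
theorem n_lt : T.n - 1 < T.n := by have := h.link'.2.2.2.2.1; omega

theorem top_of (H : chkTop T = true) : Top h.cd (h.fin (T.n - 1)) := fun s hs => by
  simp only [chkTop, allLt_iff, bor_iff, Nat.beq_eq, ile_iff] at H
  rw [ht_eq, ht_eq, h.val_fin (n_lt h)]
  exact (H s (h.lt_n s)).resolve_left fun e => hs (by rw [← h.fin_val s, e]; rfl)

theorem terms_of_cR {r s : Fin D.nroots} (H : (T.cR r s 1).isSome = true) : ∃ v L,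
    h.cd.terms r s = (v, T.cM r s 1, 1, 1) :: L ∧ ∀ a ∈ L, 3 ≤ a.2.2.1 + a.2.2.2 := by
  obtain ⟨v, hv⟩ := Option.isSome_iff_exists.1 H
  refine ⟨h.fin v, _, by
    change (gTerms T.chain r s).map _ = _
    rw [Tab.Chk.gTerms_eq, hv, List.filterMap_cons, Option.map_some, List.map_cons], fun a ha => ?_⟩
  simp only [List.mem_map, List.mem_filterMap, List.mem_cons, List.not_mem_nil, or_false, Option.map_eq_some_iff] at ha
  obtain ⟨_, ⟨_, h1, _, -, rfl⟩, rfl⟩ := ha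
  rcases h1 with rfl | rfl | rfl | rfl | rfl | rfl <;> simp

theorem dat_of (S : St h.cd F G) {p : ℕ} (hp : (p : F) = 0) {Z : List ℕ} {Ns : List ℤ} (hN : ∀ c ∈ Ns, (c : F) ≠ 0)
    (H : chkDat T p Z Ns = true) : Dat S (h.fin (T.n - 1)) {r | (r : ℕ) ∈ Z} := by
  simp only [chkDat, band_iff, allL_iff, allLt_iff, anyLt_iff, bor_iff, bnot_iff, Nat.beq_eq, ile_iff, ibeq_iff,
    decide_eq_true_eq, Nat.blt_eq] at H
  obtain ⟨H1, H2, H3, ⟨r0, H4, H5, H6⟩, i, hi, H7⟩ := H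
  have top := top_of h H1
  refine ⟨top, fun r hr => ?_, fun δ hδ s hs => ?_, fun r hr hZ => ?_, fun r hr => ?_, ⟨h.fin r0, ?_, ?_⟩, ?_⟩
  · rw [ht_eq, ht_eq, h.val_fin (n_lt h)]
    exact (H2 r hr).2.1
  · rcases (H2 δ hδ).2.2.1 with e | e
    · rw [← h.fin_val δ, e]; exact top.commute S hs
    · exact h.commuteP _ hp ((e s (h.lt_n s)).resolve_left fun e => e ((h.posB_iff s).2 hs))
  · obtain ⟨s, s1, s2, s3, s4, s5⟩ := ((H3 r (h.lt_n r)).resolve_left fun e => e ((h.posB_iff r).2 hr)).resolve_left hZ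
    rw [← h.val_fin s1] at s2 s3 s4 s5
    obtain ⟨v, L, a1, a2⟩ := terms_of_cR h s2
    exact ⟨_, v, _, L, (h.posB_iff _).1 s3, fun e => s4 (congrArg Fin.val e), a1, a2, hN _ s5⟩
  · obtain ⟨i, hi, a1, a2⟩ := (H2 r hr).2.2.2
    exact ⟨⟨i, h.hl ▸ hi⟩, fun s hs e => a1 s hs (e ▸ h.val_sim _), fun e => a2 (h.val_s ⟨i, h.hl ▸ hi⟩ r ▸ e)⟩
  · exact (h.posB_iff _).1 (by rwa [h.val_fin H4])
  · rw [h.A_fin (n_lt h) H4]; exact H6
  · refine H7.imp (fun e => ⟨⟨i, h.hl ▸ hi⟩, fun e' => e ?_⟩) fun ⟨j, hj, a1, a2⟩ =>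
      ⟨⟨i, h.hl ▸ hi⟩, ⟨j, h.hl ▸ hj⟩, fun e => a1 (congrArg Fin.val e), ?_⟩
    · change ((T.len (h.rsys.sim _) : ℕ) : ℤ) = T.len (h.fin _) at e'
      rw [h.val_sim, h.val_fin (n_lt h)] at e'
      exact_mod_cast e'
    · rw [h.sim_eq, h.sim_eq, h.terms_eq (h.simple_lt hi) (h.simple_lt hj), a2, List.map_nil]

theorem set_one {a : ℕ} (ha : a < T.n) : {r : Fin D.nroots | (r : ℕ) ∈ [a]} = {h.fin a} := by
  ext r; simp [Fin.ext_iff, h.val_fin ha]

theorem set_two {a b : ℕ} (ha : a < T.n) (hb : b < T.n) :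
    {r : Fin D.nroots | (r : ℕ) ∈ [a, b]} = {h.fin a, h.fin b} := by
  ext r; simp [Fin.ext_iff, h.val_fin ha, h.val_fin hb]

theorem len_fin {a b : ℕ} (H : a < T.n ∧ b < T.n ∧ T.len a = T.len b) : h.cd.len (h.fin a) = h.cd.len (h.fin b) := by
  change ((T.len (h.fin _) : ℕ) : ℤ) = T.len (h.fin _)
  rw [h.val_fin H.1, h.val_fin H.2.1, H.2.2]

theorem len_or {a b : ℕ} (H : a < T.n ∧ b < T.n ∧ (allLt T.n fun r => bor (Nat.beq (T.len r) (T.len a))
    (Nat.beq (T.len r) (T.len b))) = true) (r : Fin D.nroots) :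
    h.cd.len r = h.cd.len (h.fin a) ∨ h.cd.len r = h.cd.len (h.fin b) := by
  simp only [allLt_iff, bor_iff, Nat.beq_eq] at H
  rw [← h.fin_val r]
  exact (H.2.2 r (h.lt_n r)).imp (fun e => len_fin h ⟨h.lt_n r, H.1, e⟩) fun e => len_fin h ⟨h.lt_n r, H.2.1, e⟩

theorem commP (S : St h.cd F G) {p : ℕ} (hp : (p : F) = 0) {a b : ℕ} (H : a < T.n ∧ b < T.n ∧ T.CmP p [] a b)
    (t u : F) : Commute (S.x (h.fin a) t) (S.x (h.fin b) u) :=
  h.commuteP _ hp (by rw [h.val_fin H.1, h.val_fin H.2.1]; exact H.2.2) t u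

theorem w_fin {a b c : ℕ} (H : a < T.n ∧ b < T.n ∧ c < T.n ∧
    (allLt T.l fun i => ibeq (T.rtv c i) (T.rtv b i - T.A a b * T.rtv a i)) = true) :
    h.cd.w (h.fin a) (h.fin b) = h.fin c := h.cd.rt_inj (funext fun i => by
  simp only [allLt_iff, ibeq_iff] at H
  rw [h.cd.rt_w, h.A_fin H.1 H.2.1]
  change T.rtv (h.fin b) i - _ * T.rtv (h.fin a) i = T.rtv (h.fin c) i
  rw [h.val_fin H.1, h.val_fin H.2.1, h.val_fin H.2.2.1, H.2.2.2 i (h.lt_l i)])

variable [Fintype F] (p : ℕ) [Fact p.Prime] [CharP F p] (S : St h.cd F G) {M : Subgroup G} (h1 : ∀ r, S.x r 1 ∈ M)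
include h1 p

theorem good_sl (H1 : T.chkDom = true) (H2 : chkDat T 0 [T.n - 1] [1, -1] = true) {a b c : ℕ}
    (H3 : a < T.n ∧ b < T.n ∧ b ≠ a ∧ b ≠ T.neg a ∧ gTerms T.chain a b = [(c, 1, 1, 1)] ∧
      (allLt T.n fun r => bor (Nat.beq (T.len r) (T.len a)) (Nat.beq (T.len r) (T.len a))) = true) :
    ∃ θ Z, Dat S θ Z ∧ Fld S M Z :=
  ⟨_, _, dat_of h S Nat.cast_zero (by simp) H2, set_one h (n_lt h) ▸ fld_sl h1 (h.exists_W_of_len H1)
    (h.fin_ne H3.1 H3.2.1 H3.2.2.1) (h.fin_ne_neg H3.1 H3.2.1 H3.2.2.2.1) (ε := 1)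
    (by rw [h.terms_eq H3.1 H3.2.1, H3.2.2.2.2.1]; rfl) (fun r => (len_or h ⟨H3.1, H3.1, H3.2.2.2.2.2⟩ r).elim id id) _⟩

theorem good_b2 (H1 : T.chkDom = true) {a b c : ℕ} {ε ε' : ℤˣ} (H2 : chkDat T 0 [T.n - 1] [1, -1, 2, -2] = true)
    (H2' : chkDat T 2 [c, T.n - 1] [1, -1] = true)
    (H3 : a < T.n ∧ b < T.n ∧ c < T.n ∧ b ≠ a ∧ b ≠ T.neg a ∧
      gTerms T.chain a b = [(c, (ε : ℤ), 1, 1), (T.n - 1, (ε' : ℤ), 1, 2)] ∧ T.len c = T.len b ∧
      T.len (T.n - 1) = T.len a ∧ T.A a b = -1 ∧ T.A b a = -2 ∧ T.CmP 2 [] c a ∧ T.CmP 2 [] c b ∧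
      T.CmP 2 [] c (T.n - 1) ∧ T.CmP 2 [] (T.n - 1) a ∧ T.CmP 2 [] (T.n - 1) b ∧
      (allLt T.n fun r => bor (Nat.beq (T.len r) (T.len a)) (Nat.beq (T.len r) (T.len b))) = true) :
    ∃ θ Z, Dat S θ Z ∧ Fld S M Z := by
  obtain ⟨ha, hb, hc, a1, a2, a3, a4, a5, a6, a7, a8, a9, a10, a11, a12, a13⟩ := H3
  have B : B2D h.cd (h.fin a) (h.fin b) (h.fin c) (h.fin (T.n - 1)) := ⟨h.fin_ne ha hb a1, h.fin_ne_neg ha hb a2,
    ⟨ε, ε', by rw [h.terms_eq ha hb, a3]; rfl⟩, len_fin h ⟨hc, hb, a4⟩, len_fin h ⟨n_lt h, ha, a5⟩,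
    len_or h ⟨ha, hb, a13⟩, (h.A_fin ha hb).trans a6, (h.A_fin hb ha).trans a7⟩
  by_cases h2 : (2 : F) = 0
  · haveI : CharP F 2 := (CharP.charP_iff_prime_eq_zero Nat.prime_two).2 (by exact_mod_cast h2)
    have h2' : ((2 : ℕ) : F) = 0 := by exact_mod_cast h2
    exact ⟨_, _, dat_of h S h2' (by simp) H2', set_two h hc (n_lt h) ▸ B.fld_two h1 (h.exists_W_of_len H1)
      (commP h S h2' ⟨hc, ha, a8⟩) (commP h S h2' ⟨hc, hb, a9⟩) (commP h S h2' ⟨hc, n_lt h, a10⟩)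
      (commP h S h2' ⟨n_lt h, ha, a11⟩) (commP h S h2' ⟨n_lt h, hb, a12⟩)⟩
  · exact ⟨_, _, dat_of h S Nat.cast_zero (by simpa using h2) H2,
      set_one h (n_lt h) ▸ B.fld_odd h1 (h.exists_W_of_len H1) h2 _⟩

end

theorem good_g2 {F : Type*} [Field F] [Fintype F] {G : Type*} [Group G] (S : St tabG2_chk.cd F G) {M : Subgroup G}
    (h1 : ∀ r, S.x r 1 ∈ M) : ∃ θ Z, Dat S θ Z ∧ Fld S M Z := by
  let h := tabG2_chk
  have cm : ∀ a b, (a < tabG2.n ∧ b < tabG2.n ∧ tabG2.CmP 0 [] a b) → ∀ t u, Commute (S.x (h.fin a) t) (S.x (h.fin b) u) :=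
    fun a b => commP h S Nat.cast_zero
  have ne : ∀ a b, (a < tabG2.n ∧ b < tabG2.n ∧ b ≠ a ∧ b ≠ tabG2.neg a) →
      h.fin b ≠ h.fin a ∧ h.fin b ≠ h.cd.neg (h.fin a) :=
    fun a b H => ⟨h.fin_ne H.1 H.2.1 H.2.2.1, h.fin_ne_neg H.1 H.2.1 H.2.2.2⟩
  have tm : ∀ a b L, (a < tabG2.n ∧ b < tabG2.n ∧ gTerms tabG2.chain a b = L) →
      h.cd.terms (h.fin a) (h.fin b) = L.map fun c => (h.fin c.1, c.2) :=
    fun a b L H => by rw [h.terms_eq H.1 H.2.1, H.2.2]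
  have B : G2D S (h.fin 7) (h.fin 6) (h.fin 8) (h.fin 9) (h.fin 10) (h.fin 11) :=
    ⟨ne 6 7 (by decide +kernel), ne 6 10 (by decide +kernel), ne 7 9 (by decide +kernel), ne 8 9 (by decide +kernel),
      tm 6 7 [(8, 1, 1, 1), (9, 1, 1, 2), (10, -1, 1, 3), (11, -2, 2, 3)] (by decide +kernel),
      tm 6 10 [(11, 1, 1, 1)] (by decide +kernel), tm 7 9 [(10, 3, 1, 1)] (by decide +kernel),
      tm 8 9 [(11, 3, 1, 1)] (by decide +kernel), cm 9 6 (by decide +kernel), cm 9 10 (by decide +kernel),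
      cm 9 11 (by decide +kernel), cm 10 11 (by decide +kernel), cm 11 6 (by decide +kernel),
      len_fin h (by decide +kernel), len_fin h (by decide +kernel), len_fin h (by decide +kernel),
      len_fin h (by decide +kernel), len_or h (by decide +kernel), w_fin h (by decide +kernel),
      w_fin h (by decide +kernel), w_fin h (by decide +kernel)⟩
  obtain ⟨E, e1, e2⟩ := B.fld h1 (h.exists_W_of_len domG2)
  by_cases h3 : (3 : F) = 0
  · have h2 : (2 : F) ≠ 0 := fun e => one_ne_zero (show (1 : F) = 0 by linear_combination h3 - e)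
    exact ⟨_, _, dat_of h S (p := 3) (Z := [9, 11]) (Ns := [1, -1, 2, -2]) (by exact_mod_cast h3) (by simpa using h2)
      (by decide +kernel), set_two h (a := 9) (b := 11) (by decide +kernel) (by decide +kernel) ▸ fld_pair e1 B.df e2⟩
  · exact ⟨_, _, dat_of h S (p := 0) (Z := [11]) (Ns := [1, -1, 3, -3]) Nat.cast_zero (by simpa using h3)
      (by decide +kernel), set_one h (a := 11) (by decide +kernel) ▸ fld_single e1 _⟩

theorem datD4 : chkDat tabD4 0 [tabD4.n - 1] [1, -1] = true := by decide +kernel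
theorem datE6 : chkDat tabE6 0 [tabE6.n - 1] [1, -1] = true := by decide +kernel
theorem datE7 : chkDat tabE7 0 [tabE7.n - 1] [1, -1] = true := by decide +kernel
theorem datE8 : chkDat tabE8 0 [tabE8.n - 1] [1, -1] = true := by decide +kernel

theorem exists_good {D : ChevalleyDatum} (hD : D ∈ [chevG2, chevB2, chevD4, chevF4, chevE6, chevE7, chevE8])
    (F : Type*) [Field F] [Fintype F] (p : ℕ) [Fact p.Prime] [CharP F p] : ∃ (T : Tab) (h : T.Chk D),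
      T.chkConn = true ∧ ∀ M : Subgroup (D.group F), (∀ r, (h.grp F).x r 1 ∈ M) →
        ∃ θ Z, Dat (h.grp F) θ Z ∧ Fld (h.grp F) M Z := by
  simp only [List.mem_cons, List.not_mem_nil, or_false] at hD
  rcases hD with rfl | rfl | rfl | rfl | rfl | rfl | rfl
  · exact ⟨_, tabG2_chk, connG2, fun M h1 => good_g2 _ h1⟩
  · exact ⟨_, tabB2_chk, connB2, fun M h1 => good_b2 _ p _ h1 domB2 (a := 4) (b := 5) (c := 6) (ε := 1) (ε' := -1)
      (by decide +kernel) (by decide +kernel) (by decide +kernel)⟩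
  · exact ⟨_, tabD4_chk, connD4, fun M h1 => good_sl _ p _ h1 domD4 datD4 (a := 14) (b := 18) (c := 19)
      (by decide +kernel)⟩
  · exact ⟨_, tabF4_chk, connF4, fun M h1 => good_b2 _ p _ h1 domF4 (a := 41) (b := 29) (c := 44) (ε := -1) (ε' := 1)
      (by decide +kernel) (by decide +kernel) (by decide +kernel)⟩
  · exact ⟨_, tabE6_chk, connE6, fun M h1 => good_sl _ p _ h1 domE6 datE6 (a := 42) (b := 56) (c := 57)
      (by decide +kernel)⟩
  · exact ⟨_, tabE7_chk, connE7, fun M h1 => good_sl _ p _ h1 domE7 datE7 (a := 73) (b := 93) (c := 94)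
      (by decide +kernel)⟩
  · exact ⟨_, tabE8_chk, connE8, fun M h1 => good_sl _ p _ h1 domE8 datE8 (a := 135) (b := 162) (c := 163)
      (by decide +kernel)⟩

theorem exists_frob {F : Type*} [Field F] [Fintype F] (p : ℕ) [Fact p.Prime] [CharP F p] (E : Subfield F) :
    ∃ φ : F ≃+* F, ∀ t, φ t = t ↔ t ∈ E := by
  have := Fintype.ofFinite E
  obtain ⟨n, -, hn⟩ := FiniteField.card E p
  refine ⟨iterateFrobeniusEquiv F p n, fun t => ⟨fun h => ?_, fun h => ?_⟩⟩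
  · obtain ⟨s, rfl⟩ := H24.mem_range_of_pow_card E.subtype (t := t) (by rw [hn]; exact h)
    exact s.2
  · have := congrArg Subtype.val (FiniteField.pow_card (⟨t, h⟩ : E))
    rw [hn] at this
    exact this

/-- overgroups of the group over the prime field -/
theorem main_fin {D : ChevalleyDatum} (hD : D ∈ [chevG2, chevB2, chevD4, chevF4, chevE6, chevE7, chevE8])
    {F : Type*} [Field F] [Fintype F] (p : ℕ) [Fact p.Prime] [CharP F p] {M : Subgroup (GL D.Idx F)}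
    (hM : M ≤ D.group F) (h1 : ∀ (g : GL D.Idx F) s, (g : Matrix D.Idx D.Idx F) = D.x F s 1 → g ∈ M) :
    ∃ E : Subfield F, (∀ (g : GL D.Idx F) s, ∀ t ∈ E, (g : Matrix D.Idx D.Idx F) = D.x F s t → g ∈ M) ∧
      (∀ (g : GL D.Idx F) s t, s < D.nroots → (g : Matrix D.Idx D.Idx F) = D.x F s t → g ∈ M → t ∈ E) ∧
      ∀ g ∈ M, ∀ i j, (g : Matrix D.Idx D.Idx F) i j ∈ E := by
  obtain ⟨T, h, hc, H⟩ := exists_good hD F p
  have := h.finite_grp F
  obtain ⟨θ, Z, d, E, e1, e2⟩ := H (M.subgroupOf _) fun r => h1 _ r (h.coe_grp_x F r 1)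
  obtain ⟨φ, hφ⟩ := exists_frob p E
  obtain ⟨σ, hσ⟩ := (h.grp F).exists_field (h.grp_Gr F) (h.grp_adj F) φ
  have key := d.le_fix p (h.grp_adj F) (h.grp_Gr F) (h.conn hc) φ.toRingHom σ.toMonoidHom hσ
    (fun r t => (e1 r t).trans (hφ t).symm) fun u hu hM => (closure_le (σ.toMonoidHom.eqLocus (MonoidHom.id _))).2 (by
      rintro _ ⟨r, t, ht, rfl⟩
      exact (hσ r t).trans (by rw [(hφ t).2 ht]; rfl)) (e2 u hu hM)
  refine ⟨E, fun g s t ht e => ?_, fun g s t hs e hg => ?_, fun g hg i j => (hφ _).1 ?_⟩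
  · by_cases hs : s < D.nroots
    · rw [show g = (h.grp F).x ⟨s, hs⟩ t from Units.ext (e.trans (h.coe_grp_x F ⟨s, hs⟩ t).symm)]
      exact (e1 _ t).2 ht
    · rw [show g = 1 from Units.ext (by rw [e, ChevalleyDatum.x, dif_neg hs]; rfl)]
      exact one_mem _
  · exact (e1 ⟨s, hs⟩ t).1 (by rw [← h.eq_grp_x (g := ⟨g, hM hg⟩) hs e]; exact hg)
  · have := h.entry_eq φ.toRingHom σ.toMonoidHom hσ ⟨g, hM hg⟩ i j
    rw [key ⟨g, hM hg⟩ hg] at this
    exact this.symm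

theorem map_Dx {D : ChevalleyDatum} {T : Tab} (h : T.Chk D) {K k : Type*} [Field K] [Field k] (f : K →+* k) (s : ℕ)
    (t : K) (i j : D.Idx) : f (D.x K s t i j) = D.x k s (f t) i j := by
  by_cases hs : s < D.nroots
  · rw [h.x_eq K hs, h.x_eq k hs, ← h.map_x f]; rfl
  · simp [ChevalleyDatum.x, hs, Matrix.one_apply, apply_ite f]

theorem mem_group {D : ChevalleyDatum} {F : Type*} [Field F] {g : GL D.Idx F} {s : ℕ} {t : F}
    (e : (g : Matrix D.Idx D.Idx F) = D.x F s t) : g ∈ D.group F := by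
  by_cases hs : s < D.nroots
  · exact subset_closure ⟨⟨s, hs⟩, t, by rw [e, ChevalleyDatum.x, dif_pos hs]⟩
  · rw [show g = 1 from Units.ext (by rw [e, ChevalleyDatum.x, dif_neg hs]; rfl)]
    exact one_mem _

end H14.SF
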