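import Cfsg.Agent.H14.SF6

/-! Specialisation of finite subgroups of Chevalley groups to finite fields. -/

set_option autoImplicit false
set_option maxHeartbeats 400000
set_option linter.unusedSectionVars false

namespace H14.SF
open H24 H24.St0 Subgroup Cfsg.Lie

universe u

theorem exists_spec {k : Type u} [Field k] (p : ℕ) [Fact p.Prime] [CharP k p] {s : Set k} (hs : s.Finite) :
    ∃ (A : Subring k) (K : Type u) (_ : Field K) (_ : Fintype K) (_ : CharP K p) (ψ : A →+* K),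
      s ⊆ A ∧ ∀ a : A, (a : k) ∈ s → ψ a = 0 → a = 0 := by
  let _ := ZMod.algebra k p
  let A := Algebra.adjoin (ZMod p) (s ∪ s⁻¹)
  have : Algebra.FiniteType (ZMod p) A := Algebra.FiniteType.adjoin_of_finite (hs.union hs.inv)
  obtain ⟨m, hm⟩ := Ideal.exists_maximal A
  let _ := Ideal.Quotient.field m
  have := finite_of_finite_type_of_isJacobsonRing (ZMod p) (A ⧸ m)
  have : Finite (A ⧸ m) := Module.finite_of_finite (ZMod p)
  refine ⟨A.toSubring, A ⧸ m, inferInstance, Fintype.ofFinite _, charP_of_injective_algebraMap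
    (algebraMap (ZMod p) (A ⧸ m)).injective p, Ideal.Quotient.mk m, fun x hx => Algebra.subset_adjoin (Or.inl hx),
    fun a ha h => by_contra fun h0 => ?_⟩
  have h1 : (a : k) ≠ 0 := fun e => h0 (Subtype.ext e)
  have h2 : (a : k)⁻¹ ∈ A := Algebra.subset_adjoin (Or.inr (by simpa using ha))
  have h3 : a * ⟨_, h2⟩ = 1 := Subtype.ext (mul_inv_cancel₀ h1)
  have := congrArg (Ideal.Quotient.mk m) h3
  rw [map_one] at this
  exact zero_ne_one ((zero_mul _).symm.trans (h ▸ (map_mul _ a _).symm.trans this))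

section
variable {n : Type} [Fintype n] [DecidableEq n] {k K : Type*} [Field k] [Field K] {A : Subring k} (ψ : A →+* K)

/-- the graph of reduction -/
def red : Subgroup (GL n k × GL n K) :=
  ((Matrix.GeneralLinearGroup.map A.subtype).prod (Matrix.GeneralLinearGroup.map ψ)).range

theorem red_entry {g : GL n k} {g' : GL n K} (h : (g, g') ∈ red ψ) (i j : n) :
    ∃ a : A, (a : k) = g.1 i j ∧ ψ a = g'.1 i j := by
  obtain ⟨m, e⟩ := h
  exact ⟨m.1 i j, congrArg (fun x => x.1.1 i j) e, congrArg (fun x => x.2.1 i j) e⟩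

theorem mem_red {g : GL n k} {g' : GL n K} (h : ∀ i j, ∃ a : A, (a : k) = g.1 i j ∧ ψ a = g'.1 i j)
    (h' : ∀ i j, g⁻¹.1 i j ∈ A) : (g, g') ∈ red ψ := by
  choose m h1 h2 using h
  have inj : Function.Injective (A.subtype.mapMatrix : Matrix n n A → Matrix n n k) :=
    Matrix.map_injective A.subtype_injective
  have e1 : A.subtype.mapMatrix (Matrix.of m) = g.1 := Matrix.ext h1
  have e2 : A.subtype.mapMatrix (Matrix.of fun i j => (⟨_, h' i j⟩ : A)) = g⁻¹.1 := rfl
  exact ⟨⟨Matrix.of m, Matrix.of fun i j => ⟨_, h' i j⟩, inj (by rw [map_mul, e1, e2, map_one, Units.mul_inv]),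
    inj (by rw [map_mul, e1, e2, map_one, Units.inv_mul])⟩, Prod.ext (Units.ext e1) (Units.ext (Matrix.ext h2))⟩

end

variable {D : ChevalleyDatum} {T : Tab} (h : T.Chk D) {k K : Type*} [Field k] [Field K]

theorem x_red {A : Subring k} (ψ : A →+* K) (r : Fin D.nroots) (t : A) :
    ((h.st k).x r t, (h.st K).x r (ψ t)) ∈ red ψ := by
  have key : ∀ (t : A) i j, ∃ a : A, (a : k) = ((h.st k).x r t).1 i j ∧ ψ a = ((h.st K).x r (ψ t)).1 i j :=
    fun t i j => ⟨(1 : Matrix D.Idx D.Idx A) i j + ∑ l ∈ Finset.range 3, t ^ (l + 1) * (h.Y r l i j : A), by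
      rw [h.coe_x', h.xMat_apply]; simp [Matrix.one_apply, apply_ite (Subtype.val : A → k)], by
      rw [h.coe_x', h.xMat_apply]; simp [Matrix.one_apply, apply_ite ψ]⟩
  refine mem_red ψ (key t) fun i j => ?_
  obtain ⟨a, e, -⟩ := key (-t) i j
  rw [← St0.x_neg, ← Subring.coe_neg, ← e]
  exact a.2

theorem exists_params {g : GL D.Idx k} (hg : g ∈ D.group k) : ∃ s : Set k, s.Finite ∧ ∀ A : Subring k, s ⊆ A →
    g ∈ closure {g | ∃ r, ∃ t ∈ A, g = (h.st k).x r t} := by
  induction hg using closure_induction with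
  | mem x hx =>
    obtain ⟨r, t, e⟩ := hx
    exact ⟨{t}, Set.finite_singleton t, fun A hA => subset_closure ⟨r, t, hA rfl, Units.ext e⟩⟩
  | one => exact ⟨∅, Set.finite_empty, fun _ _ => one_mem _⟩
  | mul x y _ _ h1 h2 =>
    obtain ⟨s, a1, a2⟩ := h1
    obtain ⟨s', a3, a4⟩ := h2
    exact ⟨s ∪ s', a1.union a3, fun A hA => mul_mem (a2 A (Set.subset_union_left.trans hA))
      (a4 A (Set.subset_union_right.trans hA))⟩
  | inv x _ h1 => exact h1.imp fun s a => ⟨a.1, fun A hA => inv_mem (a.2 A hA)⟩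

theorem exists_red {A : Subring k} (ψ : A →+* K) {g : GL D.Idx k}
    (hg : g ∈ closure {g | ∃ r, ∃ t ∈ A, g = (h.st k).x r t}) : ∃ g' ∈ D.group K, (g, g') ∈ red ψ := by
  induction hg using closure_induction with
  | mem x hx =>
    obtain ⟨r, t, ht, rfl⟩ := hx
    exact ⟨_, mem_group (h.coe_x K r _), x_red h ψ r ⟨t, ht⟩⟩
  | one => exact ⟨1, one_mem _, one_mem _⟩
  | mul x y _ _ h1 h2 =>
    obtain ⟨a, a1, a2⟩ := h1
    obtain ⟨b, a3, a4⟩ := h2
    exact ⟨a * b, mul_mem a1 a3, mul_mem a2 a4⟩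
  | inv x _ h1 =>
    obtain ⟨a, a1, a2⟩ := h1
    exact ⟨a⁻¹, inv_mem a1, inv_mem a2⟩

open Classical in
theorem finite_pow_eq {Q : ℕ} (hQ : 1 < Q) : {t : k | t ^ Q = t}.Finite :=
  (Polynomial.X ^ Q - Polynomial.X : Polynomial k).roots.toFinset.finite_toSet.subset fun t ht => by
    simpa [Polynomial.mem_roots (FiniteField.X_pow_card_sub_X_ne_zero k hQ), sub_eq_zero] using ht

end H14.SF
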