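import Cfsg.Agent.H14.SF6

/-! Overgroups of subfield subgroups: twisted groups. -/

set_option autoImplicit false
set_option maxHeartbeats 400000
set_option linter.unusedSectionVars false

namespace H14.SF
open H24 H24.St0 Subgroup

variable {ι Φ : Type} [Fintype ι] [DecidableEq ι] [Fintype Φ] [DecidableEq Φ] {R : CD ι Φ} {F : Type*} [Field F]
  {G : Type*} [Group G] {S : St R F G}

/-- positive roots of height at least `h` -/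
abbrev Lv (R : CD ι Φ) (h : ℤ) : Set Φ := R.lvl {r | R.Pos r} RS.htv h

theorem comm_Up' (S : St R F G) {T T' : Set Φ} {v : Φ} (h : ∀ δ ∈ T, ∀ s ∈ T', R.Pos δ ∧ R.Pos s ∧
    R.ht v ≤ R.ht δ + R.ht s ∧ R.rt v ≠ R.rt δ + R.rt s) (hT : ∀ δ ∈ T, R.Pos δ) (hT' : ∀ δ ∈ T', R.Pos δ) {a m : G}
    (ha : a ∈ S.XS T) (hm : m ∈ S.XS T') : m⁻¹ * a⁻¹ * m * a ∈ S.XS (Up R v) := by
  have hN : S.U ≤ normalizer (S.XS (Up R v) : Set G) := S.U_le_B.trans (B_norm S (nml_Up v))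
  refine comm_mem_of_closure (M := S.XS (Up R v)) ((S.XS_mono hT).trans hN) ((S.XS_mono hT').trans hN) ?_ a ha m hm
  rintro _ ⟨δ, hδ, t, rfl⟩ _ ⟨s, hs, u, rfl⟩
  obtain ⟨h1, h2, h3, h4⟩ := h δ hδ s hs
  exact comm_Up S (r := δ) h2 h1 h3 h4 t u

theorem exists_beta (S : St R F G) {v : Φ} (hv : R.Pos v) {h k : ℤ} (e : R.ht v = h + k) : ∃ β : G → G → F,
    (∀ a ∈ S.XS (Lv R h), ∀ a' ∈ S.XS (Lv R h), ∀ m ∈ S.XS (Lv R k), β (a * a') m = β a m + β a' m) ∧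
    (∀ a ∈ S.XS (Lv R h), ∀ m ∈ S.XS (Lv R k), ∀ m' ∈ S.XS (Lv R k), β a (m * m') = β a m + β a m') ∧
    (∀ a m, m⁻¹ * a⁻¹ * m * a ∈ S.XS (Up R v) → β a m = 0) ∧
    ∀ r s (c : ℤ) t u, R.Pos r → R.Pos s → s ≠ r → R.terms r s = [(v, c, 1, 1)] →
      β (S.x r t) (S.x s u) = -(c * t * u) := by
  obtain ⟨φ, h1, h2, h3⟩ := S.sep RS.htv v (R.ht_pos hv)
  have hf : ∀ r ∈ {r | R.Pos r}, 0 < RS.htv (R.rt r) := fun _ hr => R.ht_pos hr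
  have le : S.XS (Lv R (h + k)) ≤ S.XS (R.lvl Set.univ RS.htv (RS.htv (R.rt v))) :=
    S.XS_mono fun s hs => ⟨trivial, e.trans_le hs.2⟩
  have le' : S.XS (Up R v) ≤ S.XS (R.lvl Set.univ RS.htv (RS.htv (R.rt v))) := S.XS_mono fun s hs => ⟨trivial, hs.2.1⟩
  have h0 : φ 1 = 0 := by simpa using h2 0
  have h4 : ∀ g ∈ S.XS (Up R v), φ g = 0 := S.XS_induction h0 fun g hg r hr t ih => by
    rw [h1 g (le' hg) _ (le' (S.x_mem hr t)), ih, h3 r t hr.2.2 hr.2.1, add_zero]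
  have h5 : ∀ g ∈ S.XS (Lv R (h + k)), ∀ u ∈ S.U, φ (u⁻¹ * g * u) = φ g := fun g hg u hu => by
    have a1 := S.XS_mono (T' := Up R v) (fun s hs => ⟨hs.1, by have : h + k + 1 ≤ R.ht s := hs.2; omega, by
      rintro rfl; have : h + k + 1 ≤ R.ht s := hs.2; omega⟩) (S.comm_mem_lvl RS.closed_pos hf (h + k) hu hg)
    rw [show u⁻¹ * g * u = g * (g⁻¹ * u⁻¹ * g * u) by group, h1 g (le hg) _ (le' a1), h4 _ a1, add_zero]
  have h6 : ∀ g ∈ S.XS (Lv R (h + k)), ∀ u ∈ S.U, u⁻¹ * g * u ∈ S.XS (Lv R (h + k)) := fun g hg u hu =>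
    (mem_normalizer_iff''.1 (S.XS_le_normalizer_lvl RS.closed_pos hf (h + k) hu) g).1 hg
  have h7 := fun a ha m hm => S.comm_mem_lvl_add RS.closed_pos hf h k (a := a) (b := m) ha hm
  refine ⟨fun a m => φ (m⁻¹ * a⁻¹ * m * a), fun a ha a' ha' m hm => ?_, fun a ha m hm m' hm' => ?_,
    fun a m => h4 _, fun r s c t u hr hs hsr e => ?_⟩
  · have hU := S.XS_lvl_le h ha'
    beta_reduce
    rw [show m⁻¹ * (a * a')⁻¹ * m * (a * a') = m⁻¹ * a'⁻¹ * m * a' * (a'⁻¹ * (m⁻¹ * a⁻¹ * m * a) * a') by group,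
      h1 _ (le (h7 a' ha' m hm)) _ (le (h6 _ (h7 a ha m hm) a' hU)), h5 _ (h7 a ha m hm) a' hU, add_comm]
  · have hU := S.XS_lvl_le k hm'
    beta_reduce
    rw [show (m * m')⁻¹ * a⁻¹ * (m * m') * a = m'⁻¹ * (m⁻¹ * a⁻¹ * m * a) * m' * (m'⁻¹ * a⁻¹ * m' * a) by group,
      h1 _ (le (h6 _ (h7 a ha m hm) m' hU)) _ (le (h7 a ha m' hm')), h5 _ (h7 a ha m hm) m' hU]
  · beta_reduce
    rw [mul_assoc, S.comm r s t u hsr (RS.ne_neg_of_pos (f := RS.htv) (R.ht_pos hr) (R.ht_pos hs)),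
      show ∀ a b c : G, a⁻¹ * b⁻¹ * (b * a * c) = c from fun a b c => by group, e]
    simp [h2]

/-- the orbit of a root -/
def Ob (z : Tw S) (r : Φ) : Set Φ := {s | s = r ∨ s = z.ρ r ∨ s = z.ρ (z.ρ r)}

theorem self_mem_Ob (z : Tw S) (r : Φ) : r ∈ Ob z r := Or.inl rfl

theorem ob_st {z : Tw S} (T : Set Φ) (hT : ∀ s, z.ρ s ∈ T ↔ s ∈ T) {r : Φ} : ∀ s ∈ Ob z r, (s ∈ T ↔ r ∈ T) := by
  rintro _ (rfl | rfl | rfl) <;> simp [hT]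

theorem ob_W1 {z : Tw S} {w : Equiv.Perm Φ} (hw : w ∈ z.sym.W1) {r s : Φ} (h : s ∈ Ob z r) : w s ∈ Ob z (w r) := by
  have : ∀ r, z.ρ (w r) = w (z.ρ r) := RS.Sym.comm hw
  rcases h with rfl | rfl | rfl <;> simp [Ob, this]

/-- twists by a graph symmetry with orthogonal orbits -/
structure TwD (z : Tw S) (f : F →+* F) (ε : Φ → ℤˣ) : Prop where
  hτ : ∀ r t, z.τ r t = ((ε r : ℤ) : F) * f t
  orb : ∀ r, (z.ρ r = r ∧ ε r = 1) ∨ (z.ρ r ≠ r ∧ z.ρ (z.ρ r) = r ∧ ε (z.ρ r) * ε r = 1) ∨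
    (z.ρ r ≠ r ∧ z.ρ (z.ρ r) ≠ r ∧ z.ρ (z.ρ (z.ρ r)) = r ∧ ε (z.ρ (z.ρ r)) * (ε (z.ρ r) * ε r) = 1)
  orth : ∀ r, ∀ s ∈ Ob z r, s = r ∨ R.A r s = 0
  len : ∀ r s, R.len r = R.len s
  ht : ∀ r, R.ht (z.ρ r) = R.ht r

namespace TwD
variable {z : Tw S} {f : F →+* F} {ε : Φ → ℤˣ} (d : TwD z f ε)
include d

theorem ob_ρ (r s : Φ) : z.ρ s ∈ Ob z r ↔ s ∈ Ob z r := by
  rcases d.orb r with h | h | h
  · simp only [Ob, h.1, or_self, Set.mem_setOf_eq]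
    conv_lhs => rw [← h.1, z.ρ.injective.eq_iff]
  · simp only [Ob, h.2.1, Set.mem_setOf_eq, z.ρ.injective.eq_iff]
    conv_lhs => rw [← h.2.1, z.ρ.injective.eq_iff, h.2.1]
    tauto
  · simp only [Ob, Set.mem_setOf_eq, z.ρ.injective.eq_iff]
    rw [show z.ρ s = r ↔ s = z.ρ (z.ρ r) by conv_lhs => rw [← h.2.2.1, z.ρ.injective.eq_iff]]
    tauto

theorem ob_ht {r s : Φ} (h : s ∈ Ob z r) : R.ht s = R.ht r := by
  rcases h with rfl | rfl | rfl <;> simp only [d.ht]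

theorem ob_pos {r s : Φ} (hr : R.Pos r) (h : s ∈ Ob z r) : R.Pos s := (R.pos_iff_ht s).2 (d.ob_ht h ▸ R.ht_pos hr)

theorem ob_A {r a b : Φ} (ha : a ∈ Ob z r) (hb : b ∈ Ob z r) : b = a ∨ R.A a b = 0 :=
  d.orth a b ((ob_st _ (d.ob_ρ a) b hb).2 ((ob_st _ (d.ob_ρ a) a ha).1 (self_mem_Ob z a)))

theorem nosum {r a b : Φ} (ha : a ∈ Ob z r) (hb : b ∈ Ob z r) (u : Φ) (i j : ℕ) (hi : 0 < i) (hj : 0 < j) :
    R.rt u ≠ (i : ℤ) • R.rt a + (j : ℤ) • R.rt b := fun e => by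
  have h1 : ∀ c, R.A c u = i * R.A c a + j * R.A c b := fun c => RS.f_comb (f := R.Av c) e
  have h2 : ∀ c, R.A u c = R.A c u := fun c => mul_left_cancel₀ (R.len_ne u) (by rw [R.len_A, d.len c u])
  rcases d.ob_A ha hb with rfl | h
  · have := h1 b
    rw [show u = b from RS.closed_singleton b b rfl b rfl u i j hi hj e, R.A_self] at this
    omega
  · have := h1 u
    rw [R.A_self, h2 a, h2 b, h1 a, h1 b, h, (R.A_eq_zero_comm a b).1 h, R.A_self, R.A_self] at this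
    nlinarith

theorem comm {r a b : Φ} (ha : a ∈ Ob z r) (hb : b ∈ Ob z r) (t u : F) : Commute (S.x a t) (S.x b u) := by
  rcases d.ob_A hb ha with rfl | h
  · exact S.x_comm_self a t u
  · exact S.commute_x (fun e => by rw [e, R.A_neg_right, R.A_self] at h; omega) (d.nosum hb ha) u t

theorem comm' {r a : Φ} (ha : a ∈ Ob z r) (t : F) {T : Set Φ} (hT : T ⊆ Ob z r) {g : G} (hg : g ∈ S.XS T) :
    Commute g (S.x a t) :=
  S.XS_induction (P := fun g => Commute g (S.x a t)) (Commute.one_left _)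
    (fun _ _ _ hs u ih => ih.mul_left (d.comm (hT hs) ha u t)) g hg

theorem noSum {r : Φ} (hr : R.Pos r) : NoSum R (Ob z r) :=
  ⟨fun _ => d.ob_pos hr, fun _ ha _ hb => d.nosum ha hb⟩

theorem eq_one {r : Φ} (hr : R.Pos r) {g : G} (hg : g ∈ S.XS (Ob z r \ {r})) (h : g ∈ z.Fx) : g = 1 := by
  have key : ∀ s, g ∈ S.XS (Ob z r \ {s}) → g ∈ S.XS (Ob z r \ {z.ρ s}) := fun s hs => z.mem_Fx.1 h ▸
    z.σ_mem_XS (fun t ht => And.intro ((d.ob_ρ r t).2 ht.1) fun e => ht.2 (z.ρ.injective e)) hs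
  have hI : ∀ T T' : Set Φ, T ⊆ Ob z r → T' ⊆ Ob z r → g ∈ S.XS T → g ∈ S.XS T' → g ∈ S.XS (T ∩ T') :=
    fun T T' h1 h2 h3 h4 => (S.sep.XS_inf (f := RS.htv) ((d.noSum hr).closed h1) ((d.noSum hr).closed h2)
      (fun s hs => R.ht_pos (d.ob_pos hr (h1 hs))) fun s hs => R.ht_pos (d.ob_pos hr (h2 hs))).le ⟨h3, h4⟩
  have := hI _ _ (Set.inter_subset_left.trans Set.diff_subset) Set.diff_subset
    (hI _ _ Set.diff_subset Set.diff_subset hg (key _ hg)) (key _ (key _ hg))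
  rwa [Set.eq_empty_of_forall_notMem (s := _ ∩ _) fun s hs => hs.2.1.elim hs.1.1.2 fun h => h.elim hs.1.2.2 hs.2.2,
    S.XS_empty, mem_bot] at this

theorem decomp {r : Φ} (hr : R.Pos r) {g : G} (hg : g ∈ S.XS (Ob z r)) :
    ∃ t, ∃ y ∈ S.XS (Ob z r \ {r}), g = S.x r t * y := by
  obtain ⟨a, ha, b, hb, rfl⟩ := S.exists_mul_of_part (f := RS.htv) ((d.noSum hr).closed le_rfl)
    (fun s hs => R.ht_pos (d.ob_pos hr hs)) (· = r) hg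
  obtain ⟨t, rfl⟩ := S.mem_XS_singleton.1 (S.XS_mono (T' := {r}) (fun r hr => hr.2) ha)
  exact ⟨t, b, hb, rfl⟩

theorem x_fix {r : Φ} (h : z.ρ r = r) {t : F} (ht : f t = t) : S.x r t ∈ z.Fx := by
  rw [z.mem_Fx, z.σ_x, h, d.hτ, ((d.orb r).resolve_right fun e => e.elim (fun e => e.1 h) fun e => e.1 h).2, ht]
  simp

variable [Finite F] {σ : G →* G} (hσ : ∀ r t, σ (S.x r t) = S.x r (f t))
include hσ

theorem exists_Y (r : Φ) {t : F} (ht : f t = t) :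
    ∃ y ∈ S.XS (Ob z r \ {r}), S.x r t * y ∈ z.Fx ∧ S.x r t * y ∈ (fTw f σ hσ).Fx := by
  have h1 : ∀ s (η : ℤˣ), σ (S.x s (((η : ℤ) : F) * t)) = S.x s (((η : ℤ) : F) * t) := fun s η => by
    rw [hσ, map_mul, map_intCast, ht]
  have h2 : ∀ s (η : ℤˣ), z.σ (S.x s (((η : ℤ) : F) * t)) = S.x (z.ρ s) (((ε s * η : ℤˣ) : ℤ) * t) := fun s η => by
    rw [z.σ_x, d.hτ, map_mul, map_intCast, ht, Units.val_mul, Int.cast_mul, mul_assoc]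
  have h3 : S.x r t = S.x r (((1 : ℤˣ) : ℤ) * t) := by simp
  have m1 : z.ρ r ∈ Ob z r := Or.inr (Or.inl rfl)
  have m2 : z.ρ (z.ρ r) ∈ Ob z r := Or.inr (Or.inr rfl)
  rcases d.orb r with h | h | h
  · exact ⟨1, one_mem _, by rw [mul_one]; exact d.x_fix h.1 ht, by
      rw [mul_one, h3]; exact h1 r 1⟩
  · refine ⟨S.x (z.ρ r) (((ε r : ℤˣ) : ℤ) * t), S.x_mem (And.intro m1 h.1) _, ?_, ?_⟩
    · rw [z.mem_Fx, map_mul, h3, h2, h2, mul_one, h.2.1, h.2.2]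
      exact d.comm m1 (self_mem_Ob z r) _ _
    · exact (map_mul σ _ _).trans (by rw [h3, h1, h1]; rfl)
  · refine ⟨S.x (z.ρ r) (((ε r : ℤˣ) : ℤ) * t) * S.x (z.ρ (z.ρ r)) (((ε (z.ρ r) * ε r : ℤˣ) : ℤ) * t),
      mul_mem (S.x_mem (And.intro m1 h.1) _) (S.x_mem (And.intro m2 h.2.1) _), ?_, ?_⟩
    · rw [z.mem_Fx, map_mul, map_mul, h3, h2, h2, h2, mul_one, h.2.2.1, h.2.2.2, ← mul_assoc]
      exact (d.comm m1 (self_mem_Ob z r) _ _).mul_left (d.comm m2 (self_mem_Ob z r) _ _)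
    · exact (map_mul σ _ _).trans (by rw [map_mul, h3, h1, h1, h1]; rfl)

theorem fix_of_fix {T : Set Φ} (hT : ∀ r ∈ T, z.ρ r = r) {g : G} (hg : g ∈ S.XS T) (h : g ∈ z.Fx) : σ g = g :=
  (S.XS_induction (P := fun g => σ g = z.σ g) (by simp) (fun g _ r hr t ih => by
    rw [map_mul, map_mul, ih, hσ, z.σ_x, hT r hr, d.hτ,
      ((d.orb r).resolve_right fun e => e.elim (fun e => e.1 (hT r hr)) fun e => e.1 (hT r hr)).2]
    simp) g hg).trans h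

theorem σ_Fx (hG : S.Gr = ⊤) {g : G} (h : g ∈ z.Fx) : σ g ∈ z.Fx := by
  have := S.eq_of_mem_Gr (θ := z.σ.comp σ) (θ' := σ.comp z.σ) (fun r t => by
    simp [hσ, z.σ_x, d.hτ]) (hG.ge (mem_top g))
  rwa [MonoidHom.comp_apply, MonoidHom.comp_apply, z.mem_Fx.1 h] at this

end TwD

/-- parameters of the twisted root elements in `M` -/
def AT (z : Tw S) (M : Subgroup G) (r : Φ) : Set F := {t | ∃ y ∈ S.XS (Ob z r \ {r}), S.x r t * y ∈ M}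

section main
variable [Fintype F] {z : Tw S} {f : F →+* F} {ε : Φ → ℤˣ} (d : TwD z f ε) {σ : G →* G}
  (hσ : ∀ r t, σ (S.x r t) = S.x r (f t)) {κ : Type} {O : z.sym.Orb κ} (hΓ : z.Sub O (z.G1 O)) (hG : S.Gr = ⊤)
  {M : Subgroup G} (hM : ∀ g ∈ z.G1 O, σ g = g → g ∈ M) (hM' : M ≤ z.G1 O)
include d

theorem AT_add {r : Φ} {s t : F} (hs : s ∈ AT z M r) (ht : t ∈ AT z M r) : s + t ∈ AT z M r := by
  obtain ⟨a, a1, a2⟩ := hs
  obtain ⟨b, b1, b2⟩ := ht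
  refine ⟨a * b, mul_mem a1 b1, ?_⟩
  have := mul_mem a2 b2
  rwa [mul_assoc, ← mul_assoc a, (d.comm' (self_mem_Ob z r) t Set.diff_subset a1).eq, mul_assoc, ← mul_assoc,
    ← S.x_add] at this

include hσ hΓ hM

theorem x_mem_fix {r : Φ} (h : z.ρ r = r) {t : F} (ht : f t = t) : S.x r t ∈ M := by
  refine hM _ ?_ (by rw [hσ, ht])
  by_cases hr : R.Pos r
  · exact hΓ.U_le ⟨S.x_mem_U hr t, d.x_fix h ht⟩
  · exact hΓ.V_le ⟨S.x_mem_V hr t, d.x_fix h ht⟩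

theorem AT_fix {r : Φ} (hr : R.Pos r) {t : F} (ht : f t = t) : t ∈ AT z M r := by
  obtain ⟨y, h1, h2, h3⟩ := d.exists_Y hσ r ht
  exact ⟨y, h1, hM _ (hΓ.U_le ⟨mul_mem (S.x_mem_U hr t) (S.XS_mono (fun s hs => d.ob_pos hr hs.1) h1), h2⟩) h3⟩

theorem AT_smul {r b : Φ} (hb : z.ρ b = b) (e : R.A b r = 1) {c t : F} (hc : f c = c) (ht : t ∈ AT z M r) :
    c * t ∈ AT z M r := by
  by_cases h0 : c = 0
  · exact ⟨1, one_mem _, by simp [h0]⟩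
  obtain ⟨a, a1, a2⟩ := ht
  have h1 : ∀ c, f c = c → S.n b c ∈ M := fun c hc => mul_mem (mul_mem (x_mem_fix d hσ hΓ hM hb hc)
    (x_mem_fix d hσ hΓ hM (by rw [z.ρ_neg, hb]) (by simp [hc]))) (x_mem_fix d hσ hΓ hM hb hc)
  have h2 : S.h b c ∈ M := mul_mem (h1 c hc) (h1 _ (by simp))
  have := mul_mem (mul_mem h2 a2) (inv_mem h2)
  rw [← conj_mul, S.h_conj _ _ h0, e, zpow_one] at this
  exact ⟨_, (mem_normalizer_iff.1 (S.H_le_normalizer _ (S.h_mem h0)) _).1 a1, this⟩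

theorem exists_n {w : Equiv.Perm Φ} (hw : w ∈ z.sym.W1) :
    ∃ n ∈ S.N, n ∈ M ∧ n ∈ (fTw f σ hσ).Fx ∧ S.Rep n w := by
  refine O.W1_induction (fun w => ∃ n ∈ S.N, n ∈ M ∧ n ∈ (fTw f σ hσ).Fx ∧ S.Rep n w)
    ⟨1, one_mem _, one_mem _, one_mem _, S.rep_one⟩ (fun k w _ _ ih => ?_) w hw
  · obtain ⟨n, n1, n2, n3, n4⟩ := ih
    obtain ⟨y, y1, y2, y3⟩ := d.exists_Y hσ (R.neg (R.sim (O.rep k))) (map_one f)
    have y4 : ∀ s ∈ Ob z (R.neg (R.sim (O.rep k))), ¬ R.Pos s ∧ R.InJ (O.J k) s := fun s hs =>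
      (ob_st {s | ¬ R.Pos s ∧ R.InJ (O.J k) s} (fun s => and_congr (not_congr (z.ρ_pos s)) (O.InJ_ρ k s)) s hs).2
        ⟨R.not_pos_neg_sim _, (RS.InJ_neg _).2 ((RS.InJ_sim _).2 (O.rep_mem k))⟩
    have y5 : S.x (R.neg (R.sim (O.rep k))) 1 * y ∈ S.VK (O.J k) :=
      mul_mem (S.x_mem (y4 _ (self_mem_Ob z _)) 1) (S.XS_mono (fun s hs => y4 s hs.1) y1)
    have y6 := hΓ.VK_cell ⟨y5, y2⟩ fun e => by
      have e1 : S.x (R.neg (R.sim (O.rep k))) 1 ∈ S.XS (Ob z (R.neg (R.sim (O.rep k))) \ {R.neg (R.sim (O.rep k))}) :=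
        (mul_mem_cancel_right y1).1 (e ▸ one_mem _)
      have neg : ∀ s, ¬ R.Pos s → 0 < (-RS.htv : (ι → ℤ) →ₗ[ℤ] ℤ) (R.rt s) := fun s hs => by
        have := R.ht_pos ((R.pos_neg_iff s).2 hs)
        rwa [R.ht_neg] at this
      exact (S.mem_of_x_mem (fun a ha b hb u i j hi hj e => absurd e (d.nosum ha.1 hb.1 u i j hi hj))
        (fun s hs => neg s (y4 s hs.1).1) (neg _ (R.not_pos_neg_sim _)) one_ne_zero e1).2 rfl
    have hk := z.sym.W1_le_W (O.wk_mem k)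
    obtain ⟨u, hu, m, hm, m1, u', hu', e⟩ := hΓ.exists_canon hk y6 (hΓ.VK_le k ⟨y5, y2⟩)
    obtain ⟨v, hv, m', hm', m2, v', hv', e'⟩ := (fTw f σ hσ).exists_canon hk y6 y3
    have hH := S.mem_H_of_rep (inv_mem hm'.1) (inv_mem hm.1) m2.inv m1.inv
    rw [inv_inv] at hH
    have := (S.canon_unique m1 (S.U_le_B hu.1) (mul_mem (S.U_le_B hv.1) (S.H_le_B hH)) hu'.1 hv'.1
      (by rw [← e, e']; group)).1
    have e2 : m' * m⁻¹ = 1 := S.eq_one_of_mem_U_H (by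
      rw [show m' * m⁻¹ = v⁻¹ * u by rw [this]; group]; exact mul_mem (inv_mem hv.1) hu.1) hH
    obtain rfl := mul_inv_eq_one.1 e2
    exact ⟨n * m', mul_mem n1 hm.1, mul_mem n2 (hM _ hm.2 hm'.2), mul_mem n3 hm'.2, n4.mul m1⟩

theorem AT_conj {w : Equiv.Perm Φ} (hw : w ∈ z.sym.W1) (r : Φ) :
    ∃ c, f c = c ∧ c ≠ 0 ∧ ∀ t ∈ AT z M r, c * t ∈ AT z M (w r) := by
  obtain ⟨n, -, n2, n3, n4⟩ := exists_n d hσ hΓ hM hw
  obtain ⟨c, c1, c2⟩ := n4.exists_conj r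
  refine ⟨c, S.x_inj (w r) ?_, c1, fun t ⟨a, a1, a2⟩ => ⟨n * a * n⁻¹, n4.conj_mem (T' := Ob z (w r) \ {w r})
    (fun s hs => ⟨ob_W1 hw hs.1, fun e => hs.2 (w.injective e)⟩) a a1, ?_⟩⟩
  · have := congrArg σ (c2 1)
    rw [map_mul, map_mul, map_inv, show σ n = n from n3, hσ, hσ, map_one, c2, mul_one] at this
    exact this.symm
  · rw [← c2, conj_mul]; exact mul_mem (mul_mem n2 a2) (inv_mem n2)

include hM'

omit hσ hM in
theorem mem_of_AT {r : Φ} (hr : R.Pos r) {t : F} (ht : t ∈ AT z M r) {y : G} (hy : y ∈ S.XS (Ob z r \ {r}))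
    (h : S.x r t * y ∈ z.Fx) : S.x r t * y ∈ M := by
  obtain ⟨a, a1, a2⟩ := ht
  have := d.eq_one hr (mul_mem (inv_mem a1) hy) (by
    simpa [mul_assoc] using mul_mem (inv_mem (hΓ.le_Fx (hM' a2))) h)
  rwa [← inv_mul_eq_one.1 this]

theorem G1_le (h : ∀ k, z.ρ (R.sim (O.rep k)) = R.sim (O.rep k) ∨ ∀ t, t ∈ AT z M (R.sim (O.rep k)))
    (hU : ∀ k r, R.Pos r → R.InJ (O.J k) r → r ∈ Ob z (R.sim (O.rep k))) : z.G1 O ≤ M := by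
  have h1 : ∀ k, S.UK (O.J k) ⊓ z.Fx ≤ M := fun k g hg => by
    have h2 := S.XS_mono (T' := Ob z (R.sim (O.rep k))) (fun r hr => hU k r hr.1 hr.2) hg.1
    rcases h k with h | h
    · exact hM g (hΓ.UK_le k hg) (d.fix_of_fix hσ (fun r hr => by
        rcases hr with rfl | rfl | rfl <;> simp only [h]) h2 hg.2)
    · obtain ⟨t, y, hy, rfl⟩ := d.decomp (R.pos_sim _) h2
      exact mem_of_AT d hΓ hM' (R.pos_sim _) (h t) hy hg.2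
  refine iSup_le fun k => sup_le (h1 k) fun g hg => ?_
  obtain ⟨n, -, n2, -, n4⟩ := exists_n d hσ hΓ hM (O.wk_mem k)
  have := h1 k ⟨n4.conj_mem (T' := {r | R.Pos r ∧ R.InJ (O.J k) r}) (fun r hr =>
    ⟨RS.wL_pos hr.2 hr.1, RS.InJ_wL.2 hr.2⟩) g hg.1, z.conj_mem_Fx (hΓ.le_Fx (hM' n2)) hg.2⟩
  exact (mul_mem_cancel_left n2).1 ((mul_mem_cancel_right (inv_mem n2)).1 this)

omit hσ hM in
theorem split {η : Φ} (hη : R.Pos η) {T : Set Φ} (hT : IsUp R T) (hT' : ∀ r ∈ T, R.ht η < R.ht r)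
    (hρ : ∀ r ∈ T, z.ρ r ∈ T) {a b : G} (ha : a ∈ S.XS (Ob z η)) (hb : b ∈ S.XS T) (h : a * b ∈ M) :
    a ∈ z.Fx ∧ b ∈ z.Fx := by
  refine z.fixed_of_mul ?_ (fun a => z.σ_mem_XS fun s hs => (d.ob_ρ η s).2 hs) (fun a => z.σ_mem_XS hρ) ha hb
    (hΓ.le_Fx (hM' h))
  rw [S.sep.XS_inf (f := RS.htv) ((d.noSum hη).closed le_rfl) (by
    simpa using (show NoSum R ∅ from ⟨by simp, by simp⟩).closed_union hT) (fun s hs => R.ht_pos (d.ob_pos hη hs))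
    fun s hs => R.ht_pos (hT s hs).1, ← S.XS_empty]
  congr 1
  exact Set.eq_empty_of_forall_notMem fun s hs => (hT' s hs.2).ne' (d.ob_ht hs.1)

theorem split_top {η : Φ} (hη : R.Pos η) (h : ∀ r, R.ht η < R.ht r → z.ρ r = r) {a b : G} (ha : a ∈ S.XS (Ob z η))
    (hb : b ∈ S.XS {r | R.ht η < R.ht r}) (hab : a * b ∈ M) : a ∈ M ∧ σ b = b := by
  have hp : ∀ r ∈ {r | R.ht η < R.ht r}, R.Pos r := fun r hr => (R.pos_iff_ht r).2 ((R.ht_pos hη).trans hr)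
  have h1 := (split d hΓ hM' hη (fun r hr => ⟨hp r hr, fun u hu => hr.trans hu⟩) (fun _ h => h)
    (fun r hr => by rwa [h r hr]) ha hb hab).2
  have h2 := d.fix_of_fix hσ h hb h1
  exact ⟨(mul_mem_cancel_right (hM b (hΓ.U_le ⟨S.XS_mono hp hb, h1⟩) h2)).1 hab, h2⟩

theorem test_one {r s v : Φ} (hr : R.Pos r) (hs : R.Pos s) (hsr : s ≠ r) {η : ℤˣ}
    (e : R.terms r s = [(v, (η : ℤ), 1, 1)]) (h : ∀ s' ∈ Ob z s, s' ≠ s → ∀ δ, R.rt v ≠ R.rt δ + R.rt s') {t : F}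
    {b : G} (hb : b ∈ S.XS (Up R r))
    (hc : ∀ m ∈ S.U, m ∈ M → m ∈ (fTw f σ hσ).Fx → Commute (S.x r t * b) m) : t = 0 := by
  have a6 := (R.terms_rt r s (v, η, 1, 1) (by simp [e])).1
  have a7 := ht_comb a6
  simp only [Nat.cast_one, one_mul, one_smul] at a6 a7
  have h1 := R.ht_pos hr
  have h2 := R.ht_pos hs
  obtain ⟨β, b1, b2, b3, b4⟩ := exists_beta S ((R.pos_iff_ht v).2 (by omega)) a7
  obtain ⟨y, y1, y2, y3⟩ := d.exists_Y hσ s (map_one f)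
  have y4 : S.x s 1 * y ∈ S.XS (Ob z s) := mul_mem (S.x_mem (self_mem_Ob z s) 1) (S.XS_mono Set.diff_subset y1)
  have y5 : S.XS (Ob z s) ≤ S.XS (Lv R (R.ht s)) := S.XS_mono fun a ha => ⟨d.ob_pos hs ha, (d.ob_ht ha).ge⟩
  have y6 := S.XS_lvl_le _ (y5 y4)
  have c1 := b3 (S.x r t * b) (S.x s 1 * y) (by
    rw [mul_assoc, ← (hc _ y6 (hM _ (hΓ.U_le ⟨y6, y2⟩) y3) y3).eq]; simp [mul_assoc])
  have x1 : S.x r t ∈ S.XS (Lv R (R.ht r)) := S.x_mem (And.intro hr le_rfl) t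
  have x2 : b ∈ S.XS (Lv R (R.ht r)) := S.XS_mono (T := Up R r) (fun a ha => And.intro ha.1 ha.2.1) hb
  have x3 : S.x s 1 ∈ S.XS (Lv R (R.ht s)) := S.x_mem (And.intro hs le_rfl) 1
  have x4 : y ∈ S.XS (Lv R (R.ht s)) := y5 (S.XS_mono Set.diff_subset y1)
  have c2 : β (S.x r t) y = 0 := by
    refine b3 _ _ (comm_Up' S (T := {r}) (T' := Ob z s \ {s}) (fun δ hδ s' hs' => ?_) (by simpa using hr)
      (fun s' hs' => d.ob_pos hs hs'.1) (S.x_mem (Set.mem_singleton r) t) y1)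
    obtain rfl : δ = r := hδ
    exact ⟨hr, d.ob_pos hs hs'.1, by rw [d.ob_ht hs'.1, a7], h s' hs'.1 hs'.2 δ⟩
  have c3 : β b (S.x s 1 * y) = 0 := by
    refine b3 _ _ (comm_Up' S (T := Up R r) (T' := Ob z s) (fun δ hδ s' hs' => ⟨hδ.1, d.ob_pos hs hs', ?_, ?_⟩)
      (fun _ h => h.1) (fun s' hs' => d.ob_pos hs hs') hb y4)
    · have : R.ht r ≤ R.ht δ := hδ.2.1
      rw [d.ob_ht hs', a7]; omega
    · by_cases e : s' = s
      · rw [e, a6]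
        exact fun e' => hδ.2.2 (R.rt_inj (add_right_cancel e').symm)
      · exact h s' hs' e δ
  rw [b1 _ x1 _ x2 _ (y5 y4), b2 _ x1 _ x3 _ x4, b4 r s η t 1 hr hs hsr e, c2, c3] at c1
  rcases Int.units_eq_one_or η with rfl | rfl <;> simpa using c1

omit hM' in
theorem exists_u {r : Φ} (hr : R.Pos r) :
    ∃ u ∈ S.XS (Ob z r), u ∈ M ∧ u ∈ (fTw f σ hσ).Fx ∧ ∀ s ∈ Ob z r, u ∉ S.XS (Up R s) := by
  obtain ⟨a, a1, a2, a3⟩ := d.exists_Y hσ r (map_one f)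
  have a4 : S.x r 1 * a ∈ S.XS (Ob z r) := mul_mem (S.x_mem (self_mem_Ob z r) 1) (S.XS_mono Set.diff_subset a1)
  refine ⟨_, a4, hM _ (hΓ.U_le ⟨S.XS_mono (fun s => d.ob_pos hr) a4, a2⟩) a3, a3, ?_⟩
  have a5 : ∀ s, S.x r 1 * a ∈ S.XS (Up R (z.ρ s)) → S.x r 1 * a ∈ S.XS (Up R s) := fun s hs => by
    have a6 : ∀ k : ℕ, S.x r 1 * a ∈ S.XS (Up R ((z.ρ ^ (k + 1)) s)) := fun k => by
      induction k with
      | zero => simpa using hs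
      | succ k ih =>
        rw [pow_succ', ← z.mem_Fx.1 a2]
        exact z.σ_mem_XS (fun t ht => And.intro ((z.ρ_pos t).2 ht.1) ⟨by
          rw [d.ht, Equiv.Perm.mul_apply, d.ht]; exact ht.2.1, fun e => ht.2.2 (z.ρ.injective e)⟩) ih
    have := a6 (orderOf z.ρ - 1)
    rwa [Nat.sub_add_cancel (orderOf_pos _), pow_orderOf_eq_one] at this
  have a7 : S.x r 1 * a ∉ S.XS (Up R r) := fun h => x_not_mem_Up S hr one_ne_zero ((mul_mem_cancel_right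
    (S.XS_mono (fun s hs => And.intro (d.ob_pos hr hs.1) ⟨(d.ob_ht hs.1).ge, hs.2⟩) a1)).1 h)
  rintro _ (rfl | rfl | rfl) h
  exacts [a7 h, a7 (a5 _ h), a7 (a5 _ (a5 _ h))]

include hG in
theorem hypB {θ η : Φ} (top : Top R θ) (h1 : R.ht θ < 2 * R.ht η) (h2 : ∀ r, R.ht η < R.ht r → z.ρ r = r)
    (h3 : ∀ r, R.ht r = R.ht η → r ∈ Ob z η)
    (hC : ∀ r, R.Pos r → R.ht r < R.ht η → ∀ t, ∀ b ∈ S.XS (Up R r),
      (∀ m ∈ S.U, m ∈ M → m ∈ (fTw f σ hσ).Fx → Commute (S.x r t * b) m) → t = 0)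
    (hF : ∀ r, R.ht η ≤ R.ht r → ∃ w ∈ z.sym.W1, (∀ s, R.ht η ≤ R.ht s → R.Pos (w s)) ∧ R.ht (w r) < R.ht η)
    (hne : ∀ t ∈ AT z M η, f t = t) : HypB z (z.G1 O) (fTw f σ hσ) M {r | R.ht η ≤ R.ht r} := by
  have hη : R.Pos η := (R.pos_iff_ht η).2 (by have := top.ht_pos; omega)
  have hZ : NoSum R {r | R.ht η ≤ R.ht r} := top.noSum fun r hr => by have : R.ht η ≤ R.ht r := hr; omega
  refine ⟨rfl, hM', fun g hg => ?_, fun u _ h1 h2 => hM u h1 h2, fun w hw => exists_n d hσ hΓ hM hw, fun r hr => ?_,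
    hZ, fun s => by simp only [Set.mem_setOf_eq, d.ht], fun r hr hZ t b hb => ?_, fun r hr => ⟨Ob z r,
      self_mem_Ob z r, d.noSum hr, fun s => d.ob_ht, d.ob_ρ r, fun T hT => ob_st T hT⟩, fun u hu hMu => ?_,
    fun r hr => ?_⟩
  · have : z.G1 O ≤ (z.G1 O).comap σ := iSup_le fun k => sup_le
      (fun g hg => hΓ.UK_le k ⟨σXS (fTw f σ hσ) rfl hg.1, d.σ_Fx hσ hG hg.2⟩)
      fun g hg => hΓ.VK_le k ⟨σXS (fTw f σ hσ) rfl hg.1, d.σ_Fx hσ hG hg.2⟩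
    exact this hg
  · obtain ⟨u, a1, a2, -, a4⟩ := exists_u d hσ hΓ hM hr
    refine ⟨u, a2, S.XS_mono (T := Ob z r) (fun s hs => ?_) a1, a4 r (self_mem_Ob z r)⟩
    exact ⟨d.ob_pos hr hs, d.ob_ht hs, fun J hJ => (ob_st {s | R.InJ J s} (z.sym.InJ_iff hJ) s hs).1⟩
  · have hZ' : R.ht r < R.ht η := not_le.1 hZ
    refine hC r hr hZ' t b (S.XS_mono (T' := Up R r) (fun s hs => hs.elim (fun h => ?_) id) hb)
    have h' : R.ht η ≤ R.ht s := h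
    exact ⟨(R.pos_iff_ht s).2 ((R.ht_pos hη).trans_le h'), hZ'.le.trans h', fun e => hZ (e ▸ h)⟩
  · obtain ⟨a, ha, b, hb, rfl⟩ := S.exists_mul_of_part (f := RS.htv) (hZ.closed le_rfl)
      (fun r hr => (R.ht_pos hη).trans_le hr) (fun r => R.ht r = R.ht η) hu
    have ha' := S.XS_mono (T' := Ob z η) (fun r hr => h3 r hr.2) ha
    obtain ⟨b1, b2⟩ := split_top d hσ hΓ hM hM' hη h2 ha'
      (S.XS_mono (T' := {r | R.ht η < R.ht r}) (fun r hr => lt_of_le_of_ne hr.1 (Ne.symm hr.2)) hb) hMu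
    obtain ⟨t, c, hc, rfl⟩ := d.decomp hη ha'
    obtain ⟨c', c1, c2, c3⟩ := d.exists_Y hσ η (hne t ⟨c, hc, b1⟩)
    have c4 : c'⁻¹ * c ∈ z.Fx := by
      simpa [mul_assoc] using mul_mem (inv_mem c2) (hΓ.le_Fx (hM' b1))
    obtain rfl := inv_mul_eq_one.1 (d.eq_one hη (mul_mem (inv_mem c1) hc) c4)
    exact mul_mem c3 b2
  · obtain ⟨w, w1, w2, w3⟩ := hF r hr
    exact ⟨w, w1, w2, not_le.2 w3⟩

include hG in
theorem tw_main (p : ℕ) [Fact p.Prime] [CharP F p] [Finite G] (ha : S.Adj) (hc : ∃ r, ∀ i, R.rt r i ≠ 0)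
    {θ η : Φ} (top : Top R θ) (hθ : z.ρ θ = θ) (h1 : R.ht θ < 2 * R.ht η) (h2 : ∀ r, R.ht η < R.ht r → z.ρ r = r)
    (h3 : ∀ r, R.ht r = R.ht η → r ∈ Ob z η)
    (hC : ∀ r, R.Pos r → R.ht r < R.ht η → ∀ t, ∀ b ∈ S.XS (Up R r),
      (∀ m ∈ S.U, m ∈ M → m ∈ (fTw f σ hσ).Fx → Commute (S.x r t * b) m) → t = 0)
    (hF : ∀ r, R.ht η ≤ R.ht r → ∃ w ∈ z.sym.W1, (∀ s, R.ht η ≤ R.ht s → R.Pos (w s)) ∧ R.ht (w r) < R.ht η)
    (orth : ∃ r, R.Pos r ∧ ∀ s ∈ Ob z r, R.A θ s = 0) (two : ∃ i, z.π i ≠ i) :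
    (∀ g ∈ M, σ g = g) ∨ ∃ t ∈ AT z M η, f t ≠ t := by
  refine or_iff_not_imp_right.2 fun hne => ?_
  push Not at hne
  let y := fTw f σ hσ
  have se := (hypB d hσ hΓ hG hM hM' top h1 h2 h3 hC hF hne).se hΓ p ha hG hc (RS.Sym.Lam.ofHt z.sym d.ht)
  have f1 : ∀ r, z.ρ r = r → S.x r 1 ∈ M := fun r h => x_mem_fix d hσ hΓ hM h (map_one f)
  have f2 : ∀ r, S.x r 1 ∈ y.Fx := fun r => y.mem_Fx.2 ((hσ r 1).trans (by rw [map_one]))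
  change M ≤ y.Fx
  by_cases hp : p = 2
  · subst hp
    obtain ⟨i, hi⟩ := two
    obtain ⟨u, a1, a2, a3, a4⟩ := exists_u d hσ hΓ hM (R.pos_sim i)
    refine top.le_two hG se one_ne_zero (f1 θ hθ) (f2 θ) a2 a3 ?_ (S.XS_mono (fun s => d.ob_pos (R.pos_sim i)) a1)
      (a4 _ (self_mem_Ob z _)) (a4 _ (Or.inr (Or.inl (z.ρ_sim i).symm))) (Or.inl hi.symm)
    exact S.XS_induction (P := fun g => g * g = 1) (mul_one 1) (fun g hg r hr t ih => by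
      rw [mul_assoc, ← mul_assoc (S.x r t), ← (d.comm' hr t le_rfl hg).eq, mul_assoc, ← S.x_add,
        CharTwo.add_self_eq_zero, x_zero, mul_one, ih]) u a1
  · obtain ⟨r, r1, r2⟩ := orth
    obtain ⟨u, a1, a2, a3, a4⟩ := exists_u d hσ hΓ hM r1
    exact top.le_odd p hG hp se one_ne_zero (f1 θ hθ) (f2 θ) (h_mem_of (n_mem_of (f1 θ hθ)
      (f1 _ (by rw [z.ρ_neg, hθ])))) (h_mem_of (n_mem_of (f2 _) (f2 _))) a2 a3
      (by rintro rfl; exact a4 r (self_mem_Ob z r) (one_mem _))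
      (S.XS_mono (fun s hs => And.intro (d.ob_pos r1 hs) (r2 s hs)) a1)

end main

end H14.SF
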