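import Cfsg.Agent.H14.SF8
import Cfsg.Agent.H24.TwE6
import Cfsg.Agent.H24.TwD4

/-! Overgroups of subfield subgroups: the twisted tables. -/

set_option autoImplicit false
set_option maxHeartbeats 400000
set_option linter.unusedSectionVars false

namespace H14.SF
open H24 H24.St0 Subgroup Cfsg.Lie

/-- the orbit of a root -/
def obL (m : MorTab) (r : ℕ) : List ℕ := [r, m.ph r, m.ph (m.ph r)]

noncomputable def chkTw (T : Tab) (m : MorTab) : Bool := allLt T.n fun r => decide (m.ph r < T.n ∧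
  ((m.ph r = r ∧ m.ep r = 1) ∨ (m.ph r ≠ r ∧ m.ph (m.ph r) = r ∧ m.ep (m.ph r) * m.ep r = 1) ∨
    (m.ph r ≠ r ∧ m.ph (m.ph r) ≠ r ∧ m.ph (m.ph (m.ph r)) = r ∧ m.ep (m.ph (m.ph r)) * (m.ep (m.ph r) * m.ep r) = 1)) ∧
  (∀ s ∈ obL m r, s = r ∨ T.A r s = 0) ∧ T.len r = T.len 0 ∧ htT T (m.ph r) = htT T r)

noncomputable def chkW (T : Tab) (m : MorTab) (l : List ℕ) : Bool :=
  band (allL l fun i => Nat.blt i T.l) (allLt T.n fun r => Nat.beq (m.ph (T.appl l r)) (T.appl l (m.ph r)))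

noncomputable def chkM (T : Tab) (m : MorTab) (η r0 : ℕ) (L : List (List ℕ)) (B : List ℕ) : Bool :=
  band (chkTop T) <| band (decide (η < T.n ∧ r0 < T.n ∧ m.ph (T.n - 1) = T.n - 1 ∧ htT T (T.n - 1) < 2 * htT T η ∧
    T.posB r0 = true ∧ ∀ s ∈ obL m r0, T.A (T.n - 1) s = 0)) <| band (allL L (chkW T m)) <|
  band (allLt T.n fun r => decide ((htT T η < htT T r → m.ph r = r) ∧ (htT T r = htT T η → r ∈ obL m η) ∧
    (htT T η ≤ htT T r → ∃ l ∈ L, htT T (T.appl l r) < htT T η ∧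
      (allLt T.n fun s => bor (ile (Int.add (htT T s) 1) (htT T η)) (T.posB (T.appl l s))) = true))) <|
  allLt T.n fun r => bor (bnot (T.posB r)) <| bor (ile (htT T η) (htT T r)) <| bor (decide (r ∈ B)) <|
    anyLt T.n fun s => band (T.cR r s 1).isSome <| band (T.posB s) <| decide (s ≠ r ∧ ∃ c ∈ gTerms T.chain r s,
      gTerms T.chain r s = [c] ∧ (c.2 = (1, 1, 1) ∨ c.2 = (-1, 1, 1)) ∧ ∀ s' ∈ obL m s, s' = s ∨
        (allLt T.n fun δ => anyLt T.l fun i => bnot (ibeq (T.rtv c.1 i) (Int.add (T.rtv δ i) (T.rtv s' i)))) = true)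

section
variable {D : ChevalleyDatum} {T : Tab} (h : T.Chk D) {F : Type*} [Field F] {G : Type*} [Group G] {S : St h.cd F G}

theorem mv0 (S : St h.cd F G) {a b : ℕ} (H : T.Cm a b) (t u : F) (g : G) :
    S.x (h.fin b) u * (S.x (h.fin a) t * g) = S.x (h.fin a) t * (S.x (h.fin b) u * g) := by
  rw [← mul_assoc, ← (h.commute _ H t u).eq, mul_assoc]

theorem mv1 (S : St h.cd F G) {a b v : ℕ} {c : ℤ}
    (H : a < T.n ∧ b < T.n ∧ b ≠ a ∧ b ≠ T.neg a ∧ gTerms T.chain a b = [(v, c, 1, 1)]) (t u : F) (g : G) :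
    S.x (h.fin b) u * (S.x (h.fin a) t * g) =
      S.x (h.fin a) t * (S.x (h.fin b) u * (S.x (h.fin v) (c * -t * u) * g)) := by
  rw [← mul_assoc, h.comm_eq _ H]; simp [mul_assoc]

theorem mem_Up {a b : ℕ} (H : a < T.n ∧ b < T.n ∧ T.posB b = true ∧ htT T a ≤ htT T b ∧ b ≠ a) :
    h.fin b ∈ Up h.cd (h.fin a) :=
  ⟨(h.posB_iff _).1 (by rw [h.val_fin H.2.1]; exact H.2.2.1), by
    rw [ht_eq, ht_eq, h.val_fin H.1, h.val_fin H.2.1]; exact H.2.2.2.1, h.fin_ne H.1 H.2.1 H.2.2.2.2⟩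

theorem mem_Lv {a : ℕ} {k : ℤ} (H : a < T.n ∧ T.posB a = true ∧ k ≤ htT T a) : h.fin a ∈ Lv h.cd k :=
  ⟨(h.posB_iff _).1 (by rw [h.val_fin H.1]; exact H.2.1), show k ≤ h.cd.ht _ by
    rw [ht_eq, h.val_fin H.1]; exact H.2.2⟩

/-- coefficient of `v` in a commutator -/
def Bt (T : Tab) (v : ℕ) (i j : ℤ) (c : ℕ → ℕ → ℤ) (a b : ℕ) : Prop :=
  (a < T.n ∧ T.posB a = true ∧ i ≤ htT T a) ∧ (b < T.n ∧ T.posB b = true ∧ j ≤ htT T b) ∧
    ((b ≠ a ∧ gTerms T.chain a b = [(v, c a b, 1, 1)]) ∨ (c a b = 0 ∧ ∃ k < T.l, T.rtv v k ≠ T.rtv a k + T.rtv b k))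

noncomputable instance (T : Tab) (v : ℕ) (i j : ℤ) (c : ℕ → ℕ → ℤ) (a b : ℕ) : Decidable (Bt T v i j c a b) := by
  unfold Bt; infer_instance

theorem lin (S : St h.cd F G) (v : ℕ) (i j : ℤ) (c : ℕ → ℕ → ℤ) (A B : List ℕ)
    (H : v < T.n ∧ T.posB v = true ∧ htT T v = i + j ∧ ∀ a ∈ A, ∀ b ∈ B, Bt T v i j c a b) (t e : ℕ → F)
    (hc : Commute (A.map fun a => S.x (h.fin a) (t a)).prod (B.map fun a => S.x (h.fin a) (e a)).prod) :
    (A.map fun a => (B.map fun b => (c a b : F) * t a * e b).sum).sum = 0 := by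
  obtain ⟨H1, H2, H3, H4⟩ := H
  have e1 : h.cd.ht (h.fin v) = i + j := by rw [ht_eq, h.val_fin H1, H3]
  obtain ⟨β, b1, b2, b3, b4⟩ := exists_beta S ((h.posB_iff _).1 (by rw [h.val_fin H1]; exact H2)) e1
  have k0 : ∀ a b, Bt T v i j c a b → β (S.x (h.fin a) (t a)) (S.x (h.fin b) (e b)) = -(c a b * t a * e b) := by
    rintro a b ⟨a1, a2, a3 | ⟨a3, k, a4, a5⟩⟩
    · exact b4 _ _ _ _ _ (mem_Lv h a1).1 (mem_Lv h a2).1 (h.fin_ne a1.1 a2.1 a3.1)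
        (by rw [h.terms_eq a1.1 a2.1, a3.2]; rfl)
    · rw [a3, b3 _ _ (comm_Up S (r := h.fin a) (mem_Lv h a2).1 (mem_Lv h a1).1
        (e1.trans_le (add_le_add (mem_Lv h a1).2 (mem_Lv h a2).2)) (fun e => a5 ?_) _ _)]
      · simp
      · have : T.rtv (h.fin v) k = T.rtv (h.fin a) k + T.rtv (h.fin b) k := congrFun e ⟨k, h.hl ▸ a4⟩
        rwa [h.val_fin H1, h.val_fin a1.1, h.val_fin a2.1] at this
  have k1 : ∀ (k : ℤ) (t : ℕ → F) (A : List ℕ), (∀ a ∈ A, h.fin a ∈ Lv h.cd k) →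
      (A.map fun a => S.x (h.fin a) (t a)).prod ∈ S.XS (Lv h.cd k) := fun k t A hA =>
    Subgroup.list_prod_mem _ (by simpa using fun a ha => S.x_mem (hA a ha) _)
  have k2 : ∀ a, ∀ B : List ℕ, (∀ b ∈ B, Bt T v i j c a b) → β (S.x (h.fin a) (t a))
      (B.map fun a => S.x (h.fin a) (e a)).prod = -(B.map fun b => (c a b : F) * t a * e b).sum := by
    intro a B hB
    induction B with
    | nil => rw [b3 _ _ (by simp)]; simp
    | cons b B ih =>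
      have := hB b (by simp)
      rw [List.map_cons, List.prod_cons, b2 _ (S.x_mem (mem_Lv h this.1) _) _ (S.x_mem (mem_Lv h this.2.1) _) _
        (k1 j e B fun a ha => mem_Lv h (hB a (by simp [ha])).2.1), k0 a b this, ih fun a ha => hB a (by simp [ha])]
      simp [add_comm]
  rcases B with _ | ⟨b0, B⟩
  · simp
  have k3 : ∀ A : List ℕ, (∀ a ∈ A, ∀ b ∈ b0 :: B, Bt T v i j c a b) →
      β (A.map fun a => S.x (h.fin a) (t a)).prod ((b0 :: B).map fun a => S.x (h.fin a) (e a)).prod =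
        -(A.map fun a => ((b0 :: B).map fun b => (c a b : F) * t a * e b).sum).sum := by
    intro A hA
    induction A with
    | nil => rw [b3 _ _ (by simp)]; simp
    | cons a A ih =>
      rw [List.map_cons, List.prod_cons, b1 _ (S.x_mem (mem_Lv h (hA a (by simp) b0 (by simp)).1) _) _
        (k1 i t A fun a ha => mem_Lv h (hA a (by simp [ha]) b0 (by simp)).1) _
        (k1 j e _ fun b hb => mem_Lv h (hA a (by simp) b hb).2.1), k2 a _ (hA a (by simp)),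
        ih fun a ha => hA a (by simp [ha]), List.map_cons (a := a), List.sum_cons, neg_add]
  rw [← neg_eq_zero, ← k3 A H4]
  exact b3 _ _ (by rw [mul_assoc, ← hc.eq]; simp [mul_assoc])

variable {z : Tw S} {m : MorTab} (hρ : ∀ r : Fin D.nroots, z.ρ r = h.fin (m.ph r)) (H0 : chkTw T m = true)
include hρ H0

theorem val_ρ (r : Fin D.nroots) : (z.ρ r : ℕ) = m.ph r := by
  rw [hρ, h.val_fin (of_decide_eq_true (allLt_iff.1 H0 r (h.lt_n r))).1]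

theorem mem_Ob {r s : Fin D.nroots} : s ∈ Ob z r ↔ (s : ℕ) ∈ obL m r := by
  simp [Ob, obL, Fin.ext_iff, val_ρ h hρ H0]

theorem mem_Ob' {a b : ℕ} (H : a < T.n ∧ b < T.n ∧ b ∈ obL m a ∧ b ≠ a) : h.fin b ∈ Ob z (h.fin a) \ {h.fin a} :=
  ⟨by rw [mem_Ob h hρ H0, h.val_fin H.1, h.val_fin H.2.1]; exact H.2.2.1, h.fin_ne H.1 H.2.1 H.2.2.2⟩

theorem ρ_fin {a b : ℕ} (H : a < T.n ∧ m.ph a = b) : z.ρ (h.fin a) = h.fin b := by rw [hρ, h.val_fin H.1, H.2]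

theorem twD {f : F →+* F} (hτ : ∀ (r : Fin D.nroots) t, z.τ r t = (m.ep r : F) * f t) :
    TwD z f fun r => m.epU r := by
  have H := fun r : Fin D.nroots => of_decide_eq_true (allLt_iff.1 H0 r (h.lt_n r))
  refine ⟨fun r t => by rw [hτ, m.coe_epU], fun r => ?_, fun r s hs => ?_, fun r s => ?_, fun r => ?_⟩
  · simpa only [Ne, Fin.ext_iff, val_ρ h hρ H0, Units.ext_iff, Units.val_mul, m.coe_epU, Units.val_one] using (H r).2.1
  · exact ((H r).2.2.1 s ((mem_Ob h hρ H0).1 hs)).imp Fin.ext fun e => (h.A_eq r s).trans e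
  · change ((T.len r : ℕ) : ℤ) = T.len s
    rw [(H r).2.2.2.1, (H s).2.2.2.1]
  · rw [ht_eq, ht_eq, val_ρ h hρ H0, (H r).2.2.2.2]

theorem exists_W1 {l : List ℕ} (H : chkW T m l = true) : ∃ w ∈ z.sym.W1, ∀ r, (w r : ℕ) = T.appl l r := by
  simp only [chkW, band_iff, allL_iff, allLt_iff, Nat.blt_eq, Nat.beq_eq] at H
  lift l to List (Fin D.rank) using fun i hi => h.hl ▸ H.1 i hi
  refine ⟨h.cd.wd l, ⟨h.cd.wd_mem_W l, mem_centralizer_singleton_iff.2 (Equiv.ext fun r => Fin.ext ?_)⟩, h.val_wd l⟩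
  change (h.rsys.wd l (z.ρ r) : ℕ) = z.ρ (h.rsys.wd l r)
  rw [val_ρ h hρ H0, h.val_wd, h.val_wd, val_ρ h hρ H0, H.2 r (h.lt_n r)]

variable [Fintype F] {f : F →+* F} (hτ : ∀ (r : Fin D.nroots) t, z.τ r t = (m.ep r : F) * f t) {σ : G →* G}
  (hσ : ∀ r t, σ (S.x r t) = S.x r (f t)) {κ : Type} {O : z.sym.Orb κ} (hΓ : z.Sub O (z.G1 O))
  {M : Subgroup G} (hM : ∀ g ∈ z.G1 O, σ g = g → g ∈ M) (hM' : M ≤ z.G1 O)
include hτ

theorem fx3 {a b c : ℕ} {e e' : ℤ} (H : (a < T.n ∧ m.ph a = b) ∧ (b < T.n ∧ m.ph b = c) ∧ (c < T.n ∧ m.ph c = a) ∧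
    m.ep a = e ∧ m.ep b * e = e' ∧ m.ep c * e' = 1 ∧ T.Cm a b ∧ T.Cm a c) {t : F} (ht : f (f (f t)) = t) :
    S.x (h.fin a) t * (S.x (h.fin b) (e * f t) * S.x (h.fin c) (e' * f (f t))) ∈ z.Fx := by
  obtain ⟨a1, a2, a3, a4, a5, a6, a7, a8⟩ := H
  rw [z.mem_Fx, map_mul, map_mul, z.σ_x, z.σ_x, z.σ_x, ρ_fin h hρ H0 a1, ρ_fin h hρ H0 a2, ρ_fin h hρ H0 a3, hτ, hτ, hτ,
    h.val_fin a1.1, h.val_fin a2.1, h.val_fin a3.1, a4, map_mul, map_mul, map_intCast, map_intCast, ← mul_assoc,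
    ← mul_assoc, ← mul_assoc, ← Int.cast_mul, ← Int.cast_mul, a5, a6, ht, Int.cast_one, one_mul]
  exact ((h.commute _ a7 _ _).mul_right (h.commute _ a8 _ _)).symm

include hσ hΓ hM

theorem smul_tab {a b : ℕ} (H : a < T.n ∧ (b < T.n ∧ m.ph b = b) ∧ T.A b a = 1) {c t : F} (hc : f c = c)
    (ht : t ∈ AT z M (h.fin a)) : c * t ∈ AT z M (h.fin a) :=
  AT_smul (twD h hρ H0 hτ) hσ hΓ hM (ρ_fin h hρ H0 H.2.1) ((h.A_fin H.2.1.1 H.1).trans H.2.2) hc ht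

theorem AT_tr {l : List ℕ} {r a b : ℕ} (H : chkW T m l = true ∧ r < T.n ∧ T.appl l r = a ∧
    a < T.n ∧ (b < T.n ∧ m.ph b = b) ∧ T.A b a = 1) {t : F} (ht : t ∈ AT z M (h.fin r)) : t ∈ AT z M (h.fin a) := by
  obtain ⟨w, w1, w2⟩ := exists_W1 h hρ H0 H.1
  obtain ⟨c, c1, c2, c3⟩ := AT_conj (twD h hρ H0 hτ) hσ hΓ hM w1 (h.fin r)
  have := c3 t ht
  rw [← h.fin_val (w _), w2, h.val_fin H.2.1, H.2.2.1] at this
  simpa [c2] using smul_tab h hρ H0 hτ hσ hΓ hM H.2.2.2 (c := c⁻¹) (by rw [map_inv₀, c1]) this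

include hM'

theorem main_tab (p : ℕ) [Fact p.Prime] [CharP F p] [Finite G] (hG : S.Gr = ⊤) (ha : S.Adj) (hc : T.chkConn = true)
    {η r0 : ℕ} {L : List (List ℕ)} {B : List ℕ} (H : chkM T m η r0 L B = true) (two : ∃ i, z.π i ≠ i)
    (hB : ∀ r : Fin D.nroots, (r : ℕ) ∈ B → ∀ t, ∀ b ∈ S.XS (Up h.cd r),
      (∀ m ∈ S.U, m ∈ M → m ∈ (fTw f σ hσ).Fx → Commute (S.x r t * b) m) → t = 0) :
    (∀ g ∈ M, σ g = g) ∨ ∃ t ∈ AT z M (h.fin η), f t ≠ t := by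
  simp only [chkM, band_iff, allL_iff, allLt_iff, anyLt_iff, bor_iff, bnot_iff, ile_iff, ibeq_iff,
    decide_eq_true_eq] at H
  obtain ⟨H1, ⟨a1, a2, a3, a4, a5, a6⟩, H2, H3, H4⟩ := H
  have d := twD h hρ H0 hτ
  have e : h.cd.ht (h.fin η) = htT T η := by rw [ht_eq, h.val_fin a1]
  refine tw_main d hσ hΓ hG hM hM' p ha (h.conn hc) (top_of h H1) (ρ_fin h hρ H0 ⟨n_lt h, a3⟩)
    (by rwa [e, ht_eq, h.val_fin (n_lt h)]) (fun r hr => ?_) (fun r hr => ?_) (fun r h1 h2 => ?_) (fun r hr => ?_)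
    ⟨h.fin r0, (h.posB_iff _).1 (by rwa [h.val_fin a2]), fun s hs => ?_⟩ two
  · rw [e, ht_eq] at hr
    exact Fin.ext ((val_ρ h hρ H0 r).trans ((H3 r (h.lt_n r)).1 hr))
  · rw [e, ht_eq] at hr
    rw [mem_Ob h hρ H0, h.val_fin a1]
    exact (H3 r (h.lt_n r)).2.1 hr
  · rw [e, ht_eq] at h2
    rcases ((H4 r (h.lt_n r)).resolve_left fun e => e ((h.posB_iff r).2 h1)).resolve_left h2.not_ge with
      b | ⟨s, s1, -, s2, s3, ⟨v, c⟩, -, s4, s5, s6⟩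
    · exact hB r b
    have s7 : ∀ s' ∈ Ob z (h.fin s), s' ≠ h.fin s → ∀ δ, h.cd.rt (h.fin v) ≠ h.cd.rt δ + h.cd.rt s' := by
      intro s' b1 b2 δ e
      rw [mem_Ob h hρ H0, h.val_fin s1] at b1
      obtain ⟨i, hi, b3⟩ := (s6 s' b1).resolve_left (fun e => b2 (by rw [← e, h.fin_val])) δ (h.lt_n δ)
      have b4 : T.rtv (h.fin v) i = T.rtv δ i + T.rtv s' i := congrFun e ⟨i, h.hl ▸ hi⟩
      have b5 := (h.gTerms_spec r (h.fin s) (v, c) (by rw [h.val_fin s1, s4]; simp)).1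
      exact b3 (by rwa [h.val_fin b5] at b4)
    have s8 : h.cd.terms r (h.fin s) = [(h.fin v, c)] := by
      rw [← h.fin_val r, h.terms_eq (h.lt_n r) s1, s4]; rfl
    have s9 : h.cd.Pos (h.fin s) := (h.posB_iff _).1 (by rwa [h.val_fin s1])
    have s10 : h.fin s ≠ r := fun e => s3 (by rw [← e, h.val_fin s1])
    rcases s5 with rfl | rfl
    · exact fun t b => test_one d hσ hΓ hM hM' h1 s9 s10 (η := 1) s8 s7
    · exact fun t b => test_one d hσ hΓ hM hM' h1 s9 s10 (η := -1) s8 s7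
  · rw [e, ht_eq] at hr
    obtain ⟨l, l1, l2, l3⟩ := (H3 r (h.lt_n r)).2.2 hr
    obtain ⟨w, w1, w2⟩ := exists_W1 h hρ H0 (H2 l l1)
    refine ⟨w, w1, fun s hs => (h.posB_iff _).1 ?_, by rwa [e, ht_eq, w2]⟩
    rw [e, ht_eq] at hs
    rw [w2]
    exact (l3 s (h.lt_n s)).resolve_left fun e => by have : htT T s + 1 ≤ htT T η := e; omega
  · rw [mem_Ob h hρ H0, h.val_fin a2] at hs
    rw [← h.fin_val s, h.A_fin (n_lt h) (h.lt_n s), a6 s hs]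

end

theorem final {D : ChevalleyDatum} {T : Tab} (h : T.Chk D) {K : Type*} [Field K] {f : K →+* K} {q : ℕ}
    (hq : ∀ t, f t = t ^ q) {Γ : Subgroup (D.group K)} {σ : D.group K →* D.group K}
    (hσ : ∀ r t, σ ((h.grp K).x r t) = (h.grp K).x r (f t)) (h1 : ∃ g ∈ Γ, σ g ≠ g)
    (h2 : ∀ H ≤ Γ, (∀ g ∈ Γ, σ g = g → g ∈ H) → (∀ g ∈ H, σ g = g) ∨ Γ ≤ H) {M : Subgroup (GL D.Idx K)}
    (hM : ∀ g : GL D.Idx K, g ∈ M ↔ g ∈ Γ.map (D.group K).subtype ∧ ∀ i j, g.1 i j ^ q = g.1 i j) :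
    M ≠ Γ.map (D.group K).subtype ∧ ∀ H, M ≤ H → H ≤ Γ.map (D.group K).subtype →
      H = M ∨ H = Γ.map (D.group K).subtype := by
  have key : ∀ g ∈ Γ, σ g = g ↔ g.1 ∈ M := fun g hg => by
    rw [hM, and_iff_right (show g.1 ∈ Γ.map (D.group K).subtype from ⟨g, hg, rfl⟩), Subtype.ext_iff, Units.ext_iff, ← Matrix.ext_iff]
    simp only [h.entry_eq f σ hσ, hq]
  refine ⟨fun e => ?_, fun H a1 a2 => ?_⟩
  · obtain ⟨g, g1, g2⟩ := h1
    exact g2 ((key g g1).2 (e ▸ mem_map_of_mem _ g1))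
  · have a3 : H.subgroupOf (D.group K) ≤ Γ := fun g hg => (mem_map_iff_mem (D.group K).subtype_injective).1 (a2 hg)
    refine (h2 _ a3 fun g hg e => a1 ((key g hg).1 e)).imp (fun b => le_antisymm (fun g hg => ?_) a1)
      fun b => le_antisymm a2 (map_le_iff_le_comap.2 b)
    obtain ⟨g, g1, rfl⟩ := a2 hg
    exact (key g g1).1 (b g hg)

theorem exists_nfix {K : Type*} [Field K] [Fintype K] {f : K →+* K} {q n : ℕ} (hq : ∀ t, f t = t ^ q) (h1 : 1 < q)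
    (hn : 1 < n) (hK : Fintype.card K = q ^ n) : ∃ t, f t ≠ t := by
  by_contra! H
  have := FiniteField.forall_pow_eq_one_iff K (q - 1) |>.1 fun x => Units.ext (mul_right_cancel₀ x.ne_zero (by
    rw [Units.val_pow_eq_pow_val, ← pow_succ, Nat.sub_add_cancel h1.le, ← hq, H, Units.val_one, one_mul]))
  have := Nat.le_of_dvd (by omega) this
  have := Nat.pow_lt_pow_right h1 hn
  rw [pow_one] at this
  omega

end H14.SF
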