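import Cfsg.Agent.H14.SS5

/-! Maximal tori of `F₄(q)`. -/

set_option autoImplicit false
set_option linter.unusedVariables false
set_option linter.unusedSectionVars false
set_option linter.style.haveILetI false

namespace H14.SS
open H24 H24.St0 Finset Cfsg.Lie

theorem pow_det {ι : Type} [Fintype ι] [DecidableEq ι] {k : Type*} [Field k] {c : ι → kˣ} (A : Matrix ι ι ℤ)
    (h : ∀ i, RS.chi c (A i) = 1) : c ^ A.det = 1 := by
  have := mx_mx A.adjugate A c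
  rw [show RS.mx A c = 1 from funext h, map_one, Matrix.adjugate_mul] at this
  funext i
  have e := congrFun this i
  change _ = RS.chi c _ at e
  rw [show (A.det • (1 : Matrix ι ι ℤ)) i = A.det • Pi.single i 1 by
    funext l; simp [Matrix.one_apply, Pi.single_apply, eq_comm], RS.chi_smul, RS.chi_single] at e
  exact e.symm

theorem not_dvd_orderOf {ι : Type} {k : Type*} [Field k] (p : ℕ) [hp : Fact p.Prime] [CharP k p] {c : ι → kˣ}
    (h : orderOf c ≠ 0) : ¬ p ∣ orderOf c := fun hd => by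
  have := orderOf_pow_orderOf_div h hd
  have e := orderOf_dvd_iff_pow_eq_one.1 this.dvd
  rw [show c ^ (orderOf c / p) = 1 from funext fun i => eq_one_of_pow (p := p) (congrFun e i), orderOf_one] at this
  exact hp.out.one_lt.ne this

namespace F4

local notation "hT" => tabF4_chk
local notation "RR" => tabF4_chk.rsys

noncomputable def fI (x : ℤ) (f : ℤ → Bool) : Bool :=
  Int.rec (fun n => forceB n fun n => f (Int.ofNat n)) (fun n => forceB n fun n => f (Int.negSucc n)) x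
theorem fI_eq (x : ℤ) (f : ℤ → Bool) : fI x f = f x := by
  cases x
  exacts [forceB_eq _ fun n => f (Int.ofNat n), forceB_eq _ fun n => f (Int.negSucc n)]
abbrev V4 := ℤ × ℤ × ℤ × ℤ
noncomputable def fV (v : V4) (f : V4 → Bool) : Bool :=
  fI v.1 fun a => fI v.2.1 fun b => fI v.2.2.1 fun c => fI v.2.2.2 fun d => f (a, b, c, d)
theorem fV_eq (v : V4) (f : V4 → Bool) : fV v f = f v := by simp only [fV, fI_eq]
def dot (a b c d : ℤ) (v : V4) : ℤ :=
  Int.add (Int.add (Int.add (Int.mul v.1 a) (Int.mul v.2.1 b)) (Int.mul v.2.2.1 c)) (Int.mul v.2.2.2 d)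
def ln (a b c d v : V4) : V4 := (dot a.1 b.1 c.1 d.1 v, dot a.2.1 b.2.1 c.2.1 d.2.1 v,
  dot a.2.2.1 b.2.2.1 c.2.2.1 d.2.2.1 v, dot a.2.2.2 b.2.2.2 c.2.2.2 d.2.2.2 v)
noncomputable def vc (r : ℕ) : V4 := (tabF4.rtv r 0, tabF4.rtv r 1, tabF4.rtv r 2, tabF4.rtv r 3)
noncomputable def veq (u v : V4) : Bool :=
  band (ibeq u.1 v.1) (band (ibeq u.2.1 v.2.1) (band (ibeq u.2.2.1 v.2.2.1) (ibeq u.2.2.2 v.2.2.2)))
theorem veq_iff {u v : V4} : veq u v = true ↔ u = v := by simp [veq, Prod.ext_iff]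
noncomputable def aa (r s i j : ℕ) : Bool :=
  bnot (ibeq (tabF4.A r s) (tabF4.A (tabF4.simple i) (tabF4.simple j)))
def m2 (a b c d : ℤ) : ℤ := Int.sub (Int.mul a d) (Int.mul b c)
def det4 (a b c d : V4) : ℤ :=
  Int.add (Int.add (Int.sub (Int.add (Int.sub
    (Int.mul (m2 a.1 a.2.1 b.1 b.2.1) (m2 c.2.2.1 c.2.2.2 d.2.2.1 d.2.2.2))
    (Int.mul (m2 a.1 a.2.2.1 b.1 b.2.2.1) (m2 c.2.1 c.2.2.2 d.2.1 d.2.2.2)))
    (Int.mul (m2 a.1 a.2.2.2 b.1 b.2.2.2) (m2 c.2.1 c.2.2.1 d.2.1 d.2.2.1)))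
    (Int.mul (m2 a.2.1 a.2.2.2 b.2.1 b.2.2.2) (m2 c.1 c.2.2.1 d.1 d.2.2.1)))
    (Int.mul (m2 a.2.1 a.2.2.1 b.2.1 b.2.2.1) (m2 c.1 c.2.2.2 d.1 d.2.2.2)))
    (Int.mul (m2 a.2.2.1 a.2.2.2 b.2.2.1 b.2.2.2) (m2 c.1 c.2.1 d.1 d.2.1))

theorem det4_eq (A : Matrix (Fin 4) (Fin 4) ℤ) : A.det = det4 (A 0 0, A 0 1, A 0 2, A 0 3) (A 1 0, A 1 1, A 1 2, A 1 3)
    (A 2 0, A 2 1, A 2 2, A 2 3) (A 3 0, A 3 1, A 3 2, A 3 3) := by
  simp [Matrix.det_succ_row_zero, Fin.sum_univ_succ, det4, m2, Fin.succAbove, imul_eq, iadd_eq, isub_eq]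
  ring

noncomputable def orb (g : V4 → V4) (r : ℕ) (f : V4 → V4 → V4 → V4 → Bool) : Bool :=
  fV (vc r) fun a => fV (g a) fun b => fV (g b) fun c => fV (g c) fun d => f a b c d
noncomputable def pz (g : V4 → V4) (p : V4) : Bool :=
  allLt 4 fun i => orb g (tabF4.simple i) fun a b c d => veq (g d) (ln a b c d p)
noncomputable def reg (g : V4 → V4) : Bool :=
  allLt 48 fun r => orb g r fun a b c d => Nat.beq (Nat.mod 8 (det4 a b c d).natAbs) 0

theorem chk : (allLt 48 fun a => allLt 48 fun b => bor (aa a b 0 1) <| allLt 48 fun c => bor (aa b c 1 2) <|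
    bor (aa a c 0 2) <| allLt 48 fun d => bor (aa c d 2 3) <| bor (aa b d 1 3) <| bor (aa a d 0 3) <|
    fV (vc a) fun a => fV (vc b) fun b => fV (vc c) fun c => fV (vc d) fun d =>
    bor (pz (ln a b c d) (1, 1, 0, -1)) <| bor (pz (ln a b c d) (1, 0, 0, 0)) <| bor (pz (ln a b c d) (1, -1, 0, 1)) <|
    band (bor (pz (ln a b c d) (-1, 0, 0, 0)) (pz (ln a b c d) (-1, 0, 1, 0))) (reg (ln a b c d))) = true := by
  decide +kernel

variable {k : Type*} [Field k]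

theorem pow_det4 {c : Fin chevF4.rank → kˣ} {a b d e : Fin chevF4.nroots} (ha : RS.chi c ((RR).rt a) = 1)
    (hb : RS.chi c ((RR).rt b) = 1) (hd : RS.chi c ((RR).rt d) = 1) (he : RS.chi c ((RR).rt e) = 1) :
    c ^ det4 (vc a) (vc b) (vc d) (vc e) = 1 := by
  have h := pow_det (ι := Fin 4) (c := c) (Matrix.of fun i j => tabF4.rtv (![a, b, d, e] i :) j) fun i => by
    fin_cases i
    exacts [ha, hb, hd, he]
  rw [det4_eq] at h
  simp only [Matrix.of_apply, Matrix.cons_val] at h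
  exact h

theorem enum {w : Equiv.Perm (Fin chevF4.nroots)} (hw : w ∈ (RR).Aut) : ∃ g : V4 → V4,
    (∀ s : Fin chevF4.nroots, g (vc s) = vc (w s)) ∧ (pz g (1, 1, 0, -1) = true ∨ pz g (1, 0, 0, 0) = true ∨
      pz g (1, -1, 0, 1) = true ∨ (pz g (-1, 0, 0, 0) = true ∨ pz g (-1, 0, 1, 0) = true) ∧ reg g = true) := by
  let r : Fin 4 → Fin chevF4.nroots := fun i => w ((RR).sim i)
  have hA : ∀ i j : Fin 4, ¬ aa (r i) (r j) i j = true := fun i j => by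
    rw [aa, bnot_iff, not_not, ibeq_iff, ← (hT).A_eq, RS.Aut.A hw, (hT).A_eq]
    exact congrArg₂ _ ((hT).val_sim i) ((hT).val_sim j)
  have H := chk
  simp only [allLt_iff, bor_iff, band_iff, fV_eq] at H
  refine ⟨_, fun s => ?_, ((((((H _ (r 0).2 _ (r 1).2).resolve_left (hA 0 1) _ (r 2).2).resolve_left
    (hA 1 2)).resolve_left (hA 0 2) _ (r 3).2).resolve_left (hA 2 3)).resolve_left (hA 1 3)).resolve_left (hA 0 3)⟩
  have := RS.Aut.lin_rt hw s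
  rw [RS.lin_apply] at this
  have e : ∀ j : Fin 4, tabF4.rtv (w s) j = ∑ i : Fin 4, tabF4.rtv s i * tabF4.rtv (r i) j := fun j =>
    (congrFun this j).symm.trans (Finset.sum_apply _ _ _)
  simp only [Fin.sum_univ_four] at e
  exact Prod.ext (e 0).symm (Prod.ext (e 1).symm (Prod.ext (e 2).symm (e 3).symm))

variable {w : Equiv.Perm (Fin chevF4.nroots)} (hw : w ∈ (RR).Aut) {q : ℕ} {c : Fin chevF4.rank → kˣ}
  (hc : c ∈ T k RR q w)
include hw hc

theorem pz_spec {g : V4 → V4} (h1 : ∀ s : Fin chevF4.nroots, g (vc s) = vc (w s)) {a b d e : ℤ}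
    (h : pz g (a, b, d, e) = true) : c ^ ((q : ℤ) ^ 4 - e * q ^ 3 - d * q ^ 2 - b * q - a) = 1 := by
  have := rel_T hw hc (n := 5) (P := fun j => [-a, -b, -d, -e, 1].getD j 0) fun i => funext fun j => by
    have := allLt_iff.1 h i i.2
    simp only [orb, fV_eq, veq_iff, ← (hT).val_sim i, h1] at this
    simp only [vc, ln, dot, Prod.mk.injEq, imul_eq, iadd_eq] at this
    obtain ⟨e0, e1, e2, e3⟩ := this
    simp only [sum_range_succ, sum_range_zero, pow_succ', pow_zero, Equiv.Perm.mul_apply, Equiv.Perm.one_apply,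
      List.getD_cons_zero, List.getD_cons_succ, Pi.add_apply, Pi.smul_apply, Pi.zero_apply, smul_eq_mul,
      (hT).rt_eq]
    obtain ⟨j, hj⟩ := j
    change j < 4 at hj
    interval_cases j <;> simp only [e0, e1, e2, e3] <;> ring
  rw [← this]; congr 1; simp [sum_range_succ]; ring

theorem reg_spec {g : V4 → V4} (h1 : ∀ s : Fin chevF4.nroots, g (vc s) = vc (w s)) (H : reg g = true)
    {s : Fin chevF4.nroots} (hs : RS.chi c ((RR).rt s) = 1) : c ^ 8 = 1 := by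
  have := allLt_iff.1 H s s.2
  simp only [orb, fV_eq, h1, Nat.beq_eq] at this
  obtain ⟨m, hm⟩ := Nat.dvd_of_mod_eq_zero this
  have st : ∀ {s}, RS.chi c ((RR).rt s) = 1 → RS.chi c ((RR).rt (w s)) = 1 := fun h => by
    rw [chi_T hw hc, h, one_pow]
  rw [hm, pow_mul, pow_natAbs_eq_one.2 (pow_det4 hs (st hs) (st (st hs)) (st (st (st hs)))), one_pow]

theorem five : c ^ (((q : ℤ) + 1) * (q ^ 3 - 1)) = 1 ∨ c ^ ((q : ℤ) ^ 4 - 1) = 1 ∨
      c ^ (((q : ℤ) - 1) * (q ^ 3 + 1)) = 1 ∨ ((c ^ ((q : ℤ) ^ 4 + 1) = 1 ∨ c ^ ((q : ℤ) ^ 4 - q ^ 2 + 1) = 1) ∧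
        ∀ r, RS.chi c ((RR).rt r) = 1 → c ^ 8 = 1) := by
  obtain ⟨g, h1, H | H | H | ⟨H, H'⟩⟩ := enum hw
  · exact .inl (by rw [← pz_spec hw hc h1 H]; congr 1; ring)
  · exact .inr (.inl (by rw [← pz_spec hw hc h1 H]; congr 1; ring))
  · exact .inr (.inr (.inl (by rw [← pz_spec hw hc h1 H]; congr 1; ring)))
  exact .inr (.inr (.inr ⟨H.imp (fun H => by rw [← pz_spec hw hc h1 H]; congr 1; ring)
    fun H => by rw [← pz_spec hw hc h1 H]; congr 1; ring, fun s hs => reg_spec hw hc h1 H' hs⟩))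

omit hw hc

/-- a cyclic subgroup of a torus -/
def Tor (q : ℕ) (l : List ℕ) (m : List ℤ) (n : ℤ) : Prop := (∃ i < 4, m.getD i 0 = 1) ∧
  ∀ i < 4, n ∣ m.getD i 0 * q - ∑ j ∈ range 4, m.getD j 0 * tabF4.rtv (tabF4.appl l (tabF4.simple i)) j

theorem tor_of {l : List ℕ} {m : List ℤ} {n : ℤ} (L : List (List ℤ)) (a : List ℤ) (i : ℕ)
    (h0 : i < 4 ∧ m.getD i 0 = 1)
    (H : ∀ i < 4, ∀ j < 4, tabF4.rtv (tabF4.appl l (tabF4.simple i)) j = n2 L i j)
    (h : ∀ i < 4, m.getD i 0 * q - ∑ j ∈ range 4, m.getD j 0 * n2 L i j = n * a.getD i 0) : Tor q l m n :=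
  ⟨⟨i, h0⟩, fun i hi => ⟨_, by rw [← h i hi, sum_congr rfl fun j hj => by rw [H i hi j (mem_range.1 hj)]]⟩⟩

theorem Tor.ex [IsAlgClosed k] {l : List ℕ} {m : List ℤ} {n : ℤ} (h : Tor q l m n)
    (hw : ∀ r : Fin chevF4.nroots, (w r : ℕ) = tabF4.appl l r) {s : ℕ} (hs : (s : ℤ) ∣ n) (h0 : (s : k) ≠ 0) :
    ∃ c ∈ T k RR q w, orderOf c = s ∧ ∀ r : Fin chevF4.nroots, n ∣ ∑ j ∈ range 4, m.getD j 0 * tabF4.rtv r j →
      RS.chi c ((RR).rt r) = 1 := by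
  obtain ⟨ζ, hζ⟩ := exists_root h0
  obtain ⟨⟨i, hi, e⟩, H⟩ := h
  have e1 : ∀ r : Fin chevF4.nroots, ∑ j : Fin chevF4.rank, m.getD j 0 * (RR).rt r j =
      ∑ j ∈ range 4, m.getD j 0 * tabF4.rtv r j := fun r =>
    Fin.sum_univ_eq_sum_range (fun j => m.getD j 0 * tabF4.rtv r j) 4
  refine ⟨fun i => ζ ^ m.getD i 0, pw_mem_T _ (hζ ▸ pow_orderOf_eq_one ζ) fun i => ?_,
    (orderOf_pw (i := ⟨i, hi⟩) e).trans hζ, fun r hr => ?_⟩
  · rw [e1, hw, (hT).val_sim]; exact hs.trans (H i i.2)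
  · rw [chi_pw, e1, ← orderOf_dvd_iff_zpow_eq_one, hζ]; exact hs.trans hr

variable (q)

theorem tA : Tor q [3, 2] [0, 1, q ^ 2 - 1, q - q ^ 2] (q ^ 3 - 1) :=
  tor_of [[1, 0, 0, 0], [0, 1, 1, 1], [0, 0, -1, -1], [0, 0, 1, 0]] [0, 0, 1, -1] 1 ⟨by decide, rfl⟩
    (by decide +kernel) fun i hi => by
      interval_cases i <;> simp only [sum_range_succ, sum_range_zero, n2, List.getD_cons_zero, List.getD_cons_succ] <;> ring
theorem tD : Tor q [3, 2, 0] [0, 1, q ^ 2 - 1, q - q ^ 2] (q ^ 3 - 1) :=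
  tor_of [[-1, 0, 0, 0], [1, 1, 1, 1], [0, 0, -1, -1], [0, 0, 1, 0]] [0, 0, 1, -1] 1 ⟨by decide, rfl⟩
    (by decide +kernel) fun i hi => by
      interval_cases i <;> simp only [sum_range_succ, sum_range_zero, n2, List.getD_cons_zero, List.getD_cons_succ] <;> ring
theorem tD' : Tor q [3, 2, 0] [-2, 1, 0, 0] (q + 1) :=
  tor_of [[-1, 0, 0, 0], [1, 1, 1, 1], [0, 0, -1, -1], [0, 0, 1, 0]] [-2, 1, 0, 0] 1 ⟨by decide, rfl⟩
    (by decide +kernel) fun i hi => by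
      interval_cases i <;> simp only [sum_range_succ, sum_range_zero, n2, List.getD_cons_zero, List.getD_cons_succ] <;> ring
theorem tB : Tor q [3, 1, 2] [1, q - 1, -q - q ^ 2, 1 - q + 2 * q ^ 2] (q ^ 3 + 1) :=
  tor_of [[1, 1, 0, 0], [0, 1, 1, 1], [0, -2, -1, -1], [0, 2, 1, 0]] [0, 0, -1, 2] 0 ⟨by decide, rfl⟩
    (by decide +kernel) fun i hi => by
      interval_cases i <;> simp only [sum_range_succ, sum_range_zero, n2, List.getD_cons_zero, List.getD_cons_succ] <;> ring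
theorem tB' : Tor q [3, 1, 2] [1, 0, 0, 0] (q - 1) :=
  tor_of [[1, 1, 0, 0], [0, 1, 1, 1], [0, -2, -1, -1], [0, 2, 1, 0]] [1, 0, 0, 0] 0 ⟨by decide, rfl⟩
    (by decide +kernel) fun i hi => by
      interval_cases i <;> simp only [sum_range_succ, sum_range_zero, n2, List.getD_cons_zero, List.getD_cons_succ] <;> ring
theorem tC : Tor q [2, 1, 2, 1, 0] [q - 1, 1, 0, -1 - q] (q ^ 2 + 1) :=
  tor_of [[-1, -2, -1, 0], [1, 1, 1, 0], [0, 0, -1, 0], [0, 2, 2, 1]] [1, 0, 0, -1] 1 ⟨by decide, rfl⟩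
    (by decide +kernel) fun i hi => by
      interval_cases i <;> simp only [sum_range_succ, sum_range_zero, n2, List.getD_cons_zero, List.getD_cons_succ] <;> ring
theorem tC' : Tor q [2, 1, 2, 1, 0] [0, 0, 0, 1] (q - 1) :=
  tor_of [[-1, -2, -1, 0], [1, 1, 1, 0], [0, 0, -1, 0], [0, 2, 2, 1]] [0, 0, 0, 1] 3 ⟨by decide, rfl⟩
    (by decide +kernel) fun i hi => by
      interval_cases i <;> simp only [sum_range_succ, sum_range_zero, n2, List.getD_cons_zero, List.getD_cons_succ] <;> ring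
theorem tC'' : Tor q [2, 1, 2, 1, 0] [0, 1, -2, 1] (q + 1) :=
  tor_of [[-1, -2, -1, 0], [1, 1, 1, 0], [0, 0, -1, 0], [0, 2, 2, 1]] [0, 1, -2, 1] 1 ⟨by decide, rfl⟩
    (by decide +kernel) fun i hi => by
      interval_cases i <;> simp only [sum_range_succ, sum_range_zero, n2, List.getD_cons_zero, List.getD_cons_succ] <;> ring
theorem t8 : Tor q [3, 2, 1, 2, 1, 0] [q ^ 3 - 1, 1, q ^ 2 - 1, 1 + q - q ^ 2 - q ^ 3] (q ^ 4 + 1) :=
  tor_of [[-1, -2, -1, -1], [1, 1, 1, 1], [0, 0, -1, -1], [0, 2, 2, 1]] [1, 0, 0, -1] 1 ⟨by decide, rfl⟩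
    (by decide +kernel) fun i hi => by
      interval_cases i <;> simp only [sum_range_succ, sum_range_zero, n2, List.getD_cons_zero, List.getD_cons_succ] <;> ring
theorem t12 : Tor q [3, 2, 1, 0] [q, 1, -1 - q ^ 3, -q - q ^ 2 + q ^ 3] (q ^ 4 - q ^ 2 + 1) :=
  tor_of [[-1, -1, -1, -1], [1, 0, 0, 0], [0, 2, 1, 1], [0, 0, 1, 0]] [0, 0, -1, 1] 1 ⟨by decide, rfl⟩
    (by decide +kernel) fun i hi => by
      interval_cases i <;> simp only [sum_range_succ, sum_range_zero, n2, List.getD_cons_zero, List.getD_cons_succ] <;> ring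

end F4

end H14.SS
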