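import Cfsg.Agent.H14.SS7

/-! Characteristic polynomials of Weyl group elements; `E₇(2)` has no element of order 65. -/

set_option autoImplicit false
set_option linter.unusedVariables false
set_option linter.unusedSectionVars false
set_option linter.style.haveILetI false

namespace H14.SS
open H24 H24.St0 Finset Cfsg.Lie Polynomial

theorem exists_cyc {N m : ℕ} (hN : 0 < N) {p a : ℤ} (hp : Prime p) (f : ℤ[X]) :
    f ∣ (X ^ N - 1) ^ m → p ∣ f.eval a → ∃ d, 0 < d ∧ cyclotomic d ℤ ∣ f ∧ p ∣ (cyclotomic d ℤ).eval a := by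
  induction f using WfDvdMonoid.induction_on_irreducible with
  | zero =>
    exact fun h _ => absurd (zero_dvd_iff.1 h) (pow_ne_zero _ (by simpa using X_pow_sub_C_ne_zero hN (1 : ℤ)))
  | unit u hu => exact fun _ h => absurd (isUnit_of_dvd_unit h (hu.map (evalRingHom a))) hp.not_unit
  | mul f g hf hg ih =>
    intro h1 h2
    rw [eval_mul] at h2
    rcases hp.dvd_or_dvd h2 with h | h
    · have := hg.prime.dvd_of_dvd_pow ((dvd_mul_right _ _).trans h1)
      rw [← prod_cyclotomic_eq_X_pow_sub_one hN] at this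
      obtain ⟨d, hd, e⟩ := hg.prime.exists_mem_finset_dvd this
      have hd := Nat.pos_of_mem_divisors hd
      exact ⟨d, hd, (hg.dvd_symm (cyclotomic.irreducible hd) e).trans (dvd_mul_right _ _), h.trans (eval_dvd e)⟩
    · obtain ⟨d, h3, h4, h5⟩ := ih ((dvd_mul_left _ _).trans h1) h
      exact ⟨d, h3, h4.trans (dvd_mul_left _ _), h5⟩

theorem charpoly_dvd {ι : Type} [Fintype ι] [DecidableEq ι] {M : Matrix ι ι ℤ} {N : ℕ} (h : M ^ N = 1) :
    M.charpoly ∣ (X ^ N - 1) ^ Fintype.card ι := by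
  have hc : Commute (Matrix.scalar ι (X : ℤ[X])) ((C : ℤ →+* ℤ[X]).mapMatrix M) :=
    Matrix.scalar_commute _ (fun _ => Commute.all _ _) _
  have := congrArg Matrix.det (hc.geom_sum₂_mul N)
  rw [Matrix.det_mul, ← map_pow, ← map_pow, h, map_one, ← map_one (Matrix.scalar ι), ← map_sub, Matrix.scalar_apply (X ^ N - 1),
    Matrix.det_diagonal, prod_const, card_univ] at this
  exact ⟨_, this.symm.trans (mul_comm _ _)⟩

theorem eq_of_tot {a d : ℕ} (h : a ∣ d) (hd : 0 < d) (h1 : d.totient < 2 * a.totient)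
    (h2 : d.totient < (a * 2).totient) : d = a := by
  obtain ⟨e, rfl⟩ := h
  have h3 := Nat.totient_super_multiplicative a e
  have h4 := Nat.totient_pos.2 (Nat.pos_of_mul_pos_left hd)
  have : e.totient = 1 := by
    by_contra hc
    have : 2 ≤ e.totient := by omega
    nlinarith
  rcases Nat.totient_eq_one_iff.1 this with rfl | rfl
  · simp
  · omega

theorem dvd_of_cyc {p n d : ℕ} (ho : orderOf (2 : ZMod p) = n)
    (h : (p : ℤ) ∣ (cyclotomic d ℤ).eval 2) : n ∣ d := by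
  have := (ZMod.intCast_zmod_eq_zero_iff_dvd _ _).2 (h.trans (eval_dvd (cyclotomic.dvd_X_pow_sub_one d ℤ)))
  rw [← ho, orderOf_dvd_iff_pow_eq_one, ← sub_eq_zero]
  simpa using this

theorem ord13 : orderOf (2 : ZMod 13) = 12 := (orderOf_eq_iff (by norm_num)).2 (by decide)
theorem ord5 : orderOf (2 : ZMod 5) = 4 := (orderOf_eq_iff (by norm_num)).2 (by decide)

theorem fac65 {f : ℤ[X]} {N m : ℕ} (hN : 0 < N) (hf : f ∣ (X ^ N - 1) ^ m) (h1 : f.Monic) (h7 : f.natDegree = 7)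
    (h : 65 ∣ f.eval 2) : ∃ ε : ℤ, ε ^ 2 = 1 ∧ f = (X ^ 6 + 1) * (X - C ε) := by
  have e12 : cyclotomic 12 ℤ = X ^ 4 - X ^ 2 + 1 := by
    rw [← cyclotomic_expand_eq_cyclotomic (p := 2) (n := 6) Nat.prime_two (by norm_num), cyclotomic_six]
    simp [← pow_mul]
  have e4 : cyclotomic 4 ℤ = X ^ 2 + 1 := by
    rw [← cyclotomic_expand_eq_cyclotomic (p := 2) (n := 2) Nat.prime_two (by norm_num), cyclotomic_two]
    simp
  obtain ⟨d, hd, h2, h3⟩ := exists_cyc hN (p := 13) (by norm_num) f hf (Dvd.dvd.trans (by norm_num) h)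
  have h4 := natDegree_le_of_dvd h2 h1.ne_zero
  rw [natDegree_cyclotomic, h7] at h4
  obtain rfl : d = 12 := eq_of_tot (dvd_of_cyc (p := 13) ord13 h3) hd
    (h4.trans_lt (by decide)) (h4.trans_lt (by decide))
  obtain ⟨g, rfl⟩ := h2
  have g1 : g.Monic := (cyclotomic.monic 12 ℤ).of_mul_monic_left h1
  rw [(cyclotomic.monic 12 ℤ).natDegree_mul g1, natDegree_cyclotomic, show Nat.totient 12 = 4 by decide] at h7
  have hg := (dvd_mul_left _ _).trans hf
  obtain ⟨d, hd, h2, h3⟩ := exists_cyc hN (p := 5) (a := 2) (by norm_num) g hg (by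
    rw [eval_mul, e12] at h
    simp only [eval_add, eval_sub, eval_pow, eval_X, eval_one] at h
    omega)
  have h4 := natDegree_le_of_dvd h2 g1.ne_zero
  rw [natDegree_cyclotomic, show g.natDegree = 3 by omega] at h4
  obtain rfl : d = 4 := eq_of_tot (dvd_of_cyc (p := 5) ord5 h3) hd
    (h4.trans_lt (by decide)) (h4.trans_lt (by decide))
  obtain ⟨l, rfl⟩ := h2
  have l1 : l.Monic := (cyclotomic.monic 4 ℤ).of_mul_monic_left g1
  rw [(cyclotomic.monic 4 ℤ).natDegree_mul l1, natDegree_cyclotomic, show Nat.totient 4 = 2 by decide] at h7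
  have hl := l1.eq_X_add_C (by omega)
  have := eval_dvd (x := -l.coeff 0) ((dvd_mul_left _ _).trans hg)
  rw [hl] at this
  simp only [eval_add, eval_X, eval_C, coeff_add, coeff_X_zero, coeff_C_zero, zero_add, neg_add_cancel, zero_dvd_iff,
    eval_pow, eval_sub, eval_one] at this
  have hu : IsUnit (-l.coeff 0) := IsUnit.of_pow_eq_one (sub_eq_zero.1 (pow_eq_zero_iff'.1 this).1) hN.ne'
  refine ⟨-l.coeff 0, by rcases Int.isUnit_iff.1 hu with e | e <;> simp [e], ?_⟩
  rw [e12, e4, map_neg, sub_neg_eq_add, ← hl]; ring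

theorem eig_dep {ι : Type} [Fintype ι] [DecidableEq ι] {M : Matrix ι ι ℤ} {g : ℤ[X]} {ε : ℤ}
    (h : M.charpoly = g * (X - C ε)) (hg : g.eval ε ≠ 0) {x y : ι → ℤ} (hx : M.mulVec x = ε • x)
    (hy : M.mulVec y = ε • y) (j : ι) : y j • x = x j • y := by
  let c := Int.castRingHom ℚ
  have h1 := LinearMap.finrank_eigenspace_le (Matrix.toLin' (M.map c)) (ε : ℚ)
  have hg' : (g.map c).eval (ε : ℚ) ≠ 0 := by
    rw [← eq_intCast c ε, eval_map, eval₂_hom]; simpa using hg
  rw [Matrix.charpoly_toLin', Matrix.charpoly_map, h, Polynomial.map_mul, Polynomial.map_sub, map_X, map_C,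
    eq_intCast, rootMultiplicity_mul (mul_ne_zero (by rintro e; simp [e] at hg') (X_sub_C_ne_zero _)),
    rootMultiplicity_X_sub_C_self, rootMultiplicity_eq_zero hg', zero_add, finrank_le_one_iff] at h1
  obtain ⟨v, hv⟩ := h1
  have key : ∀ x : ι → ℤ, M.mulVec x = ε • x → ∃ a : ℚ, ∀ i, (x i : ℚ) = a * v.1 i := fun x hx => by
    obtain ⟨a, ha⟩ := hv ⟨c ∘ x, Module.End.mem_eigenspace_iff.2 (by
      funext i
      rw [Matrix.toLin'_apply, ← RingHom.map_mulVec, hx]; simp [c])⟩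
    exact ⟨a, fun i => (congrFun (congrArg Subtype.val ha) i).symm⟩
  obtain ⟨a, ha⟩ := key x hx
  obtain ⟨b, hb⟩ := key y hy
  funext i
  have : (y j * x i : ℚ) = x j * y i := by rw [ha, ha, hb, hb]; ring
  exact_mod_cast this

section
variable {ι Φ : Type} [Fintype ι] [DecidableEq ι] [Fintype Φ] [DecidableEq Φ] {R : RS ι Φ}

theorem theta_bij {F : Type*} [Field F] {d : ℕ} (M : Matrix ι ι ℤ) (h1 : M * Matrix.of R.C = (d : ℤ) • 1)
    (h2 : Matrix.of R.C * M = (d : ℤ) • 1) (hd : Function.Bijective fun x : Fˣ => x ^ d) :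
    Function.Bijective (R.theta F) := by
  have e : ∀ c, R.theta F c = RS.mx (Matrix.of R.C).transpose c := fun _ => rfl
  have e1 : ∀ c : ι → Fˣ, RS.mx ((d : ℤ) • (1 : Matrix ι ι ℤ)).transpose c = c ^ d := fun c => by
    funext i
    change RS.chi c _ = _
    rw [show ((d : ℤ) • (1 : Matrix ι ι ℤ)).transpose i = (d : ℤ) • Pi.single i 1 by
      funext l; simp [Matrix.natCast_apply, Pi.single_apply], RS.chi_smul, RS.chi_single, zpow_natCast]; rfl
  refine ⟨(injective_iff_map_eq_one _).2 fun c hc => funext fun i => hd.1 ?_, fun c => ?_⟩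
  · have := mx_mx M.transpose (Matrix.of R.C).transpose c
    rw [← e, hc, map_one, ← Matrix.transpose_mul, h2, e1] at this
    simpa using (congrFun this i).symm
  · choose b hb using fun i => hd.2 (c i)
    exact ⟨RS.mx M.transpose b, by rw [e, mx_mx, ← Matrix.transpose_mul, h1, e1]; exact funext hb⟩

theorem lin_two {w : Equiv.Perm Φ} (hw : w ∈ R.W) {v : ι → ℤ} (hv : ∀ i, 2 ∣ R.wt i v) :
    ∃ t, R.lin w v = v + (2 : ℤ) • t := by
  obtain ⟨l, rfl⟩ := R.mem_W_iff.1 hw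
  induction l with
  | nil => exact ⟨0, by simpa using R.lin_one v⟩
  | cons i l ih =>
    obtain ⟨t, ht⟩ := ih (R.wd_mem_W l)
    obtain ⟨a, ha⟩ := hv i
    refine ⟨t - (a + R.wt i t) • Pi.single i 1, ?_⟩
    rw [RS.wd_cons, RS.Aut.lin_mul (R.s_mem_Aut i) (R.wd_mem_Aut l), ht, R.lin_s, map_add, map_zsmul, ha]
    module

theorem two_dvd_B {v : ι → ℤ} (hv : ∀ i, 2 ∣ R.wt i v) (t : ι → ℤ) : 2 ∣ R.B t v := by
  rw [R.B_apply]
  exact dvd_sum fun i _ => ((hv i).mul_left _).mul_left _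

theorem four_dvd {u : Equiv.Perm Φ} (hu : u ∈ R.W) {v : ι → ℤ} (hv : ∀ i, 2 ∣ R.wt i v)
    (h : R.lin u (R.lin u v) = -v) : 4 ∣ R.B v v := by
  have h1 := RS.Aut.B_lin (R.W_le_Aut hu) v (R.lin u v)
  obtain ⟨t, ht⟩ := lin_two hu hv
  rw [h, map_neg, R.B_symm v, ht, map_add, map_zsmul, LinearMap.add_apply, LinearMap.smul_apply, smul_eq_mul] at h1
  have := two_dvd_B hv t
  omega

theorem lin_pow {w : Equiv.Perm Φ} (hw : w ∈ R.Aut) (n : ℕ) (v : ι → ℤ) :
    R.lin (w ^ n : Equiv.Perm Φ) v = ((Matrix.of fun i => R.rt (w (R.sim i))).transpose ^ n).mulVec v := by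
  induction n with
  | zero => simpa using R.lin_one v
  | succ n ih =>
    rw [pow_succ', pow_succ', RS.Aut.lin_mul hw (pow_mem hw n), ih, ← Matrix.mulVec_mulVec, RS.lin_apply]
    funext j
    simp [Matrix.mulVec, dotProduct, mul_comm]

theorem det_qM (q : ℤ) (w : Equiv.Perm Φ) :
    (qM R q w).det = (Matrix.of fun i => R.rt (w (R.sim i))).transpose.charpoly.eval q := by
  rw [Matrix.charpoly_transpose, Matrix.eval_charpoly]
  congr 1
  ext i j
  simp [qM, Matrix.intCast_apply, Pi.single_apply, eq_comm]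

end

namespace E7

local notation "hT" => tabE7_chk
local notation "RR" => tabE7_chk.rsys

theorem bij {F : Type*} [Field F] [CharP F 2] [PerfectRing F 2] : Function.Bijective ((RR).theta F) :=
  theta_bij (d := 2) (Matrix.of (lm [[4, 4, 6, 8, 6, 4, 2], [4, 7, 8, 12, 9, 6, 3], [6, 8, 12, 16, 12, 8, 4],
    [8, 12, 16, 24, 18, 12, 6], [6, 9, 12, 18, 15, 10, 5], [4, 6, 8, 12, 10, 8, 4], [2, 3, 4, 6, 5, 4, 3]]))
    (by decide +kernel) (by decide +kernel)
    ⟨fun x y e => Units.ext ((frobeniusEquiv F 2).injective (congrArg Units.val e)), fun x =>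
      ⟨Units.map (frobeniusEquiv F 2).symm.toMonoidHom x, Units.ext ((frobeniusEquiv F 2).apply_symm_apply _)⟩⟩

theorem exists_neg : ∃ m ∈ (RR).W, ∀ v, (RR).lin m v = -v := by
  refine ⟨(RR).wd (List.replicate 9 (List.finRange chevE7.rank)).flatten, (RR).wd_mem_W _, fun v => ?_⟩
  have : ∀ i, (RR).wd (List.replicate 9 (List.finRange chevE7.rank)).flatten ((RR).sim i) = (RR).neg ((RR).sim i) := fun i =>
    Fin.ext (by rw [(hT).val_wd, (hT).val_neg, (hT).val_sim]; revert i; decide +kernel)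
  rw [RS.lin_apply]
  simp only [this, RS.rt_neg, RS.rt_sim, smul_neg, sum_neg_distrib]
  exact congrArg _ (RS.eq_sum_single v).symm

theorem exists_one (a : Fin chevE7.nroots) : (RR).len a = 1 ∧ ∃ b, (RR).A a b = 1 := by
  have H : (allLt 126 fun a => band (Nat.beq (tabE7.len a) 1) (anyLt 126 fun b => ibeq (tabE7.A a b) 1)) = true := by
    decide +kernel
  simp only [allLt_iff, band_iff, anyLt_iff, ibeq_iff, Nat.beq_eq] at H
  obtain ⟨h1, b, hb, h2⟩ := H a a.2
  exact ⟨congrArg Nat.cast h1, ⟨b, hb⟩, ((hT).A_eq _ _).trans h2⟩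

theorem not_dvd {w : Equiv.Perm (Fin chevE7.nroots)} (hw : w ∈ (RR).W) : ¬ 65 ∣ (qM RR 2 w).det := by
  intro h
  have ha := (RR).W_le_Aut hw
  rw [det_qM] at h
  have hL := lin_pow ha
  set M := (Matrix.of fun i => (RR).rt (w ((RR).sim i))).transpose
  have hN : M ^ orderOf w = 1 := Matrix.ext_of_mulVec_single fun i => by
    rw [← hL, pow_orderOf_eq_one, RS.lin_one, Matrix.one_mulVec]
  obtain ⟨ε, hε, e⟩ := fac65 (orderOf_pos w) (charpoly_dvd hN) M.charpoly_monic
    (by rw [Matrix.charpoly_natDegree_eq_dim]; rfl) h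
  have e6 : ε ^ 6 = 1 := by rw [show 6 = 2 * 3 from rfl, pow_mul, hε, one_pow]
  have h1 : ∀ z, M.mulVec ((M ^ 6).mulVec z + z) = ε • ((M ^ 6).mulVec z + z) := fun z => by
    have := congrArg (Matrix.mulVec · z) (Matrix.aeval_self_charpoly M)
    rw [e, mul_comm, map_mul] at this
    simp only [map_sub, map_add, map_pow, aeval_X, aeval_C, map_one, ← Matrix.mulVec_mulVec, Matrix.add_mulVec,
      Matrix.sub_mulVec, Matrix.one_mulVec, Matrix.zero_mulVec, Algebra.algebraMap_eq_smul_one,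
      Matrix.smul_mulVec, sub_eq_zero] at this
    exact this
  have h2 : ∀ x, M.mulVec x = ε • x → ∀ n, (M ^ n).mulVec x = ε ^ n • x := fun x hx n => by
    induction n with
    | zero => simp
    | succ n ih => rw [pow_succ', ← Matrix.mulVec_mulVec, ih, Matrix.mulVec_smul, hx, smul_smul, pow_succ]
  let v0 : Fin chevE7.rank → ℤ := fun i => lm [[0, 1, 0, 0, 1, 0, 1]] (0 : Fin 1) i
  have hv0 : (∀ i, 2 ∣ (RR).wt i v0) ∧ (RR).B v0 v0 = 6 := by
    simp only [RS.wt_apply, RS.B_apply]; decide +kernel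
  have fin : ∀ t, (M ^ 6).mulVec (v0 + (2 : ℤ) • t) + (v0 + (2 : ℤ) • t) ≠ 0 := fun t ht => by
    have := four_dvd (pow_mem hw 3) (v := v0 + (2 : ℤ) • t) (fun i => by
      rw [map_add, map_zsmul]; exact (hv0.1 i).add (dvd_mul_right _ _)) (by
      rw [hL, hL, Matrix.mulVec_mulVec, ← pow_add, eq_neg_iff_add_eq_zero, ht])
    simp only [map_add, map_zsmul, LinearMap.add_apply, LinearMap.smul_apply, smul_eq_mul, hv0.2,
      (RR).B_symm v0 t] at this
    omega
  obtain ⟨m, hm, hm'⟩ := exists_neg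
  have am := (RR).W_le_Aut hm
  have a6 := pow_mem ha 6
  have hs : ∀ v, (RR).lin (m * w ^ 6 : Equiv.Perm _) v = -(M ^ 6).mulVec v := fun v => by
    rw [RS.Aut.lin_mul am a6, hm', hL]
  obtain ⟨a, h3⟩ := neg_of_invol _ (mul_mem hm (pow_mem hw 6)) rfl (Equiv.ext fun r => (RR).rt_inj (by
    have := h2 _ (h1 ((RR).rt r)) 6
    rw [e6, one_smul, Matrix.mulVec_add, add_comm, add_right_inj] at this
    rw [← RS.Aut.lin_rt (mul_mem (mul_mem am a6) (mul_mem am a6)), RS.Aut.lin_mul (mul_mem am a6) (mul_mem am a6),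
      hs, hs, Matrix.mulVec_neg, neg_neg, this]; rfl)) fun e => fin 0 (by
    rw [← neg_neg (Matrix.mulVec _ _), ← hs, e, RS.lin_one, neg_add_cancel])
  have h4 : (M ^ 6).mulVec ((RR).rt a) = (RR).rt a := neg_injective (by
    rw [← hs, RS.Aut.lin_rt (mul_mem am a6), h3, RS.rt_neg])
  have h5 : M.mulVec ((RR).rt a) = ε • (RR).rt a := by
    have := h1 ((RR).rt a)
    rw [h4, ← two_smul ℤ, Matrix.mulVec_smul, smul_comm] at this
    exact smul_right_injective _ two_ne_zero this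
  obtain ⟨hl, b, hb⟩ := exists_one a
  have hB : ∀ v, (RR).B ((RR).rt a) v = (RR).Av a v := fun v => by rw [RS.B_rt, hl, one_mul]
  obtain ⟨k, hk⟩ : 2 ∣ (RR).Av a v0 := hB _ ▸ two_dvd_B hv0.1 _
  refine fin (-k • (RR).rt b) (funext fun j => ?_)
  have h6 : (RR).Av a (v0 + (2 : ℤ) • (-k • (RR).rt b)) = 0 := by
    rw [map_add, map_zsmul, map_zsmul, hk, ← RS.A_def, hb]; simp
  generalize v0 + (2 : ℤ) • (-k • (RR).rt b) = v at h6
  have h7 := congrArg ((RR).Av a) (eig_dep e (by simp [e6]) (h1 v) h5 j)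
  have h8 := RS.Aut.B_lin a6 ((RR).rt a) v
  rw [hL, hL, h4, hB, hB, h6] at h8
  rw [map_zsmul, map_zsmul, map_add, h8, h6, ← RS.A_def, RS.A_self] at h7
  simpa using h7

theorem no65 (x : chevE7.group (ZMod 2)) : orderOf x ≠ 65 := fun hx => by
  obtain ⟨E⟩ := Bij.exists_ext (hT) (ZMod 2) bij bij
  have := (hT).finite_grp (ZMod 2)
  obtain ⟨w, hw, c, hc, e⟩ := (E.main 2).1 x (by rw [hx]; norm_num)
  have := Subgroup.orderOf_dvd_natCard _ hc
  rw [← E.ad.orderOf_tt, ← E.orderOf_eq e, hx, card_T E.q_eq ((hT).cd.W_le_Aut hw), ZMod.card, ← Int.natCast_dvd] at this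
  exact not_dvd hw this

end E7

end H14.SS
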