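import Cfsg.Agent.H16.BB5
import Cfsg.Agent.H14.BbE
import Cfsg.Agent.H10.Trace

/-! Blocks that need not be subnormal. -/

set_option autoImplicit false
set_option linter.unusedSectionVars false
open Cfsg Subgroup H10 H12 H16.BB
open scoped commutatorElement

namespace H14.Sb

variable {G : Type*} [Group G]

/-- a block of a group of characteristic `p` -/
structure B0 (p : ℕ) [Fact p.Prime] (E : Subgroup G) : Prop where
  ch : CharPIn p (⊤ : Subgroup G)
  blk : ∃ T : Sylow p G, IsBaumannBlock p (T : Subgroup G) E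

variable [Finite G] {p : ℕ} [hp : Fact p.Prime] {E F : Subgroup G}

theorem b0 (h : Bk p E) : B0 p E := ⟨h.ch, h.blk⟩

namespace B0

theorem res (h : B0 p E) : resOf p E = E := h.blk.choose_spec.1
theorem QN (h : B0 p E) : pCore p G ≤ NN(E) := H14.Bb.PE h.blk.choose_spec
theorem QE (h : B0 p E) : ⁅pCore p G, E⁆ ≤ pCoreOf p E := H14.Bb.PEQ h.blk.choose_spec

theorem W_le (h : B0 p E) : WW p E ≤ W0 p E :=
  blk_ab_le h.blk.choose_spec ((commutator_mono (ZO_le _) le_rfl).trans h.QE)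
    (right_le_NN_comm _ _) (WW_CC _ (WW_Q _))

theorem W_E (h : B0 p E) : WW p E ≤ E := h.W_le.trans ((ZO_le _).trans (pCoreOf_le _))

theorem W_nc (h : B0 p E) : ¬ WW p E ≤ CC(E) := fun hc => by
  obtain ⟨T, hT⟩ := h.blk
  have hZ := h.ch.ZO_le (isSylowIn_top T)
  rw [H10.pCoreOf_top] at hZ
  have := quad h.res (H10.isPGroup_pCore'.to_le (WW_Q E)) hc
  exact hT.2.2.2.1 (comm_eq_bot'.2 (hZ.trans this))

theorem W0_le (h : B0 p E) : W0 p E ≤ WW p E ⊔ ZZ p E :=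
  (blk_irr h.blk.choose_spec h.W_le (right_le_NN_comm _ _)).resolve_left h.W_nc

theorem irr0 (h : B0 p E) {X : Subgroup G} (hX : X ≤ W0 p E) (hn : E ≤ NN(X)) :
    X ≤ CC(E) ∨ ⁅W0 p E, E⁆ ≤ X := by
  refine (blk_irr h.blk.choose_spec hX hn).imp_right fun h1 => ?_
  refine (commutator_mono h1 le_rfl).trans (comm_sup_le (le_NN_self _) ?_ (comm_le_left hn)
    ((comm_eq_bot.2 inf_le_right).le.trans bot_le))
  exact (inf_le_left.trans (ZO_le_CC _)).trans ((CC_anti (hX.trans (ZO_le _))).trans (CC_le_NN _))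

theorem W_eq (h : B0 p E) : ⁅W0 p E, E⁆ = WW p E :=
  le_antisymm ((h.irr0 h.W_le (right_le_NN_comm _ _)).resolve_left h.W_nc)
    ((cc h.res (isPGroup_ZO _) (elab_le_CC (elab_ZO _)) (vN _)).trans
      (commutator_mono h.W_le le_rfl))

theorem irr (h : B0 p E) {X : Subgroup G} (hX : X ≤ WW p E) (hn : E ≤ NN(X)) :
    X ≤ CC(E) ∨ WW p E ≤ X := h.W_eq ▸ h.irr0 (hX.trans h.W_le) hn

theorem faith (h : B0 p E) {X : Subgroup G} (hX : X ≤ E) (hc : ⁅WW p E, X⁆ ≤ CC(E)) :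
    X ≤ pCoreOf p E := fun e he => by
  refine blk_faith h.blk.choose_spec (hX he) ((commutator_mono h.W0_le
    (zpowers_le.2 he)).trans (comm_sup_le ?_ ?_ hc ?_))
  · exact h.W_E.trans (le_NN_CC (le_NN_self _))
  · exact inf_le_right.trans (le_NN_self _)
  · exact (comm_eq_bot.2 (inf_le_right.trans (CC_anti hX))).le.trans bot_le

theorem ty (h : B0 p E) :
    (IsQuasisimple (E ⧸ pCore p E) ∧ ∃ e ∈ E, e ∉ pCoreOf p E ∧ ∃ k, e ^ p ^ k ∈ pCoreOf p E) ∨
      Sm p E (WW p E) := h.W_eq ▸ blk_type h.blk.choose_spec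

theorem ex (h : B0 p E) : pCoreOf p E = WW p E ∨ Exc p E := by
  refine (blk_exc (charPIn_top.1 h.ch) h.blk.choose_spec).imp_left fun e => ?_
  rw [← h.W_eq, ← e]
  exact h.blk.choose_spec.2.2.1.symm

theorem CN (h : B0 p E) : CC(WW p E) ≤ NN(E) :=
  h.W_eq ▸ H14.Bb.s2985 (charPIn_top.1 h.ch) _ h.blk.choose_spec

theorem WW_eq (h : B0 p E) : ⁅WW p E, E⁆ = WW p E :=
  le_antisymm (comm_le_left (right_le_NN_comm _ _)) (cc h.res (isPGroup_ZO _) (elab_le_CC (elab_ZO _)) (vN _))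

end B0

end H14.Sb
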