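import Cfsg.Agent.H22.MuC
import Cfsg.Agent.H23.SpGen

/-!
Minimal degree of the symplectic groups, part one: transvections, Eichler elements and the
closure properties of the set of centres of transvection groups inside a subgroup.
-/

set_option autoImplicit false

namespace H14

open H23 H23.Form H22 Module

/-- a symplectic space -/
structure SC (F V : Type*) [Field F] [AddCommGroup V] [Module F V] where
  Φ : Form (RingHom.id F) V
  hΦ : Φ.Nondeg
  hA : ∀ v, Φ.B v v = 0
  hQ : ∀ v, Φ.Q v = 0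

namespace SC

variable {F V : Type*} [Field F] [AddCommGroup V] [Module F V] (C : SC F V)

/-- the bilinear form -/
def b : V →ₗ[F] V →ₗ[F] F := C.Φ.B

theorem b_def (x y : V) : C.b x y = C.Φ.B x y := rfl

@[simp] theorem b_self (v : V) : C.b v v = 0 := C.hA v

theorem anti (x y : V) : C.b y x = - C.b x y := by
  have := C.b_self (x + y)
  simp only [map_add, LinearMap.add_apply, b_self] at this
  linear_combination this

variable {C} in
theorem sym {x y : V} (h : C.b x y = 0) : C.b y x = 0 := by rw [C.anti, h, neg_zero]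

variable {C} in
theorem sym_ne {x y : V} (h : C.b x y ≠ 0) : C.b y x ≠ 0 := fun h' => h (sym h')

@[simp] theorem O_b (g : C.Φ.O) (x y : V) : C.b (g.1 x) (g.1 y) = C.b x y := g.2.1 x y

theorem ext' {g g' : C.Φ.O} (h : ∀ v, g.1 v = g'.1 v) : g = g' :=
  Subtype.ext (LinearEquiv.ext h)

@[simp] theorem mul_app (g g' : C.Φ.O) (v : V) : (g * g').1 v = g.1 (g'.1 v) := rfl
@[simp] theorem one_app (v : V) : (1 : C.Φ.O).1 v = v := rfl
@[simp] theorem app_inv (g : C.Φ.O) (v : V) : g.1 ((g⁻¹).1 v) = v := by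
  rw [← mul_app, mul_inv_cancel, one_app]
@[simp] theorem inv_app (g : C.Φ.O) (v : V) : (g⁻¹).1 (g.1 v) = v := by
  rw [← mul_app, inv_mul_cancel, one_app]

theorem b_inv (g : C.Φ.O) (x y : V) : C.b x ((g⁻¹).1 y) = C.b (g.1 x) y := by
  rw [← C.O_b g, app_inv]

/-- an isometry from a linear map with inverse -/
def mk' (f f' : V →ₗ[F] V) (h1 : ∀ v, f (f' v) = v) (h2 : ∀ v, f' (f v) = v)
    (h : ∀ x y, C.b (f x) (f y) = C.b x y) : C.Φ.O :=
  ⟨LinearEquiv.ofLinearMap f f' (LinearMap.ext h1) (LinearMap.ext h2), h,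
    fun x => by rw [C.hQ, C.hQ]⟩

/-- the linear map of a transvection -/
def tl (u : V) (s : F) : V →ₗ[F] V := LinearMap.id + (s • C.b u).smulRight u

theorem tl_apply (u : V) (s : F) (v : V) : C.tl u s v = v + (s * C.b u v) • u := by
  simp [tl]

/-- the transvection -/
def t (u : V) (s : F) : C.Φ.O :=
  C.mk' (C.tl u s) (C.tl u (-s)) (fun v => by simp [tl_apply]) (fun v => by simp [tl_apply])
    (fun x y => by simp [tl_apply, C.anti u x]; ring)

theorem t_apply (u : V) (s : F) (v : V) : (C.t u s).1 v = v + (s * C.b u v) • u :=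
  C.tl_apply u s v

theorem t_perp {u v : V} (s : F) (h : C.b u v = 0) : (C.t u s).1 v = v := by
  simp [t_apply, h]

theorem t_add (u : V) (s s' : F) : C.t u s * C.t u s' = C.t u (s + s') :=
  C.ext' fun v => by simp [t_apply]; module

@[simp] theorem t_zero (u : V) : C.t u 0 = 1 := C.ext' fun v => by simp [t_apply]

@[simp] theorem zero_t (s : F) : C.t 0 s = 1 := C.ext' fun v => by simp [t_apply]

theorem t_inv (u : V) (s : F) : (C.t u s)⁻¹ = C.t u (-s) :=
  inv_eq_of_mul_eq_one_right (by rw [t_add, add_neg_cancel, t_zero])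

theorem t_smul (a : F) (u : V) (s : F) : C.t (a • u) s = C.t u (a ^ 2 * s) :=
  C.ext' fun v => by simp [t_apply]; module

theorem mul_t (g : C.Φ.O) (u : V) (s : F) : g * C.t u s = C.t (g.1 u) s * g :=
  C.ext' fun v => by simp [t_apply]

theorem conj_t (g : C.Φ.O) (u : V) (s : F) : g * C.t u s * g⁻¹ = C.t (g.1 u) s := by
  rw [mul_t, mul_inv_cancel_right]

/-- the Eichler element -/
def e (c w : V) (s : F) : C.Φ.O := C.t (c + w) 1 * C.t w (-1) * C.t c (s - 1)

theorem e_apply {c w : V} (h : C.b c w = 0) (s : F) (v : V) :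
    (C.e c w s).1 v = v + (C.b w v + s * C.b c v) • c + C.b c v • w := by
  simp [e, t_apply, h, sym h]; module

theorem mul_e (g : C.Φ.O) (c w : V) (s : F) : g * C.e c w s = C.e (g.1 c) (g.1 w) s * g := by
  rw [e, e, ← mul_assoc, ← mul_assoc, C.mul_t g, mul_assoc _ g, C.mul_t g, ← mul_assoc,
    mul_assoc _ g, C.mul_t g, ← mul_assoc, map_add]

theorem conj_e (g : C.Φ.O) (c w : V) (s : F) :
    g * C.e c w s * g⁻¹ = C.e (g.1 c) (g.1 w) s := by
  rw [mul_e, mul_inv_cancel_right]

theorem e_mul {c w w' : V} (h : C.b c w = 0) (h' : C.b c w' = 0) (s s' : F) :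
    C.e c w s * C.e c w' s' = C.e c (w + w') (s + s' + C.b w w') :=
  C.ext' fun v => by
    have h2 : C.b c (w + w') = 0 := by simp [h, h']
    simp [C.e_apply h, C.e_apply h', C.e_apply h2, h', sym h]; module

theorem e_zero (c : V) (s : F) : C.e c 0 s = C.t c s :=
  C.ext' fun v => by rw [C.e_apply (by simp), t_apply]; simp

theorem e_inv {c w : V} (h : C.b c w = 0) (s : F) : (C.e c w s)⁻¹ = C.e c (-w) (-s) :=
  inv_eq_of_mul_eq_one_right (by rw [C.e_mul h (by simp [h])]; simp [e_zero])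

theorem e_add_smul {c w : V} (h : C.b c w = 0) (a s : F) :
    C.e c (w + a • c) s = C.e c w (s + 2 * a) :=
  C.ext' fun v => by
    rw [C.e_apply (by simp [h]), C.e_apply h]; simp; module

theorem e_smul {c w : V} (h : C.b c w = 0) (a s : F) :
    C.e (a • c) w s = C.e c (a • w) (a ^ 2 * s) :=
  C.ext' fun v => by
    rw [C.e_apply (by simp [h]), C.e_apply (by simp [h])]; simp; module

theorem t_mul_e {c w : V} (h : C.b c w = 0) (r s : F) : C.t c r * C.e c w s = C.e c w (r + s) := by
  rw [← e_zero, C.e_mul (by simp) h]; simp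

theorem e_mul_t {c w : V} (h : C.b c w = 0) (r s : F) : C.e c w s * C.t c r = C.e c w (s + r) := by
  rw [← e_zero, C.e_mul h (by simp)]; simp

theorem e_self {c w : V} (h : C.b c w = 0) (s : F) : (C.e c w s).1 c = c := by
  simp [C.e_apply h, sym h]

theorem e_perp {c w v : V} (h : C.b c w = 0) (s : F) (hv : C.b c v = 0) :
    (C.e c w s).1 v = v + C.b w v • c := by
  simp [C.e_apply h, hv]

theorem e_swap {c w : V} (h : C.b c w = 0) (a r s : F) :
    C.e c (a • w) r * C.t w s = C.e w (a • c) s * C.t c r :=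
  C.ext' fun v => by
    simp only [mul_app]
    rw [C.e_apply (by simp [h]), C.e_apply (by simp [sym h])]
    simp [t_apply, h, sym h]; module

/-- the linear map of a torus element -/
def torl (c c' : V) (a a' : F) : V →ₗ[F] V :=
  LinearMap.id + ((1 - a) • C.b c').smulRight c + ((a' - 1) • C.b c).smulRight c'

theorem torl_apply (c c' : V) (a a' : F) (v : V) :
    C.torl c c' a a' v = v + ((1 - a) * C.b c' v) • c + ((a' - 1) * C.b c v) • c' := by
  simp [torl]

/-- the torus element `c ↦ a c`, `c' ↦ a⁻¹ c'` -/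
def tor {c c' : V} (h : C.b c c' = 1) {a : F} (ha : a ≠ 0) : C.Φ.O :=
  C.mk' (C.torl c c' a a⁻¹) (C.torl c c' a⁻¹ a)
    (fun v => by
      have h' : C.b c' c = -1 := by rw [C.anti, h]
      simp only [torl_apply, map_add, map_smul, h, h', b_self, smul_eq_mul]
      match_scalars <;> field_simp <;> ring)
    (fun v => by
      have h' : C.b c' c = -1 := by rw [C.anti, h]
      simp only [torl_apply, map_add, map_smul, h, h', b_self, smul_eq_mul]
      match_scalars <;> field_simp <;> ring)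
    (fun x y => by
      have h' : C.b c' c = -1 := by rw [C.anti, h]
      simp only [torl_apply, map_add, map_smul, h, h', b_self, smul_eq_mul, LinearMap.add_apply,
        LinearMap.smul_apply, C.anti c x, C.anti c' x]
      field_simp
      ring)

theorem tor_apply {c c' : V} (h : C.b c c' = 1) {a : F} (ha : a ≠ 0) (v : V) :
    (C.tor h ha).1 v = v + ((1 - a) * C.b c' v) • c + ((a⁻¹ - 1) * C.b c v) • c' :=
  C.torl_apply _ _ _ _ v

theorem tor_left {c c' : V} (h : C.b c c' = 1) {a : F} (ha : a ≠ 0) :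
    (C.tor h ha).1 c = a • c := by
  rw [tor_apply, C.anti, h]; simp; module

theorem tor_perp {c c' v : V} (h : C.b c c' = 1) {a : F} (ha : a ≠ 0) (h1 : C.b c v = 0)
    (h2 : C.b c' v = 0) : (C.tor h ha).1 v = v := by
  rw [tor_apply, h1, h2]; simp

theorem tor_comm {c c' : V} (h : C.b c c' = 1) {a : F} (ha : a ≠ 0) {g : C.Φ.O}
    (h1 : g.1 c = c) (h2 : g.1 c' = c') : C.tor h ha * g = g * C.tor h ha :=
  C.ext' fun v => by
    have e1 : C.b c (g.1 v) = C.b c v := by conv_lhs => rw [← h1, O_b]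
    have e2 : C.b c' (g.1 v) = C.b c' v := by conv_lhs => rw [← h2, O_b]
    simp [tor_apply, e1, e2, h1, h2]

/-! ### centres of transvection groups -/

/-- the full transvection group with centre `c` lies in `H` -/
def TA (H : Subgroup C.Φ.O) (c : V) : Prop := ∀ s, C.t c s ∈ H

variable {C} {H : Subgroup C.Φ.O}

theorem TA.zero : C.TA H 0 := fun s => by rw [zero_t]; exact one_mem _

theorem TA.smul {c : V} (h : C.TA H c) (a : F) : C.TA H (a • c) := fun s => by
  rw [t_smul]; exact h _

theorem TA.of_smul {c : V} {a : F} (h : C.TA H (a • c)) (ha : a ≠ 0) : C.TA H c := by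
  simpa [smul_smul, ha] using h.smul a⁻¹

theorem TA.conj {c : V} (h : C.TA H c) {g : C.Φ.O} (hg : g ∈ H) : C.TA H (g.1 c) := fun s => by
  rw [← conj_t]; exact mul_mem (mul_mem hg (h s)) (inv_mem hg)

theorem TA.add_smul {c y : V} (h : C.TA H c) (h' : C.TA H y) (hb : C.b c y ≠ 0) (a : F) :
    C.TA H (y + a • c) := by
  have := h'.conj (h (a / C.b c y))
  rwa [t_apply, div_mul_cancel₀ _ hb] at this

theorem TA.comb {c y : V} (h : C.TA H c) (h' : C.TA H y) (hb : C.b c y ≠ 0) (α β : F) :
    C.TA H (α • c + β • y) := by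
  by_cases hβ : β = 0
  · simpa [hβ] using h.smul α
  · have := (h.add_smul h' hb (α / β)).smul β
    rwa [smul_add, smul_smul, mul_div_cancel₀ _ hβ, add_comm] at this

theorem TA.add {c y : V} (h : C.TA H c) (h' : C.TA H y) (hb : C.b c y ≠ 0) : C.TA H (c + y) := by
  simpa using h.comb h' hb 1 1

theorem TA.sub {c y : V} (h : C.TA H c) (h' : C.TA H y) (hb : C.b c y ≠ 0) : C.TA H (c - y) := by
  simpa [sub_eq_add_neg] using h.comb h' hb 1 (-1)

theorem TA.three {u v : V} (hb : C.b u v = 0) (h1 : C.TA H u) (h2 : C.TA H v)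
    (h3 : C.TA H (u + v)) (α β : F) : C.TA H (α • u + β • v) := fun s => by
  have : C.t (α • u + β • v) s =
      C.t u (s * (α ^ 2 - α * β)) * C.t v (s * (β ^ 2 - α * β)) * C.t (u + v) (s * (α * β)) :=
    C.ext' fun x => by simp [t_apply, hb, sym hb]; module
  rw [this]
  exact mul_mem (mul_mem (h1 _) (h2 _)) (h3 _)

theorem TA.of_line {y c : V} (hb : C.b y c = 0) {l : F} (hl0 : l ≠ 0) (hl1 : l ≠ 1)
    (h0 : C.TA H y) (h1 : C.TA H (y + c)) (h2 : C.TA H (y + l • c)) : C.TA H c := by
  have h3 : C.TA H ((l - 1) • y + (y + l • c)) := by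
    have := h1.smul l
    convert this using 1
    module
  have h4 := TA.three (by simp [hb]) (h0.smul (l - 1)) h2 h3 (-(l - 1)⁻¹) 1
  have hl : l - 1 ≠ 0 := sub_ne_zero.2 hl1
  refine TA.of_smul (a := l) ?_ hl0
  convert h4 using 1
  rw [smul_smul, neg_mul, inv_mul_cancel₀ hl]
  module

theorem eq_top_of_TA [FiniteDimensional F V] (h : ∀ c, C.TA H c) : H = ⊤ := by
  rw [eq_top_iff]
  intro g _
  have h1 : Subgroup.closure C.Φ.transvections ≤ H.map C.Φ.O.subtype := by
    rw [Subgroup.closure_le]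
    rintro k ⟨hk, d, a, -, hd⟩
    refine ⟨C.t d a, h d a, LinearEquiv.ext fun x => ?_⟩
    rw [hd, qrefl_apply]
    exact C.t_apply d a x
  rw [C.hΦ.closure_transvections_alt C.hA C.hQ] at h1
  obtain ⟨k, hk, e⟩ := h1 g.2
  rwa [← (Subtype.ext e : k = g)]

end SC

end H14
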