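import Cfsg.Agent.H14.SpA

/-!
Minimal degree of the symplectic groups, part two: counting orbits of the unipotent radical of a
point stabiliser.
-/

set_option autoImplicit false

namespace H14

open H23 H23.Form H22 Module

/-- a non-trivial additive character -/
noncomputable def ψF (F : Type*) [Field F] [Finite F] : AddChar F ℂ :=
  (exists_addChar_ne (F := F)).choose

theorem hψF (F : Type*) [Field F] [Finite F] : ∃ a, ψF F a ≠ 1 :=
  (exists_addChar_ne (F := F)).choose_spec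

theorem sigma_bound {F β : Type*} [Field F] [Fintype F] (hq : 3 ≤ Fintype.card F) (T : Finset β)
    (Ef : β → AddSubgroup F) {ε : ℕ} (hc : ∀ E ∈ T, Nat.card (Ef E) = ε) {t : F} (ht : t ≠ 0)
    (hcov : ∀ a : F, a ≠ 0 → ∃ E ∈ T, a ^ 2 * t ∈ Ef E) :
    Fintype.card F + 3 ≤ 2 * (T.card * ε) ∧ ((2 : F) = 0 → Fintype.card F ≤ T.card * ε ∧
      (ε ≠ Fintype.card F → Fintype.card F + 2 ≤ T.card * ε)) := by
  classical
  set K : Set F := (fun a : F => a ^ 2 * t) '' {0}ᶜ with hK
  obtain ⟨E0, hE0, -⟩ := hcov 1 one_ne_zero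
  have hε : 0 < ε := hc E0 hE0 ▸ Nat.card_pos
  have hd : ε ∣ Fintype.card F := by
    rw [← hc E0 hE0, ← Nat.card_eq_fintype_card]; exact AddSubgroup.card_addSubgroup_dvd_card _
  have hk : 0 < T.card := Finset.card_pos.2 ⟨E0, hE0⟩
  have h1 := ncard_le_mul_of_cover (Set.toFinite K) T (fun E v => v ∈ Ef E) 1 (ε - 1) (by
    rintro _ ⟨a, ha, rfl⟩
    exact (Set.ncard_pos (Set.toFinite _)).2 (hcov a ha)) (by
    intro E hE
    rw [← hc E hE, ← SetLike.coe_sort_coe, Nat.card_coe_set_eq,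
      ← Set.ncard_sdiff_singleton_of_mem (Ef E).zero_mem]
    refine Set.ncard_le_ncard ?_ (Set.toFinite _)
    rintro _ ⟨⟨a, ha, rfl⟩, h⟩
    exact ⟨h, mul_ne_zero (pow_ne_zero _ ha) ht⟩)
  have hc0 : ({0}ᶜ : Set F).ncard = Fintype.card F - 1 := by
    rw [Set.ncard_compl, Set.ncard_singleton, Nat.card_eq_fintype_card]
  have h2 : Fintype.card F - 1 ≤ K.ncard * 2 := by
    have := ncard_le_mul_of_cover (Set.toFinite ({0}ᶜ : Set F)) (Set.toFinite K).toFinset
      (fun k a => a ^ 2 * t = k) 1 2 (by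
        intro a ha
        exact (Set.ncard_pos (Set.toFinite _)).2 ⟨_, (Set.toFinite K).mem_toFinset.2 ⟨a, ha, rfl⟩, rfl⟩) (by
        intro k hk
        obtain ⟨a, -, rfl⟩ := (Set.toFinite K).mem_toFinset.1 hk
        refine (Set.ncard_le_ncard (t := {a, -a}) ?_ (Set.toFinite _)).trans 
          ((Set.ncard_insert_le _ _).trans (by simp))
        rintro v ⟨-, hv⟩
        exact sq_eq_sq_iff_eq_or_eq_neg.1 (mul_right_cancel₀ ht hv))
    rwa [hc0, one_mul, ← Set.ncard_eq_toFinset_card] at this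
  have key : Fintype.card F < 2 * ε → ε = Fintype.card F := by
    intro h
    obtain ⟨j, hj⟩ := hd
    have : j = 1 := by
      rcases j with _ | _ | j
      · omega
      · rfl
      · nlinarith
    rw [hj, this, mul_one]
  obtain ⟨ε', rfl⟩ : ∃ ε', ε = ε' + 1 := ⟨ε - 1, by omega⟩
  rw [one_mul, Nat.add_sub_cancel] at h1
  refine ⟨?_, fun h2' => ?_⟩
  · rcases Nat.lt_or_ge T.card 2 with h | h
    · have : T.card = 1 := by omega
      rw [this] at h1 ⊢
      have := key (by omega)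
      omega
    · rw [mul_add]; omega
  · have h3 : K.ncard = Fintype.card F - 1 := by
      rw [hK, Set.ncard_image_of_injective _ fun a a' h => ?_, hc0]
      rcases sq_eq_sq_iff_eq_or_eq_neg.1 (mul_right_cancel₀ ht h) with h | h
      · exact h
      · linear_combination h - a' * h2'
    refine ⟨by rw [mul_add]; omega, fun hne => ?_⟩
    rcases Nat.lt_or_ge T.card 3 with h | h
    · refine absurd (key ?_) hne
      have : T.card = 1 ∨ T.card = 2 := by omega
      rcases this with h | h <;> rw [h] at h1 <;> omega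
    · rw [mul_add]; omega

namespace SC

variable {F V : Type*} [Field F] [AddCommGroup V] [Module F V] (C : SC F V)
  {X : Type*} [MulAction C.Φ.O X]

/-- parameters of transvections with centre `c` fixing `x` -/
def Z (c : V) (x : X) : AddSubgroup F where
  carrier := {s | C.t c s • x = x}
  zero_mem' := by simp
  add_mem' {a b} ha hb := by
    simp only [Set.mem_ofPred_eq] at *
    rw [← t_add, mul_smul, hb, ha]
  neg_mem' {a} ha := by
    simp only [Set.mem_ofPred_eq] at *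
    rw [← t_inv, inv_smul_eq_iff, ha]

/-- vectors of Eichler elements with centre `c` fixing `x` -/
def D (c : V) (x : X) : AddSubgroup V where
  carrier := {w | C.b c w = 0 ∧ ∃ s, C.e c w s • x = x}
  zero_mem' := ⟨by simp, 0, by simp [e_zero]⟩
  add_mem' := by
    rintro w w' ⟨h, s, hs⟩ ⟨h', s', hs'⟩
    exact ⟨by simp [h, h'], _, by rw [← C.e_mul h h', mul_smul, hs', hs]⟩
  neg_mem' := by
    rintro w ⟨h, s, hs⟩
    exact ⟨by simp [h], _, by rw [← C.e_inv h, inv_smul_eq_iff, hs]⟩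

variable {C}

theorem mem_Z {c : V} {x : X} {s : F} : s ∈ C.Z c x ↔ C.t c s • x = x := Iff.rfl

theorem mem_D {c w : V} {x : X} : w ∈ C.D c x ↔ C.b c w = 0 ∧ ∃ s, C.e c w s • x = x := Iff.rfl

theorem smul_mem_D (c : V) (x : X) (a : F) : a • c ∈ C.D c x :=
  ⟨by simp, -(2 * a), by
    rw [← zero_add (a • c), C.e_add_smul (by simp), neg_add_cancel, e_zero]; simp⟩

theorem conj_fix {g k : C.Φ.O} {x : X} : (g * k * g⁻¹) • g • x = g • x ↔ k • x = x := by
  rw [mul_smul, inv_smul_smul, mul_smul, smul_left_cancel_iff]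

theorem mem_Z_smul {g : C.Φ.O} {c : V} {a : F} (hg : g.1 c = a • c) {x : X} {s : F} :
    a ^ 2 * s ∈ C.Z c (g • x) ↔ s ∈ C.Z c x := by
  rw [mem_Z, mem_Z, ← t_smul, ← hg, ← conj_t, conj_fix]

theorem inv_of_smul {g : C.Φ.O} {c : V} {a : F} (ha : a ≠ 0) (hg : g.1 c = a • c) :
    (g⁻¹).1 c = a⁻¹ • c := by
  have := congrArg (g⁻¹).1 hg
  rw [inv_app, map_smul] at this
  conv_rhs => rw [this]
  simp [smul_smul, ha]

theorem Z_congr {g : C.Φ.O} {c : V} {a : F} (ha : a ≠ 0) (hg : g.1 c = a • c) {x y : X}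
    (h : C.Z c y = C.Z c x) : C.Z c (g • y) = C.Z c (g • x) := by
  ext s
  have : s = a ^ 2 * (s / a ^ 2) := by field_simp
  rw [this, mem_Z_smul hg, mem_Z_smul hg, h]

theorem Z_smul_eq {g : C.Φ.O} {c : V} {a : F} (ha : a ^ 2 = 1) (hg : g.1 c = a • c) (x : X) :
    C.Z c (g • x) = C.Z c x := by
  ext s
  rw [← mem_Z_smul hg (x := x), ha, one_mul]

theorem mem_D_smul {g : C.Φ.O} {c : V} {a : F} (ha : a ≠ 0) (hg : g.1 c = a • c) {x : X} {u : V}
    (hu : u ∈ C.D c x) : a • g.1 u ∈ C.D c (g • x) := by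
  obtain ⟨h, s, hs⟩ := hu
  have h1 : C.b c (g.1 u) = 0 := by
    have := C.O_b g c u
    rw [hg, h] at this
    simpa [ha] using this
  refine ⟨by simp [h1], a ^ 2 * s, ?_⟩
  rwa [← C.e_smul h1, ← hg, ← conj_e, conj_fix]

theorem card_Z_smul [Finite F] {g : C.Φ.O} {c : V} {a : F} (ha : a ≠ 0) (hg : g.1 c = a • c)
    (x : X) : Nat.card (C.Z c (g • x)) = Nat.card (C.Z c x) := by
  refine (Nat.card_congr (Equiv.ofBijective
    (fun s : C.Z c x => (⟨a ^ 2 * s, (mem_Z_smul hg).2 s.2⟩ : C.Z c (g • x))) ⟨?_, ?_⟩)).symm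
  · intro s s' h
    exact Subtype.ext (mul_left_cancel₀ (pow_ne_zero 2 ha) (congrArg Subtype.val h))
  · rintro ⟨s, hs⟩
    have : s = a ^ 2 * (s / a ^ 2) := by field_simp
    exact ⟨⟨s / a ^ 2, by rwa [← mem_Z_smul hg, ← this]⟩, Subtype.ext this.symm⟩

theorem card_D_le [Finite V] {g : C.Φ.O} {c : V} {a : F} (ha : a ≠ 0) (hg : g.1 c = a • c)
    (x : X) : Nat.card (C.D c x) ≤ Nat.card (C.D c (g • x)) :=
  Nat.card_le_card_of_injective
    (fun u : C.D c x => (⟨a • g.1 u, mem_D_smul ha hg u.2⟩ : C.D c (g • x))) fun u u' h =>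
      Subtype.ext (g.1.injective (smul_right_injective V ha (congrArg Subtype.val h)))

theorem card_D_smul [Finite V] {g : C.Φ.O} {c : V} {a : F} (ha : a ≠ 0) (hg : g.1 c = a • c)
    (x : X) : Nat.card (C.D c (g • x)) = Nat.card (C.D c x) :=
  le_antisymm (by simpa using card_D_le (inv_ne_zero ha) (inv_of_smul ha hg) (g • x))
    (card_D_le ha hg x)

variable (C) in
/-- orbit under the unipotent radical -/
def orb (c : V) (x : X) : Set X := {y | ∃ w s, C.b c w = 0 ∧ C.e c w s • x = y}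

theorem self_mem_orb (c : V) (x : X) : x ∈ C.orb c x := ⟨0, 0, by simp, by simp [e_zero]⟩

theorem orb_trans {c : V} {x y z : X} (h : y ∈ C.orb c x) (h' : z ∈ C.orb c y) :
    z ∈ C.orb c x := by
  obtain ⟨w, s, hw, rfl⟩ := h
  obtain ⟨w', s', hw', rfl⟩ := h'
  exact ⟨w' + w, _, by simp [hw, hw'], by rw [← mul_smul, C.e_mul hw' hw]⟩

theorem orb_symm {c : V} {x y : X} (h : y ∈ C.orb c x) : x ∈ C.orb c y := by
  obtain ⟨w, s, hw, rfl⟩ := h
  exact ⟨-w, _, by simp [hw], by rw [← C.e_inv hw, inv_smul_smul]⟩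

variable [Fintype F] [FiniteDimensional F V]

variable (C) in
/-- annihilator of `D` -/
noncomputable def A (c : V) (x : X) : AddSubgroup V := pp (ψF F) (bA C.Φ) (C.D c x)

variable (C) in
/-- annihilator of `Z` -/
noncomputable def E (c : V) (x : X) : AddSubgroup F := pp (ψF F) AddMonoidHom.mul (C.Z c x)

omit [FiniteDimensional F V] in
theorem mem_A {c v : V} {x : X} : v ∈ C.A c x ↔ ∀ u ∈ C.D c x, ψF F (C.b v u) = 1 := Iff.rfl

omit [FiniteDimensional F V] in
theorem mem_A_of_perp {c v : V} {x : X} (h : ∀ u ∈ C.D c x, C.b v u = 0) : v ∈ C.A c x :=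
  mem_pp_of_perp h

omit [FiniteDimensional F V] in
theorem smul_mem_A (c : V) (x : X) (a : F) : a • c ∈ C.A c x :=
  mem_A_of_perp fun u hu => by simp [hu.1]

omit [FiniteDimensional F V] in
theorem b_of_mem_A {c v u : V} {x : X} (hv : v ∈ C.A c x) (hu : ∀ a : F, a • u ∈ C.D c x) :
    C.b v u = 0 := B_eq_zero_of_mem_pp (hψF F) hv hu

omit [FiniteDimensional F V] in
theorem perp_of_mem_A {c v : V} {x : X} (hv : v ∈ C.A c x) : C.b c v = 0 :=
  sym (b_of_mem_A hv (smul_mem_D c x))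

omit [FiniteDimensional F V] in
theorem b_of_mem_D {c v u : V} {x : X} (hu : u ∈ C.D c x) (hv : ∀ a : F, a • v ∈ C.A c x) :
    C.b v u = 0 :=
  eq_zero_of_addChar (hψF F) fun a => by simpa using mem_A.1 (hv a) u hu

theorem mem_D_of_A {c u : V} {x : X} (h : ∀ v ∈ C.A c x, ψF F (C.b v u) = 1) : u ∈ C.D c x := by
  have := finite_of_fd F V
  rw [← pp_pp (ψF F) (bA C.Φ) (bA_nondeg' C.hΦ (hψF F)) (bA_nondeg C.hΦ (hψF F)) (C.D c x)]
  exact h

theorem card_V : Nat.card V = Fintype.card F ^ finrank F V := by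
  rw [Module.natCard_eq_pow_finrank (K := F), Nat.card_eq_fintype_card]

theorem card_A (c : V) (x : X) :
    Nat.card (C.A c x) * Nat.card (C.D c x) = Fintype.card F ^ finrank F V := by
  have := finite_of_fd F V
  rw [← card_V]
  exact card_pp _ _ (bA_nondeg' C.hΦ (hψF F)) _

omit [FiniteDimensional F V] in
theorem card_E (c : V) (x : X) : Nat.card (C.E c x) * Nat.card (C.Z c x) = Fintype.card F := by
  rw [← Nat.card_eq_fintype_card]
  exact card_pp _ _ (fun w h => eq_zero_of_addChar (hψF F) h) _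

omit [FiniteDimensional F V] in
theorem mem_A_smul {g : C.Φ.O} {c : V} {a : F} (ha : a ≠ 0) (hg : g.1 c = a • c) {x : X} {v : V}
    (hv : v ∈ C.A c x) : a⁻¹ • g.1 v ∈ C.A c (g • x) := by
  intro u hu
  have h1 := mem_D_smul (inv_ne_zero ha) (inv_of_smul ha hg) hu
  rw [inv_smul_smul] at h1
  have := mem_A.1 hv _ h1
  rw [map_smul, b_inv] at this
  simpa [← b_def] using this

omit [FiniteDimensional F V] in
theorem mem_E_smul {g : C.Φ.O} {c : V} {a : F} (ha : a ≠ 0) (hg : g.1 c = a • c) {x : X} {r : F}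
    (hr : r ∈ C.E c x) : a⁻¹ ^ 2 * r ∈ C.E c (g • x) := by
  intro s hs
  have h1 : s = a ^ 2 * (s / a ^ 2) := by field_simp
  rw [h1, mem_Z_smul hg] at hs
  have := hr _ hs
  simp only [AddMonoidHom.mul_apply] at this ⊢
  convert this using 2
  field_simp

omit [FiniteDimensional F V] in
theorem exists_mem_E {c : V} {x : X} (h : ¬ ∀ s, C.t c s • x = x) : ∃ r ∈ C.E c x, r ≠ 0 := by
  by_contra! h1
  have h2 : C.E c x = ⊥ := eq_bot_iff.2 h1
  have h3 := card_E (C := C) c x
  rw [h2, AddSubgroup.card_bot, one_mul, ← Nat.card_eq_fintype_card] at h3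
  have := AddSubgroup.eq_top_of_card_eq _ h3
  exact h fun s => mem_Z.1 (this ▸ AddSubgroup.mem_top s)

theorem ncard_perp {c : V} (h0 : c ≠ 0) :
    {w | C.b c w = 0}.ncard * Fintype.card F = Fintype.card F ^ finrank F V := by
  have h1 := C.hΦ.finrank_perp_add (F ∙ c)
  rw [finrank_span_singleton h0] at h1
  rw [← h1, pow_succ, ← ncard_submodule]
  congr 2
  ext w
  exact (C.Φ.mem_perp_span_singleton).symm

theorem card_orb [Finite X] {c : V} (h0 : c ≠ 0) (x : X) :
    Nat.card (C.A c x) ≤ (C.orb c x).ncard * Nat.card (C.Z c x) := by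
  have := finite_of_fd F V
  have h1 : ∀ y ∈ C.orb c x, ∃ w s, C.b c w = 0 ∧ C.e c w s • x = y := fun _ h => h
  choose! w s hw hs using h1
  have h2 : ∀ d ∈ C.D c x, ∃ s, C.e c d s • x = x := fun _ h => h.2
  choose! κ hκ using h2
  have h3 : ({u | C.b c u = 0} ×ˢ (Set.univ : Set F)).ncard ≤
      (C.orb c x ×ˢ ((C.D c x : Set V) ×ˢ (C.Z c x : Set F))).ncard := by
    refine Set.ncard_le_ncard_of_injOn (fun p => (C.e c p.1 p.2 • x, p.1 - w (C.e c p.1 p.2 • x),
      p.2 - s (C.e c p.1 p.2 • x) - C.b (w (C.e c p.1 p.2 • x)) p.1 -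
        κ (p.1 - w (C.e c p.1 p.2 • x)))) ?_ ?_ (Set.toFinite _)
    · rintro ⟨u, r⟩ ⟨hu, -⟩
      have hy : C.e c u r • x ∈ C.orb c x := ⟨u, r, hu, rfl⟩
      set y := C.e c u r • x with hy'
      have h4 : C.e c (u - w y) (r - s y - C.b (w y) u) • x = x := by
        have h7 : C.e c (u - w y) (r - s y - C.b (w y) u) = (C.e c (w y) (s y))⁻¹ * C.e c u r := by
          rw [C.e_inv (hw y hy), C.e_mul (by simp [hw y hy]) hu]
          congr 1
          · abel
          · simp; ring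
        rw [h7, mul_smul, ← hy', inv_smul_eq_iff, hs y hy]
      have h5 : u - w y ∈ C.D c x := ⟨by simp [hu, hw y hy, show C.b c u = 0 from hu], _, h4⟩
      refine ⟨hy, h5, ?_⟩
      have h6 := hκ _ h5
      rw [eq_comm, ← inv_smul_eq_iff, C.e_inv h5.1] at h6
      have h7 : C.t c (r - s y - C.b (w y) u - κ (u - w y)) =
          C.e c (-(u - w y)) (-κ (u - w y)) * C.e c (u - w y) (r - s y - C.b (w y) u) := by
        rw [C.e_mul (by rw [map_neg, h5.1, neg_zero]) h5.1, neg_add_cancel, e_zero, map_neg,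
          LinearMap.neg_apply, b_self]
        congr 1
        ring
      change C.t c _ • x = x
      rw [h7, mul_smul, h4, h6]
    · rintro ⟨u, r⟩ - ⟨u', r'⟩ - h
      simp only [Prod.mk.injEq] at h
      obtain ⟨e1, e2, e3⟩ := h
      rw [e1] at e2 e3
      have e4 : u = u' := sub_left_injective e2
      subst e4
      exact Prod.ext rfl (by linear_combination e3)
  rw [Set.ncard_prod, Set.ncard_prod, Set.ncard_prod, Set.ncard_univ, Nat.card_eq_fintype_card,
    ncard_perp (C := C) h0, ← card_A (C := C) c x, ← Nat.card_coe_set_eq (C.D c x : Set V),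
    ← Nat.card_coe_set_eq (C.Z c x : Set F)] at h3
  refine Nat.le_of_mul_le_mul_right (h3.trans_eq ?_) (Nat.card_pos (α := C.D c x))
  simp only [SetLike.coe_sort_coe]
  ring

end SC

end H14
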