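import Cfsg.Agent.H14.SpB

/-!
Minimal degree of the symplectic groups, part three: the counting inequality and the two types of
orbits.
-/

set_option autoImplicit false

namespace H14

open H23 H23.Form H22 Module

/-- the numerical hypotheses -/
structure Sm (F V X : Type*) [Field F] [Fintype F] [AddCommGroup V] [Module F V] : Prop where
  hq : 3 ≤ Fintype.card F
  hn : 4 ≤ finrank F V
  hN : Nat.card X * (Fintype.card F - 1) + 1 < Fintype.card F ^ finrank F V

theorem num_aux {q M x : ℕ} (hq : 3 ≤ q) (hM : q ^ 2 ≤ M) (h : x * (q - 1) + 1 < q ^ 2 * M) :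
    x ≤ (q + 2) * (M - 1) := by
  obtain ⟨r, rfl⟩ : ∃ r, q = r + 3 := ⟨q - 3, by omega⟩
  obtain ⟨L, rfl⟩ : ∃ L, M = L + 1 := ⟨M - 1, by have := Nat.pow_pos (n := 2) (show 0 < r + 3 by omega); omega⟩
  rw [Nat.add_sub_cancel]
  rw [show r + 3 - 1 = r + 2 by omega] at h
  by_contra hx
  push Not at hx
  have h1 : ((r + 3 + 2) * L + 1) * (r + 2) ≤ x * (r + 2) := Nat.mul_le_mul_right _ hx
  have h2 : (r + 1) * (r + 3) ^ 2 ≤ (r + 1) * (L + 1) := Nat.mul_le_mul_left _ hM
  nlinarith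

namespace SC

variable {F V : Type*} [Field F] [AddCommGroup V] [Module F V] {C : SC F V}
  {X : Type*} [MulAction C.Φ.O X]

theorem exists_pair [FiniteDimensional F V] {c w c' w' : V} (h0 : c ≠ 0) (hw : w ∉ F ∙ c)
    (h0' : c' ≠ 0) (hw' : w' ∉ F ∙ c') (hb : C.b c w = C.b c' w') :
    ∃ g : C.Φ.O, g.1 c = c' ∧ g.1 w = w' := by
  obtain ⟨g, hg, h⟩ := C.hΦ.witt_fin (linearIndependent_pair_of_notMem h0 hw)
    (linearIndependent_pair_of_notMem h0' hw') (fun i j => by
      fin_cases i <;> fin_cases j <;> simp [← b_def, hb, C.anti c w, C.anti c' w'])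
    fun i => by rw [C.hQ, C.hQ]
  exact ⟨⟨g, hg⟩, h 0, h 1⟩

theorem exists_perp_one [FiniteDimensional F V] {S : Set V} {v : V} (hv : v ∉ Submodule.span F S) :
    ∃ y, (∀ u ∈ S, C.b u y = 0) ∧ C.b y v = 1 := by
  obtain ⟨y, h1, h2⟩ := C.hΦ.exists_perp_eq_one hv
  exact ⟨y, fun u hu => sym (h1 u (Submodule.subset_span hu)), h2⟩

theorem mem_span_of_perp [FiniteDimensional F V] {S : Set V} {v : V}
    (h : ∀ y, (∀ u ∈ S, C.b u y = 0) → C.b y v = 0) : v ∈ Submodule.span F S := by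
  by_contra hv
  obtain ⟨y, h1, h2⟩ := exists_perp_one (C := C) hv
  simp [h y h1] at h2

theorem notMem_swap {c w : V} (h0 : c ≠ 0) (hw : w ∉ F ∙ c) : c ∉ F ∙ w := by
  intro h
  obtain ⟨a, rfl⟩ := Submodule.mem_span_singleton.1 h
  have ha : a ≠ 0 := by rintro rfl; simp at h0
  exact hw (Submodule.mem_span_singleton.2 ⟨a⁻¹, by simp [smul_smul, ha]⟩)

theorem ne_zero_of_notMem {c w : V} (hw : w ∉ F ∙ c) : w ≠ 0 := by
  rintro rfl; exact hw (zero_mem _)

theorem comm_fix {c u u' : V} {x : X} (h : u ∈ C.D c x) (h' : u' ∈ C.D c x) :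
    C.t c (2 * C.b u u') • x = x := by
  obtain ⟨h, s, hs⟩ := h
  obtain ⟨h', s', hs'⟩ := h'
  have : C.t c (2 * C.b u u') * (C.e c u' s' * C.e c u s) = C.e c u s * C.e c u' s' := by
    rw [C.e_mul h h', C.e_mul h' h, C.t_mul_e (by simp [h, h']), add_comm u', C.anti u u']
    congr 1
    ring
  have h2 := congrArg (· • x) this
  simpa only [mul_smul, hs, hs'] using h2

theorem Z_orb {c : V} {x y : X} (h : y ∈ C.orb c x) : C.Z c y = C.Z c x := by
  obtain ⟨w, s, hw, rfl⟩ := h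
  exact Z_smul_eq (one_pow 2) (by rw [C.e_self hw, one_smul]) x

theorem orb_normal {c c' : V} (h : C.b c c' = 1) {x y : X} (hy : y ∈ C.orb c x) :
    ∃ u s, C.b c u = 0 ∧ C.b c' u = 0 ∧ C.e c u s • x = y := by
  obtain ⟨w, s, hw, rfl⟩ := hy
  refine ⟨w + C.b c' w • c, s - 2 * C.b c' w, by simp [hw], by simp [C.anti c c', h], ?_⟩
  rw [C.e_add_smul hw, sub_add_cancel]

variable [Fintype F] [FiniteDimensional F V]

omit [FiniteDimensional F V] in
theorem A_le_orb {c : V} {x y : X} (h : y ∈ C.orb c x) : C.A c x ≤ C.A c y := by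
  obtain ⟨w, s, hw, rfl⟩ := h
  intro v hv
  have h1 := mem_A_smul (g := C.e c w s) one_ne_zero (by rw [C.e_self hw, one_smul]) hv
  rw [inv_one, one_smul, C.e_perp hw _ (perp_of_mem_A hv)] at h1
  simpa using sub_mem h1 (smul_mem_A c _ (C.b w v))

omit [FiniteDimensional F V] in
theorem A_orb {c : V} {x y : X} (h : y ∈ C.orb c x) : C.A c y = C.A c x :=
  le_antisymm (A_le_orb (orb_symm h)) (A_le_orb h)

theorem D_orb {c : V} {x y : X} (h : y ∈ C.orb c x) : C.D c y = C.D c x := by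
  ext u
  exact ⟨fun hu => mem_D_of_A fun v hv => mem_A.1 (A_orb h ▸ hv) u hu,
    fun hu => mem_D_of_A fun v hv => mem_A.1 (A_orb h ▸ hv) u hu⟩

variable (C) in
/-- points of the same kind -/
def Om (c : V) (x : X) : Set X :=
  {y | C.Z c y = C.Z c x ∧ Nat.card (C.D c y) = Nat.card (C.D c x)}

variable (C) in
/-- points of the same kind with `w` in the annihilator -/
def Omw (c w : V) (x : X) : Set X := {y | y ∈ C.Om c x ∧ w ∈ C.A c y}

theorem card_A_of_mem {c : V} {x y : X} (h : y ∈ C.Om c x) :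
    Nat.card (C.A c y) = Nat.card (C.A c x) := by
  have := finite_of_fd F V
  refine Nat.eq_of_mul_eq_mul_right (Nat.card_pos (α := C.D c x)) ?_
  rw [card_A, ← h.2, card_A]

theorem smul_mem_Om {g : C.Φ.O} {c : V} {a : F} (ha : a ≠ 0) (hg : g.1 c = a • c) {x y : X}
    (hy : y ∈ C.Om c x) : g • y ∈ C.Om c (g • x) := by
  have := finite_of_fd F V
  exact ⟨Z_congr ha hg hy.1, by rw [card_D_smul ha hg, card_D_smul ha hg, hy.2]⟩

theorem Om_smul {g : C.Φ.O} {c : V} {a : F} (ha : a ≠ 0) (hg : g.1 c = a • c) {x : X}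
    (h : C.Z c (g • x) = C.Z c x) : C.Om c (g • x) = C.Om c x := by
  have := finite_of_fd F V
  rw [Om, Om, h, card_D_smul ha hg]

theorem smul_mem_Omw {g : C.Φ.O} {c w w' : V} {a : F} (ha : a ≠ 0) (hg : g.1 c = a • c)
    (hw : g.1 w = a • w') {x y : X} (hy : y ∈ C.Om c x) (hy' : w ∈ C.A c y) :
    g • y ∈ C.Omw c w' (g • x) :=
  ⟨smul_mem_Om ha hg hy, by simpa [hw, smul_smul, ha] using mem_A_smul ha hg hy'⟩

theorem smul_mem_Omw' {g : C.Φ.O} {c w w' : V} (hg : g.1 c = c) (hw : g.1 w = w') {x y : X}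
    (hy : y ∈ C.Om c x) (hy' : w ∈ C.A c y) : g • y ∈ C.Omw c w' x := by
  have h1 : g.1 c = (1 : F) • c := by rw [hg, one_smul]
  have := smul_mem_Omw one_ne_zero h1 (by rw [hw, one_smul]) hy hy'
  rwa [Omw, Om_smul one_ne_zero h1 (Z_smul_eq (one_pow 2) h1 x)] at this

theorem orb_subset {c w : V} {x y : X} (hy : y ∈ C.Omw c w x) : C.orb c y ⊆ C.Omw c w x :=
  fun _ hz => ⟨⟨(Z_orb hz).trans hy.1.1, by rw [D_orb hz, hy.1.2]⟩, by rw [A_orb hz]; exact hy.2⟩

omit [FiniteDimensional F V] in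
theorem ncard_line {c : V} (h0 : c ≠ 0) : ((F ∙ c : Submodule F V) : Set V).ncard =
    Fintype.card F := by
  have := ncard_submodule (⊤ : Submodule F (F ∙ c))
  rw [← Nat.card_coe_set_eq, SetLike.coe_sort_coe, Module.natCard_eq_pow_finrank (K := F),
    finrank_span_singleton h0, pow_one, Nat.card_eq_fintype_card]

variable [Finite X]

theorem dcount {c w : V} (h0 : c ≠ 0) (hw : C.b c w = 0) (hw' : w ∉ F ∙ c) (x : X) :
    (C.Omw c w x).ncard * ({u | C.b c u = 0}.ncard - Fintype.card F) ≤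
      (Nat.card (C.A c x) - Fintype.card F) * (C.Om c x).ncard := by
  classical
  have := finite_of_fd F V
  have h1 := ncard_le_mul_of_cover (Set.toFinite ({u | C.b c u = 0} \ (F ∙ c : Submodule F V)))
    (Set.toFinite (C.Om c x)).toFinset (fun y u => u ∈ C.A c y) (C.Omw c w x).ncard
    (Nat.card (C.A c x) - Fintype.card F) (by
      intro u hu
      obtain ⟨g, hg, hg'⟩ := exists_pair (C := C) h0 hw' h0 hu.2 (hw.trans hu.1.symm)
      refine Set.ncard_le_ncard_of_injOn (g • ·) (fun y hy => ?_)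
        (MulAction.injective g).injOn (Set.toFinite _)
      have := smul_mem_Omw' hg hg' hy.1 hy.2
      exact ⟨(Set.Finite.mem_toFinset _).2 this.1, this.2⟩) (by
      intro y hy
      rw [← card_A_of_mem ((Set.Finite.mem_toFinset _).1 hy), ← ncard_line h0,
        ← SetLike.coe_sort_coe, Nat.card_coe_set_eq, ← Set.ncard_sdiff]
      · exact Set.ncard_le_ncard (fun u hu => ⟨hu.2, hu.1.2⟩) (Set.toFinite _)
      · intro u hu
        obtain ⟨a, rfl⟩ := Submodule.mem_span_singleton.1 hu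
        exact smul_mem_A c y a)
  rw [Set.ncard_sdiff, ncard_line h0, ← Set.ncard_eq_toFinset_card, mul_comm (C.Om c x).ncard] at h1
  · exact h1
  · intro u hu
    obtain ⟨a, rfl⟩ := Submodule.mem_span_singleton.1 hu
    simp

theorem core (hS : Sm F V X) {c w : V} (h0 : c ≠ 0) {x : X} (hA : ¬ ∀ s, C.t c s • x = x)
    (hw : w ∈ C.A c x) (hw' : w ∉ F ∙ c) {k : ℕ}
    (hk : k * Nat.card (C.A c x) ≤ (C.Omw c w x).ncard * Nat.card (C.Z c x)) :
    ∃ σ, (Fintype.card F + 3 ≤ 2 * σ ∧ ((2 : F) = 0 → Fintype.card F ≤ σ ∧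
      (Nat.card (C.E c x) ≠ Fintype.card F → Fintype.card F + 2 ≤ σ))) ∧
      σ * (k * Nat.card (C.A c x)) ≤
        (Fintype.card F + 2) * (Nat.card (C.A c x) - Fintype.card F) := by
  classical
  have := finite_of_fd F V
  have hf := Set.toFinite {Y | ∃ (g : C.Φ.O) (a : F), a ≠ 0 ∧ g.1 c = a • c ∧ g.1 w = a • w ∧
    C.Z c (g • x) = Y}
  have h1 := sum_le_of_fiber (Set.toFinite (Set.univ : Set X)) (C.Z c) hf.toFinset
    (fun _ => (C.Omw c w x).ncard * ({u | C.b c u = 0}.ncard - Fintype.card F))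
    (Nat.card (C.A c x) - Fintype.card F) (by
      intro Y hY
      obtain ⟨g, a, ha, hg, hg', rfl⟩ := hf.mem_toFinset.1 hY
      have h2 := dcount h0 (perp_of_mem_A hw) hw' (g • x)
      have h3 : Nat.card (C.A c (g • x)) = Nat.card (C.A c x) := by
        refine Nat.eq_of_mul_eq_mul_right (Nat.card_pos (α := C.D c x)) ?_
        rw [card_A, ← card_D_smul ha hg, card_A]
      rw [h3] at h2
      refine le_trans (Nat.mul_le_mul_right _ ?_) (h2.trans (Nat.mul_le_mul_left _ ?_))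
      · exact Set.ncard_le_ncard_of_injOn (g • ·) (fun y hy => smul_mem_Omw ha hg hg' hy.1 hy.2)
          (MulAction.injective g).injOn (Set.toFinite _)
      · exact Set.ncard_le_ncard (fun y hy => ⟨trivial, hy.1⟩) (Set.toFinite _))
  obtain ⟨r, hr, hr0⟩ := exists_mem_E hA
  have h2 := sigma_bound hS.hq hf.toFinset (pp (ψF F) AddMonoidHom.mul)
    (ε := Nat.card (C.E c x)) (by
      intro Y hY
      obtain ⟨g, a, ha, hg, hg', rfl⟩ := hf.mem_toFinset.1 hY
      refine Nat.eq_of_mul_eq_mul_right (Nat.card_pos (α := C.Z c x)) ?_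
      rw [card_E, ← card_Z_smul ha hg]
      exact card_E c _) hr0 (by
      intro a ha
      obtain ⟨g, hg, hg'⟩ := exists_pair (C := C) h0 hw' (smul_ne_zero (inv_ne_zero ha) h0)
        (w' := a⁻¹ • w) (by
          rw [Submodule.span_singleton_smul_eq (IsUnit.mk0 _ (inv_ne_zero ha)),
            Submodule.smul_mem_iff _ (inv_ne_zero ha)]
          exact hw') (by simp [perp_of_mem_A hw])
      refine ⟨_, hf.mem_toFinset.2 ⟨g, _, inv_ne_zero ha, hg, hg', rfl⟩, ?_⟩
      simpa [E] using mem_E_smul (inv_ne_zero ha) hg hr)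
  refine ⟨_, h2, ?_⟩
  rw [Finset.sum_const, smul_eq_mul, Set.ncard_univ] at h1
  have h3 := ncard_perp (C := C) h0
  have h4 := card_E (C := C) c x
  have h5 := hS.hN
  have hq := hS.hq
  obtain ⟨n, hn⟩ : ∃ n, finrank F V = n + 2 + 2 := ⟨finrank F V - 4, by have := hS.hn; omega⟩
  rw [hn] at h3 h5
  set q := Fintype.card F
  have hM : q ^ 2 ≤ q ^ (n + 2) := Nat.pow_le_pow_right (by omega) (by omega)
  have h6 := num_aux hq hM (by rwa [← pow_add, add_comm 2])
  have h7 : {u | C.b c u = 0}.ncard - q = q * (q ^ (n + 2) - 1) := by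
    rw [Nat.mul_sub_one]
    congr 1
    refine Nat.eq_of_mul_eq_mul_right (show 0 < q by omega) ?_
    rw [h3]; ring
  rw [h7] at h1
  have hM1 : 0 < q ^ (n + 2) - 1 := by
    have : 3 ^ 2 ≤ q ^ 2 := Nat.pow_le_pow_left hq 2
    omega
  generalize q ^ (n + 2) - 1 = L at *
  refine Nat.le_of_mul_le_mul_right ?_ hM1
  calc _ ≤ hf.toFinset.card * Nat.card (C.E c x) *
        ((C.Omw c w x).ncard * Nat.card (C.Z c x)) * L := by gcongr
    _ = hf.toFinset.card * ((C.Omw c w x).ncard * (q * L)) := by rw [← h4]; ring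
    _ ≤ (Nat.card (C.A c x) - q) * ((q + 2) * L) := h1.trans (Nat.mul_le_mul_left _ h6)
    _ = _ := by ring

theorem uniq (hS : Sm F V X) {c w : V} (h0 : c ≠ 0) {x : X} (hA : ¬ ∀ s, C.t c s • x = x)
    (hw : w ∈ C.A c x) (hw' : w ∉ F ∙ c) {y : X} (hy : y ∈ C.Omw c w x) : y ∈ C.orb c x := by
  by_contra hc
  have := finite_of_fd F V
  have hd : Disjoint (C.orb c x) (C.orb c y) :=
    Set.disjoint_left.2 fun z h1 h2 => hc (orb_trans h1 (orb_symm h2))
  have h1 := Set.ncard_le_ncard (Set.union_subset (orb_subset ⟨⟨rfl, rfl⟩, hw⟩) (orb_subset hy))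
    (Set.toFinite _)
  rw [Set.ncard_union_eq hd] at h1
  have h2 := card_orb (C := C) h0 x
  have h3 := card_orb (C := C) h0 y
  rw [card_A_of_mem hy.1, hy.1.1] at h3
  obtain ⟨σ, ⟨h4, -⟩, h5⟩ := core hS h0 hA hw hw' (k := 2) (by nlinarith)
  have h6 : 0 < Nat.card (C.A c x) := Nat.card_pos
  have h7 := Nat.mul_le_mul_left (Fintype.card F + 2)
    (Nat.sub_le (Nat.card (C.A c x)) (Fintype.card F))
  nlinarith

theorem even_case (hS : Sm F V X) {c w : V} (h0 : c ≠ 0) {x : X} (hA : ¬ ∀ s, C.t c s • x = x)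
    (hw : w ∈ C.A c x) (hw' : w ∉ F ∙ c) (h2 : (2 : F) = 0) :
    Nat.card (C.Z c x) = 1 ∧ Fintype.card F ^ 2 < 2 * Nat.card (C.A c x) := by
  have := finite_of_fd F V
  have h1 := Set.ncard_le_ncard (orb_subset (w := w) (x := x) ⟨⟨rfl, rfl⟩, hw⟩) (Set.toFinite _)
  have h3 := card_orb (C := C) h0 x
  obtain ⟨σ, ⟨-, h4⟩, h5⟩ := core hS h0 hA hw hw' (k := 1) (by nlinarith)
  obtain ⟨h6, h7⟩ := h4 h2
  have h8 : 0 < Nat.card (C.A c x) := Nat.card_pos
  have hq := hS.hq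
  have h9 := card_E (C := C) c x
  rcases Nat.lt_or_ge (Nat.card (C.A c x)) (Fintype.card F) with h | h
  · rw [Nat.sub_eq_zero_of_le h.le] at h5
    nlinarith
  obtain ⟨d, hd⟩ := Nat.exists_eq_add_of_le h
  rw [hd, Nat.add_sub_cancel_left] at h5
  refine ⟨?_, by nlinarith⟩
  by_contra h10
  have := h7 fun h11 => h10 (by
    rw [h11] at h9
    exact Nat.eq_of_mul_eq_mul_left (show 0 < Fintype.card F by omega) (by rw [h9, mul_one]))
  nlinarith

end SC

end H14
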