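import Cfsg.Agent.H14.SpC

/-!
Minimal degree of the symplectic groups, part four: the two types and the key lemma.
-/

set_option autoImplicit false

namespace H14

open H23 H23.Form H22 Module

theorem comm_central {G : Type*} [Group G] {z z' g g' : G} (h1 : Commute z g) (h2 : Commute z g')
    (h3 : Commute z' g) (h4 : Commute z' g') (h5 : Commute z z') :
    z * g * (z' * g') * (z' * g' * (z * g))⁻¹ = g * g' * (g' * g)⁻¹ := by
  have e1 : z * g * (z' * g') = z * z' * (g * g') := h3.symm.mul_mul_mul_comm _ _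
  have e2 : z' * g' * (z * g) = z * z' * (g' * g) := by
    rw [h2.symm.mul_mul_mul_comm, h5.eq]
  have e3 : Commute (z * z') (g * g' * (g' * g)⁻¹) :=
    ((h1.mul_left h3).mul_right (h2.mul_left h4)).mul_right
      ((h2.mul_left h4).mul_right (h1.mul_left h3)).inv_right
  rw [e1, e2, mul_inv_rev (z * z'), ← mul_assoc, mul_assoc (z * z'), e3.eq, mul_inv_cancel_right]

theorem exists_notMem_finset {F : Type*} [Fintype F] (T : Finset F) (h : T.card < Fintype.card F) :
    ∃ a, a ∉ T := by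
  by_contra! h1
  rw [Finset.eq_univ_iff_forall.2 h1, Finset.card_univ] at h
  exact lt_irrefl _ h

theorem exists_ne_zero_one {F : Type*} [Field F] [Fintype F] (hq : 3 ≤ Fintype.card F) :
    ∃ a : F, a ≠ 0 ∧ a ≠ 1 := by
  classical
  obtain ⟨a, ha⟩ := exists_notMem_finset ({0, 1} : Finset F)
    (lt_of_le_of_lt Finset.card_le_two (by omega))
  exact ⟨a, by simpa using ha⟩

theorem exists_sq_ne_one {F : Type*} [Field F] [Fintype F] (hq : 4 ≤ Fintype.card F) :
    ∃ a : F, a ≠ 0 ∧ a ^ 2 - 1 ≠ 0 := by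
  classical
  obtain ⟨a, ha⟩ := exists_notMem_finset ({0, 1, -1} : Finset F)
    (lt_of_le_of_lt Finset.card_le_three (by omega))
  simp only [Finset.mem_insert, Finset.mem_singleton, not_or] at ha
  exact ⟨a, ha.1, fun h => by
    rcases sq_eq_one_iff.1 (sub_eq_zero.1 h) with h | h
    exacts [ha.2.1 h, ha.2.2 h]⟩

theorem two_ne_of_three {F : Type*} [Field F] [Fintype F] (hq : Fintype.card F = 3) :
    (2 : F) ≠ 0 := by
  intro h
  have := FiniteField.cast_card_eq_zero F
  rw [hq] at this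
  exact one_ne_zero (α := F) (by push_cast at this; linear_combination this - h)

theorem fr2 {F V : Type*} [Field F] [AddCommGroup V] [Module F V] (a b : V) :
    finrank F (Submodule.span F {a, b}) ≤ 2 := by
  have := finrank_span_list_le (F := F) [a, b]
  rwa [show {x | x ∈ [a, b]} = ({a, b} : Set V) by ext; simp] at this

theorem fr3 {F V : Type*} [Field F] [AddCommGroup V] [Module F V] (a b c : V) :
    finrank F (Submodule.span F {a, b, c}) ≤ 3 := by
  have := finrank_span_list_le (F := F) [a, b, c]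
  rwa [show {x | x ∈ [a, b, c]} = ({a, b, c} : Set V) by ext; simp] at this

namespace SC

variable {F V : Type*} [Field F] [AddCommGroup V] [Module F V] {C : SC F V}
  {X : Type*} [MulAction C.Φ.O X]

theorem commute_t {g : C.Φ.O} {c : V} (h : g.1 c = c) (r : F) : Commute (C.t c r) g := by
  have := C.mul_t g c r
  rw [h] at this
  exact this.symm

theorem all_of_comm {c u v : V} {x : X} (h2 : (2 : F) ≠ 0) (hu : ∀ a : F, a • u ∈ C.D c x)
    (hv : v ∈ C.D c x) (hb : C.b u v ≠ 0) (s : F) : C.t c s • x = x := by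
  have := comm_fix (hu (s / (2 * C.b u v))) hv
  rwa [map_smul, LinearMap.smul_apply, smul_eq_mul, show 2 * (s / (2 * C.b u v) * C.b u v) = s by
    field_simp] at this

variable [Fintype F] [FiniteDimensional F V] [Finite X] (hS : Sm F V X) {c w : V} (h0 : c ≠ 0)
  {x : X} (hA : ¬ ∀ s, C.t c s • x = x) (hw : w ∈ C.A c x) (hw' : w ∉ F ∙ c)
include hS h0 hA hw hw'

theorem perp_le_A {v : V} (hv : v ∈ C.A c x) (hv' : v ∉ Submodule.span F {c, w}) {y : V}
    (h1 : C.b c y = 0) (h2 : C.b w y = 0) : y ∈ C.A c x := by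
  have key : ∀ y, C.b c y = 0 → C.b w y = 0 → C.b y v ≠ 0 → y ∈ C.A c x := by
    intro y h1 h2 h3
    have h4 : (C.t y (C.b y v)⁻¹).1 c = c := C.t_perp _ (sym h1)
    have h5 := uniq hS h0 hA hw hw' (smul_mem_Omw' h4 (C.t_perp _ (sym h2)) ⟨rfl, rfl⟩ hw)
    have h6 := mem_A_smul one_ne_zero (h4.trans (one_smul F c).symm) hv
    rw [A_orb h5, inv_one, one_smul, t_apply, inv_mul_cancel₀ h3, one_smul] at h6
    simpa using sub_mem h6 hv
  by_cases h3 : C.b y v = 0
  · obtain ⟨z, h4, h5⟩ := exists_perp_one (C := C) hv'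
    have h6 := h4 c (by simp)
    have h7 := h4 w (by simp)
    simpa using sub_mem (key (y + z) (by simp [h1, h6]) (by simp [h2, h7]) (by simp [h3, h5]))
      (key z h6 h7 (by simp [h5]))
  · exact key y h1 h2 h3

theorem D_le_span {v : V} (hv : v ∈ C.A c x) (hv' : v ∉ Submodule.span F {c, w}) {u : V}
    (hu : u ∈ C.D c x) : u ∈ Submodule.span F {c, w} :=
  mem_span_of_perp (C := C) fun y hy => b_of_mem_D hu fun a =>
    perp_le_A hS h0 hA hw hw' hv hv' (by simp [hy c (by simp)]) (by simp [hy w (by simp)])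

theorem types : (∀ u ∈ C.D c x, u ∈ F ∙ c) ∨
    ∀ u, u ∈ C.D c x ↔ C.b c u = 0 ∧ C.b w u = 0 := by
  by_cases h : ∀ v ∈ C.A c x, v ∈ Submodule.span F {c, w}
  · have h1 : ∀ u, C.b c u = 0 → C.b w u = 0 → u ∈ C.D c x := fun u h1 h2 =>
      mem_D_of_A fun v hv => by
        obtain ⟨α, β, rfl⟩ := Submodule.mem_span_pair.1 (h v hv)
        simp [h1, h2]
    refine .inr fun u => ⟨fun hu => ⟨hu.1, ?_⟩, fun hu => h1 u hu.1 hu.2⟩
    by_cases h2 : (2 : F) = 0
    · refine b_of_mem_D hu fun a => ?_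
      have := finite_of_fd F V
      have h3 := (even_case hS h0 hA hw hw' h2).2
      have h4 : C.A c x ≤ (Submodule.span F {c, w}).toAddSubgroup := h
      have h5 : Nat.card (Submodule.span F {c, w}).toAddSubgroup ≤ Fintype.card F ^ 2 := by
        change Nat.card (Submodule.span F {c, w}) ≤ _
        rw [card_submodule]
        exact Nat.pow_le_pow_right (by have := hS.hq; omega) (fr2 c w)
      obtain ⟨j, hj⟩ := AddSubgroup.card_dvd_of_le h4
      have h6 : 0 < Nat.card (Submodule.span F {c, w}).toAddSubgroup := Nat.card_pos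
      have h7 : j = 1 := by
        rcases j with _ | _ | j
        · omega
        · rfl
        · nlinarith
      rw [AddSubgroup.eq_of_le_of_card_ge h4 (by rw [hj, h7, mul_one])]
      exact Submodule.mem_span_pair.2 ⟨0, a, by simp⟩
    · by_contra h3
      exact hA (all_of_comm h2 (fun a => h1 _ (by simp [perp_of_mem_A hw]) (by simp)) hu h3)
  · push Not at h
    obtain ⟨v, hv, hv'⟩ := h
    have h1 : v ∉ F ∙ c := fun h => hv' (Submodule.span_mono (by simp) h)
    have h2 : w ∉ Submodule.span F {c, v} := by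
      intro h
      obtain ⟨α, β, rfl⟩ := Submodule.mem_span_pair.1 h
      have hβ : β ≠ 0 := by
        rintro rfl
        exact hw' (Submodule.mem_span_singleton.2 ⟨α, by simp⟩)
      exact hv' (Submodule.mem_span_pair.2 ⟨-(α / β), β⁻¹, by
        match_scalars <;> field_simp <;> ring⟩)
    refine .inl fun u hu => ?_
    obtain ⟨α, β, rfl⟩ := Submodule.mem_span_pair.1 (D_le_span hS h0 hA hv h1 hw h2 hu)
    by_cases hβ : β = 0
    · exact Submodule.mem_span_singleton.2 ⟨α, by simp [hβ]⟩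
    obtain ⟨α', β', e⟩ := Submodule.mem_span_pair.1 (D_le_span hS h0 hA hw hw' hv hv' hu)
    refine absurd (Submodule.mem_span_pair.2 ⟨(α' - α) / β, β' / β, ?_⟩) hv'
    have : v = β⁻¹ • (α' • c + β' • w - α • c) := by rw [e]; simp [smul_smul, hβ]
    rw [this]
    match_scalars <;> field_simp

theorem smul_mem_D' {u : V} (hu : u ∈ C.D c x) (a : F) : a • u ∈ C.D c x := by
  rcases types hS h0 hA hw hw' with h | h
  · obtain ⟨a', rfl⟩ := Submodule.mem_span_singleton.1 (h u hu)
    rw [smul_smul]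
    exact smul_mem_D _ _ _
  · rw [h] at hu ⊢
    simp [hu.1, hu.2]

theorem smul_mem_A' (a : F) : a • w ∈ C.A c x :=
  mem_A_of_perp fun u hu => by simp [b_of_mem_A hw (smul_mem_D' hS h0 hA hw hw' hu)]

theorem key_aux {c' : V} (hc : C.b c c' = 1) {a r : F} (ha : a ≠ 0) (ha1 : a ≠ 1)
    (hδ : (C.t c r * C.tor hc ha) • x = x) {g : C.Φ.O} (hg : g.1 c = c) (hg' : g.1 c' = c')
    {μ : F} (hμ : μ ≠ 0) (hgw : g.1 w = μ • w) : ∃ s, (C.t c s * g) • x = x := by
  have h1 := uniq hS h0 hA hw hw' (smul_mem_Omw' (w := μ⁻¹ • w) hg (by simp [hgw, smul_smul, hμ])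
    ⟨rfl, rfl⟩ (smul_mem_A' hS h0 hA hw hw' _))
  obtain ⟨u, s, hu, hu', h2⟩ := orb_normal hc h1
  have h3 : Commute (C.t c r * C.tor hc ha) g := (commute_t hg r).mul_left (C.tor_comm hc ha hg hg')
  have h4 : (C.t c r * C.tor hc ha) • g • x = g • x := by
    rw [← mul_smul, h3.eq, mul_smul, hδ]
  rw [← h2, ← mul_smul, mul_e, mul_smul, hδ, mul_app, mul_app, tor_left, C.tor_perp hc ha hu hu',
    C.t_perp _ hu, C.t_perp _ (by simp), C.e_smul hu, ← inv_smul_eq_iff, ← mul_smul,
    C.e_inv hu, C.e_mul (by simp [hu]) (by simp [hu])] at h4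
  have h5 := smul_mem_D' hS h0 hA hw hw' (⟨by simp [hu], _, h4⟩ : -u + a • u ∈ C.D c x) (a - 1)⁻¹
  have h6 : (a - 1)⁻¹ • (-u + a • u) = u := by
    have := sub_ne_zero.2 ha1
    match_scalars
    field_simp
    ring
  rw [h6] at h5
  obtain ⟨-, s', hs'⟩ := h5
  exact ⟨s' - s, by rw [mul_smul, ← h2, ← mul_smul, C.t_mul_e hu, sub_add_cancel, hs']⟩

theorem key_fix (hexc : ¬ (finrank F V = 4 ∧ Fintype.card F = 3)) {c' : V} (hc : C.b c c' = 1)
    (hc' : C.b c' w = 0) {a r : F} (ha : a ≠ 0) (ha1 : a ≠ 1)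
    (hδ : (C.t c r * C.tor hc ha) • x = x) (s : F) : C.t w s • x = x := by
  have hcw := perp_of_mem_A hw
  have fin : ∀ {g g' : C.Φ.O}, g.1 c = c → g'.1 c = c → (∃ s, (C.t c s * g) • x = x) →
      (∃ s, (C.t c s * g') • x = x) → (g * g' * (g' * g)⁻¹) • x = x := by
    rintro g g' hg hg' ⟨r1, h1⟩ ⟨r2, h2⟩
    rw [← comm_central (commute_t hg r1) (commute_t hg' r1) (commute_t hg r2) (commute_t hg' r2)
      (commute_t (C.t_perp _ (by simp)) r1)]
    exact mul_mem (mul_mem h1 h2) (inv_mem (mul_mem h2 h1) : _ ∈ MulAction.stabilizer _ x)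
  have hnot : ∀ {y}, C.b c y = 0 → C.b c' y = 0 → y ∈ Submodule.span F {c, c', w} → y ∈ F ∙ w := by
    intro y h1 h2 h
    obtain ⟨α, β, γ, rfl⟩ := Submodule.mem_span_triple.1 h
    simp only [map_add, map_smul, b_self, hc, hcw, hc', C.anti c c', smul_eq_mul] at h1 h2
    exact Submodule.mem_span_singleton.2 ⟨γ, by
      rw [show α = 0 by linear_combination -h2, show β = 0 by linear_combination h1]; simp⟩
  by_cases hq : Fintype.card F = 3
  · have h2 := two_ne_of_three hq
    have h5 : 5 ≤ finrank F V := by have := hS.hn; omega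
    obtain ⟨y, hy, hy'⟩ : ∃ y ∈ C.Φ.perp (Submodule.span F {c, c', w}), y ∉ F ∙ w := by
      by_contra! h
      have h3 := Submodule.finrank_mono (show C.Φ.perp (Submodule.span F {c, c', w}) ≤ _ from h)
      have h4 := C.hΦ.finrank_perp_add (Submodule.span F {c, c', w})
      have h6 := fr3 (F := F) c c' w
      rw [finrank_span_singleton (ne_zero_of_notMem hw')] at h3
      omega
    obtain ⟨y1, y2, y3⟩ : C.b c y = 0 ∧ C.b c' y = 0 ∧ C.b w y = 0 := mem_perp_triple.1 hy
    obtain ⟨z, hz, hz'⟩ := exists_perp_one (C := C) fun h => hy' (hnot y1 y2 h)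
    have z1 := hz c (by simp)
    have z2 := hz c' (by simp)
    have z3 := hz w (by simp)
    have f : ∀ u, C.b c u = 0 → C.b c' u = 0 → C.b w u = 0 →
        (C.e w u 0).1 c = c ∧ ∃ s, (C.t c s * C.e w u 0) • x = x := fun u u1 u2 u3 => by
      have e1 : (C.e w u 0).1 c = c := by simp [C.e_apply u3, sym u1, sym hcw]
      exact ⟨e1, key_aux hS h0 hA hw hw' hc ha ha1 hδ e1 (by simp [C.e_apply u3, sym u2, sym hc'])
        one_ne_zero (by rw [C.e_self u3, one_smul])⟩
    have g1 := f ((s / 2) • z) (by simp [z1]) (by simp [z2]) (by simp [z3])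
    have g2 := f y y1 y2 y3
    have := fin g1.1 g2.1 g1.2 g2.2
    rw [C.e_mul (by simp [z3]) y3, C.e_mul y3 (by simp [z3]), C.e_inv (by simp [y3, z3]),
      C.e_mul (by simp [y3, z3]) (by simp [y3, z3]), add_comm y, add_neg_cancel, e_zero] at this
    convert this using 3
    simp [hz', C.anti z y]
    field_simp
    ring
  · obtain ⟨μ, hμ, hμ'⟩ := exists_sq_ne_one (F := F) (by have := hS.hq; omega)
    obtain ⟨z, hz, hz'⟩ := exists_perp_one (C := C) (S := {c, c'}) (v := w) fun h => by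
      obtain ⟨α, β, e⟩ := Submodule.mem_span_pair.1 h
      rw [← e] at hcw
      simp only [map_add, map_smul, b_self, hc, smul_eq_mul] at hcw
      exact hw' (Submodule.mem_span_singleton.2 ⟨α, by
        rw [← e, show β = 0 by linear_combination hcw]; simp⟩)
    have z1 := hz c (by simp)
    have z2 := hz c' (by simp)
    have hwz : C.b w (-z) = 1 := by rw [map_neg, ← C.anti, hz']
    have e1 : (C.tor hwz hμ).1 c = c := C.tor_perp _ _ (sym hcw) (by simp [sym z1])
    have e2 : (C.t w (s / (μ ^ 2 - 1))).1 c = c := C.t_perp _ (sym hcw)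
    have := fin e1 e2 (key_aux hS h0 hA hw hw' hc ha ha1 hδ e1
      (C.tor_perp _ _ (sym hc') (by simp [sym z2])) hμ (C.tor_left _ _))
      (key_aux hS h0 hA hw hw' hc ha ha1 hδ e2 (C.t_perp _ (sym hc')) one_ne_zero
        (by rw [C.t_perp _ (by simp), one_smul]))
    rw [mul_t, mul_inv_rev, ← mul_assoc, mul_inv_cancel_right, tor_left, t_smul, t_inv,
      t_add] at this
    convert this using 3
    field_simp
    ring

theorem key (hexc : ¬ (finrank F V = 4 ∧ Fintype.card F = 3)) :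
    ∃ l : F, ∀ s, C.t (w + l • c) s • x = x := by
  have hcw := perp_of_mem_A hw
  obtain ⟨z, hz, hz'⟩ := exists_perp_one (C := C) (notMem_swap h0 hw')
  have hc : C.b c (-z) = 1 := by rw [map_neg, ← C.anti, hz']
  have hc' : C.b (-z) w = 0 := by simp [sym (hz w rfl)]
  generalize -z = c' at hc hc'
  obtain ⟨a, ha, ha1, hZ⟩ : ∃ a, ∃ ha : a ≠ 0, a ≠ 1 ∧ C.Z c (C.tor hc ha • x) = C.Z c x := by
    by_cases h2 : (2 : F) = 0
    · obtain ⟨a, ha, ha1⟩ := exists_ne_zero_one hS.hq
      have h3 := (even_case hS h0 hA hw hw' h2).1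
      have h4 := card_Z_smul ha (C.tor_left hc ha) x
      rw [h3] at h4
      exact ⟨a, ha, ha1, by
        rw [AddSubgroup.eq_bot_of_card_eq _ h3, AddSubgroup.eq_bot_of_card_eq _ h4]⟩
    · exact ⟨-1, by simp, fun h => h2 (by linear_combination -h),
        Z_smul_eq (by simp) (C.tor_left _ _) x⟩
  have h1 := smul_mem_Omw (w := a • w) (w' := w) ha (C.tor_left hc ha)
    (by rw [map_smul, C.tor_perp hc ha hcw hc']) ⟨rfl, rfl⟩ (smul_mem_A' hS h0 hA hw hw' a)
  rw [Omw, Om_smul ha (C.tor_left hc ha) hZ] at h1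
  obtain ⟨u, s, hu, hu', h2⟩ := orb_normal hc (uniq hS h0 hA hw hw' h1)
  set y := (1 - a)⁻¹ • u with hy
  have y1 : C.b c y = 0 := by simp [hy, hu]
  have y2 : C.b c' y = 0 := by simp [hy, hu']
  have h3 : a • y + u = y := by
    have := sub_ne_zero.2 ha1.symm
    rw [hy]
    match_scalars
    field_simp
    ring
  have h4 : C.e c y 0 • x ∈ C.orb c x := ⟨y, 0, y1, rfl⟩
  have h5 : (C.t c (-s) * C.tor hc ha) • C.e c y 0 • x = C.e c y 0 • x := by
    rw [mul_smul, ← mul_smul (C.tor hc ha), mul_e, mul_smul, ← h2, tor_left,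
      C.tor_perp hc ha y1 y2, C.e_smul y1, ← mul_smul, ← mul_smul, mul_assoc,
      C.e_mul (by simp [y1]) hu, h3, C.t_mul_e y1]
    congr 2
    simp [hy]
  have h6 := key_fix hS h0 (x := C.e c y 0 • x) (fun h => hA fun s => by
    rw [← mem_Z, ← Z_orb h4]; exact h s) (by rw [A_orb h4]; exact hw) hw' hexc hc hc' ha ha1 h5
  refine ⟨C.b (-y) w, fun s => ?_⟩
  rw [← C.e_perp (by simp [y1]) (-0) hcw, ← C.e_inv y1, ← conj_t, ← conj_fix (g := C.e c y 0)]
  simpa [mul_assoc] using h6 s

end SC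

end H14
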