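import Cfsg.Agent.H14.SpD

/-!
Minimal degree of the symplectic groups, part five: existence of a full transvection group in the
point stabiliser, and dimension at least five.
-/

set_option autoImplicit false

namespace H14

open H23 H23.Form H22 Module MulAction

namespace SC

variable {F V : Type*} [Field F] [AddCommGroup V] [Module F V] {C : SC F V}
  {X : Type*} [MulAction C.Φ.O X]

variable (C) in
/-- the full transvection group with centre `c` fixes `x` -/
abbrev TX (x : X) (c : V) : Prop := C.TA (stabilizer C.Φ.O x) c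

theorem move {c u y : V} {x : X} (hu : u ∈ C.D c x) (hy : C.TX x y) :
    ∃ s, C.TX x (y + (C.b u y + s * C.b c y) • c + C.b c y • u) := by
  obtain ⟨h, s, hs⟩ := hu
  exact ⟨s, C.e_apply h s y ▸ hy.conj hs⟩

theorem notMem_of_TX {c y : V} {x : X} (hc : ¬ C.TX x c) (hy : C.TX x y) (h0 : y ≠ 0) :
    y ∉ F ∙ c := fun h => by
  obtain ⟨a, rfl⟩ := Submodule.mem_span_singleton.1 h
  exact hc (hy.of_smul (by rintro rfl; simp at h0))

theorem swap_mem {c y : V} {H : Subgroup C.Φ.O} (h : C.b c y = 0) {a r s : F}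
    (h1 : C.e c (a • y) r ∈ H) (h2 : C.e y (a • c) s ∈ H) : C.t c r * C.t y (-s) ∈ H := by
  have : C.t c r * C.t y (-s) = (C.e y (a • c) s)⁻¹ * C.e c (a • y) r := by
    rw [eq_inv_mul_iff_mul_eq, ← mul_assoc, ← C.e_swap h, mul_assoc, t_add, add_neg_cancel,
      t_zero, mul_one]
  exact this ▸ mul_mem (inv_mem h2) h1

theorem sub_mem_T {c u : V} {H : Subgroup C.Φ.O} (h : C.b c u = 0) {r s : F}
    (h1 : C.e c u r ∈ H) (h2 : C.e c u s ∈ H) : C.t c (r - s) ∈ H := by
  have : C.t c (r - s) = C.e c u r * (C.e c u s)⁻¹ := by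
    rw [eq_mul_inv_iff_mul_eq, C.t_mul_e h, sub_add_cancel]
  exact this ▸ mul_mem h1 (inv_mem h2)

theorem d_step [FiniteDimensional F V] {c y : V} {x : X} (h : C.b c y = 0) (hy : y ∉ F ∙ c)
    (hd : ∀ u, C.b c u = 0 → u ∈ C.D c x) {μ l : F} (hl : l ≠ 0)
    (hg : C.t c μ * C.t y l ∈ stabilizer C.Φ.O x) (a : F) :
    C.e c (a • y) (-(a ^ 2 / l)) ∈ stabilizer C.Φ.O x := by
  obtain ⟨z, hz, hz'⟩ := exists_perp_one (C := C) hy
  have z1 := hz c rfl
  obtain ⟨h1, s, hs⟩ := hd (-(a / l) • z) (by simp [z1])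
  have h2 := mul_mem (mul_mem (mul_mem hg hs) (inv_mem hg)) (inv_mem hs)
  rw [conj_e, C.e_inv h1, mul_app, mul_app, C.t_perp l (sym h), C.t_perp μ (by simp),
    C.t_perp μ (by simp [t_apply, z1, h]), C.e_mul (by simp [t_apply, z1, h]) (by simp [z1])] at h2
  convert h2 using 2
  · simp only [t_apply, map_smul, C.anti z y, hz', smul_eq_mul]
    match_scalars <;> field_simp <;> ring
  · simp [t_apply, C.anti z y, hz']
    field_simp

variable [Fintype F] [FiniteDimensional F V]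

omit [FiniteDimensional F V] in
theorem TX_of_perp (hq : 3 ≤ Fintype.card F) {c u y : V} {x : X} (hu : ∀ a : F, a • u ∈ C.D c x)
    (hy : C.TX x y) (h1 : C.b c y = 0) (h2 : C.b u y ≠ 0) : C.TX x c := by
  have h3 : ∀ l : F, C.TX x (y + l • c) := fun l => by
    obtain ⟨s, hs⟩ := move (hu (l / C.b u y)) hy
    simpa [h1, h2] using hs
  obtain ⟨l, hl0, hl1⟩ := exists_ne_zero_one hq
  exact TA.of_line (sym h1) hl0 hl1 hy (by simpa using h3 1) (h3 l)

omit [FiniteDimensional F V] in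
theorem TX_of_notperp (hq : 3 ≤ Fintype.card F) {c u y : V} {x : X}
    (hu : ∀ a : F, a • u ∈ C.D c x) (hy : C.TX x y) (h1 : C.b c y ≠ 0) (h2 : C.b u y = 0) :
    ∃ κ : F, C.TX x (u + κ • c) := by
  have h3 : ∀ l : F, ∃ κ : F, C.TX x (y + l • u + κ • c) := fun l => by
    obtain ⟨s, hs⟩ := move (hu (l / C.b c y)) hy
    refine ⟨s * C.b c y, ?_⟩
    convert hs using 1
    simp only [map_smul, LinearMap.smul_apply, h2]
    match_scalars <;> field_simp
    ring
  choose κ hκ using h3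
  by_cases h4 : ∃ l, l ≠ 0 ∧ κ l ≠ 0
  · obtain ⟨l, hl, hl'⟩ := h4
    refine ⟨κ l / l, TA.of_smul (a := l) ?_ hl⟩
    convert (hκ l).sub hy (by simp [h1, h2, hl']) using 1
    match_scalars <;> field_simp
    ring
  · push Not at h4
    obtain ⟨l, hl0, hl1⟩ := exists_ne_zero_one hq
    exact ⟨0, by
      simpa using TA.of_line (sym h2) hl0 hl1 hy (by simpa [h4 1 one_ne_zero] using hκ 1)
        (by simpa [h4 l hl0] using hκ l)⟩

omit [Fintype F] in
theorem exists_perp_notMem {S : Set V} {c : V} (h : finrank F (Submodule.span F S) + 2 ≤ finrank F V) :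
    ∃ u, (∀ y ∈ S, C.b y u = 0) ∧ u ∉ F ∙ c := by
  by_contra! h1
  have h2 := Submodule.finrank_mono (show C.Φ.perp (Submodule.span F S) ≤ F ∙ c from
    fun u hu => h1 u (C.Φ.mem_perp_span.1 hu))
  have h3 := C.hΦ.finrank_perp_add (Submodule.span F S)
  have h4 : finrank F (F ∙ c) ≤ 1 := by simpa using finrank_span_le_card (R := F) ({c} : Set V)
  omega

omit [Fintype F] [FiniteDimensional F V] in
theorem add_smul_notMem {c u : V} (h : u ∉ F ∙ c) (κ : F) : u + κ • c ∉ F ∙ c := fun h1 =>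
  h (by simpa using sub_mem h1 (Submodule.smul_mem _ κ (Submodule.mem_span_singleton_self c)))

theorem d_of_A {c : V} {x : X} (h : ∀ w ∈ C.A c x, w ∈ F ∙ c) (u : V) (hu : C.b c u = 0) :
    u ∈ C.D c x :=
  mem_D_of_A fun v hv => by
    obtain ⟨a, rfl⟩ := Submodule.mem_span_singleton.1 (h v hv)
    simp [hu]

theorem not_d_of_TX (hq : 3 ≤ Fintype.card F) (hn : 4 ≤ finrank F V) {c y : V} {x : X}
    (hd : ∀ u, C.b c u = 0 → u ∈ C.D c x) (hy : C.TX x y) (h0 : y ≠ 0) : C.TX x c := by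
  have h1 : ∀ y, C.TX x y → y ∉ F ∙ c → C.b c y = 0 → C.TX x c := fun y hy h1 h2 => by
    obtain ⟨u, hu, hu'⟩ := exists_perp_one (C := C) h1
    exact TX_of_perp hq (fun a => hd (a • u) (by simp [hu c rfl])) hy h2 (by simp [hu'])
  by_contra hc
  by_cases h2 : C.b c y = 0
  · exact hc (h1 y hy (notMem_of_TX hc hy h0) h2)
  · obtain ⟨u, hu, hu'⟩ := exists_perp_notMem (C := C) (S := {c, y}) (c := c)
      (by have := fr2 (F := F) c y; omega)
    have h3 := hu c (by simp)
    obtain ⟨κ, hκ⟩ := TX_of_notperp hq (fun a => hd (a • u) (by simp [h3])) hy h2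
      (sym (hu y (by simp)))
    exact hc (h1 _ hκ (add_smul_notMem hu' κ) (by simp [h3]))

theorem not_all_d (hq : 3 ≤ Fintype.card F) (hn : 4 ≤ finrank F V) {x : X}
    (hd : ∀ c ≠ 0, ∀ u, C.b c u = 0 → u ∈ C.D c x) : ∃ y ≠ 0, C.TX x y := by
  by_contra! hT
  have : Nontrivial V := Module.nontrivial_of_finrank_pos (R := F) (by omega)
  obtain ⟨y, hy⟩ := exists_ne (0 : V)
  obtain ⟨c, hc, hc'⟩ := exists_perp_notMem (C := C) (S := {y}) (c := y) (by
    rw [finrank_span_singleton hy]; omega)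
  obtain ⟨z, hz, hz'⟩ := exists_perp_one (C := C) hc'
  have c1 := hc y rfl
  have z1 := hz y rfl
  by_cases h2 : (2 : F) = 0
  swap
  · exact hT y hy (all_of_comm h2 (fun a => hd y hy (a • z) (by simp [z1])) (hd y hy c c1)
      (by simp [hz']))
  have hsq : ∀ s : F, ∃ a, a ^ 2 = s := Finite.surjective_of_injective (f := fun a : F => a ^ 2)
    fun a a' h => by
      rcases sq_eq_sq_iff_eq_or_eq_neg.1 h with h | h
      · exact h
      · linear_combination h - a' * h2
  have h3 : ∀ c y : V, y ≠ 0 → c ∉ F ∙ y → C.b y c = 0 → C.e y c 0 ∈ stabilizer C.Φ.O x := by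
    intro c y hy hc h
    have hc0 := ne_zero_of_notMem hc
    obtain ⟨-, r, hr⟩ := hd c hc0 ((1 : F) • y) (by simp [sym h])
    obtain ⟨-, s, hs⟩ := hd y hy ((1 : F) • c) (by simp [h])
    by_cases hs0 : s = 0
    · simpa [hs0] using hs
    exfalso
    have h4 := d_step (sym h) (notMem_swap hy hc) (hd c hc0) (neg_ne_zero.2 hs0)
      (swap_mem (H := stabilizer _ x) (sym h) hr hs)
    have h5 : ∀ a : F, a ≠ 0 → ∀ a', C.e y (a' • c) (-(a' ^ 2 / (a ^ 2 / -s))) ∈
        stabilizer C.Φ.O x := fun a ha => by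
      obtain ⟨-, k, hk⟩ := hd y hy (a • c) (by simp [h])
      have h6 := swap_mem (H := stabilizer _ x) h hk (h4 a)
      rw [neg_neg] at h6
      exact d_step h hc (hd y hy) (div_ne_zero (pow_ne_zero _ ha) (neg_ne_zero.2 hs0)) h6
    obtain ⟨a, ha, ha1⟩ := exists_ne_zero_one hq
    have ha2 : a ^ 2 - 1 ≠ 0 := fun h => ha1 (by
      have : (a - 1) ^ 2 = 0 := by linear_combination h + (1 - a) * h2
      exact sub_eq_zero.1 (pow_eq_zero_iff two_ne_zero |>.1 this))
    refine hT y hy fun k => ?_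
    obtain ⟨a', ha'⟩ := hsq (-(k * a ^ 2 / (s * (a ^ 2 - 1))))
    convert sub_mem_T (by simp [h]) (h5 a ha a') (h5 1 one_ne_zero a') using 2
    rw [ha']
    field_simp
    ring
  refine hT y hy fun k => ?_
  by_cases hk : k = 0
  · rw [hk, t_zero]; exact one_mem _
  have hne : ∀ v, C.b v c ≠ 0 → v ∉ F ∙ y := fun v hv h => by
    obtain ⟨a, rfl⟩ := Submodule.mem_span_singleton.1 h
    simp [c1] at hv
  have h4 := mul_mem (h3 (k • z) y hy (hne _ (by simp [hz', hk])) (by simp [z1])) (h3 c y hy hc' c1)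
  rw [C.e_mul (by simp [z1]) c1] at h4
  simpa [hz'] using sub_mem_T (by simp [z1, c1]) h4
    (h3 (k • z + c) y hy (hne _ (by simp [hz', hk])) (by simp [z1, c1]))

variable [Finite X] (hS : Sm F V X)
include hS

theorem exists_TX (hexc : ¬ (finrank F V = 4 ∧ Fintype.card F = 3)) (x : X) :
    ∃ y ≠ 0, C.TX x y := by
  by_contra hT
  refine hT (not_all_d hS.hq hS.hn fun c hc => d_of_A fun w hw => by_contra fun hw' => hT ?_)
  obtain ⟨l, hl⟩ := key hS hc (fun h => hT ⟨c, hc, h⟩) hw hw' hexc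
  exact ⟨_, ne_zero_of_notMem (add_smul_notMem hw' l), hl⟩

theorem exists_A (hexc : ¬ (finrank F V = 4 ∧ Fintype.card F = 3)) {x : X} {c : V}
    (hc : ¬ C.TX x c) : ∃ w ∈ C.A c x, w ∉ F ∙ c := by
  by_contra! h
  obtain ⟨y, hy, hy'⟩ := exists_TX (C := C) hS hexc x
  exact hc (not_d_of_TX hS.hq hS.hn (d_of_A h) hy' hy)

theorem count_le {P : Type*} [MulAction C.Φ.O P] (x : X) {K S : Set P} (hf : S.Finite)
    (hK : ∀ k ∈ K, ∃ g : C.Φ.O, ∃ p ∈ S, g • p = k)
    (h : ∀ g : C.Φ.O, g • x = x → ∀ p ∈ S, g • p ∈ S) : K.ncard ≤ Nat.card X * S.ncard :=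
  (gorb_count (G := ⊤) (Set.toFinite _) hf (fun k hk => by simpa using hK k hk)
    fun g _ => h g).trans (Nat.mul_le_mul_right _ (Set.ncard_le_card _))

theorem no_point {x : X} {v : V} (h0 : v ≠ 0) (h : ∀ g : C.Φ.O, g • x = x → g.1 v ∈ F ∙ v) :
    False := by
  have := finite_of_fd F V
  have h1 := count_le (C := C) hS x (K := ({0}ᶜ : Set V))
    (S := ((F ∙ v : Submodule F V) : Set V) \ {0})
    (Set.toFinite _) (fun k hk => by
      obtain ⟨g, hg, e⟩ := C.hΦ.witt_one h0 hk (by rw [C.hA, C.hA]) (by rw [C.hQ, C.hQ])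
      exact ⟨⟨g, hg⟩, v, ⟨Submodule.mem_span_singleton_self v, h0⟩, e⟩) (by
      rintro g hg _ ⟨hp, hp0⟩
      obtain ⟨a, rfl⟩ := Submodule.mem_span_singleton.1 hp
      refine ⟨?_, fun h => hp0 ((smul_eq_zero_iff_eq g).1 h)⟩
      change g.1 (a • v) ∈ (F ∙ v : Submodule F V)
      rw [map_smul]
      exact Submodule.smul_mem _ _ (h g hg))
  rw [Set.ncard_compl, Set.ncard_singleton, card_V (F := F), Set.ncard_sdiff_singleton_of_mem
    (zero_mem _), ncard_line h0] at h1
  have := hS.hN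
  omega

theorem all_of_typeI {x : X} {y : V} (hy0 : y ≠ 0) (hy : C.TX x y)
    (hI : ∀ c, ¬ C.TX x c → ∀ w, C.b c w = 0 → w ∉ F ∙ c → ∃ l : F, C.TX x (w + l • c)) (c : V) :
    C.TX x c := by
  have hadd : ∀ u v, C.TX x u → C.TX x v → C.TX x (u + v) := fun u v hu hv => by
    by_cases h : C.b u v = 0
    swap
    · exact hu.add hv h
    by_contra hc
    have hu0 : u ≠ 0 := by rintro rfl; exact hc (by simpa using hv)
    obtain ⟨w, hw, hw'⟩ := exists_perp_one (C := C) (notMem_of_TX hc hu hu0)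
    have w1 := hw _ rfl
    obtain ⟨l, hl⟩ := hI _ hc w w1 fun h1 => by
      obtain ⟨a, rfl⟩ := Submodule.mem_span_singleton.1 h1
      simp [sym h] at hw'
    have w2 : C.b u w = -1 := by rw [C.anti, hw']
    have w3 : C.b v w = 1 := by
      simp only [map_add, LinearMap.add_apply, w2] at w1
      linear_combination w1
    have h1 : ∀ β : F, C.TX x (w + l • (u + v) + β • (u + v)) := fun β => by
      have := hv.add_smul (hu.add_smul hl (by simp [w2, h]) β) (by simp [w3, sym h]) β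
      convert this using 1
      module
    obtain ⟨a, ha, ha1⟩ := exists_ne_zero_one hS.hq
    exact hc (TA.of_line (by rw [C.b.map_add, LinearMap.add_apply, sym w1]; simp only [map_smul,
      LinearMap.smul_apply, b_self, smul_zero, add_zero]) ha ha1 hl (by simpa using h1 1) (h1 a))
  by_contra hc
  let U : Submodule F V :=
    { carrier := {u | C.TX x u}
      add_mem' := fun {u v} => hadd u v
      zero_mem' := TA.zero
      smul_mem' := fun a u hu => TA.smul hu a }
  obtain ⟨v, hv, hv'⟩ := C.hΦ.exists_perp_eq_one (W := U) hc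
  refine no_point (C := C) hS (x := x) (v := v) (by rintro rfl; simp at hv') fun g hg => ?_
  by_contra hgv
  have h1 : ∀ u, C.TX x u → C.b v u = 0 := hv
  have h2 : ∀ u, C.TX x u → C.b (g.1 v) u = 0 := fun u hu => by
    rw [← b_inv]; exact h1 _ (hu.conj (inv_mem hg))
  have h3 : ∀ c, ¬ C.TX x c → C.b c y = 0 := fun c hc => by
    obtain ⟨z, z0, z1, z2⟩ : ∃ z ≠ 0, C.b z c = 0 ∧ ∀ u, C.TX x u → C.b z u = 0 := by
      by_cases h : C.b v c = 0
      · exact ⟨v, by rintro rfl; simp at hv', h, h1⟩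
      · exact ⟨_, ne_zero_of_notMem (add_smul_notMem hgv (-(C.b (g.1 v) c / C.b v c))),
          by simp [h], fun u hu => by simp [h1 u hu, h2 u hu]⟩
    obtain ⟨a, rfl⟩ := Submodule.mem_span_singleton.1 (mem_span_of_perp (C := C) (S := {c})
      (v := z) fun w hw => by
        by_cases h : w ∈ F ∙ c
        · obtain ⟨a, rfl⟩ := Submodule.mem_span_singleton.1 h
          simp [sym z1]
        · obtain ⟨l, hl⟩ := hI c hc w (hw c rfl) h
          exact sym (by simpa [z1] using z2 _ hl))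
    have ha : a ≠ 0 := by rintro rfl; simp at z0
    simpa [ha] using z2 y hy
  refine hy0 (C.hΦ y fun v => sym ?_)
  by_cases h : C.TX x v
  · have := h3 (c + v) fun h' => hc (by simpa using hadd _ _ h' (h.smul (-1)))
    simpa [h3 c hc] using this
  · exact h3 v h

end SC

end H14
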