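import Cfsg.Agent.H14.SpE

/-!
Minimal degree of the symplectic groups, part six: the end of the proof.
-/

set_option autoImplicit false

namespace H14

open H23 H23.Form H22 Module MulAction Pointwise

theorem ncard_rel_le {α β : Type*} [Finite α] [Finite β] (A : Set α) (R : α → β → Prop) {k : ℕ}
    (h : ∀ a ∈ A, {b | R a b}.ncard ≤ k) :
    {p : α × β | p.1 ∈ A ∧ R p.1 p.2}.ncard ≤ A.ncard * k := by
  have := ncard_le_mul_of_cover (Set.toFinite {p : α × β | p.1 ∈ A ∧ R p.1 p.2})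
    (Set.toFinite A).toFinset (fun a p => p.1 = a) 1 k
    (fun p hp => (Set.ncard_pos (Set.toFinite _)).2 ⟨p.1, by simpa using hp.1, rfl⟩) fun a ha => by
      refine le_trans ?_ (h a (by simpa using ha))
      refine Set.ncard_le_ncard_of_injOn Prod.snd ?_ ?_ (Set.toFinite _)
      · rintro p ⟨hp, rfl⟩
        exact hp.2
      · rintro p ⟨-, e⟩ p' ⟨-, e'⟩ h
        exact Prod.ext (e.trans e'.symm) h
  rwa [one_mul, ← Set.ncard_eq_toFinset_card] at this

theorem le_ncard_rel {α β : Type*} [Finite α] [Finite β] (A : Set α) (R : α → β → Prop) {k : ℕ}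
    (h : ∀ a ∈ A, k ≤ {b | R a b}.ncard) :
    A.ncard * k ≤ {p : α × β | p.1 ∈ A ∧ R p.1 p.2}.ncard := by
  have := sum_le_of_fiber (Set.toFinite {p : α × β | p.1 ∈ A ∧ R p.1 p.2}) Prod.fst
    (Set.toFinite A).toFinset (fun _ => k) 1 fun a ha => by
      have ha' : a ∈ A := by simpa using ha
      rw [one_mul]
      refine (h a ha').trans (Set.ncard_le_ncard_of_injOn (fun b => (a, b)) ?_ ?_ (Set.toFinite _))
      · exact fun b hb => ⟨⟨ha', hb⟩, rfl⟩
      · exact fun b _ b' _ e => congrArg Prod.snd e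
  rwa [one_mul, Finset.sum_const, smul_eq_mul, ← Set.ncard_eq_toFinset_card] at this

namespace SC

variable {F V : Type*} [Field F] [AddCommGroup V] [Module F V] {C : SC F V}
  {X : Type*} [MulAction C.Φ.O X] [Fintype F] [FiniteDimensional F V] [Finite X] (hS : Sm F V X)
include hS

section Five

variable {c w : V} {x : X} (hc : ¬ C.TX x c) (hcw : C.b c w = 0)
  (hD : ∀ u, u ∈ C.D c x ↔ C.b c u = 0 ∧ C.b w u = 0)
include hc hD

omit [Finite X] in
theorem two_mem {y : V} (hy : C.TX x y) (h : C.b c y = 0) : y ∈ Submodule.span F {c, w} := by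
  by_contra h1
  obtain ⟨u, hu, hu'⟩ := exists_perp_one (C := C) h1
  exact hc (TX_of_perp hS.hq (u := u)
    (fun a => (hD _).2 ⟨by simp [hu c (by simp)], by simp [hu w (by simp)]⟩) hy h (by simp [hu']))

omit [Finite X] in
theorem two_perp (h5 : 5 ≤ finrank F V) {y : V} (hy : C.TX x y) : C.b c y = 0 := by
  by_contra h
  obtain ⟨u, hu, hu'⟩ := exists_perp_notMem (C := C) (S := {c, w, y})
    (c := w - (C.b w y / C.b c y) • c) (by have := fr3 (F := F) c w y; omega)
  have u1 := hu c (by simp)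
  have u2 := hu w (by simp)
  have u3 := hu y (by simp)
  obtain ⟨κ, hκ⟩ := TX_of_notperp hS.hq (u := u)
    (fun a => (hD _).2 ⟨by simp [u1], by simp [u2]⟩) hy h (sym u3)
  obtain ⟨α, β, e⟩ := Submodule.mem_span_pair.1 (two_mem hS hc hD hκ (by simp [u1]))
  have e1 : u = (α - κ) • c + β • w := by rw [sub_smul, sub_add_eq_add_sub, e]; simp
  refine hu' (Submodule.mem_span_singleton.2 ⟨β, ?_⟩)
  have e2 := sym u3
  rw [e1] at e2 ⊢
  simp only [map_add, map_smul, LinearMap.add_apply, LinearMap.smul_apply, smul_eq_mul] at e2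
  match_scalars
  · ring
  · field_simp
    linear_combination -e2

end Five

theorem all_five (h5 : 5 ≤ finrank F V) (x : X) (c : V) : C.TX x c := by
  have hexc : ¬ (finrank F V = 4 ∧ Fintype.card F = 3) := by omega
  have hne : ∀ c, ¬ C.TX x c → c ≠ 0 := by rintro c hc rfl; exact hc TA.zero
  have hI : ∀ c, ¬ C.TX x c → (∀ u ∈ C.D c x, u ∈ F ∙ c) → ∀ w, C.b c w = 0 → w ∉ F ∙ c →
      ∃ l : F, C.TX x (w + l • c) := fun c hc h w hw hw' =>
    key hS (hne c hc) hc (mem_A_of_perp fun u hu => by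
      obtain ⟨a, rfl⟩ := Submodule.mem_span_singleton.1 (h u hu)
      simp [sym hw]) hw' hexc
  obtain ⟨y, hy0, hy⟩ := exists_TX (C := C) hS hexc x
  refine all_of_typeI hS hy0 hy (fun c hc => hI c hc ?_) c
  obtain ⟨w, hw, hw'⟩ := exists_A hS hexc hc
  refine (types hS (hne c hc) hc hw hw').resolve_right fun hD => ?_
  have hcw := perp_of_mem_A hw
  obtain ⟨l, hl⟩ := key hS (hne c hc) hc hw hw' hexc
  have h1 : ∀ y, C.TX x y → y ∈ Submodule.span F {c, w} := fun y hy =>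
    two_mem hS hc hD hy (two_perp hS hc hD h5 hy)
  obtain ⟨c', hc'⟩ : ∃ c', C.b (w + l • c) c' = 1 :=
    C.hΦ.exists_ne (ne_zero_of_notMem (add_smul_notMem hw' l))
  have h2 : ¬ C.TX x c' := fun h => by
    obtain ⟨α, β, rfl⟩ := Submodule.mem_span_pair.1 (h1 c' h)
    simp [hcw, sym hcw] at hc'
  obtain ⟨v, hv, hv'⟩ := exists_A hS hexc h2
  rcases types hS (hne _ h2) h2 hv hv' with h3 | h3
  · have h4 : C.Φ.perp (F ∙ c') ≤ Submodule.span F {c, w, c'} := fun u hu => by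
      have h6 : F ∙ c' ≤ Submodule.span F {c, w, c'} := Submodule.span_mono (by simp)
      by_cases h : u ∈ F ∙ c'
      · exact h6 h
      obtain ⟨k, hk⟩ := hI c' h2 h3 u (C.Φ.mem_perp_span_singleton.1 hu) h
      simpa using sub_mem (Submodule.span_mono (t := {c, w, c'}) (by
        intro z hz; simp only [Set.mem_insert_iff, Set.mem_singleton_iff] at hz ⊢; tauto)
        (h1 _ hk)) (h6 (Submodule.smul_mem _ k (Submodule.mem_span_singleton_self c')))
    have h6 := Submodule.finrank_mono h4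
    have h7 := C.hΦ.finrank_perp_add (F ∙ c')
    have h8 := fr3 (F := F) c w c'
    rw [finrank_span_singleton (hne _ h2)] at h7
    omega
  · rw [sym (two_perp hS h2 h3 h5 hl)] at hc'
    exact zero_ne_one hc'

section Four

variable (h4 : finrank F V = 4) {x : X}
include h4

theorem four_num {k r : ℕ} (h : (Fintype.card F ^ 4 - 1) * k ≤ Nat.card X * ((Fintype.card F - 1) * r))
    (hr : 0 < r) (hk : r ≤ k) : False := by
  have h1 := hS.hN
  rw [h4] at h1
  have h2 : Nat.card X * (Fintype.card F - 1) * r < (Fintype.card F ^ 4 - 1) * r :=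
    Nat.mul_lt_mul_of_pos_right (by omega) hr
  have h3 := Nat.mul_le_mul_left (Fintype.card F ^ 4 - 1) hk
  rw [← mul_assoc] at h
  omega

omit hS [Finite X] in
theorem ncard_perp4 {c : V} (h0 : c ≠ 0) : {w | C.b c w = 0}.ncard = Fintype.card F ^ 3 := by
  refine Nat.eq_of_mul_eq_mul_right (Fintype.card_pos (α := F)) ?_
  rw [ncard_perp h0, h4, pow_succ _ 3]

omit hS [Finite X] in
theorem ncard_ne_zero : ({0}ᶜ : Set V).ncard = Fintype.card F ^ 4 - 1 := by
  have := finite_of_fd F V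
  rw [Set.ncard_compl, Set.ncard_singleton, card_V (F := F), h4]

theorem no_line {y z : V} (hy : y ≠ 0) (hz : z ∉ F ∙ y) (hb : C.b y z = 0)
    (h : ∀ g : C.Φ.O, g • x = x → ∀ v ∈ Submodule.span F {y, z}, g.1 v ∈ Submodule.span F {y, z}) :
    False := by
  have := finite_of_fd F V
  have hq := hS.hq
  set U := Submodule.span F {y, z}
  have hU : (U : Set V).ncard ≤ Fintype.card F ^ 2 := by
    rw [ncard_submodule]; exact Nat.pow_le_pow_right (by omega) (fr2 y z)
  have h1 := count_le (C := C) hS x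
    (K := {p : V × V | p.1 ∈ ({0}ᶜ : Set V) ∧ p.2 ∈ {w | C.b p.1 w = 0} \ (F ∙ p.1 : Submodule F V)})
    (S := {p : V × V | p.1 ∈ (U : Set V) \ {0} ∧ p.2 ∈ (U : Set V) \ (F ∙ p.1 : Submodule F V)})
    (Set.toFinite _) (by
      rintro ⟨a, b⟩ ⟨ha, hb1, hb2⟩
      obtain ⟨g, g1, g2⟩ := exists_pair (C := C) hy hz ha hb2 (hb.trans hb1.symm)
      exact ⟨g, (y, z), ⟨⟨Submodule.subset_span (by simp), hy⟩, Submodule.subset_span (by simp), hz⟩,
        Prod.ext g1 g2⟩) (by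
      rintro g hg ⟨a, b⟩ ⟨⟨a1, a2⟩, b1, b2⟩
      refine ⟨⟨h g hg a a1, fun e => a2 ((smul_eq_zero_iff_eq g).1 e)⟩, h g hg b b1, fun e => b2 ?_⟩
      obtain ⟨s, hs⟩ := Submodule.mem_span_singleton.1 e
      exact Submodule.mem_span_singleton.2 ⟨s, g.1.injective (by rw [map_smul]; exact hs)⟩)
  have h2 := le_ncard_rel ({0}ᶜ : Set V)
    (fun a b => b ∈ {w | C.b a w = 0} \ (F ∙ a : Submodule F V))
    (k := Fintype.card F ^ 3 - Fintype.card F) fun a ha => by
      rw [Set.setOf_mem_eq, Set.ncard_sdiff, ncard_perp4 h4 ha, ncard_line ha]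
      intro u hu
      obtain ⟨s, rfl⟩ := Submodule.mem_span_singleton.1 hu
      simp
  have h3 := ncard_rel_le ((U : Set V) \ {0}) (fun a b => b ∈ (U : Set V) \ (F ∙ a : Submodule F V))
    (k := Fintype.card F ^ 2 - Fintype.card F) fun a ha => by
      rw [Set.setOf_mem_eq, Set.ncard_sdiff, ncard_line ha.2]
      · omega
      · exact (Submodule.span_singleton_le_iff_mem _ _).2 ha.1
  rw [Set.ncard_sdiff_singleton_of_mem (zero_mem _)] at h3
  rw [ncard_ne_zero h4] at h2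
  have h5 := h2.trans (h1.trans (Nat.mul_le_mul_left _ (h3.trans
    (Nat.mul_le_mul_right _ (Nat.sub_le_sub_right hU 1)))))
  obtain ⟨r, hr⟩ : ∃ r, Fintype.card F = r + 1 := ⟨Fintype.card F - 1, by omega⟩
  refine four_num hS h4 (r := (r + 2) * ((r + 1) * r)) (h5.trans_eq ?_)
    (by have : 0 < r := by omega
        positivity) (Nat.le_sub_of_add_le (le_of_eq (by rw [hr]; ring)))
  rw [hr, Nat.add_sub_cancel, show (r + 1) ^ 2 - 1 = r * (r + 2) from Nat.sub_eq_of_eq_add (by ring),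
    show (r + 1) ^ 2 - (r + 1) = (r + 1) * r from Nat.sub_eq_of_eq_add (by ring)]
  ring

omit h4 [Finite X] in
theorem pairs_le {Y : Submodule F V} (hY : finrank F Y ≤ 2) :
    {p : V × V | p.1 ∈ (Y : Set V) \ {0} ∧ p.2 ∈ Y ∧ C.b p.1 p.2 = 1}.ncard ≤
      (Fintype.card F ^ 2 - 1) * Fintype.card F := by
  have := finite_of_fd F V
  have hq := hS.hq
  refine (ncard_rel_le _ (fun a b => b ∈ Y ∧ C.b a b = 1) (k := Fintype.card F)
    fun a ha => ?_).trans (Nat.mul_le_mul_right _ ?_)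
  · rcases Set.eq_empty_or_nonempty {b | b ∈ Y ∧ C.b a b = 1} with h | ⟨z, hz⟩
    · simp [h]
    have h1 : Y ⊓ C.Φ.perp (F ∙ a) < Y := lt_of_le_of_ne inf_le_left fun e => by
      have := C.Φ.mem_perp_span_singleton.1 (e.symm ▸ hz.1 : z ∈ Y ⊓ C.Φ.perp (F ∙ a)).2
      exact zero_ne_one (this.symm.trans hz.2)
    have h2 := Submodule.finrank_lt_finrank_of_lt h1
    refine (Set.ncard_le_ncard_of_injOn (t := (Y ⊓ C.Φ.perp (F ∙ a) : Submodule F V)) (· - z)
      (fun b hb => ?_)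
      sub_left_injective.injOn (Set.toFinite _)).trans ?_
    · exact ⟨sub_mem hb.1 hz.1, C.Φ.mem_perp_span_singleton.2 (by
        rw [← b_def, map_sub, hb.2, hz.2, sub_self])⟩
    · rw [ncard_submodule]
      exact (Nat.pow_le_pow_right (by omega) (by omega)).trans_eq (pow_one _)
  · rw [Set.ncard_sdiff_singleton_of_mem (zero_mem _), ncard_submodule]
    exact Nat.sub_le_sub_right (Nat.pow_le_pow_right (by omega) hY) 1

theorem no_pair {y z : V} (hy : C.TX x y) (hz : C.TX x z) (hb : C.b y z = 1)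
    {Y Y' : Submodule F V} (hY : finrank F Y ≤ 2) (hY' : finrank F Y' ≤ 2)
    (hp : ∀ a ∈ Y, ∀ b ∈ Y', C.b a b = 0) (h : ∀ v, C.TX x v → v ∈ Y ∨ v ∈ Y') : False := by
  have := finite_of_fd F V
  have hq := hS.hq
  have hne : ∀ {a b : V}, C.b a b = 1 → a ≠ 0 ∧ b ∉ F ∙ a := fun {a b} h =>
    ⟨by rintro rfl; simp at h, fun h' => by
      obtain ⟨s, rfl⟩ := Submodule.mem_span_singleton.1 h'
      simp at h⟩
  have h1 := count_le (C := C) hS x (K := {p : V × V | p.1 ∈ ({0}ᶜ : Set V) ∧ C.b p.1 p.2 = 1})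
    (S := {p : V × V | C.TX x p.1 ∧ C.TX x p.2 ∧ C.b p.1 p.2 = 1}) (Set.toFinite _) (by
      rintro ⟨a, b⟩ ⟨ha, hab⟩
      obtain ⟨g, g1, g2⟩ := exists_pair (C := C) (hne hb).1 (hne hb).2 ha (hne hab).2
        (hb.trans hab.symm)
      exact ⟨g, (y, z), ⟨hy, hz, hb⟩, Prod.ext g1 g2⟩) (by
      rintro g hg ⟨a, b⟩ ⟨h1, h2, h3⟩
      exact ⟨h1.conj hg, h2.conj hg, (C.O_b g a b).trans h3⟩)
  have h2 := le_ncard_rel ({0}ᶜ : Set V) (fun a b => C.b a b = 1) (k := Fintype.card F ^ 3)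
    fun a ha => by
      obtain ⟨z, hz⟩ : ∃ z, C.b a z = 1 := C.hΦ.exists_ne ha
      rw [← ncard_perp4 (C := C) h4 ha]
      exact Set.ncard_le_ncard_of_injOn (· + z) (fun b hb => by simp [hz, show C.b a b = 0 from hb])
        (add_left_injective z).injOn (Set.toFinite _)
  have h3 : {p : V × V | C.TX x p.1 ∧ C.TX x p.2 ∧ C.b p.1 p.2 = 1} ⊆
      {p : V × V | p.1 ∈ (Y : Set V) \ {0} ∧ p.2 ∈ Y ∧ C.b p.1 p.2 = 1} ∪
      {p : V × V | p.1 ∈ (Y' : Set V) \ {0} ∧ p.2 ∈ Y' ∧ C.b p.1 p.2 = 1} := by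
    rintro ⟨a, b⟩ ⟨h1, h2, h3⟩
    rcases h a h1 with ha | ha <;> rcases h b h2 with hb | hb
    · exact .inl ⟨⟨ha, (hne h3).1⟩, hb, h3⟩
    · exact absurd ((hp a ha b hb).symm.trans h3) zero_ne_one
    · exact absurd ((sym (hp b hb a ha)).symm.trans h3) zero_ne_one
    · exact .inr ⟨⟨ha, (hne h3).1⟩, hb, h3⟩
  have h5 := (Set.ncard_le_ncard h3 (Set.toFinite _)).trans ((Set.ncard_union_le _ _).trans
    (Nat.add_le_add (pairs_le hS hY) (pairs_le hS hY')))
  rw [ncard_ne_zero h4] at h2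
  have h6 := h2.trans (h1.trans (Nat.mul_le_mul_left _ h5))
  obtain ⟨r, hr⟩ : ∃ r, Fintype.card F = r + 3 := ⟨Fintype.card F - 3, by omega⟩
  refine four_num hS h4 (r := 2 * (r + 4) * (r + 3)) (h6.trans_eq ?_) (by positivity)
    (by rw [hr, pow_succ]; exact Nat.mul_le_mul_right _ (by nlinarith))
  rw [hr, show (r + 3) ^ 2 - 1 = (r + 2) * (r + 4) from Nat.sub_eq_of_eq_add (by ring),
    show r + 3 - 1 = r + 2 from rfl]
  ring

theorem all_of_perp {u : V} (h0 : u ≠ 0) (h : ∀ y, C.b u y = 0 → C.TX x y) (v : V) :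
    C.TX x v := by
  by_cases h1 : ∀ y, C.TX x y → C.b u y = 0
  · exact (no_point (C := C) hS (x := x) h0 fun g hg => mem_span_of_perp (C := C) fun y hy =>
      sym (by rw [← b_inv]; exact h1 _ ((h y (hy u rfl)).conj (inv_mem hg)))).elim
  push Not at h1
  obtain ⟨z, hz, hz'⟩ := h1
  by_cases h2 : C.b u v = 0
  · exact h v h2
  have h3 := hz.smul (C.b u v / C.b u z)
  have h5 : C.b u ((C.b u v / C.b u z) • z) = C.b u v := by simp [hz']
  generalize (C.b u v / C.b u z) • z = z at h3 h5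
  by_cases h6 : C.b z v = 0
  · have := ((h u (by simp)).add h3 (h5 ▸ h2)).add (h (v - z - u) (by simp [h5])) (by
      simp [h5, h6, C.anti u z, h2])
    convert this using 1
    abel
  · simpa using h3.add (h (v - z) (by simp [h5])) (by simpa using h6)

theorem all_four (hq : Fintype.card F ≠ 3) (x : X) (c : V) : C.TX x c := by
  obtain ⟨y, hy0, hy⟩ := exists_TX (C := C) hS (fun h => hq h.2) x
  have hfr : ∀ {y z : V}, y ≠ 0 → z ∉ F ∙ y → finrank F (Submodule.span F {y, z}) = 2 ∧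
      finrank F (C.Φ.perp (Submodule.span F {y, z})) = 2 := fun {y z} h1 h2 => by
    have h3 := finrank_span_eq_card (linearIndependent_pair_of_notMem h1 h2)
    rw [Matrix.range_cons_cons_empty, Fintype.card_fin] at h3
    have := C.hΦ.finrank_perp_add (Submodule.span F {y, z})
    omega
  by_cases hA : ∀ u v, C.TX x u → C.TX x v → C.b u v = 0
  · exfalso
    by_cases h1 : ∀ u, C.TX x u → u ∈ F ∙ y
    · exact no_point (C := C) hS (x := x) hy0 fun g hg => h1 _ (hy.conj hg)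
    push Not at h1
    obtain ⟨z, hz, hz'⟩ := h1
    have h2 : Submodule.span F {y, z} = C.Φ.perp (Submodule.span F {y, z}) :=
      Submodule.eq_of_le_of_finrank_eq (Submodule.span_le.2 (by
        rintro u (rfl | rfl) <;> exact mem_perp_pair.2 ⟨hA _ _ hy ‹_›, hA _ _ hz ‹_›⟩))
        ((hfr hy0 hz').1.trans (hfr hy0 hz').2.symm)
    have h3 : ∀ u, C.TX x u → u ∈ Submodule.span F {y, z} := fun u hu =>
      h2 ▸ mem_perp_pair.2 ⟨hA _ _ hy hu, hA _ _ hz hu⟩
    refine no_line hS h4 (x := x) hy0 hz' (hA _ _ hy hz) fun g hg v hv => ?_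
    obtain ⟨α, β, rfl⟩ := Submodule.mem_span_pair.1 hv
    rw [map_add, map_smul, map_smul]
    exact add_mem (Submodule.smul_mem _ _ (h3 _ (hy.conj hg)))
      (Submodule.smul_mem _ _ (h3 _ (hz.conj hg)))
  push Not at hA
  obtain ⟨u, v', hu, hv', huv'⟩ := hA
  obtain ⟨v, hv, huv⟩ : ∃ v, C.TX x v ∧ C.b u v = 1 :=
    ⟨_, hv'.smul (C.b u v')⁻¹, by simp [huv']⟩
  have hvu : C.b v u = -1 := by rw [C.anti, huv]
  obtain ⟨f1, f2⟩ := hfr (y := u) (z := v) (by rintro rfl; simp at huv) fun h => by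
    obtain ⟨s, rfl⟩ := Submodule.mem_span_singleton.1 h
    simp at huv
  set Y := Submodule.span F {u, v} with hY
  have hTY : ∀ a ∈ Y, C.TX x a := fun a ha => by
    obtain ⟨α, β, rfl⟩ := Submodule.mem_span_pair.1 ha
    exact hu.comb hv (by simp [huv]) α β
  have hdec : ∀ a, ∃ a1 ∈ Y, ∃ a2 ∈ C.Φ.perp Y, a = a1 + a2 := fun a =>
    ⟨(-C.b v a) • u + C.b u a • v, Submodule.mem_span_pair.2 ⟨_, _, rfl⟩,
      a - ((-C.b v a) • u + C.b u a • v), mem_perp_pair.2
        ⟨by simp [← b_def, huv], by simp [← b_def, hvu]⟩, by abel⟩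
  have hp : ∀ a ∈ Y, ∀ b ∈ C.Φ.perp Y, C.b a b = 0 := fun a ha b hb => hb a ha
  by_cases h1 : ∀ a, C.TX x a → a ∈ Y ∨ a ∈ C.Φ.perp Y
  · exact (no_pair hS h4 hu hv huv f1.le f2.le hp h1).elim
  push Not at h1
  obtain ⟨a, ha, n1, n2⟩ := h1
  obtain ⟨p, hp1, p', hp2, rfl⟩ := hdec a
  have p0 : p' ≠ 0 := by rintro rfl; exact n1 (by simpa using hp1)
  have hnd : ∀ a ∈ Y, a ≠ 0 → a ∉ C.Φ.perp Y := fun a ha h0 h => by
    obtain ⟨α, β, rfl⟩ := Submodule.mem_span_pair.1 ha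
    obtain ⟨e1, e2⟩ := mem_perp_pair.1 h
    simp only [← b_def, map_add, map_smul, b_self, huv, hvu, smul_eq_mul] at e1 e2
    exact h0 (by rw [show α = 0 by linear_combination -e2, show β = 0 by linear_combination e1]; simp)
  have step : ∀ a ∈ Y, ∀ a' ∈ Y, C.b a' a ≠ 0 → C.TX x (a + p') → C.TX x (a' + p') :=
    fun a ha a' ha' h1 h2 => by
      have := (hTY _ (sub_mem ha' ha)).add h2 (by simpa [hp a ha p' hp2, hp a' ha' p' hp2] using h1)
      convert this using 1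
      abel
  have h2 : ∀ a ∈ Y, a ≠ 0 → C.TX x (a + p') := fun a ha' h0 => by
    obtain ⟨t, t1, t2, t3⟩ := C.hΦ.exists_perp_ne_ne (H := C.Φ.perp Y) (x := p) (y := a)
      (fun h => n2 (add_mem h hp2)) (hnd a ha' h0)
    have ht : t ∈ Y := C.hΦ.perp_perp Y ▸ C.Φ.mem_perp'.2 t1
    exact step t ht a ha' (sym_ne t3) (step p hp1 t ht t2 ha)
  have hu0 : u ≠ 0 := by rintro rfl; simp at huv
  have huY : u ∈ Y := Submodule.subset_span (by simp)
  have h3 : ∀ a ∈ Y, a ≠ 0 → ∀ l : F, C.TX x (a + l • p') := fun a ha h0 l => by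
    by_cases hl : l = 0
    · simpa [hl] using hTY a ha
    · simpa [smul_smul, hl] using (h2 _ (Y.smul_mem l⁻¹ ha) (smul_ne_zero (inv_ne_zero hl) h0)).smul l
  obtain ⟨l, hl0, hl1⟩ := exists_ne_zero_one hS.hq
  have h5 : C.TX x p' := TA.of_line (hp u huY p' hp2) hl0 hl1 hu (h2 u huY hu0) (h3 u huY hu0 l)
  refine all_of_perp hS h4 p0 (fun a ha => ?_) c
  obtain ⟨a1, ha1, a2, ha2, rfl⟩ := hdec a
  have h6 : F ∙ p' = C.Φ.perp Y ⊓ C.Φ.perp (F ∙ p') := by
    refine Submodule.eq_of_le_of_finrank_le (Submodule.span_le.2 (by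
      rintro _ rfl
      exact ⟨hp2, C.Φ.mem_perp_span_singleton.2 (C.hA _)⟩)) ?_
    obtain ⟨z, hz⟩ : ∃ z, C.b p' z = 1 := C.hΦ.exists_ne p0
    obtain ⟨z1, hz1, z2, hz2, rfl⟩ := hdec z
    have h7 : C.Φ.perp Y ⊓ C.Φ.perp (F ∙ p') < C.Φ.perp Y := lt_of_le_of_ne inf_le_left fun e => by
      have : C.b p' z2 = 0 := C.Φ.mem_perp_span_singleton.1
        (e.symm ▸ hz2 : z2 ∈ C.Φ.perp Y ⊓ C.Φ.perp (F ∙ p')).2
      simp [this, sym (hp z1 hz1 p' hp2)] at hz
    have := Submodule.finrank_lt_finrank_of_lt h7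
    rw [finrank_span_singleton p0]
    omega
  obtain ⟨k, rfl⟩ := Submodule.mem_span_singleton.1 (h6 ▸ ⟨ha2, C.Φ.mem_perp_span_singleton.2
    (by simpa [← b_def, sym (hp a1 ha1 p' hp2)] using ha)⟩ : a2 ∈ F ∙ p')
  by_cases h0 : a1 = 0
  · simpa [h0] using h5.smul k
  · exact h3 a1 ha1 h0 k

end Four

theorem fix_all (hexc : ¬ (finrank F V = 4 ∧ Fintype.card F = 3)) (x : X) (g : C.Φ.O) :
    g • x = x := by
  have : stabilizer C.Φ.O x = ⊤ := eq_top_of_TA fun c => by
    by_cases h4 : finrank F V = 4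
    · exact all_four hS h4 (fun h => hexc ⟨h4, h⟩) x c
    · exact all_five hS (by have := hS.hn; omega) x c
  exact (this ▸ Subgroup.mem_top g : g ∈ stabilizer C.Φ.O x)

omit hS [Finite X] [MulAction C.Φ.O X] in
theorem minIdx (hq : 3 ≤ Fintype.card F) (hn : 4 ≤ finrank F V)
    (hexc : ¬ (finrank F V = 4 ∧ Fintype.card F = 3)) :
    MinIdx (C.Φ.O ⧸ Subgroup.center C.Φ.O)
      ((Fintype.card F ^ finrank F V - 1) / (Fintype.card F - 1)) := by
  classical
  have := finite_of_fd F V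
  have : Finite (V ≃ₗ[F] V) := Finite.of_injective _ DFunLike.coe_injective
  have h7 : ({0}ᶜ : Set F).ncard = Fintype.card F - 1 := by
    rw [Set.ncard_compl, Set.ncard_singleton, Nat.card_eq_fintype_card]
  refine ⟨fun H hH => ?_, ?_⟩
  · by_contra hx
    have h1 := lt_div_iff_aux (not_le.1 hx)
    have : 0 < Fintype.card F ^ finrank F V := by positivity
    rw [add_mul, ← Subgroup.index_comap_of_surjective _ (QuotientGroup.mk'_surjective _),
      Subgroup.index] at h1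
    refine hH (eq_top_iff.2 fun p _ => ?_)
    obtain ⟨g, rfl⟩ := QuotientGroup.mk'_surjective _ p
    have h2 := fix_all (C := C) (X := C.Φ.O ⧸ H.comap (QuotientGroup.mk' _)) ⟨hq, hn, by omega⟩
      hexc ((1 : C.Φ.O) : _ ⧸ _) g
    change QuotientGroup.mk (g * 1) = _ at h2
    rwa [mul_one, eq_comm, QuotientGroup.eq, inv_one, one_mul] at h2
  have : Nontrivial V := Module.nontrivial_of_finrank_pos (R := F) (by omega)
  obtain ⟨c, h0⟩ := exists_ne (0 : V)
  have hf := Set.toFinite (gorb C.Φ.O (F ∙ c).toAddSubgroup)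
  have hsm : ∀ g : V ≃ₗ[F] V, g • (F ∙ c).toAddSubgroup = (F ∙ g c).toAddSubgroup := fun g =>
    LC.smul_toAdd_eq (fun u hu => by
      obtain ⟨s, rfl⟩ := Submodule.mem_span_singleton.1 hu
      exact Submodule.mem_span_singleton.2 ⟨s, by simp⟩) (by
        rw [finrank_span_singleton h0, finrank_span_singleton (by simpa using h0)])
  have h1 : (gorb C.Φ.O (F ∙ c).toAddSubgroup).ncard * (Fintype.card F - 1) =
      Fintype.card F ^ finrank F V - 1 := by
    have h2 : ∀ D ∈ hf.toFinset, {v ∈ ({0}ᶜ : Set V) | (F ∙ v).toAddSubgroup = D}.ncard =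
        Fintype.card F - 1 := by
      intro D hD
      obtain ⟨g, -, rfl⟩ := hf.mem_toFinset.1 hD
      have hg0 : g c ≠ 0 := by simpa using h0
      rw [← h7, hsm, ← Set.ncard_image_of_injective _ (smul_left_injective F hg0)]
      congr 1
      ext v
      constructor
      · rintro ⟨hv, e⟩
        obtain ⟨s, rfl⟩ := Submodule.mem_span_singleton.1
          (show v ∈ (F ∙ g c).toAddSubgroup from e ▸ Submodule.mem_span_singleton_self v)
        exact ⟨s, by rintro rfl; simp at hv, rfl⟩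
      · rintro ⟨s, hs, rfl⟩
        exact ⟨smul_ne_zero hs hg0, by rw [Submodule.span_singleton_smul_eq (IsUnit.mk0 s hs)]⟩
    have h3 := sum_le_of_fiber (Set.toFinite ({0}ᶜ : Set V)) (fun v => (F ∙ v).toAddSubgroup)
      hf.toFinset (fun _ => Fintype.card F - 1) 1 fun D hD => by rw [one_mul, h2 D hD]
    have h4 := ncard_le_mul_of_cover (Set.toFinite ({0}ᶜ : Set V)) hf.toFinset
      (fun D v => (F ∙ v).toAddSubgroup = D) 1 (Fintype.card F - 1) (by
        intro v hv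
        obtain ⟨g, hg, rfl⟩ := C.hΦ.witt_one h0 hv (by rw [C.hA, C.hA]) (by rw [C.hQ, C.hQ])
        exact (Set.ncard_pos (Set.toFinite _)).2 ⟨_, hf.mem_toFinset.2 ⟨g, hg, hsm g⟩, rfl⟩)
      fun D hD => (h2 D hD).le
    rw [Finset.sum_const, smul_eq_mul] at h3
    rw [Set.ncard_compl, Set.ncard_singleton, card_V (F := F), ← Set.ncard_eq_toFinset_card]
      at h3 h4
    omega
  rw [← h1, Nat.mul_div_cancel _ (by omega)]
  refine exists_index_of_orbit _ (QuotientGroup.mk'_surjective _) _ fun g hg => ?_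
  rw [QuotientGroup.ker_mk'] at hg
  obtain ⟨z, hz⟩ : ∃ z, C.b c z = 1 := C.hΦ.exists_ne h0
  have h4 := congrArg (fun k : C.Φ.O => k.1 z) (Subgroup.mem_center_iff.1 hg (C.t c 1))
  simp only [mul_app, t_apply, hz, one_mul, one_smul, map_add, add_right_inj] at h4
  refine LC.smul_toAdd_eq (fun u hu => ?_) rfl
  obtain ⟨s, rfl⟩ := Submodule.mem_span_singleton.1 hu
  rw [map_smul, ← h4]
  exact Submodule.smul_mem _ _ (Submodule.smul_mem _ _ (Submodule.mem_span_singleton_self c))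

end SC

theorem minIdx_PSp {F : Type*} [Field F] [Fintype F] (m : ℕ) (hm : 2 ≤ m)
    (hq : 3 ≤ Fintype.card F) (hexc : ¬ (m = 2 ∧ Fintype.card F = 3)) :
    MinIdx (Cfsg.PSp m F) ((Fintype.card F ^ (2 * m) - 1) / (Fintype.card F - 1)) := by
  have hr : finrank F (Fin m ⊕ Fin m → F) = 2 * m := by simp [two_mul]
  have h := SC.minIdx (C := ⟨H22.spForm m F, H22.spForm_nondeg m, fun v => (H22.isAlt_J m) v, fun _ => rfl⟩)
    hq (by omega) (by omega)
  rw [hr] at h
  exact MinIdx.congr (quotCenterCongr (H22.spEquiv m F)) h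

end H14
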