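import Cfsg.Agent.H14.SpF

/-!
Subgroups of symplectic groups in characteristic two containing a complement to the transvection
group in the unipotent radical of a point stabiliser, part one.
-/

set_option autoImplicit false

namespace H14

open H23 H23.Form H22 Module MulAction

theorem sq_surj {F : Type*} [Field F] [Finite F] (h2 : (2 : F) = 0) (s : F) : ∃ a, a ^ 2 = s :=
  Finite.surjective_of_injective (f := fun a : F => a ^ 2) (fun a a' h => by
    rcases sq_eq_sq_iff_eq_or_eq_neg.1 h with h | h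
    · exact h
    · linear_combination h - a' * h2) s

theorem zero_or_one {F : Type*} [Field F] [Fintype F] (hq : Fintype.card F = 2) (a : F) :
    a = 0 ∨ a = 1 := by
  have := FiniteField.pow_card a
  rw [hq] at this
  rcases mul_eq_zero.1 (show a * (a - 1) = 0 by linear_combination this) with h | h
  exacts [.inl h, .inr (sub_eq_zero.1 h)]

theorem hua_sq {F : Type*} [Field F] [Finite F] (h2 : (2 : F) = 0) {f g : F → F}
    (hf : ∀ s t, f (s + t) = f s + f t) (hg : ∀ s t, g (s + t) = g s + g t)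
    (hf0 : ∀ t, t ≠ 0 → f t ≠ 0) (hg0 : ∀ t, t ≠ 0 → g t ≠ 0)
    (h : ∀ t, t ≠ 0 → g ((f t)⁻¹ * t) = (f t)⁻¹) (t : F) : f t = t ^ 2 * f 1 := by
  have inj : ∀ {k : F → F}, (∀ s t, k (s + t) = k s + k t) → (∀ t, t ≠ 0 → k t ≠ 0) →
      Function.Injective k := fun {k} h1 h0 s t e => by
    by_contra hne
    refine h0 (s + t) (fun h => hne (by linear_combination h - t * h2)) ?_
    rw [h1, e]; linear_combination k t * h2
  have f0 : f 0 = 0 := by have := hf 0 0; rw [add_zero] at this; linear_combination -this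
  choose k hk using Finite.surjective_of_injective (inj hf hf0)
  have k0 : ∀ s, s ≠ 0 → k s ≠ 0 := fun s hs e => hs (by rw [← hk s, e, f0])
  have h1 : ∀ s, s ≠ 0 → g (s⁻¹ * k s) = s⁻¹ := fun s hs => by simpa [hk] using h _ (k0 s hs)
  have kadd : ∀ s t, k (s + t) = k s + k t := fun s t => inj hf hf0 (by rw [hf, hk, hk, hk])
  have h3 : ∀ s, f (s * k 1) = s ^ 2 := fun s => by
    by_cases hs : s = 0
    · simp [hs, f0]
    by_cases hs1 : s + 1 = 0
    · rw [show s = 1 by linear_combination hs1 - h2]; simp [hk]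
    have e1 : g (s⁻¹ * k s + (s + 1)⁻¹ * k (s + 1)) = g ((s * (s + 1))⁻¹ * k (s * (s + 1))) := by
      rw [hg, h1 s hs, h1 _ hs1, h1 _ (mul_ne_zero hs hs1)]
      field_simp
      linear_combination s * h2
    have e2 := inj hg hg0 e1
    rw [kadd] at e2
    have e3 : k (s * (s + 1)) = k s + s * k 1 := by
      field_simp at e2
      linear_combination -e2 + s * k s * h2
    have e4 := congrArg f e3
    rw [hf, hk, hk] at e4
    linear_combination -e4
  have k1 := k0 1 one_ne_zero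
  have e1 := h3 (t / k 1)
  have e2 := h3 (1 / k 1)
  rw [div_mul_cancel₀ _ k1] at e1 e2
  rw [e1, e2]; ring

namespace SC

variable {F V : Type*} [Field F] [AddCommGroup V] [Module F V] {C : SC F V}
  {X : Type*} [MulAction C.Φ.O X]

variable (C) in
/-- an additive section of the unipotent radical inside the stabiliser -/
def PK (x : X) (c : V) (κ : V → F) : Prop :=
  (∀ w, C.b c w = 0 → C.e c w (κ w) ∈ stabilizer C.Φ.O x) ∧
    ∀ w w', C.b c w = 0 → C.b c w' = 0 → κ (w + w') = κ w + κ w' + C.b w w'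

variable (C) in
/-- the special points -/
def P (x : X) (c : V) : Prop := c ≠ 0 ∧ ∃ κ, C.PK x c κ

variable {x : X}

theorem PK.zero {c : V} {κ : V → F} (h : C.PK x c κ) : κ 0 = 0 := by
  have := h.2 0 0 (by simp) (by simp)
  simpa using this

theorem P.d {c : V} (h : C.P x c) (u : V) (hu : C.b c u = 0) : u ∈ C.D c x := by
  obtain ⟨-, κ, h, -⟩ := h
  exact ⟨hu, _, h u hu⟩

theorem P.conj {c : V} (h : C.P x c) {g : C.Φ.O} (hg : g ∈ stabilizer C.Φ.O x) :
    C.P x (g.1 c) := by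
  obtain ⟨h0, κ, h1, h2⟩ := h
  refine ⟨by simpa using h0, fun w => κ ((g⁻¹).1 w), fun w hw => ?_, fun w w' hw hw' => ?_⟩
  · have := mul_mem (mul_mem hg (h1 _ (by rwa [b_inv]))) (inv_mem hg)
    rwa [conj_e, app_inv] at this
  · beta_reduce
    rw [map_add, h2 _ _ (by rwa [b_inv]) (by rwa [b_inv]), O_b]

theorem P.smul {c : V} (h : C.P x c) {a : F} (ha : a ≠ 0) : C.P x (a • c) := by
  obtain ⟨h0, κ, h1, h2⟩ := h
  have h3 : ∀ {w}, C.b (a • c) w = 0 → C.b c w = 0 := fun h => by simpa [ha] using h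
  refine ⟨smul_ne_zero ha h0, fun w => κ (a • w) / a ^ 2, fun w hw => ?_, fun w w' hw hw' => ?_⟩
  · rw [C.e_smul (h3 hw), mul_div_cancel₀ _ (pow_ne_zero _ ha)]
    exact h1 _ (by simp [h3 hw])
  · beta_reduce
    rw [smul_add, h2 _ _ (by simp [h3 hw]) (by simp [h3 hw'])]
    simp only [map_smul, LinearMap.smul_apply, smul_eq_mul]
    field_simp

theorem P.of_smul {c : V} {a : F} (h : C.P x (a • c)) (ha : a ≠ 0) : C.P x c := by
  simpa [smul_smul, ha] using h.smul (inv_ne_zero ha)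

variable [FiniteDimensional F V]

theorem all_TX {c c' : V} (hd : C.P x c) (hc : C.TX x c) (hc' : C.TX x c') (hb : C.b c c' ≠ 0)
    (v : V) : C.TX x v := by
  have h1 : ∀ y, C.b c y ≠ 0 → C.TX x y := fun y hy => by
    have h2 := hc'.smul (C.b c y / C.b c c')
    have h3 : C.b c ((C.b c y / C.b c c') • c') = C.b c y := by simp [hb]
    generalize (C.b c y / C.b c c') • c' = z at h2 h3
    obtain ⟨s, hs⟩ := move (hd.d ((C.b c y)⁻¹ • (y - z)) (by simp [h3])) h2
    rw [h3, smul_smul, mul_inv_cancel₀ hy, one_smul] at hs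
    have := hc.add_smul hs (by simpa [h3] using hy)
      (-(C.b ((C.b c y)⁻¹ • (y - z)) z + s * C.b c y))
    convert this using 1
    module
  by_cases h : C.b c v = 0
  · by_cases h0 : v = 0
    · exact h0 ▸ TA.zero
    obtain ⟨z, -, z1, z2⟩ := C.hΦ.exists_perp_ne_ne (H := ⊥) (x := c) (y := v) hd.1 h0
    simpa using (h1 (z + v) (by simpa [h] using sym_ne z1)).sub (h1 z (sym_ne z1))
      (by simpa using sym_ne z2)
  · exact h1 v h

variable [Fintype F] (h2 : (2 : F) = 0)
include h2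

theorem TX_of_two {c w : V} (h : C.b c w = 0) (hw : w ∉ F ∙ c)
    (hd : ∀ u, C.b c u = 0 → u ∈ C.D c x) {μ μ' l l' : F} (hl : l ≠ 0) (hl' : l' ≠ 0)
    (hne : l ≠ l') (hg : C.t c μ * C.t w l ∈ stabilizer C.Φ.O x)
    (hg' : C.t c μ' * C.t w l' ∈ stabilizer C.Φ.O x) : C.TX x c := fun k => by
  have h0 := sub_ne_zero.2 hne
  obtain ⟨a, ha⟩ := sq_surj h2 (k * l * l' / (l - l'))
  convert sub_mem_T (by simp [h]) (d_step h hw hd hl hg a) (d_step h hw hd hl' hg' a) using 2
  rw [ha]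
  field_simp
  ring

omit [FiniteDimensional F V] in
theorem exists_sq_ne (hq : 3 ≤ Fintype.card F) : ∃ a : F, a ≠ 0 ∧ a ^ 2 ≠ 1 := by
  obtain ⟨a, ha, ha1⟩ := exists_ne_zero_one hq
  refine ⟨a, ha, fun h => ha1 ?_⟩
  have : (a - 1) ^ 2 = 0 := by linear_combination h + (1 - a) * h2
  exact sub_eq_zero.1 (pow_eq_zero_iff two_ne_zero |>.1 this)

theorem perp_zero (hq : 3 ≤ Fintype.card F) {c y : V} (hc : C.P x c) (hy : C.P x y)
    (hn : c ∉ F ∙ y) (h : C.b y c = 0) (hT : ¬ C.TX x y) : C.e y c 0 ∈ stabilizer C.Φ.O x := by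
  obtain ⟨-, r, hr⟩ := hc.d ((1 : F) • y) (by simp [sym h])
  obtain ⟨-, s, hs⟩ := hy.d ((1 : F) • c) (by simp [h])
  by_cases hs0 : s = 0
  · simpa [hs0] using hs
  exfalso
  have h4 := d_step (sym h) (notMem_swap hy.1 hn) hc.d (neg_ne_zero.2 hs0)
    (swap_mem (H := stabilizer _ x) (sym h) hr hs)
  have h5 : ∀ a : F, ∃ k, C.t y k * C.t c (a ^ 2 / -s) ∈ stabilizer C.Φ.O x := fun a => by
    obtain ⟨-, k, hk⟩ := hy.d (a • c) (by simp [h])
    exact ⟨k, by simpa only [neg_neg] using swap_mem (H := stabilizer _ x) h hk (h4 a)⟩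
  obtain ⟨a, ha, ha1⟩ := exists_sq_ne h2 hq
  obtain ⟨k, hk⟩ := h5 a
  obtain ⟨k', hk'⟩ := h5 1
  have hs1 := neg_ne_zero.2 hs0
  exact hT (TX_of_two h2 h hn hy.d (div_ne_zero (pow_ne_zero _ ha) hs1) (by simp [hs0])
    (fun e => ha1 (by simpa [hs0] using (div_left_inj' hs1).1 e)) hk hk')

theorem perp_zero' (hq : 3 ≤ Fintype.card F) {y w : V} (hy : C.P x y) (hc : C.P x (y + w))
    (hn : w ∉ F ∙ y) (h : C.b y w = 0) (hT : ¬ C.TX x y) (a : F) :
    C.e y (a • w) 0 ∈ stabilizer C.Φ.O x := by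
  by_cases ha : a = 0
  · simp [ha, e_zero, one_mem]
  have := perp_zero h2 hq (hc.smul ha) hy (by
    rw [Submodule.smul_mem_iff _ ha, add_comm, ← one_smul F y]
    simpa using add_smul_notMem hn 1) (by simp [h]) hT
  rwa [smul_add, add_comm, C.e_add_smul (by simp [h]), h2, zero_mul, add_zero] at this

omit h2 [Fintype F] in
theorem notMem_pair {c c' w : V} (hb : C.b c c' = 1) (h1 : C.b c w = 0) (h1' : C.b c' w = 0)
    (h0 : w ≠ 0) : w ∉ Submodule.span F {c, c'} := fun h => by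
  obtain ⟨α, β, rfl⟩ := Submodule.mem_span_pair.1 h
  simp only [map_add, map_smul, b_self, hb, C.anti c c', smul_eq_mul] at h1 h1'
  exact h0 (by rw [show α = 0 by linear_combination -h1', show β = 0 by linear_combination h1]; simp)

omit h2 [Fintype F] in
theorem exists_hyp_perp (hn : 4 ≤ finrank F V) {c c' : V} (hb : C.b c c' = 1) :
    ∃ u w, C.b c u = 0 ∧ C.b c' u = 0 ∧ C.b c w = 0 ∧ C.b c' w = 0 ∧ C.b u w = 1 := by
  obtain ⟨w, hw, hw'⟩ := exists_perp_notMem (C := C) (S := {c, c'}) (c := c)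
    (by have := fr2 (F := F) c c'; omega)
  obtain ⟨u, hu, hu'⟩ := exists_perp_one (C := C)
    (notMem_pair hb (hw c (by simp)) (hw c' (by simp)) (ne_zero_of_notMem hw'))
  exact ⟨u, w, hu c (by simp), hu c' (by simp), hw c (by simp), hw c' (by simp), hu'⟩

theorem PK.surj (hn : 4 ≤ finrank F V) {c c' : V} (hb : C.b c c' = 1) {κ : V → F}
    (h : C.PK x c κ) (δ : F) : ∃ w, C.b c w = 0 ∧ C.b c' w = 0 ∧ κ w = δ := by
  classical
  obtain ⟨u, w, u1, u2, w1, w2, huw⟩ := exists_hyp_perp hn hb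
  obtain ⟨s, hs⟩ := exists_notMem_finset ((Finset.univ.erase (0 : F)).image
    fun t => κ (t • w) / t) (lt_of_le_of_lt Finset.card_image_le (by
      rw [Finset.card_erase_of_mem (Finset.mem_univ _), Finset.card_univ]
      exact Nat.sub_lt Fintype.card_pos one_pos))
  obtain ⟨t, ht⟩ := Finite.surjective_of_injective (f := fun t : F => κ (t • w) + s * t)
    (fun t t' e => by
      by_contra hne
      have h0 : t + t' ≠ 0 := fun h => hne (by linear_combination h - t' * h2)
      refine hs (Finset.mem_image.2 ⟨t + t', by simpa using h0, ?_⟩)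
      rw [add_smul, h.2 _ _ (by simp [w1]) (by simp [w1]), div_eq_iff h0]
      simp only [map_smul, LinearMap.smul_apply, b_self, smul_zero] at e ⊢
      linear_combination e + (κ (t' • w) - s * t) * h2) (δ - κ (s • u))
  refine ⟨s • u + t • w, by simp [u1, w1], by simp [u2, w2], ?_⟩
  rw [h.2 _ _ (by simp [u1]) (by simp [w1])]
  simp only [map_smul, LinearMap.smul_apply, huw, smul_eq_mul] at ht ⊢
  linear_combination ht

theorem three_big (hq : 3 ≤ Fintype.card F) (hn : 4 ≤ finrank F V) {c c' : V} (hc : C.P x c)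
    (hc' : C.P x c') (hb : C.b c c' = 1) {δ : F} (hδ : δ ≠ 0) (h3 : C.P x (c' + δ • c)) :
    ∃ y ≠ 0, C.TX x y := by
  by_contra! hT
  obtain ⟨κ, hκ⟩ := hc.2
  obtain ⟨w, w1, w2, hw⟩ := hκ.surj h2 hn hb δ
  have w0 : w ≠ 0 := by rintro rfl; exact hδ (hw.symm.trans hκ.zero)
  have hn' := notMem_pair hb w1 w2 w0
  have g := hκ.1 w w1
  rw [hw] at g
  have p1 : C.P x (c' + δ • c + w) := by
    have := hc'.conj g
    rwa [C.e_apply w1, sym w2, hb, zero_add, mul_one, one_smul] at this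
  have p2 : C.P x (c' + w) := by
    have := h3.conj g
    rw [map_add, map_smul, C.e_self w1, C.e_apply w1, sym w2, hb, zero_add, mul_one,
      one_smul] at this
    convert this using 1
    linear_combination (norm := module) -(h2 • (δ • c))
  have h4 : ∀ a : F, ∃ r, C.t c r * C.t w (a ^ 2 * δ) ∈ stabilizer C.Φ.O x := fun a => by
    have e1 := perp_zero' h2 hq hc' p2 (fun h => hn' (Submodule.span_mono (by simp) h)) w2
      (hT _ hc'.1) a
    have w3 : C.b (c' + δ • c) w = 0 := by simp [w1, w2]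
    have e2 := perp_zero' h2 hq h3 p1 (fun h => hn' (by
      obtain ⟨k, rfl⟩ := Submodule.mem_span_singleton.1 h
      exact Submodule.mem_span_pair.2 ⟨k * δ, k, by module⟩)) w3 (hT _ h3.1) a
    have f1 := C.e_swap w2 a 0 0
    have f2 := C.e_swap w3 a 0 0
    rw [t_zero, t_zero, mul_one, mul_one] at f1 f2
    rw [f1] at e1
    rw [f2] at e2
    have e3 := mul_mem e1 e2
    rw [C.e_mul (by simp [sym w2]) (by simp [sym w1, sym w2]), show a • c' + a • (c' + δ • c) =
      (a * δ) • c by linear_combination (norm := module) h2 • (a • c')] at e3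
    refine ⟨κ ((a * δ) • w), ?_⟩
    convert swap_mem (H := stabilizer _ x) w1 (hκ.1 ((a * δ) • w) (by simp [w1])) e3 using 3
    simp [C.anti c c', hb]
    ring
  obtain ⟨a, ha, ha1⟩ := exists_sq_ne h2 hq
  obtain ⟨r, hr⟩ := h4 a
  obtain ⟨r', hr'⟩ := h4 1
  exact hT c hc.1 (TX_of_two h2 w1 (fun h => hn' (Submodule.span_mono (by simp) h)) hc.d
    (mul_ne_zero (pow_ne_zero _ ha) hδ) (by simpa using hδ)
    (fun e => ha1 (by simpa using mul_right_cancel₀ hδ e)) hr hr')

end SC

end H14
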