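import Cfsg.Agent.H14.SqA

/-!
Subgroups of symplectic groups in characteristic two containing a complement to the transvection
group in the unipotent radical of a point stabiliser, part two.
-/

set_option autoImplicit false

namespace H14

open H23 H23.Form H22 Module MulAction

namespace SC

variable {F V : Type*} [Field F] [AddCommGroup V] [Module F V] {C : SC F V}
  {X : Type*} [MulAction C.Φ.O X] {x : X} [FiniteDimensional F V] [Fintype F] (h2 : (2 : F) = 0)
include h2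

section Two

variable (hq : Fintype.card F = 2)
include hq

omit [FiniteDimensional F V] in
theorem orbit_two {y z v : V} (hy : C.P x y) (hz : C.P x z) (hz' : C.P x (z + y))
    (h : C.b y z ≠ 0) (h' : C.b y v ≠ 0) : C.P x v := by
  have e1 := (zero_or_one hq _).resolve_left h
  have e2 := (zero_or_one hq _).resolve_left h'
  obtain ⟨-, κ, hκ, -⟩ := hy
  have hu : C.b y (v - z) = 0 := by simp [e1, e2]
  have p1 := hz.conj (hκ _ hu)
  have p2 := hz'.conj (hκ _ hu)
  rw [map_add, C.e_self hu] at p2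
  rw [C.e_apply hu, e1] at p1 p2
  rcases zero_or_one hq (C.b (v - z) z + κ (v - z) * 1) with e | e
  · rw [e] at p1
    simpa using p1
  · rw [e] at p2
    convert p2 using 1
    linear_combination (norm := module) -(h2 • y)

theorem three_two {c c' : V} (hc : C.P x c) (hc' : C.P x c') (hb : C.b c c' = 1)
    (h3 : C.P x (c' + c)) {v : V} (hv : v ≠ 0) : C.P x v := by
  have hb' : C.b c' c ≠ 0 := sym_ne (by simp [hb])
  have h1 : ∀ v, C.b c v ≠ 0 → C.P x v := fun v => orbit_two h2 hq hc hc' h3 (by simp [hb])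
  by_cases v1 : C.b c v = 0
  swap
  · exact h1 v v1
  by_cases v2 : C.b c' v = 0
  swap
  · exact orbit_two h2 hq hc' hc (by rwa [add_comm]) hb' v2
  obtain ⟨u, hu, hu'⟩ := exists_perp_one (C := C) (notMem_pair hb v1 v2 hv)
  have u1 := hu c (by simp)
  exact orbit_two h2 hq (h1 (c' + u) (by simp [hb, u1])) hc (h1 _ (by simp [hb, u1]))
    (by simpa [sym u1] using hb') (by simp [v2, hu'])

omit h2 [FiniteDimensional F V] in
theorem TX_of_ne {c : V} {s : F} (hs : s ≠ 0) (h : C.t c s ∈ stabilizer C.Φ.O x) : C.TX x c :=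
  fun r => by
    rcases zero_or_one hq r with rfl | rfl
    · rw [t_zero]; exact one_mem _
    · rwa [(zero_or_one hq s).resolve_left hs] at h

variable (hn : 4 ≤ finrank F V) (hP : ∀ v ≠ 0, C.P x v)
include hn hP

theorem two_all {y : V} (h0 : y ≠ 0) (hy : C.TX x y) (v : V) : C.TX x v := by
  obtain ⟨c', hb⟩ : ∃ c', C.b y c' = 1 := C.hΦ.exists_ne h0
  have hb' : C.b c' y = 1 := by rw [C.anti, hb]; linear_combination -h2
  obtain ⟨κ, hκ⟩ := (hP c' (by rintro rfl; simp at hb)).2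
  obtain ⟨w, w1, w2, hw⟩ := hκ.surj h2 hn hb' 1
  refine all_TX (hP y h0) hy (hy.conj (hκ.1 w w1)) ?_ v
  simp [C.e_apply w1, hw, hb, hb', w2, sym w2]

variable (hT : ∀ y ≠ 0, ¬ C.TX x y)
include hT

omit hn hP [FiniteDimensional F V] h2 in
theorem two_uniq {c u : V} (h0 : c ≠ 0) (h : C.b c u = 0) {r s : F}
    (h1 : C.e c u r ∈ stabilizer C.Φ.O x) (h1' : C.e c u s ∈ stabilizer C.Φ.O x) : r = s := by
  by_contra hne
  exact hT c h0 (TX_of_ne hq (sub_ne_zero.2 hne) (sub_mem_T h h1 h1'))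

omit hn [FiniteDimensional F V] in
theorem two_symm {c y : V} (h0 : c ≠ 0) (h0' : y ≠ 0) (h : C.b c y = 0)
    (h1 : C.e c y 1 ∈ stabilizer C.Φ.O x) :
    C.e y c 1 ∈ stabilizer C.Φ.O x ∧ C.t c 1 * C.t y 1 ∈ stabilizer C.Φ.O x := by
  obtain ⟨-, s, hs⟩ := (hP y h0').d ((1 : F) • c) (by simp [sym h])
  have h3 := swap_mem (H := stabilizer _ x) (a := 1) (r := 1) h (by rwa [one_smul]) hs
  rcases zero_or_one hq s with rfl | rfl
  · exact absurd (TX_of_ne hq one_ne_zero (by simpa using h3)) (hT c h0)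
  · exact ⟨by simpa using hs, by rwa [show (-1 : F) = 1 by linear_combination -h2] at h3⟩

theorem two_data {c c' : V} (hb : C.b c c' = 1) : ∃ y z, C.b c y = 0 ∧ y ∉ F ∙ c ∧ C.b c z = 0 ∧
    C.b y z = 1 ∧ C.t c 1 * C.t y 1 ∈ stabilizer C.Φ.O x := by
  have h0 : c ≠ 0 := by rintro rfl; simp at hb
  obtain ⟨κ, hκ⟩ := (hP c h0).2
  obtain ⟨y, y1, y2, hy⟩ := hκ.surj h2 hn hb 1
  have y0 : y ≠ 0 := by rintro rfl; exact zero_ne_one (hκ.zero.symm.trans hy)
  have hn' : y ∉ F ∙ c := fun h => notMem_pair hb y1 y2 y0 (Submodule.span_mono (by simp) h)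
  obtain ⟨z, hz, hz'⟩ := exists_perp_one (C := C) hn'
  exact ⟨y, z, y1, hn', hz c rfl, by rw [C.anti, hz']; linear_combination -h2,
    (two_symm h2 hq hP hT h0 y0 y1 (hy ▸ hκ.1 y y1)).2⟩

theorem two_four : finrank F V = 4 := by
  by_contra h5
  have : Nontrivial V := Module.nontrivial_of_finrank_pos (R := F) (by omega)
  obtain ⟨c, h0⟩ := exists_ne (0 : V)
  obtain ⟨c', hb⟩ : ∃ c', C.b c c' = 1 := C.hΦ.exists_ne h0
  obtain ⟨y, z, y1, y2, z1, yz, hg⟩ := two_data h2 hq hn hP hT hb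
  have y0 := ne_zero_of_notMem y2
  obtain ⟨κ, hκ⟩ := (hP y y0).2
  have key : ∀ u ≠ 0, C.b c u = 0 → C.b y u = 0 → C.b z u = 0 → κ u = 1 := by
    intro u u0 u1 u2 u3
    obtain ⟨k, hk⟩ := (hP u u0).2
    have e1 := mul_mem (mul_mem hg (hk.1 z (sym u3))) (inv_mem hg)
    rw [conj_e, mul_app, mul_app, C.t_perp _ u2, C.t_perp _ u1, t_apply, t_apply, yz, map_add,
      map_smul, z1, y1, smul_zero, add_zero, mul_zero, zero_smul, add_zero, mul_one,
      one_smul] at e1
    have e2 := two_uniq hq hT u0 (by simp [sym u2, sym u3]) e1 (hk.1 _ (by simp [sym u2, sym u3]))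
    rw [hk.2 _ _ (sym u3) (sym u2), C.anti y z, yz] at e2
    have e3 := hk.1 y (sym u2)
    rw [show k y = 1 by linear_combination -e2] at e3
    exact two_uniq hq hT y0 u2 (hκ.1 u u2) (two_symm h2 hq hP hT u0 y0 (sym u2) e3).1
  obtain ⟨u, hu, hu'⟩ := exists_perp_notMem (C := C) (S := {c, y, z}) (c := c)
    (by have := fr3 (F := F) c y z; omega)
  have u1 := hu c (by simp)
  have u2 := hu y (by simp)
  have u3 := hu z (by simp)
  have e1 := key (u + c) (ne_zero_of_notMem (by simpa using add_smul_notMem hu' 1)) (by simp [u1])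
    (by simp [u2, sym y1]) (by simp [u3, sym z1])
  rw [hκ.2 _ _ u2 (sym y1), key u (ne_zero_of_notMem hu') u1 u2 u3,
    key c h0 (by simp) (sym y1) (sym z1), sym u1] at e1
  exact one_ne_zero (α := F) (by linear_combination e1)

theorem two_trans {v v' : V} (h0 : v ≠ 0) (h0' : v' ≠ 0) :
    ∃ g ∈ stabilizer C.Φ.O x, g.1 v = v' := by
  have key : ∀ v v' : V, C.b v' v ≠ 0 → ∃ g ∈ stabilizer C.Φ.O x, g.1 v = v' := fun v v' h => by
    have e1 : C.b (v' - v) v = 1 := by simpa using (zero_or_one hq _).resolve_left h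
    obtain ⟨u, rfl⟩ : ∃ u, v' = v + u := ⟨v' - v, by abel⟩
    rw [add_sub_cancel_left] at e1
    have u0 : u ≠ 0 := by rintro rfl; simp at e1
    obtain ⟨κ, hκ⟩ := (hP u u0).2
    obtain ⟨w, w1, w2, hw⟩ := hκ.surj h2 hn e1 1
    have e2 : C.e u (w + (1 : F) • u) 1 ∈ stabilizer C.Φ.O x := by
      rw [C.e_add_smul w1, h2, zero_mul, add_zero, ← hw]; exact hκ.1 w w1
    have e3 : C.b (w + (1 : F) • u) v = 1 := by simp [sym w2, e1]
    have e4 : C.b u (w + (1 : F) • u) = 0 := by simp [w1]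
    refine ⟨_, (two_symm h2 hq hP hT u0 (by rintro e; rw [e] at e3; simp at e3) e4 e2).1, ?_⟩
    rw [C.e_apply (sym e4), e1, e3, show (1 : F) + 1 * 1 = 0 by linear_combination h2]
    simp
  obtain ⟨z, -, z1, z2⟩ := C.hΦ.exists_perp_ne_ne (H := ⊥) (x := v) (y := v') h0 h0'
  obtain ⟨g, hg, rfl⟩ := key v z z1
  obtain ⟨g', hg', rfl⟩ := key _ v' (sym_ne z2)
  exact ⟨g' * g, mul_mem hg' hg, rfl⟩

theorem two_card : 120 ≤ Nat.card (stabilizer C.Φ.O x) := by
  have := finite_of_fd F V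
  have : Finite (V ≃ₗ[F] V) := Finite.of_injective _ DFunLike.coe_injective
  have h4 := two_four h2 hq hn hP hT
  have : Nontrivial V := Module.nontrivial_of_finrank_pos (R := F) (by omega)
  obtain ⟨c, h0⟩ := exists_ne (0 : V)
  obtain ⟨c', hb⟩ : ∃ c', C.b c c' = 1 := C.hΦ.exists_ne h0
  obtain ⟨y, z, y1, y2, z1, yz, hg⟩ := two_data h2 hq hn hP hT hb
  obtain ⟨κ, hκ⟩ := (hP c h0).2
  choose! r hr hr' using fun v hv => two_trans h2 hq hn hP hT h0 (v' := v) hv
  have hW : (C.Φ.perp (Submodule.span F {c, c'}) : Set V).ncard = 4 := by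
    have h3 := finrank_span_eq_card (linearIndependent_pair_of_notMem (F := F) h0 (v := c') fun h => by
      obtain ⟨s, rfl⟩ := Submodule.mem_span_singleton.1 h
      simp at hb)
    rw [Matrix.range_cons_cons_empty, Fintype.card_fin] at h3
    have := C.hΦ.finrank_perp_add (Submodule.span F {c, c'})
    rw [ncard_submodule, hq, show finrank F (C.Φ.perp (Submodule.span F {c, c'})) = 2 by omega]
    rfl
  have h5 := Set.ncard_le_ncard_of_injOn (s := ({0}ᶜ : Set V) ×ˢ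
    ((C.Φ.perp (Submodule.span F {c, c'}) : Set V) ×ˢ (Set.univ : Set F)))
    (t := (stabilizer C.Φ.O x : Set C.Φ.O))
    (fun p => r p.1 * (C.e c p.2.1 (κ p.2.1) * (C.t c p.2.2 * C.t y p.2.2))) (by
      rintro ⟨v, w, a⟩ ⟨hv, hw, -⟩
      refine mul_mem (hr v hv) (mul_mem (hκ.1 w (mem_perp_pair.1 hw).1) ?_)
      rcases zero_or_one hq a with rfl | rfl
      · simp [one_mem]
      · exact hg) (by
      rintro ⟨v, w, a⟩ ⟨hv, hw, -⟩ ⟨v', w', a'⟩ ⟨hv', hw', -⟩ e
      obtain ⟨w1, w2⟩ : C.b c w = 0 ∧ C.b c' w = 0 := mem_perp_pair.1 hw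
      obtain ⟨w3, w4⟩ : C.b c w' = 0 ∧ C.b c' w' = 0 := mem_perp_pair.1 hw'
      have e1 := congrArg (fun g : C.Φ.O => g.1 c) e
      simp only [mul_app, C.t_perp _ (sym y1), C.t_perp _ (C.b_self c), C.e_self w1, C.e_self w3,
        hr' v hv, hr' v' hv'] at e1
      subst e1
      have e2 := mul_left_cancel e
      have e3 := congrArg (fun g : C.Φ.O => g.1 z) e2
      simp only [mul_app, t_apply, yz, mul_one, map_add, map_smul, z1, y1, smul_zero, add_zero,
        mul_zero, zero_smul, C.e_perp w1 _ z1, C.e_perp w3 _ z1, C.e_perp w1 _ y1,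
        C.e_perp w3 _ y1] at e3
      have e4 : a = a' := by
        by_contra hne
        refine y2 (Submodule.mem_span_singleton.2 ⟨(a - a')⁻¹ * (C.b w' z + a' * C.b w' y -
          C.b w z - a * C.b w y), ?_⟩)
        have := sub_ne_zero.2 hne
        rw [mul_smul, inv_smul_eq_iff₀ this]
        linear_combination (norm := module) -e3
      subst e4
      have e5 := congrArg (fun g : C.Φ.O => C.b c' (g.1 c')) (mul_right_cancel e2)
      have e6 := congrArg (fun g : C.Φ.O => g.1 c') (mul_right_cancel e2)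
      simp only [C.e_apply w1, C.e_apply w3, hb, sym w2, sym w4, map_add, map_smul, w2, w4,
        C.anti c c', b_self, smul_eq_mul] at e5 e6
      rw [show κ w = κ w' by linear_combination -e5] at e6
      rw [show w = w' by simpa using e6]) (Set.toFinite _)
  rw [Set.ncard_prod, Set.ncard_prod, hW, ncard_ne_zero h4, Set.ncard_univ,
    Nat.card_eq_fintype_card, hq] at h5
  exact h5

end Two

variable (C) in
/-- a hyperbolic pair of special points with no third special point on their line -/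
structure Pr (x : X) (c c' : V) (κ : V → F) : Prop where
  pk : C.PK x c κ
  p' : C.P x c'
  one : C.b c c' = 1
  no : ∀ δ : F, C.P x (c' + δ • c) → δ = 0

namespace Pr

variable {c c' : V} {κ κ' : V → F}

omit [FiniteDimensional F V] [Fintype F] h2

theorem p (h : C.Pr x c c' κ) : C.P x c := ⟨by have := h.one; rintro rfl; simp at this, κ, h.pk⟩

theorem uniq (h : C.Pr x c c' κ) {u : V} (hu : C.b c u = 0) {s : F}
    (hs : C.e c u s ∈ stabilizer C.Φ.O x) : s = κ u :=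
  sub_eq_zero.1 (h.no _ (by
    simpa [t_apply, h.one] using h.p'.conj (sub_mem_T hu hs (h.pk.1 u hu))))

theorem mem (h : C.Pr x c c' κ) {w : V} (w1 : C.b c w = 0) (w2 : C.b c' w = 0) :
    C.P x (c' + κ w • c + w) := by
  simpa [C.e_apply w1, sym w2, h.one] using h.p'.conj (h.pk.1 w w1)

theorem eq (h : C.Pr x c c' κ) {w : V} (w1 : C.b c w = 0) (w2 : C.b c' w = 0) {α β : F}
    (hβ : β ≠ 0) (hp : C.P x (β • c' + α • c + w)) : α = β * κ (β⁻¹ • w) := by
  have h1 : C.b c (β⁻¹ • w) = 0 := by simp [w1]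
  have h3 := (hp.smul (inv_ne_zero hβ)).conj (inv_mem (h.pk.1 _ h1))
  rw [C.e_inv h1, C.e_apply (by simp [w1])] at h3
  have h4 := h.no (β⁻¹ * α - κ (β⁻¹ • w)) (by
    convert h3 using 1
    simp only [map_add, map_smul, map_neg, LinearMap.neg_apply, LinearMap.smul_apply, h.one,
      b_self, w1, sym w1, sym w2, smul_eq_mul]
    match_scalars <;> field_simp <;> ring)
  rw [← sub_eq_zero.1 h4, mul_inv_cancel_left₀ hβ]

theorem rel (h : C.Pr x c c' κ) (h' : C.Pr x c' c κ') {w : V} (w1 : C.b c w = 0)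
    (w2 : C.b c' w = 0) (h0 : κ w ≠ 0) : κ' ((κ w)⁻¹ • w) = (κ w)⁻¹ := by
  have := h'.eq w2 w1 (α := 1) h0 (by rw [one_smul, add_comm _ c']; exact h.mem w1 w2)
  exact eq_inv_of_mul_eq_one_right this.symm

end Pr

variable {c c' : V} {κ κ' : V → F} (h : C.Pr x c c' κ) (h' : C.Pr x c' c κ')
include h h'

theorem Pr.z1 (hq : 3 ≤ Fintype.card F) (hT : ∀ y ≠ 0, ¬ C.TX x y) {w : V} (w1 : C.b c w = 0)
    (w2 : C.b c' w = 0) (w0 : w ≠ 0) {t : F} (ht : t ≠ 0) (h0 : κ (t • w) = 0) (a : F) :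
    κ' (a • w) = 0 := by
  have h1 := h.mem (w := t • w) (by simp [w1]) (by simp [w2])
  rw [h0, zero_smul, add_zero] at h1
  have := perp_zero' h2 hq h.p' h1 (fun e => notMem_pair h.one (by simp [w1]) (by simp [w2])
    (smul_ne_zero ht w0) (Submodule.span_mono (by simp) e)) (by simp [w2]) (hT _ h.p'.1) (a / t)
  rw [smul_smul, div_mul_cancel₀ _ ht] at this
  exact (h'.uniq (by simp [w2]) this).symm

omit [FiniteDimensional F V] [Fintype F] h2 in
theorem Pr.z2 {w : V} (w1 : C.b c w = 0) (w2 : C.b c' w = 0) (h0 : ∀ a : F, κ' (a • w) = 0)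
    (a : F) : κ (a • w) = 0 := by
  by_contra h1
  have := h.rel h' (by simp [w1]) (by simp [w2]) h1
  rw [smul_smul, h0] at this
  exact h1 (inv_eq_zero.1 this.symm)

theorem Pr.sq (hT : 3 ≤ Fintype.card F → ∀ y ≠ 0, ¬ C.TX x y) {w : V} (w1 : C.b c w = 0)
    (w2 : C.b c' w = 0) (t : F) : κ (t • w) = t ^ 2 * κ w := by
  rcases Nat.lt_or_ge (Fintype.card F) 3 with hq | hq
  · rcases zero_or_one (F := F) (by have := Fintype.one_lt_card (α := F); omega) t with rfl | rfl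
    · simp [h.pk.zero]
    · simp
  by_cases w0 : w = 0
  · simp [w0, h.pk.zero]
  have fin : (∀ a : F, κ (a • w) = 0) → κ (t • w) = t ^ 2 * κ w := fun h0 => by
    rw [h0, show κ w = 0 by simpa using h0 1, mul_zero]
  by_cases h3 : ∃ t : F, t ≠ 0 ∧ κ (t • w) = 0
  · obtain ⟨s, hs, hs'⟩ := h3
    exact fin (h.z2 h' w1 w2 (h.z1 h2 h' hq (hT hq) w1 w2 w0 hs hs'))
  by_cases h4 : ∃ t : F, t ≠ 0 ∧ κ' (t • w) = 0
  · obtain ⟨s, hs, hs'⟩ := h4
    exact fin (h'.z1 h2 h hq (hT hq) w2 w1 w0 hs hs')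
  push Not at h3 h4
  simpa using hua_sq h2 (f := fun t => κ (t • w)) (g := fun t => κ' (t • w))
    (fun s t => by rw [add_smul, h.pk.2 _ _ (by simp [w1]) (by simp [w1])]; simp)
    (fun s t => by rw [add_smul, h'.pk.2 _ _ (by simp [w2]) (by simp [w2])]; simp) h3 h4
    (fun s hs => by rw [mul_smul]; exact h.rel h' (by simp [w1]) (by simp [w2]) (h3 s hs)) t

theorem Pr.eq_of_ne (hT : 3 ≤ Fintype.card F → ∀ y ≠ 0, ¬ C.TX x y) {w : V} (w1 : C.b c w = 0)
    (w2 : C.b c' w = 0) (h0 : κ w ≠ 0) : κ' w = κ w := by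
  have := h.rel h' w1 w2 h0
  rw [h'.sq h2 h hT w2 w1] at this
  field_simp at this
  exact this

theorem Pr.eq' (hT : 3 ≤ Fintype.card F → ∀ y ≠ 0, ¬ C.TX x y) {w : V} (w1 : C.b c w = 0)
    (w2 : C.b c' w = 0) : κ' w = κ w := by
  by_cases h0 : κ w = 0
  · by_contra h1
    exact h1 (h'.eq_of_ne h2 h hT w2 w1 (by rwa [h0] at h1)).symm
  · exact h.eq_of_ne h2 h' hT w1 w2 h0

theorem Pr.exists_Q (hT : 3 ≤ Fintype.card F → ∀ y ≠ 0, ¬ C.TX x y) :
    ∃ Q : QuadraticForm F V, (∀ u v, QuadraticMap.polar Q u v = C.b u v) ∧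
      (∀ y, C.P x y → Q y = 0) ∧ (∀ u, C.b c u = 0 → C.e c u (Q u) ∈ stabilizer C.Φ.O x) ∧
      ∀ u, C.b c' u = 0 → C.e c' u (Q u) ∈ stabilizer C.Φ.O x := by
  have hb := h.one
  have hb' := h'.one
  let π : V →ₗ[F] V := LinearMap.id - (C.b c').smulRight c - (C.b c).smulRight c'
  have hπ : ∀ v, π v = v - C.b c' v • c - C.b c v • c' := fun v => rfl
  have π1 : ∀ v, C.b c (π v) = 0 := fun v => by simp [hπ, hb]
  have π2 : ∀ v, C.b c' (π v) = 0 := fun v => by simp [hπ, hb']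
  have hadd : ∀ u v, C.b c' (u + v) * C.b c (u + v) + κ (π (u + v)) =
      C.b c' u * C.b c u + κ (π u) + (C.b c' v * C.b c v + κ (π v)) + C.b u v := fun u v => by
    rw [π.map_add, h.pk.2 _ _ (π1 u) (π1 v)]
    simp only [hπ, map_sub, map_add, map_smul, LinearMap.sub_apply, LinearMap.smul_apply, hb, hb',
      b_self, smul_eq_mul, C.anti c u, C.anti c' u]
    linear_combination (C.b c' u * C.b c v + C.b c u * C.b c' v) * h2
  let Q : QuadraticForm F V :=
    { toFun := fun v => C.b c' v * C.b c v + κ (π v)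
      toFun_smul := fun a v => by
        rw [π.map_smul, h.sq h2 h' hT (π1 v) (π2 v)]
        simp only [map_smul, smul_eq_mul]
        ring
      exists_companion' := ⟨C.b, hadd⟩ }
  have hQ : ∀ v, Q v = C.b c' v * C.b c v + κ (π v) := fun v => rfl
  have hv : ∀ v, v = C.b c v • c' + C.b c' v • c + π v := fun v => by rw [hπ]; abel
  have s1 : ∀ y, C.P x y → C.b c y ≠ 0 → Q y = 0 := fun y hy h0 => by
    have := h.eq (π1 y) (π2 y) h0 (hv y ▸ hy)
    rw [h.sq h2 h' hT (π1 y) (π2 y)] at this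
    rw [hQ, this]
    field_simp
    linear_combination κ (π y) * h2
  have s2 : ∀ y, C.P x y → C.b c' y ≠ 0 → Q y = 0 := fun y hy h0 => by
    have := h'.eq (π2 y) (π1 y) (α := C.b c y) h0 (by rw [add_comm (_ • c)]; exact hv y ▸ hy)
    rw [h'.sq h2 h hT (π2 y) (π1 y), h.eq' h2 h' hT (π1 y) (π2 y)] at this
    rw [hQ, this]
    field_simp
    linear_combination κ (π y) * h2
  refine ⟨Q, fun u v => ?_, fun y hy => ?_, fun u hu => ?_, fun u hu => ?_⟩
  · rw [QuadraticMap.polar, hQ, hQ, hQ, hadd]; ring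
  · by_cases y1 : C.b c y = 0
    swap
    · exact s1 y hy y1
    by_cases y2 : C.b c' y = 0
    swap
    · exact s2 y hy y2
    obtain ⟨u, hu, hu'⟩ := exists_perp_one (C := C) (notMem_pair hb y1 y2 hy.1)
    have u1 := hu c (by simp)
    have h3 := hy.conj (h.pk.1 u u1)
    rw [C.e_perp u1 _ y1, hu', one_smul] at h3
    have h4 := s2 _ h3 (by simp [y2, hb'])
    rw [hQ] at h4 ⊢
    simpa [hπ, y1, y2, hb'] using h4
  · have := h.pk.1 _ (π1 u)
    rw [hQ, hu, mul_zero, zero_add]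
    conv => enter [2, 3]; rw [hv u, hu, zero_smul, zero_add, add_comm]
    rwa [C.e_add_smul (π1 u), h2, zero_mul, add_zero]
  · have := h'.pk.1 _ (π2 u)
    rw [hQ, hu, zero_mul, zero_add, ← h.eq' h2 h' hT (π1 u) (π2 u)]
    conv => enter [2, 3]; rw [hv u, hu, zero_smul, add_zero, add_comm]
    rwa [C.e_add_smul (π2 u), h2, zero_mul, add_zero]

omit h h' in
theorem main_char_two (hn : 4 ≤ finrank F V) {a : V} (ha : C.P x a)
    (hirr : ∀ W : Submodule F V, (∀ g ∈ stabilizer C.Φ.O x, ∀ w ∈ W, g.1 w ∈ W) → W = ⊥ ∨ W = ⊤) :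
    stabilizer C.Φ.O x = ⊤ ∨ (∃ Q : QuadraticForm F V, (∀ u v, QuadraticMap.polar Q u v = C.b u v) ∧
      (∀ g ∈ stabilizer C.Φ.O x, ∀ v, Q (g.1 v) = Q v) ∧ ∃ c c', Q c = 0 ∧ Q c' = 0 ∧
      C.b c c' = 1 ∧ (∀ u, C.b c u = 0 → C.e c u (Q u) ∈ stabilizer C.Φ.O x) ∧
      ∀ u, C.b c' u = 0 → C.e c' u (Q u) ∈ stabilizer C.Φ.O x) ∨
    (Fintype.card F = 2 ∧ finrank F V = 4 ∧ 120 ≤ Nat.card (stabilizer C.Φ.O x)) := by
  have hsp : Submodule.span F {c | C.P x c} = ⊤ := by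
    refine (hirr _ fun g hg w hw => ?_).resolve_left fun e =>
      ha.1 (by simpa [e] using Submodule.subset_span (R := F) (s := {c | C.P x c}) ha)
    induction hw using Submodule.span_induction with
    | mem v hv => exact Submodule.subset_span (P.conj hv hg)
    | zero => simp
    | add u v _ _ hu hv => rw [map_add]; exact add_mem hu hv
    | smul s v _ hv => rw [map_smul]; exact Submodule.smul_mem _ _ hv
  obtain ⟨a', ha', hb⟩ : ∃ a', C.P x a' ∧ C.b a a' = 1 := by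
    by_contra! h
    refine ha.1 (C.hΦ a fun v => C.Φ.mem_perp_span_singleton.1 ?_)
    refine (Submodule.span_le.2 fun c hc => C.Φ.mem_perp_span_singleton.2 ?_ :
      Submodule.span F {c | C.P x c} ≤ _) (hsp ▸ Submodule.mem_top)
    by_contra h0
    exact h _ (P.smul hc (inv_ne_zero h0)) (by simp [← b_def, show C.b a c ≠ 0 from h0])
  have hb' : C.b a' a = 1 := by rw [C.anti, hb]; linear_combination -h2
  by_cases hT : 3 ≤ Fintype.card F → ∀ y ≠ 0, ¬ C.TX x y
  swap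
  · push Not at hT
    obtain ⟨hq, y, y0, hy⟩ := hT
    exact .inl (eq_top_of_TA (all_TX ha (not_d_of_TX hq hn ha.d hy y0)
      (not_d_of_TX hq hn ha'.d hy y0) (by simp [hb])))
  by_cases h3 : ∃ c c', ∃ δ : F, C.P x c ∧ C.P x c' ∧ C.b c c' = 1 ∧ δ ≠ 0 ∧ C.P x (c' + δ • c)
  · obtain ⟨c, c', δ, hc, hc', e, hδ, h3⟩ := h3
    rcases Nat.lt_or_ge (Fintype.card F) 3 with hq | hq
    · have hq' : Fintype.card F = 2 := by have := Fintype.one_lt_card (α := F); omega
      rw [(zero_or_one hq' δ).resolve_left hδ, one_smul] at h3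
      have hP : ∀ v ≠ 0, C.P x v := fun v => three_two h2 hq' hc hc' e h3
      by_cases h4 : ∀ y ≠ 0, ¬ C.TX x y
      · exact .inr (.inr ⟨hq', two_four h2 hq' hn hP h4, two_card h2 hq' hn hP h4⟩)
      · push Not at h4
        obtain ⟨y, y0, hy⟩ := h4
        exact .inl (eq_top_of_TA (two_all h2 hq' hn hP y0 hy))
    · obtain ⟨y, y0, hy⟩ := three_big h2 hq hn hc hc' e hδ h3
      exact absurd hy (hT hq y y0)
  obtain ⟨κ, hκ⟩ := ha.2
  obtain ⟨κ', hκ'⟩ := ha'.2
  obtain ⟨Q, q1, q2, q3, q4⟩ := Pr.exists_Q h2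
    ⟨hκ, ha', hb, fun δ h => by_contra fun h0 => h3 ⟨_, _, δ, ha, ha', hb, h0, h⟩⟩
    ⟨hκ', ha, hb', fun δ h => by_contra fun h0 => h3 ⟨_, _, δ, ha', ha, hb', h0, h⟩⟩ hT
  refine .inr (.inl ⟨Q, q1, fun g hg v => ?_, a, a', q2 a ha, q2 a' ha', hb, q3, q4⟩)
  have hv : v ∈ Submodule.span F {c | C.P x c} := hsp ▸ Submodule.mem_top
  induction hv using Submodule.span_induction with
  | mem v hv => rw [q2 v hv, q2 _ (P.conj hv hg)]
  | zero => simp
  | add u v _ _ hu hv => rw [map_add, QuadraticMap.map_add Q, QuadraticMap.map_add Q, hu, hv, q1, q1,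
      O_b]
  | smul s v _ hv => rw [map_smul, QuadraticMap.map_smul, QuadraticMap.map_smul, hv]

end SC

end H14
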