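import Cfsg.Agent.H14.SqB
import Cfsg.Agent.H22.IsoG
import Cfsg.Agent.H25.SymIdx
import Cfsg.Agent.H1.Cores
import Cfsg.Agent.S0247
import Cfsg.Agent.S5944

/-!
Subgroups of symplectic groups in characteristic two containing a complement to the transvection
group in the unipotent radical of a point stabiliser, part three.
-/

set_option autoImplicit false

namespace H14

open H23 H23.Form H22 Module MulAction

open Equiv in
theorem sub_six_big {G : Type*} [Group G] (e : G ≃* Perm (Fin 6)) (K : Subgroup G)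
    (h : 120 ≤ Nat.card K) :
    K = ⊤ ∨ Nonempty (K ≃* alternatingGroup (Fin 6)) ∨ Nonempty (K ≃* Perm (Fin 5)) := by
  set L := K.map (e : G →* Perm (Fin 6))
  have f : K ≃* L := e.subgroupMap K
  have c : Nat.card (Perm (Fin 6)) = 720 := by rw [Nat.card_perm, Nat.card_fin]; rfl
  by_cases h1 : L = ⊤
  · exact .inl (by
      rw [← Subgroup.comap_map_eq_self_of_injective (f := (e : G →* Perm (Fin 6))) e.injective K]
      exact (congrArg _ h1).trans (Subgroup.comap_top _))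
  by_cases h2 : L = alternatingGroup _
  · exact .inr (.inl ⟨f.trans (MulEquiv.subgroupCongr h2)⟩)
  have h3 := Cfsg.Agent.S5944.result 6 (by norm_num) L h1 h2
  have e1 := L.index_mul_card
  rw [c, ← Nat.card_congr f.toEquiv] at e1
  have hi : L.index = Nat.card (Fin 6) := by
    have : L.index * 120 ≤ 720 := e1 ▸ Nat.mul_le_mul_left _ h
    simp; omega
  classical
  have := Fintype.ofFinite (Perm (Fin 6) ⧸ L)
  obtain ⟨φ, hφ⟩ := H25.exists_mulEquiv_quotient (by simp) hi
  obtain ⟨ψ⟩ := H25.nonempty_stabilizer_equiv ((1 : Perm (Fin 6)) : Perm (Fin 6) ⧸ L) (n := 5)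
    (hi.trans (by simp))
  have h4 := hφ ((1 : Perm (Fin 6)) : Perm (Fin 6) ⧸ L)
  rw [stabilizer_quotient] at h4
  exact .inr (.inr ⟨f.trans ((MulEquiv.subgroupCongr h4.symm).trans
    ((Subgroup.equivMapOfInjective _ _ φ.symm.injective).symm.trans ψ))⟩)

section Omega

variable {F V : Type*} [Field F] [AddCommGroup V] [Module F V]

/-- the extension of a quadratic form by a hyperbolic plane -/
noncomputable def hypQ (Q : QuadraticForm F V) : QuadraticForm F (V × F × F) :=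
  Q.prod (QuadraticMap.linMulLin (LinearMap.fst F F F) (LinearMap.snd F F F))

theorem hypQ_apply (Q : QuadraticForm F V) (x : V × F × F) :
    hypQ Q x = Q x.1 + x.2.1 * x.2.2 := by simp [hypQ]

theorem hypQ_B (Q : QuadraticForm F V) (x y : V × F × F) :
    (ofQuad (hypQ Q)).B x y = (ofQuad Q).B x.1 y.1 + x.2.1 * y.2.2 + x.2.2 * y.2.1 := by
  simp only [ofQuad_B, QuadraticMap.polar, hypQ_apply, Prod.fst_add, Prod.snd_add]
  ring

theorem hypQ_nondeg {Q : QuadraticForm F V} (hQ : (ofQuad Q).Nondeg) :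
    (ofQuad (hypQ Q)).Nondeg := by
  rintro ⟨x, s, t⟩ h
  have h1 := hQ x fun y => by simpa only [hypQ_B, mul_zero, add_zero] using h (y, 0, 0)
  have h3 := h (0, 1, 0)
  have h4 := h (0, 0, 1)
  rw [hypQ_B] at h3 h4
  simp at h3 h4
  simp [h1, h3, h4]

/-- extension of isometries by the identity -/
def hypHom (Q : QuadraticForm F V) : (ofQuad Q).O →* (ofQuad (hypQ Q)).O where
  toFun g := ⟨g.1.prodCongr (LinearEquiv.refl F _), mem_O_ofQuad.mpr fun x => by
    simp [hypQ_apply, mem_O_ofQuad.mp g.2]⟩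
  map_one' := rfl
  map_mul' _ _ := rfl

theorem hypHom_refl (Q : QuadraticForm F V) (v : V) :
    hypHom Q (refl (ofQuad_κ _) v) = refl (ofQuad_κ _) (v, 0, 0) := by
  apply O_ext
  rintro ⟨x, s, t⟩
  change ((refl (ofQuad_κ _) v : (ofQuad Q).O).1 x, s, t) = _
  rw [refl_apply, refl_apply, hypQ_B]
  simp [hypQ_apply]

theorem finrank_imSp_hyp (Q : QuadraticForm F V) (g : (ofQuad Q).O) :
    finrank F (imSp (hypHom Q g)) = finrank F (imSp g) := by
  rw [(Submodule.equivMapOfInjective (LinearMap.inl F V (F × F)) LinearMap.inl_injective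
    (imSp g)).finrank_eq]
  suffices h : imSp (hypHom Q g) = (imSp g).map (LinearMap.inl F V (F × F)) by rw [h]
  ext x
  constructor
  · rintro ⟨⟨y, p⟩, rfl⟩
    exact ⟨_, ⟨y, rfl⟩, Prod.ext rfl (sub_self p).symm⟩
  · rintro ⟨_, ⟨y, rfl⟩, rfl⟩
    exact ⟨(y, 0), Prod.ext rfl (sub_self _)⟩

theorem top_or_even [Finite F] [FiniteDimensional F V] (h2 : (2 : F) = 0) {Q : QuadraticForm F V}
    (hQ : (ofQuad Q).Nondeg) (hV : 3 ≤ finrank F V) (hex : ∃ e, Sing (ofQuad Q) e ∧ e ≠ 0)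
    (K : Subgroup (ofQuad Q).O) (hK : ∀ g ∈ eichSet hQ, g ∈ K) :
    K = ⊤ ∨ ∀ g, g ∈ K ↔ Even (finrank F (imSp g)) := by
  have hκ := ofQuad_κ Q
  have hE : eichGrp hQ ≤ K := (Subgroup.closure_le _).2 hK
  have hc := commutator_le_eichGrp hQ hκ hex hV
  have hrr : ∀ u v, Q u ≠ 0 → Q v ≠ 0 → refl hκ u * refl hκ v ∈ eichGrp hQ := fun u v hu hv => by
    obtain ⟨t, ht⟩ := isSquare_of_two_eq_zero h2 (Q u / Q v)
    exact hc (refl_mul_refl_mem_commutator hQ hκ (t := t) hu (by
      rw [sq, ← ht, ofQuad_Q, ofQuad_Q, div_mul_cancel₀ _ hv]))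
  by_cases h1 : ∃ v, Q v ≠ 0 ∧ refl hκ v ∈ K
  · obtain ⟨v, hv, h1⟩ := h1
    refine .inl (eq_top_of_refl_eich hQ hκ K (fun u hu => ?_) hK)
    simpa [mul_assoc, refl_mul_self] using mul_mem (hE (hrr u v hu hv)) h1
  have : Nontrivial V := Module.nontrivial_of_finrank_pos (R := F) (by omega)
  obtain ⟨v, hv⟩ := exists_Q_ne_zero hκ hQ
  have hg : GenHyp (ofQuad (hypQ Q)) := genHyp_of (hypQ_nondeg hQ) (ofQuad_κ _) (.inr (by simp; omega))
  have hev : ∀ g, Even (finrank F (imSp g)) ↔ hypHom Q g ∈ commutator _ := fun g => by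
    rw [mem_omega_iff_even_imSp (hypQ_nondeg hQ) (ofQuad_κ _) hg h2, finrank_imSp_hyp]
  have h3 : eichGrp hQ ≤ (commutator _).comap (hypHom Q) := (Subgroup.closure_le _).2 fun g hg' => by
    obtain ⟨u, e, hu, he, rfl⟩ := (mem_eichSet_iff hQ hκ).1 hg'
    have := sieg_mem_commutator (hypQ_nondeg hQ) (ofQuad_κ _) hg (u := (u, 0, 0)) (e := (e, 0, 0))
      (by simpa [hypQ_apply] using hu) (by simpa only [hypQ_B, mul_zero, add_zero] using he)
    change hypHom Q _ ∈ commutator _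
    convert this using 1
    apply O_ext
    rintro ⟨x, s, t⟩
    change ((sieg hQ hκ hu he).1 x, s, t) = _
    rw [sieg_apply, sieg_apply, hypQ_B, hypQ_B]
    simp [hypQ_apply]
  have h4 : hypHom Q (refl hκ v) ∉ commutator _ := fun h => by
    have := Abelianization.commutator_subset_ker (dickson (hypQ_nondeg hQ) (ofQuad_κ _) hg) h
    rw [MonoidHom.mem_ker, hypHom_refl, dickson_refl _ _ _ (by simpa [hypQ_apply] using hv)] at this
    exact absurd this (by decide)
  have h5 : ∀ g, g ∈ eichGrp hQ ∨ refl hκ v * g ∈ eichGrp hQ := fun g => by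
    have h6 := eq_top_of_refl_eich hQ hκ ((Subgroup.zpowers (QuotientGroup.mk (refl hκ v) :
      _ ⧸ eichGrp hQ)).comap (QuotientGroup.mk' _)) (fun u hu => by
        have : (QuotientGroup.mk (refl hκ u) : _ ⧸ eichGrp hQ) = QuotientGroup.mk (refl hκ v) :=
          QuotientGroup.eq.2 (by rw [refl_inv]; exact hrr u v hu hv)
        exact this ▸ Subgroup.mem_zpowers _) fun g hg => by
        have : (QuotientGroup.mk g : _ ⧸ eichGrp hQ) = 1 :=
          (QuotientGroup.eq_one_iff _).2 (Subgroup.subset_closure hg)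
        rw [Subgroup.mem_comap, QuotientGroup.mk'_apply, this]
        exact one_mem _
    obtain ⟨k, hk⟩ : g ∈ _ := h6 ▸ Subgroup.mem_top g
    have h7 : (QuotientGroup.mk (refl hκ v) : _ ⧸ eichGrp hQ) ^ (2 : ℤ) = 1 := by
      rw [zpow_two, ← QuotientGroup.mk_mul, refl_mul_self]; rfl
    rcases Int.even_or_odd' k with ⟨j, rfl | rfl⟩
    · simp only [zpow_mul, h7, one_zpow] at hk
      exact .inl ((QuotientGroup.eq_one_iff _).1 hk.symm)
    · simp only [zpow_add, zpow_mul, h7, one_zpow, one_mul, zpow_one] at hk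
      exact .inr (by simpa [refl_inv] using QuotientGroup.eq.1 hk)
  refine .inr fun g => ⟨fun h => (hev g).2 (h3 ((h5 g).resolve_right fun h' => h1 ⟨v, hv, ?_⟩)),
    fun h => hE ((h5 g).resolve_right fun h' => h4 ?_)⟩
  · simpa using mul_mem (hE h') (inv_mem h)
  · have := mul_mem (h3 h') (inv_mem (show g ∈ (commutator _).comap (hypHom Q) from (hev g).1 h))
    simpa using this

end Omega

namespace SC

variable {F V : Type*} [Field F] [AddCommGroup V] [Module F V] {C : SC F V}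
  [FiniteDimensional F V]

theorem eq_e {a : V} (h0 : a ≠ 0) {g : C.Φ.O} (hg : g.1 a = a)
    (h : ∀ w, C.b a w = 0 → g.1 w - w ∈ F ∙ a) : ∃ w s, C.b a w = 0 ∧ g = C.e a w s := by
  obtain ⟨a', hb⟩ : ∃ a', C.b a a' = 1 := C.hΦ.exists_ne h0
  have h1 : C.b a (g.1 a' - a') = 0 := by
    rw [map_sub, hb]; conv_lhs => rw [← hg, O_b, hb, sub_self]
  refine ⟨_, -C.b (g.1 a' - a') a', h1, C.ext' fun v => ?_⟩
  have h2 : C.b a (v - C.b a v • a') = 0 := by simp [hb]
  obtain ⟨l, hl⟩ := Submodule.mem_span_singleton.1 (h _ h2)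
  have h3 := C.O_b g a' (v - C.b a v • a')
  rw [← sub_add_cancel (g.1 (v - _)) (v - C.b a v • a'), ← hl] at h3
  have h4 : C.b (g.1 a') a = -1 := by conv_lhs => rw [← hg, O_b, C.anti, hb]
  simp only [map_add, map_sub, map_smul, smul_eq_mul, h4, b_self] at h3 hl
  rw [C.e_apply h1]
  simp only [map_sub, LinearMap.sub_apply, b_self]
  rw [show l = C.b (g.1 a') v - C.b a' v - C.b (g.1 a') a' * C.b a v by
    linear_combination -h3] at hl
  linear_combination (norm := module) -hl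

theorem eq_e_of_normal [Finite F] (h2 : (2 : F) = 0) (hn : 2 ≤ finrank F V) {a : V} (h0 : a ≠ 0)
    {N : Subgroup C.Φ.O} (hp : IsPGroup 2 N) (hN : ∀ n ∈ N, n.1 a = a)
    (hc : ∀ g : C.Φ.O, g.1 a = a → ∀ n ∈ N, g * n * g⁻¹ ∈ N) {n : C.Φ.O} (hn' : n ∈ N) :
    ∃ w s, C.b a w = 0 ∧ n = C.e a w s := by
  have := finite_of_fd F V
  have hle : ∀ n : N, (F ∙ a) ≤ (F ∙ a).comap n.1.1.toLinearMap := fun n =>
    (Submodule.span_singleton_le_iff_mem _ _).2 (by
      simpa [hN n.1 n.2] using Submodule.mem_span_singleton_self a)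
  letI : MulAction N (V ⧸ F ∙ a) :=
    { smul := fun n q => (F ∙ a).mapQ (F ∙ a) n.1.1.toLinearMap (hle n) q
      one_smul := fun q => by induction q using Submodule.Quotient.induction_on; rfl
      mul_smul := fun _ _ q => by induction q using Submodule.Quotient.induction_on; rfl }
  have : CharP F 2 := CharTwo.of_one_ne_zero_of_two_eq_zero one_ne_zero h2
  have := Fintype.ofFinite F
  have : Finite (V ⧸ F ∙ a) := finite_of_fd F _
  obtain ⟨q, hq, hq0⟩ := hp.exists_fixed_point_of_prime_dvd_card_of_fixed_point (V ⧸ F ∙ a) (by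
    obtain ⟨k, -, hk⟩ := FiniteField.card F 2
    have h1 := Submodule.finrank_quotient_add_finrank (F ∙ a)
    rw [finrank_span_singleton h0] at h1
    rw [card_V (F := F), hk, ← pow_mul]
    exact dvd_pow_self 2 (Nat.mul_ne_zero k.ne_zero (by omega)))
    (a := 0) fun n => map_zero ((F ∙ a).mapQ (F ∙ a) n.1.1.toLinearMap (hle n))
  obtain ⟨v, rfl⟩ := Submodule.Quotient.mk_surjective _ q
  have hv : v ∉ F ∙ a := fun h => hq0 ((Submodule.Quotient.mk_eq_zero _).2 h).symm
  let U : Submodule F V :=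
    { carrier := {v | ∀ n ∈ N, n.1 v - v ∈ F ∙ a}
      add_mem' := fun {u v} hu hv n hn => by
        rw [map_add, add_sub_add_comm]; exact add_mem (hu n hn) (hv n hn)
      zero_mem' := fun n _ => by simp
      smul_mem' := fun s v hv n hn => by
        rw [map_smul, ← smul_sub]; exact Submodule.smul_mem _ _ (hv n hn) }
  have hvU : v ∈ U := fun n hn => (Submodule.Quotient.eq _).1 (hq ⟨n, hn⟩)
  have haU : a ∈ U := fun n hn => by simp [hN n hn]
  have hU : ∀ g : C.Φ.O, g.1 a = a → ∀ u ∈ U, g.1 u ∈ U := fun g hg u hu n hn => by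
    have hg' : (g⁻¹).1 a = a := by conv_lhs => rw [← hg, inv_app]
    obtain ⟨l, hl⟩ := Submodule.mem_span_singleton.1 (hu _ (hc g⁻¹ hg' n hn))
    have := congrArg g.1 hl
    rw [map_smul, hg, map_sub, inv_inv, mul_app, mul_app, app_inv] at this
    exact Submodule.mem_span_singleton.2 ⟨l, this⟩
  refine eq_e h0 (hN n hn') fun w hw => (?_ : w ∈ U) n hn'
  by_cases h1 : C.b a v = 0
  · by_cases h3 : w ∈ F ∙ a
    · exact (Submodule.span_singleton_le_iff_mem _ _).2 haU h3
    · obtain ⟨g, g1, rfl⟩ := exists_pair (C := C) h0 hv h0 h3 (h1.trans hw.symm)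
      exact hU g g1 v hvU
  · have h3 := hU _ (C.e_self hw 0) v hvU
    rw [C.e_apply hw] at h3
    exact (U.smul_mem_iff h1).1 ((U.add_mem_iff_right (add_mem hvU (U.smul_mem _ haU))).1 h3)

theorem P_of_card [Fintype F] (h2 : (2 : F) = 0) {X : Type*} [MulAction C.Φ.O X] {x : X} {a : V}
    (h0 : a ≠ 0) {Y : Subgroup C.Φ.O} (hY : Y ≤ stabilizer C.Φ.O x)
    (he : ∀ g ∈ Y, ∃ w s, C.b a w = 0 ∧ g = C.e a w s) (ht : ∀ s, C.t a s ∈ Y → s = 0)
    (hc : Nat.card Y = Fintype.card F ^ (finrank F V - 2)) : C.P x a := by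
  have := finite_of_fd F V
  obtain ⟨a', hb⟩ : ∃ a', C.b a a' = 1 := C.hΦ.exists_ne h0
  have h1 : ∀ g : Y, ∃ w : C.Φ.perp (Submodule.span F {a, a'}), ∃ s, g.1 = C.e a w s := fun g => by
    obtain ⟨w, s, hw, e⟩ := he g.1 g.2
    refine ⟨⟨w + C.b a' w • a, mem_perp_pair.2 ⟨by simp [← b_def, hw],
      by simp [← b_def, C.anti a a', hb]⟩⟩, s, ?_⟩
    rw [C.e_add_smul hw, h2, zero_mul, add_zero, e]
  choose f s hf using h1
  have hp : ∀ w : C.Φ.perp (Submodule.span F {a, a'}), C.b a w = 0 := fun w =>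
    (mem_perp_pair.1 w.2).1
  have h3 : Function.Injective f := fun g g' e => Subtype.ext (by
    have := ht _ (sub_mem_T (hp (f g)) (hf g ▸ g.2) (e ▸ hf g' ▸ g'.2))
    rw [hf, hf, e, sub_eq_zero.1 this])
  have h4 : Function.Bijective f := h3.bijective_of_nat_card_le (by
    have h3 := finrank_span_eq_card (linearIndependent_pair_of_notMem (F := F) h0 (v := a')
      fun h => by
        obtain ⟨s, rfl⟩ := Submodule.mem_span_singleton.1 h
        simp at hb)
    rw [Matrix.range_cons_cons_empty, Fintype.card_fin] at h3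
    rw [hc, card_submodule, C.hΦ.finrank_perp, h3])
  have h5 : ∀ w, C.b a w = 0 → ∃ s, C.e a w s ∈ Y := fun w hw => by
    obtain ⟨g, hg⟩ := h4.2 ⟨w + C.b a' w • a, mem_perp_pair.2 ⟨by simp [← b_def, hw],
      by simp [← b_def, C.anti a a', hb]⟩⟩
    have := g.2
    rw [hf, hg, C.e_add_smul hw] at this
    exact ⟨_, this⟩
  choose! κ hκ using h5
  refine ⟨h0, κ, fun w hw => hY (hκ w hw), fun w w' hw hw' => sub_eq_zero.1 (ht _ ?_)⟩
  have h6 : C.b a (w + w') = 0 := by simp [hw, hw']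
  exact sub_mem_T h6 (hκ _ h6) (C.e_mul hw hw' _ _ ▸ mul_mem (hκ w hw) (hκ w' hw'))

end SC

end H14
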