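import Cfsg.Agent.H14.SqC

/-!
Subgroups of symplectic groups in characteristic two containing a complement to the transvection
group in the unipotent radical of a point stabiliser: the matrix statement.
-/

set_option autoImplicit false

namespace H14

open H23 H23.Form H22 Module MulAction Matrix Cfsg

section

variable {F : Type*} [Field F] {ι : Type} [Fintype ι] [DecidableEq ι]
  (Φ : Form (RingHom.id F) (ι → F))

/-- transfer of a matrix group into the isometry group -/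
noncomputable def trO (L : Subgroup (GL ι F)) : Subgroup Φ.O :=
  L.comap ((glEquiv (ι := ι) (F := F)).symm.toMonoidHom.comp Φ.O.subtype)

variable {Φ}

theorem mem_trO {L : Subgroup (GL ι F)} {g : Φ.O} : g ∈ trO Φ L ↔ glEquiv.symm g.1 ∈ L := Iff.rfl

/-- the transfer is an isomorphism for groups of isometries -/
noncomputable def trOEquiv {L : Subgroup (GL ι F)} (h : ∀ g ∈ L, glEquiv g ∈ Φ.O) :
    L ≃* trO Φ L where
  toFun g := ⟨⟨glEquiv g.1, h _ g.2⟩, by simp [mem_trO]⟩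
  invFun g := ⟨glEquiv.symm g.1.1, g.2⟩
  left_inv g := by simp
  right_inv g := by simp
  map_mul' a b := by ext1; ext1; simp

theorem rank_sub_one' (g : GL ι F) :
    (g.1 - 1).rank = finrank F (LinearMap.range ((glEquiv g).toLinearMap - LinearMap.id)) := by
  rw [Matrix.rank, show (g.1 - 1).mulVecLin = (glEquiv g).toLinearMap - LinearMap.id from
    LinearMap.ext fun v => by simp [sub_mulVec]]

end

theorem char_two_overgroups {F : Type*} [Field F] [Fintype F] [CharP F 2] {n : ℕ} (hn : 2 ≤ n)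
    (f : (Fin n ⊕ Fin n → F) → (Fin n ⊕ Fin n → F) → F)
    (hf : ∀ u v, f u v = ∑ i : Fin n, (u (Sum.inl i) * v (Sum.inr i) + u (Sum.inr i) * v (Sum.inl i)))
    (a : Fin n ⊕ Fin n → F) (ha : a ≠ 0) (X : Subgroup (GL (Fin n ⊕ Fin n) F))
    (hXG : X ≤ preserving (Units.coeHom _) f)
    (hXO : ∀ H : Subgroup (GL (Fin n ⊕ Fin n) F), (∀ g, g ∈ H ↔ (g ∈ preserving (Units.coeHom _) f ∧
      g.1 *ᵥ a = a)) → X ≤ (pCore 2 H).map H.subtype)
    (hcard : Nat.card X = Fintype.card F ^ (2 * n - 2)) (hntv : ∀ x ∈ X, (x.1 - 1).rank ≠ 1)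
    (L : Subgroup (GL (Fin n ⊕ Fin n) F)) (hXL : X ≤ L) (hLG : L ≤ preserving (Units.coeHom _) f)
    (hirr : ∀ W : Submodule F (Fin n ⊕ Fin n → F), (∀ g ∈ L, ∀ w ∈ W, g.1 *ᵥ w ∈ W) →
      W = ⊥ ∨ W = ⊤) :
    L = preserving (Units.coeHom _) f ∨
    (∃ Q : QuadraticForm F (Fin n ⊕ Fin n → F), (∀ u v, QuadraticMap.polar Q u v = f u v) ∧
      (L = isometryGroup F Q ∨ ∀ g, g ∈ L ↔ (g ∈ isometryGroup F Q ∧ Even (g.1 - 1).rank))) ∨
    (Fintype.card F = 2 ∧ n = 2 ∧ (Nonempty (L ≃* alternatingGroup (Fin 6)) ∨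
      Nonempty (L ≃* Equiv.Perm (Fin 5)))) := by
  have h2 : (2 : F) = 0 := CharTwo.two_eq_zero
  let C : SC F (Fin n ⊕ Fin n → F) :=
    ⟨H22.spForm n F, H22.spForm_nondeg n, fun v => (H22.isAlt_J n) v, fun _ => rfl⟩
  have hb : ∀ u v, C.b u v = f u v := fun u v => by
    rw [hf, SC.b_def, H22.spForm_B, H22.sympForm_eq]
    exact Finset.sum_congr rfl fun i _ => by rw [CharTwo.sub_eq_add, add_comm]
  have hr : finrank F (Fin n ⊕ Fin n → F) = 2 * n := by simp [two_mul]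
  have hG : ∀ g : GL (Fin n ⊕ Fin n) F, g ∈ preserving (Units.coeHom _) f ↔ glEquiv g ∈ C.Φ.O :=
    fun g => ⟨fun h => ⟨fun u v => (hb _ _).trans ((h u v).trans (hb u v).symm), fun _ => rfl⟩,
      fun h u v => (hb _ _).symm.trans ((h.1 u v).trans (hb u v))⟩
  have hG' : ∀ g : C.Φ.O, glEquiv.symm g.1 ∈ preserving (Units.coeHom _) f := fun g => by
    simp [hG]
  let H : Subgroup (GL (Fin n ⊕ Fin n) F) := preserving (Units.coeHom _) f ⊓
    (stabilizer _ a).comap (glEquiv (ι := Fin n ⊕ Fin n) (F := F)).toMonoidHom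
  have hH : ∀ g : C.Φ.O, glEquiv.symm g.1 ∈ H ↔ g.1 a = a := fun g => by
    simp [H, hG']
  have hXN := hXO H fun g => Iff.rfl
  have hst := stabilizer_quotient (trO C.Φ L)
  have hP : C.P ((1 : C.Φ.O) : C.Φ.O ⧸ trO C.Φ L) a := by
    refine SC.P_of_card h2 ha (Y := trO C.Φ X) (by rw [hst]; exact fun g hg => hXL hg)
      (fun g hg => SC.eq_e_of_normal h2 (by omega) ha (N := trO C.Φ ((pCore 2 H).map H.subtype))
        (((H1.isPGroup_pCore 2).map _).comap_of_injective _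
          (glEquiv.symm.injective.comp Subtype.val_injective))
        (fun k hk => (hH k).1 (Subgroup.map_subtype_le _ hk)) (fun k hk m hm => ?_) (hXN hg))
      (fun s hs => by_contra fun h0 => hntv _ hs ?_) ?_
    · obtain ⟨m', hm', e⟩ := hm
      refine ⟨_, (inferInstance : (pCore 2 H).Normal).conj_mem m' hm' ⟨_, (hH k).2 hk⟩, ?_⟩
      simp only [Subgroup.coe_subtype, Subgroup.coe_mul, Subgroup.coe_inv, map_mul, map_inv] at e ⊢
      rw [e]
      rfl
    · change (Units.val (glEquiv.symm (C.t a s).1) - 1).rank = 1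
      rw [rank_sub_one', MulEquiv.apply_symm_apply, ← finrank_span_singleton (K := F) ha]
      suffices h : LinearMap.range ((C.t a s).1.toLinearMap - LinearMap.id) = F ∙ a by rw [h]
      ext v
      obtain ⟨a', ha'⟩ : ∃ a', C.b a a' = 1 := C.hΦ.exists_ne ha
      rw [Submodule.mem_span_singleton]
      constructor
      · rintro ⟨w, rfl⟩
        exact ⟨s * C.b a w, by simp [SC.t_apply]⟩
      · rintro ⟨k, rfl⟩
        exact ⟨(k / s) • a', by simp [SC.t_apply, ha', smul_add, smul_smul, h0]⟩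
    · rw [← Nat.card_congr (trOEquiv fun g hg => (hG g).1 (hXG hg)).toEquiv, hcard, hr]
  have htop : trO C.Φ L = ⊤ → L = preserving (Units.coeHom _) f := fun h =>
    le_antisymm hLG fun g hg => by
      simpa [mem_trO] using (h ▸ Subgroup.mem_top _ : (⟨_, (hG g).1 hg⟩ : C.Φ.O) ∈ trO C.Φ L)
  have hm := SC.main_char_two h2 (by omega) hP fun W hW => hirr W fun g hg w hw =>
    hW ⟨_, (hG g).1 (hLG hg)⟩ (by rw [hst]; simpa [mem_trO] using hg) w hw
  rw [hst] at hm
  rcases hm with h | ⟨Q, q1, q2, c, c', q3, q4, q5, q6, q7⟩ | ⟨hq, h4, h⟩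
  · exact .inl (htop h)
  · refine .inr (.inl ⟨Q, fun u v => (q1 u v).trans (hb u v), ?_⟩)
    have hQ : (ofQuad Q).Nondeg := fun v hv => C.hΦ v fun w => (q1 v w).symm.trans (hv w)
    have hLQ : ∀ g ∈ L, g ∈ isometryGroup F Q := fun g hg => H22.mem_isometryGroup.2 fun v =>
      q2 ⟨_, (hG g).1 (hLG hg)⟩ (by simpa [mem_trO] using hg) v
    have hq : ∀ c, (∀ u, C.b c u = 0 → C.e c u (Q u) ∈ trO C.Φ L) →
        (ofQuad Q).QIn (L.map (glEquiv (F := F)).toMonoidHom) c := fun c h u s hs => by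
      have h1 : C.b c u = 0 := (q1 c u).symm.trans hs.perp
      refine ⟨_, ⟨_, h u h1, glEquiv.apply_symm_apply _⟩, fun v => ?_⟩
      have h3 : s = Q u := by simpa using hs.trQ
      rw [Subgroup.coe_subtype, C.e_apply h1, eichler_apply, h3]
      simp [q1, CharTwo.sub_eq_add, CharTwo.neg_eq]
    have hs : ∀ c, Q c = 0 → Sing (ofQuad Q) c := fun c h => (sing_quad rfl).2 h
    have hE := E_le_of_qIn hQ (hs c q3) (hs c' q4) (by simp [q1, q5]) (hq c q6) (hq c' q7)
    rcases top_or_even h2 hQ (by omega) ⟨c, hs c q3, by rintro rfl; simp at q5⟩ (trO _ L) (by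
      rintro _ ⟨u, e, s, h, rfl⟩
      obtain ⟨g, hg, e⟩ := hE (mem_E h (g := (eich hQ h).1) fun _ => rfl)
      rw [mem_trO, ← e]
      simpa using hg) with h | h
    · refine .inl (le_antisymm hLQ fun g hg => ?_)
      simpa [mem_trO] using (h ▸ Subgroup.mem_top _ :
        (⟨_, (H22.mem_isometryGroup_iff_O Q g).1 hg⟩ : (ofQuad Q).O) ∈ trO _ L)
    · refine .inr fun g => ⟨fun hg => ⟨hLQ g hg, ?_⟩, fun ⟨h1, h3⟩ => ?_⟩
      · rw [rank_sub_one']
        exact (h ⟨_, (H22.mem_isometryGroup_iff_O Q g).1 (hLQ g hg)⟩).1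
          (by simpa [mem_trO] using hg)
      · rw [rank_sub_one'] at h3
        simpa [mem_trO] using (h ⟨_, (H22.mem_isometryGroup_iff_O Q g).1 h1⟩).2 h3
  · obtain rfl : n = 2 := by omega
    obtain ⟨e⟩ := Agent.S0247.result hq
    have e' := trOEquiv fun g hg => (hG g).1 (hLG hg)
    rcases sub_six_big ((H22.spEquiv 2 F).symm.trans e) (trO C.Φ L) h with h | ⟨⟨h⟩⟩ | ⟨⟨h⟩⟩
    · exact .inl (htop h)
    · exact .inr (.inr ⟨hq, rfl, .inl ⟨e'.trans h⟩⟩)
    · exact .inr (.inr ⟨hq, rfl, .inr ⟨e'.trans h⟩⟩)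

end H14
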