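/-
The relative norm: a complement to `Z(F)` in `Z(S)` when `Z(S) ≤ O_p(F)`.
-/
import Cfsg.Agent.H14.Sat
import Cfsg.Agent.H13.Normal
import Cfsg.Agent.H13.Grp

set_option autoImplicit false
set_option linter.unusedVariables false
set_option linter.unusedSectionVars false
set_option linter.style.haveILetI false
open Cfsg Cfsg.FusionSystem Equiv H13

namespace H14.Fus
universe u
variable {Ω : Type u} [Group Ω] {S : Subgroup Ω} {F : FusionSystem S} {p : ℕ}

theorem exists_relnorm {G Z : Type*} [Group G] [Finite G] [CommGroup Z] (act : G → Z →* Z)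
    (hmul : ∀ g h z, act (g * h) z = act g (act h z)) (U : Subgroup G) : ∃ N : Z →* Z,
    (∀ a, (∀ u ∈ U, act u a = a) → ∀ g, act g (N a) = N a) ∧ ∀ a, (∀ g, act g a = a) → N a = a ^ U.index := by
  letI := Fintype.ofFinite (G ⧸ U)
  refine ⟨∏ q : G ⧸ U, act q.out, fun a ha g => ?_, fun a ha => ?_⟩
  · rw [MonoidHom.finsetProd_apply, map_prod, ← Equiv.prod_comp (MulAction.toPerm g) fun q : G ⧸ U => act q.out a]
    refine Finset.prod_congr rfl fun q _ => ?_
    obtain ⟨u, hu⟩ := QuotientGroup.mk_out_eq_mul U (g * q.out)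
    rw [← hmul, show MulAction.toPerm g q = ((g * q.out : G) : G ⧸ U) by
      conv_lhs => rw [← q.out_eq']
      rfl, hu, hmul _ u, ha u u.2]
  · simp [MonoidHom.finsetProd_apply, ha, Subgroup.index, Nat.card_eq_fintype_card]

/-- for `Q` normal in `F`, `Z(F) ∩ Q` has a complement in `Z(S) ∩ Q` -/
theorem exists_center_compl [Finite S] [Fact p.Prime] (hS : IsPGroup p S) (hF : F.IsSaturated p) {Q : Subgroup Ω}
    (hQ : F.IsNormal Q) : ∃ K : Subgroup Ω, K ≤ centralizerIn Q S ∧ F.center ⊓ K = ⊥ ∧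
    (F.center ⊓ Q) ⊔ K = centralizerIn Q S := by
  have hQS := hQ.1
  haveI := finite_autF_of_le F hQS
  letI : CommGroup (centralizerIn Q Q) :=
    { (inferInstance : Group (centralizerIn Q Q)) with mul_comm := fun a b => Subtype.ext (b.2.2 a a.2.1) }
  let act : AutF F Q → centralizerIn Q Q →* centralizerIn Q Q := fun α => MonoidHom.mk'
    (fun z => ⟨α.1 z, ((homOn_of_mem_autF α.2).maps_center (maps_of_mem_autF α.2)).mem z.2⟩)
    fun a b => Subtype.ext (homOn_of_mem_autF α.2 _ a.2.1 _ b.2.1)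
  obtain ⟨N, h1, h2⟩ := exists_relnorm act (fun _ _ _ => rfl) ((AutBy S Q).subgroupOf (AutF F Q))
  have hm : ¬ p ∣ ((AutBy S Q).subgroupOf (AutF F Q)).index :=
    (fn_syl hS hF (fn_of_normal F hQS (normal_le_normalizer hQ))).not_dvd_relIndex
  have hle : centralizerIn Q S ≤ centralizerIn Q Q := centralizerIn_mono le_rfl hQS
  have hP : IsPGroup p (centralizerIn Q Q) := isPGroup_of_le hS ((centralizerIn_le _ _).trans hQS)
  have c1 : ∀ z : centralizerIn Q Q, (∀ g, act g z = z) ↔ (z : Ω) ∈ F.center := fun z =>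
    ⟨fun h => Subgroup.zpowers_le.1 (H13.le_center (central_of_fix hS hF (Subgroup.zpowers_le.2 (hQS z.2.1))
      fun P σ hσ x hx ⟨k, hk⟩ => by
        obtain ⟨τ, hτ, e, hm⟩ := normal_extend hQ hσ
        have hi : Iso F Q Q τ := ⟨hτ.restrict le_sup_right, hm⟩
        have := congrArg Subtype.val (h ⟨_, hi.rs_mem⟩)
        rw [← e x hx, ← hk]
        simp only []
        rw [hi.hom.map_zpow z.2.1, ← rs_apply hm z.2.1]
        exact congrArg (· ^ k) this)),
      fun h g => Subtype.ext (H13.central_fix (central_center F) (iso_of_mem_autF hQS g.2).mor z.2.1 h)⟩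
  have c2 : ∀ z : centralizerIn Q Q, (z : Ω) ∈ centralizerIn Q S →
      ∀ u ∈ (AutBy S Q).subgroupOf (AutF F Q), act u z = z := fun z hz u hu => by
    obtain ⟨g, hg, hN, e⟩ := mem_autBy.1 (Subgroup.mem_subgroupOf.1 hu)
    refine Subtype.ext (?_ : u.1 z = z)
    rw [← e, cr_apply hN z.2.1, hz.2 g hg, mul_inv_cancel_right]
  have c3 : F.center ⊓ Q ≤ centralizerIn Q S := fun z hz => ⟨hz.2, central_le_centralizer (central_center F) hz.1⟩
  refine ⟨N.ker.map (centralizerIn Q Q).subtype ⊓ centralizerIn Q S, inf_le_right, le_bot_iff.1 ?_,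
    le_antisymm (sup_le c3 inf_le_right) fun z hz => ?_⟩
  · rintro _ ⟨h3, ⟨z, h4, rfl⟩, -⟩
    have := (h2 z ((c1 z).2 h3)).symm.trans h4
    rw [(hP.powEquiv' hm).injective (this.trans (one_pow _).symm)]
    rfl
  · obtain ⟨y, hy⟩ := ((hP.to_subgroup (Subgroup.zpowers (N ⟨z, hle hz⟩))).powEquiv' hm).surjective
      ⟨_, Subgroup.mem_zpowers _⟩
    have hy1 : (y.1 : Ω) ∈ F.center := (Subgroup.zpowers_le (H := F.center.subgroupOf _)).2
      ((c1 _).1 (h1 _ (c2 _ hz))) y.2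
    have hy2 : N y = N ⟨z, hle hz⟩ := (h2 _ ((c1 _).2 hy1)).trans (congrArg Subtype.val hy)
    have := Subgroup.mul_mem_sup (S := F.center ⊓ Q) (T := N.ker.map (centralizerIn Q Q).subtype ⊓ centralizerIn Q S)
      ⟨hy1, y.1.2.1⟩ (y := (y.1 : Ω)⁻¹ * z) ⟨⟨y.1⁻¹ * ⟨z, hle hz⟩, by simp [hy2], rfl⟩,
        Subgroup.mul_mem _ (Subgroup.inv_mem _ (c3 ⟨hy1, y.1.2.1⟩)) hz⟩
    rwa [mul_inv_cancel_left] at this

theorem exists_center_compl' [Finite S] [Fact p.Prime] (hS : IsPGroup p S) (hF : F.IsSaturated p)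
    (hZ : S ⊓ Subgroup.centralizer (S : Set Ω) ≤ F.core) : ∃ K : Subgroup Ω, K ≤ S ⊓ Subgroup.centralizer (S : Set Ω) ∧
    F.center ⊓ K = ⊥ ∧ F.center ⊔ K = S ⊓ Subgroup.centralizer (S : Set Ω) := by
  obtain ⟨K, h1, h2, h3⟩ := exists_center_compl hS hF (normal_core F)
  have e : centralizerIn F.core S = S ⊓ Subgroup.centralizer (S : Set Ω) :=
    le_antisymm (inf_le_inf_right _ (H13.core_le F)) (le_inf hZ inf_le_right)
  rw [e] at h1 h3
  rw [inf_eq_left.2 (H13.center_le_core F)] at h3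
  exact ⟨K, h1, h2, h3⟩

end H14.Fus
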